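/-
A 2-group with a Frobenius group `13:3` of automorphisms, fixed point free kernel and commuting fixed points of the
complement, has nilpotency class at most two.
-/
import Cfsg.Agent.Fgs.LieFix

set_option autoImplicit false
open TensorProduct Subgroup CL.Fgs.Lie CL.Grp
open scoped commutatorElement

namespace CL.Blk.Crit

universe u

/-- the degree `a + b` occurs only once, or one of the degrees vanishes -/
def Ind (r a b : ZMod 13) : Prop :=
  a = 0 ∨ b = 0 ∨ a + b = 0 ∨ ∀ i j : Fin 3, r ^ (i : ℕ) * a + r ^ (j : ℕ) * b = a + b → i = 0 ∧ j = 0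

instance decInd (r a b : ZMod 13) : Decidable (Ind r a b) := by unfold Ind; infer_instance

theorem ind_cases : ∀ r ∈ ({3, 9} : Finset (ZMod 13)), ∀ a b c : ZMod 13,
    Ind r a b ∨ Ind r (a + b) c ∨ (Ind r a c ∧ Ind r b c) := by decide +kernel

theorem lie_core {A : Type*} [CommRing A] {ω : A} (hω : ω ^ 13 = 1) (hs : ∑ i ∈ Finset.range 13, ω ^ i = 0)
    {M : Type*} [LieRing M] [LieAlgebra A M] (Φ Ψ : Module.End A M) (hΦl : ∀ u w : M, Φ ⁅u, w⁆ = ⁅Φ u, Φ w⁆)
    (hΦp : Φ ^ 13 = 1) (hΦN : ∑ j ∈ Finset.range 13, Φ ^ j = 0) {r : ℕ} (hr : r = 3 ∨ r = 9)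
    (hc : Φ * Ψ = Ψ * Φ ^ r)
    (ht : ∀ u w : M, ⁅(∑ i : Fin 3, Ψ ^ (i : ℕ)) u, (∑ i : Fin 3, Ψ ^ (i : ℕ)) w⁆ = 0)
    {c : ℕ} (h13 : ∀ v : M, c • (13 • v) = v) (x y z : M) : ⁅⁅x, y⁆, z⁆ = 0 := by
  classical
  have : Fact (Nat.Prime 13) := ⟨by norm_num⟩
  let χ : AddChar (ZMod 13) A := AddChar.zmodChar 13 hω
  have hχ : ∀ j : ZMod 13, j ≠ 0 → ∑ i : ZMod 13, χ (i * j) = 0 := by
    intro j hj
    refine (Equiv.sum_comp (Equiv.mulRight₀ j hj) χ).trans ?_
    rw [← hs, Finset.sum_range]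
    rfl
  let V : ZMod 13 → M → Prop := fun i v => Φ v = χ i • v
  have hVV : ∀ {i j u w}, V i u → V j w → V (i + j) ⁅u, w⁆ := fun {i j u w} hu hw => by
    simp only [V] at hu hw ⊢
    rw [hΦl, hu, hw, smul_lie, lie_smul, smul_smul, AddChar.map_add_eq_mul]
  have hpow : ∀ {i v} (n : ℕ), V i v → (Φ ^ n) v = χ (i * n) • v := fun {i v} n hv => by
    induction n with
    | zero => simp
    | succ n ih =>
      rw [pow_succ', Module.End.mul_apply, ih, map_smul, hv, smul_smul, ← AddChar.map_add_eq_mul]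
      congr 2
      push_cast; ring
  let P : ZMod 13 → Module.End A M := fun i => c • ∑ j : ZMod 13, χ (j * -i) • Φ ^ j.val
  have hP : ∀ i v, P i v = c • ∑ j : ZMod 13, χ (j * -i) • (Φ ^ j.val) v := fun i v => by
    simp only [P, LinearMap.smul_apply, LinearMap.sum_apply]
  have hP1 : ∀ i v, V i (P i v) := fun i v => by
    simp only [V]
    rw [hP, map_nsmul, map_sum, smul_comm (χ i), Finset.smul_sum (r := χ i)]
    congr 1
    conv_rhs => rw [← Equiv.sum_comp (Equiv.addRight 1)]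
    refine Finset.sum_congr rfl fun j _ => ?_
    rw [map_smul, smul_smul, ← AddChar.map_add_eq_mul, Equiv.coe_addRight, ZMod.val_add, ← pow_eq_pow_mod _ hΦp,
      ZMod.val_one, pow_succ', Module.End.mul_apply]
    congr 2
    ring
  have hP2 : ∀ v, ∑ i, P i v = v := fun v => by
    simp only [hP]
    rw [← Finset.smul_sum, Finset.sum_comm, Finset.sum_eq_single 0]
    · simpa [← Nat.cast_smul_eq_nsmul A] using h13 v
    · intro j _ hj
      have h3 := hχ _ (neg_ne_zero.2 hj)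
      rw [← Finset.sum_smul]
      simp only [mul_neg, mul_comm j, neg_mul] at h3 ⊢
      rw [h3, zero_smul]
    · intro h; exact absurd (Finset.mem_univ _) h
  have hP3 : ∀ {k v} (i), V k v → P i v = if k = i then v else 0 := fun {k v} i hv => by
    rw [hP]
    simp only [hpow _ hv, smul_smul, ← AddChar.map_add_eq_mul, ZMod.natCast_val, ZMod.cast_id', id_eq]
    rw [← Finset.sum_smul]
    split_ifs with e
    · subst e
      simpa [mul_comm k, ← Nat.cast_smul_eq_nsmul A] using h13 v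
    · have h3 := hχ _ (sub_ne_zero.2 e)
      rw [show (∑ j : ZMod 13, χ (j * -i + k * j)) = ∑ j : ZMod 13, χ (j * (k - i)) from
        Finset.sum_congr rfl fun j _ => by congr 1; ring, h3, zero_smul, smul_zero]
  have hV0 : ∀ {v}, V 0 v → v = 0 := fun {v} hv => by
    have h1 := hP3 0 hv
    rw [if_pos rfl, hP] at h1
    have h2 := DFunLike.congr_fun hΦN v
    rw [LinearMap.sum_apply, Finset.sum_range, LinearMap.zero_apply] at h2
    simp only [neg_zero, mul_zero, AddChar.map_zero_eq_one, one_smul] at h1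
    rw [← h1]
    exact (congrArg (c • ·) h2).trans (smul_zero c)
  have hΨ : ∀ {i v} (n : ℕ), V i v → V ((r : ZMod 13) ^ n * i) ((Ψ ^ n) v) := fun {i v} n hv => by
    induction n with
    | zero => simpa using hv
    | succ n ih =>
      simp only [V]
      rw [pow_succ' Ψ, Module.End.mul_apply, ← Module.End.mul_apply Φ, hc, Module.End.mul_apply, hpow _ ih, map_smul]
      congr 2
      ring
  have key : ∀ {a b u w}, V a u → V b w → Ind r a b → ⁅u, w⁆ = 0 := fun {a b u w} hu hw h => by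
    rcases h with rfl | rfl | h | h
    · rw [hV0 hu, zero_lie]
    · rw [hV0 hw, lie_zero]
    · exact hV0 (h ▸ hVV hu hw)
    · have h1 := congrArg (P (a + b)) (ht u w)
      rw [LinearMap.sum_apply, LinearMap.sum_apply, sum_lie_sum, map_zero, map_sum, Finset.sum_eq_single 0, map_sum,
        Finset.sum_eq_single 0] at h1
      · simpa [hP3 _ (hVV hu hw)] using h1
      · intro j _ hj
        rw [hP3 _ (hVV (hΨ _ hu) (hΨ _ hw)), if_neg fun e => hj (h _ _ e).2]
      · intro h; exact absurd (Finset.mem_univ _) h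
      · intro i _ hi
        rw [map_sum]
        exact Finset.sum_eq_zero fun j _ => by
          rw [hP3 _ (hVV (hΨ _ hu) (hΨ _ hw)), if_neg fun e => hi (h _ _ e).1]
      · intro h; exact absurd (Finset.mem_univ _) h
  rw [← hP2 x, ← hP2 y, ← hP2 z, sum_lie_sum, sum_lie]
  refine Finset.sum_eq_zero fun a _ => ?_
  rw [sum_lie_sum]
  refine Finset.sum_eq_zero fun b _ => Finset.sum_eq_zero fun d _ => ?_
  rcases ind_cases r (by rcases hr with rfl | rfl <;> simp) a b d with h | h | ⟨h, h'⟩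
  · rw [key (hP1 a x) (hP1 b y) h, zero_lie]
  · exact key (hVV (hP1 a x) (hP1 b y)) (hP1 d z) h
  · rw [lie_lie, key (hP1 a x) (hP1 d z) h, key (hP1 b y) (hP1 d z) h', lie_zero, lie_zero, sub_zero]

theorem lie_ext {L : Type*} [LieRing L] (φ ψ : Module.End ℤ L) (hφl : ∀ u w : L, φ ⁅u, w⁆ = ⁅φ u, φ w⁆)
    (hφp : φ ^ 13 = 1) (hφN : ∑ j ∈ Finset.range 13, φ ^ j = 0) {r : ℕ} (hr : r = 3 ∨ r = 9)
    (hc : φ * ψ = ψ * φ ^ r)
    (ht : ∀ u w : L, ⁅(∑ i : Fin 3, ψ ^ (i : ℕ)) u, (∑ i : Fin 3, ψ ^ (i : ℕ)) w⁆ = 0)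
    {c : ℕ} (h13 : ∀ v : L, c • (13 • v) = v) (x y z : L) : ⁅⁅x, y⁆, z⁆ = 0 := by
  obtain ⟨A, _, ω, s, hω, hs, hs1⟩ := exists_root_ring (p := 13) (by norm_num)
  let T := Module.End.baseChangeHom ℤ A L
  have hT : ∀ (f : Module.End ℤ L) (a : A) (y : L), T f (a ⊗ₜ y) = a ⊗ₜ f y := fun _ _ _ => rfl
  have la : ∀ a b c : A ⊗[ℤ] L, ⁅a, b + c⁆ = ⁅a, b⁆ + ⁅a, c⁆ := fun a b c => LieRing.lie_add a b c
  have l0 : ∀ a : A ⊗[ℤ] L, ⁅a, (0 : A ⊗[ℤ] L)⁆ = 0 := fun a => by
    have := la a 0 0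
    rw [add_zero] at this
    exact left_eq_add.1 this
  have h := lie_core hω hs (T φ) (T ψ) (fun u w => ?_) (by rw [← map_pow, hφp, map_one])
    (by simp only [← map_pow]; rw [← map_sum, hφN, map_zero]) hr (by rw [← map_pow, ← map_mul, ← map_mul, hc])
    (fun u w => ?_) (c := c) (fun v => ?_) (1 ⊗ₜ x) (1 ⊗ₜ y) (1 ⊗ₜ z)
  · rw [LieAlgebra.ExtendScalars.bracket_tmul, LieAlgebra.ExtendScalars.bracket_tmul, one_mul, one_mul] at h
    have h2 := congrArg (fun v : A ⊗[ℤ] L => TensorProduct.lid ℤ L (s.rTensor L v)) h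
    simpa only [LinearMap.rTensor_tmul, hs1, lid_tmul, one_smul, map_zero] using h2
  · induction u using TensorProduct.induction_on with
    | zero => simp
    | add a b ha hb => rw [add_lie, map_add, map_add, add_lie, ha, hb]
    | tmul a y =>
      induction w using TensorProduct.induction_on with
      | zero => rw [map_zero, l0, l0, map_zero]
      | add a b ha hb => rw [la, map_add, map_add, la, ha, hb]
      | tmul b z =>
        rw [LieAlgebra.ExtendScalars.bracket_tmul, hT, hT, hT, hφl, LieAlgebra.ExtendScalars.bracket_tmul]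
  · simp only [← map_pow]
    rw [← map_sum]
    induction u using TensorProduct.induction_on with
    | zero => simp
    | add a b ha hb => rw [map_add, add_lie, ha, hb, add_zero]
    | tmul a y =>
      induction w using TensorProduct.induction_on with
      | zero => rw [map_zero, l0]
      | add a b ha hb => rw [map_add, la, ha, hb, add_zero]
      | tmul b z => rw [hT, hT, LieAlgebra.ExtendScalars.bracket_tmul, ht, tmul_zero]
  · induction v using TensorProduct.induction_on with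
    | zero => simp
    | add a b ha hb => rw [smul_add, smul_add, ha, hb]
    | tmul a y => rw [← tmul_smul, ← tmul_smul, h13]

theorem lcs_two_eq_bot {H : Type u} [Group H] [Finite H] (hH : IsPGroup 2 H) (α β : MulAut H) (hα : α ^ 13 = 1)
    (hf : ∀ x, α x = x → x = 1) {r : ℕ} (hr : r = 3 ∨ r = 9) (hc : α * β = β * α ^ r) (hβ : β ^ 3 = 1)
    (hcomm : ∀ x y, β x = x → β y = y → x * y = y * x) : (⊤ : Subgroup H).lowerCentralSeries 2 = ⊥ := by
  have := Fact.mk Nat.prime_two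
  have h := isFilt_lcs H
  set F := (⊤ : Subgroup H).lowerCentralSeries with hF
  obtain ⟨L, _, ι, hmul, hz, hind, hlift, hbr⟩ := h.exists_lieRing
  have hγF : ∀ (γ : MulAut H) i, ∀ x ∈ F i, γ x ∈ F i := fun γ => lcs_invariant (γ : H →* H)
  have hone : ∀ i, ι i 1 = 0 := fun i => (hz i 1 (one_mem _)).2 (one_mem _)
  have hinv : ∀ i, ∀ x ∈ F i, ι i x⁻¹ = -ι i x := fun i x hx => by
    rw [eq_neg_iff_add_eq_zero, ← hmul _ _ (inv_mem hx) _ hx, inv_mul_cancel, hone]
  have hpow : ∀ i, ∀ x ∈ F i, ∀ k : ℕ, ι i (x ^ k) = k • ι i x := fun i x hx k => by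
    induction k with
    | zero => simp [hone]
    | succ k ih => rw [pow_succ, hmul _ _ (pow_mem hx k) _ hx, ih, succ_nsmul]
  have hext : ∀ f g : Module.End ℤ L, (∀ i, ∀ x ∈ F i, f (ι i x) = g (ι i x)) → f = g := fun f g e =>
    LinearMap.ext (hind (fun a => f a = g a) (by simp) e fun a b ha hb => by rw [map_add, map_add, ha, hb])
  choose T₀ hT₀ using fun γ : MulAut H => hlift L (fun i x => ι i (γ x))
    (fun i x y => by rw [coe_mul, map_mul, hmul _ _ (hγF γ _ _ x.2) _ (hγF γ _ _ y.2)])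
    (fun i x hx => (hz _ _ (hγF γ _ _ x.2)).2 (hγF γ _ _ hx))
  have hT₁ : ∀ γ i, ∀ x ∈ F i, (T₀ γ).toIntLinearMap (ι i x) = ι i (γ x) := fun γ i x hx => hT₀ γ i ⟨x, hx⟩
  let T : MulAut H →* Module.End ℤ L :=
    { toFun := fun γ => (T₀ γ).toIntLinearMap
      map_one' := hext _ _ fun i x hx => hT₁ 1 i x hx
      map_mul' := fun γ δ => hext _ _ fun i x hx => by
        rw [Module.End.mul_apply, hT₁ _ _ _ hx, hT₁ _ _ _ hx, hT₁ _ _ _ (hγF _ _ _ hx), MulAut.mul_apply] }
  have hT : ∀ γ i, ∀ x ∈ F i, T γ (ι i x) = ι i (γ x) := hT₁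
  -- traces
  have htr : ∀ (γ : MulAut H) (n : ℕ), γ ^ n = 1 → ∀ i, ∀ x ∈ F i, ∃ b ∈ F i,
      (∑ j ∈ Finset.range n, T γ ^ j) (ι i x) = ι i b ∧ (γ b)⁻¹ * b ∈ F (i + 1) := by
    intro γ n hn i x hx
    have hb : ∀ k, ∃ b ∈ F i, (∑ j ∈ Finset.range k, T γ ^ j) (ι i x) = ι i b := by
      intro k
      induction k with
      | zero => exact ⟨1, one_mem _, by simp [hone]⟩
      | succ k ih =>
        obtain ⟨b, hb, e⟩ := ih
        exact ⟨_, mul_mem hb (hγF (γ ^ k) i x hx), by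
          rw [Finset.sum_range_succ, LinearMap.add_apply, e, ← map_pow, hT _ _ _ hx,
            hmul _ _ hb _ (hγF _ _ _ hx)]⟩
    obtain ⟨b, hb, e⟩ := hb n
    refine ⟨b, hb, e, ?_⟩
    have h1 := DFunLike.congr_fun (mul_geom_sum (T γ) n) (ι i x)
    rw [← map_pow, hn, map_one, sub_self, Module.End.mul_apply, e, LinearMap.sub_apply, LinearMap.zero_apply,
      Module.End.one_apply, sub_eq_zero] at h1
    rw [← hz _ _ (mul_mem (inv_mem (hγF _ _ _ hb)) hb), hmul _ _ (inv_mem (hγF _ _ _ hb)) _ hb,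
      hinv _ _ (hγF _ _ _ hb), ← hT _ _ _ hb, h1, neg_add_cancel]
  obtain ⟨k, hk⟩ := hH.exists_card_eq
  have hfix : ∀ i, ∀ x ∈ F i, ∃ d ∈ F i, β d = d ∧ (∑ j : Fin 3, T β ^ (j : ℕ)) (ι i x) = ι i d := by
    intro i x hx
    obtain ⟨b, hb, e, h1⟩ := htr β 3 hβ i x hx
    obtain ⟨d, h2, h3⟩ := act_exists_fixed_mem_leftCoset (A := zpowers β) (N := F (i + 1)) (k := b)
      (fun a => hγF a (i + 1)) (by
        rw [Nat.card_zpowers]
        exact Nat.Coprime.coprime_dvd_left (orderOf_dvd_of_pow_eq_one hβ) (Nat.Coprime.coprime_dvd_right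
          (hk ▸ card_subgroup_dvd_card _) (Nat.Coprime.pow_right k (by norm_num))))
      (.inl inferInstance) (by
        rintro ⟨a, ha⟩
        change b⁻¹ * a b ∈ _
        obtain ⟨n, rfl⟩ := mem_powers_iff_mem_zpowers.2 ha
        clear ha
        induction n with
        | zero => simp
        | succ n ih =>
          have := mul_mem (inv_mem h1) (hγF β _ _ ih)
          simpa [mul_assoc, pow_succ'] using this)
    have h4 := h.anti (Nat.le_succ i) h3
    have h5 : d ∈ F i := by simpa using mul_mem hb h4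
    refine ⟨d, h5, h2 ⟨β, mem_zpowers β⟩, ?_⟩
    have h6 := hmul _ _ hb _ h4
    rw [(hz _ _ h4).2 h3, add_zero, mul_inv_cancel_left] at h6
    rw [h6, ← e, Finset.sum_range]
  obtain ⟨c, hc'⟩ : ∃ c, c * 13 ≡ 1 [MOD 2 ^ k] := by
    obtain ⟨c, hc⟩ := Nat.exists_mul_mod_eq_of_coprime 1 (Nat.Coprime.pow_right k (by norm_num : Nat.Coprime 13 2))
      (pow_pos two_pos k).ne'
    exact ⟨c, mul_comm c 13 ▸ hc.2⟩
  have h3 := lie_ext (T α) (T β) (fun a b => ?_) (by rw [← map_pow, hα, map_one]) (hext _ _ fun i x hx => ?_) hr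
    (by rw [← map_pow, ← map_mul, ← map_mul, hc]) (fun a b => ?_) (c := c) fun a => ?_
  · have h4 : ∀ x ∈ F 1, ∀ z : L, ⁅ι 1 x, z⁆ = 0 := by
      intro x hx z
      induction hx using closure_induction with
      | mem x hx =>
        obtain ⟨a, ha, b, hb, rfl⟩ := hx
        rw [← hbr 0 0 a ha b hb, h3]
      | one => rw [hone, zero_lie]
      | mul a b ha hb h1 h2 => rw [hmul 1 _ ha _ hb, add_lie, h1, h2, add_zero]
      | inv a ha h1 => rw [hinv 1 _ ha, neg_lie, h1, neg_zero]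
    have := hH.isNilpotent
    refine eq_bot_of_le_commutator (H := ⊤) (Group.isNilpotent_top.2 inferInstance) le_top ?_
    refine commutator_le.2 fun a ha b hb => (hz 2 _ (h.comm_mem (i := 1) (j := 0) ha hb)).1 ?_
    rw [← hbr 1 0 a ha b hb, h4 a ha]
  · refine hind (fun a => T α ⁅a, b⁆ = ⁅T α a, T α b⁆) (by simp) (fun i x hx => ?_)
      (fun a a' h1 h2 => by rw [add_lie, map_add, map_add, add_lie, h1, h2]) a
    refine hind (fun b => T α ⁅ι i x, b⁆ = ⁅T α (ι i x), T α b⁆) (by simp) (fun j y hy => ?_)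
      (fun a a' h1 h2 => by rw [lie_add, map_add, map_add, lie_add, h1, h2]) b
    rw [hbr _ _ _ hx _ hy, hT _ _ _ (h.comm_mem hx hy), hT _ _ _ hx, hT _ _ _ hy,
      hbr _ _ _ (hγF _ _ _ hx) _ (hγF _ _ _ hy), map_commutatorElement]
  · obtain ⟨b, hb, e, h1⟩ := htr α 13 hα i x hx
    rw [e, LinearMap.zero_apply, hz _ _ hb]
    exact fpf_mem_of_inv_mul_mem (φ := (α : H →* H)) hf _ (hγF α _) h1
  · set Θ := ∑ j : Fin 3, T β ^ (j : ℕ)
    refine hind (fun a => ⁅Θ a, Θ b⁆ = 0) (by simp) (fun i x hx => ?_)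
      (fun a a' h1 h2 => by rw [map_add, add_lie, h1, h2, add_zero]) a
    refine hind (fun b => ⁅Θ (ι i x), Θ b⁆ = 0) (by simp) (fun j y hy => ?_)
      (fun a a' h1 h2 => by rw [map_add, lie_add, h1, h2, add_zero]) b
    obtain ⟨d, hd, h1, e⟩ := hfix i x hx
    obtain ⟨d', hd', h1', e'⟩ := hfix j y hy
    rw [e, e', hbr _ _ _ hd _ hd', commutatorElement_eq_one_iff_mul_comm.2 (hcomm _ _ h1 h1'), hone]
  · refine hind (fun a => c • (13 • a) = a) (by simp) (fun i x hx => ?_)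
      (fun a b h1 h2 => by rw [smul_add, smul_add, h1, h2]) a
    rw [smul_smul, ← hpow _ _ hx, pow_eq_pow_iff_modEq.2 (hc'.of_dvd (hk ▸ orderOf_dvd_natCard x)), pow_one]

end CL.Blk.Crit
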