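/-
Extensions in the principal block from `N` to `N C_G(Q)` and beyond; `p`-rational characters.
-/
import Cfsg.Agent.Blk.Dade
import Cfsg.Agent.Char.PRational
import Cfsg.Agent.Char.GlaubBasic
import Cfsg.Agent.Char.DegThompson
import Cfsg.Agent.Grp.Coprime

set_option autoImplicit false

open Cfsg MonoidAlgebra Subgroup
open scoped ComplexConjugate

namespace CL.Blk

variable {G : Type*} [Group G] [Finite G] {p : ℕ} {M : Ideal AlgInt} {N : Subgroup G}

theorem normal_sup_centralizer_sylow [Fact p.Prime] [N.Normal] (Q : Sylow p N) :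
    (N ⊔ centralizer (((Q : Subgroup N).map N.subtype : Subgroup G) : Set G)).Normal := by
  rw [← normalizer_eq_top_iff, eq_top_iff, ← Sylow.normalizer_sup_eq_top Q, sup_comm N]
  exact sup_le ((CL.Grp.le_normalizer_centralizer' le_rfl).trans normalizer_le_normalizer_sup_normal)
    (le_sup_right.trans le_normalizer)

omit [Finite G] in
theorem relIndex_centralizer_conj [N.Normal] (g x : G) :
    (centralizer ({g * x * g⁻¹} : Set G)).relIndex N = (centralizer ({x} : Set G)).relIndex N := by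
  rw [← card_relClass, ← card_relClass]
  refine (Nat.card_congr (Equiv.subtypeEquiv (MulAut.conj g).toEquiv fun y => ?_)).symm
  simp only [MulEquiv.toEquiv_eq_coe, EquivLike.coe_coe, MulAut.conj_apply]
  refine ⟨fun ⟨n, hn, h⟩ => ⟨g * n * g⁻¹, ‹N.Normal›.conj_mem n hn g, by rw [← h]; group⟩,
    fun ⟨n, hn, h⟩ => ⟨g⁻¹ * n * g, ‹N.Normal›.conj_mem' n hn g, ?_⟩⟩
  calc g⁻¹ * n * g * x * (g⁻¹ * n * g)⁻¹ = g⁻¹ * (n * (g * x * g⁻¹) * n⁻¹) * g := by group
    _ = y := by rw [h]; group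

theorem IsDadeExt.val_div_sub_one (hM : IsPModular p M) {χ : G → ℂ} (hχ : IsCharacter G χ)
    (hN : IsIrrCharacter N fun n : N => χ n) (h : IsDadeExt M N χ) {x : G}
    (hx : ¬ p ∣ (centralizer ({x} : Set G)).relIndex N) : val M (χ x / χ 1 - 1) < 1 := by
  have h1 : IsCharacter G fun _ => (1 : ℂ) := (CL.Char.irrOne G).2.isCharacter
  have h2 := (red_eq_iff
    (omega_fixed_mem_valRing hχ hN (relClassSum_mem_fixedAlg x) (relClassSum_mem_OG x))
    (omega_fixed_mem_valRing h1 isIrrCharacter_res_one (relClassSum_mem_fixedAlg x)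
      (relClassSum_mem_OG x))).1 (h _ (relClassSum_mem_fixedAlg x) (relClassSum_mem_OG x))
  rwa [omega_relClassSum hχ.isClassFunction, omega_relClassSum h1.isClassFunction, mul_div_assoc,
    mul_div_assoc, div_one, ← mul_sub, map_mul, (val_natCast_eq_one_iff hM _).2 hx, one_mul] at h2

/-- A linear character trivial on the `p`-elements has `p'`-order. -/
theorem not_dvd_orderOf_of_forall_pElt (hp : p.Prime) {lam : G →* ℂˣ}
    (h : ∀ g : G, (∃ k : ℕ, orderOf g = p ^ k) → lam g = 1) : ¬ p ∣ orderOf lam := fun h1 => by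
  refine Nat.not_dvd_ordCompl hp (Nat.card_pos (α := G)).ne' (h1.trans (orderOf_dvd_of_pow_eq_one ?_))
  ext1 g
  obtain ⟨u, s, rfl, -, hu, hs⟩ := exists_isPPart hp g
  rw [MonoidHom.pow_apply, map_mul, h u hu, one_mul, ← map_pow,
    orderOf_dvd_iff_pow_eq_one.1 (CL.Char.orderOf_dvd_ordCompl hp hs), map_one, MonoidHom.one_apply]

omit [Finite G] in
theorem monoidHom_apply_eq_one_of_coprime {lam : G →* ℂˣ} {g : G}
    (h : (orderOf lam).Coprime (orderOf g)) : lam g = 1 := by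
  have h1 : lam g ^ orderOf lam = 1 := by
    rw [← MonoidHom.pow_apply, pow_orderOf_eq_one, MonoidHom.one_apply]
  have h2 : lam g ^ orderOf g = 1 := by rw [← map_pow, pow_orderOf_eq_one, map_one]
  have := pow_gcd_eq_one.2 ⟨h1, h2⟩
  rwa [h.gcd_eq_one, pow_one] at this

theorem not_dvd_detOrder_of_isPRat (hp : p.Prime) (hp2 : p ≠ 2) {χ : G → ℂ} (hχ : IsIrrCharacter G χ)
    (h : CL.Char.IsPRat p χ) : ¬ p ∣ detOrder χ := by
  obtain ⟨δ, hδ⟩ := CL.Char.exists_monoidHom_detChar χ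
  rw [detOrder, hδ, CL.Char.orderOf_coe_monoidHom]
  have h1 : CL.Char.IsPRat p fun g => (δ g : ℂ) := by
    obtain ⟨r, h0, hr, h⟩ := h
    refine ⟨r, h0, hr, fun σ hσ g => ?_⟩
    have := CL.Char.gl_detChar_gal hχ σ.toRingHom g
    rw [show (fun x => σ.toRingHom (χ x)) = χ from funext (h σ hσ), hδ] at this
    exact this.symm
  refine not_dvd_orderOf_of_forall_pElt hp fun g ⟨k, hk⟩ => ?_
  have h2 := h1.apply_pow_eq hp (CL.Char.isIrrCharacter_linear δ).isGeneralizedCharacter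
    (hk ▸ pow_orderOf_eq_one g) ((Nat.coprime_primes Nat.prime_two hp).2 hp2.symm)
  rwa [Units.val_inj, map_pow, sq, mul_eq_left] at h2

theorem mem_adjoin_of_isPRat {X : Type*} {χ : X → ℂ} (hχ : ∀ g, IsIntegral ℤ (χ g))
    (h : CL.Char.IsPRat p χ) : ∃ n : ℕ, ¬ p ∣ n ∧ ∀ g, χ g ∈
      IntermediateField.adjoin ℚ ({Complex.exp (2 * Real.pi * Complex.I / n)} : Set ℂ) := by
  obtain ⟨r, h0, hr, h⟩ := h
  refine ⟨r, hr, fun g => ?_⟩
  set F := IntermediateField.adjoin ℚ ({Complex.exp (2 * Real.pi * Complex.I / r)} : Set ℂ)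
  have h1 : IsIntegral F (χ g) := (hχ g).tower_top
  obtain ⟨y, hy⟩ := CL.Char.mem_bot_of_forall_algEquiv h1 fun σ => h σ.toRingEquiv (fun z hz => by
    have : NeZero r := ⟨h0.ne'⟩
    obtain ⟨i, -, rfl⟩ := (Complex.isPrimitiveRoot_exp r h0.ne').eq_pow_of_pow_eq_one hz
    exact σ.commutes ⟨_, pow_mem (IntermediateField.mem_adjoin_simple_self ℚ _) i⟩) g
  rw [← hy]
  exact y.2

/-- The twist of an extension to `K` that lies in the principal block. -/
theorem exists_dade_sub [N.Normal] (hM : IsPModular p M) {K : Subgroup G} (hNK : N ≤ K)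
    (hcov : CosetCov p (N.subgroupOf K)) {θ : IrrCharacter N} (hθ : θ ∈ principalBlock M N) {η : K → ℂ}
    (hη : IsCharacter K η) (he : ∀ n : N, η ⟨n, hNK n.2⟩ = (θ : N → ℂ) n) :
    ∃ lam : K →* ℂˣ, (∀ n : N, lam ⟨n, hNK n.2⟩ = 1) ∧ ¬ p ∣ orderOf lam ∧
      (∀ ξ : IrrCharacter K, (∀ y, (ξ : K → ℂ) y = lam y * η y) → ξ ∈ principalBlock M K) ∧
      ∀ x : K, ¬ p ∣ (centralizer ({(x : G)} : Set G)).relIndex N →
        val M (lam x * (η x / η 1) - 1) < 1 := by
  let θ' : IrrCharacter (N.subgroupOf K) := irrEquiv (subgroupOfEquivOfLe hNK) θ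
  have hθ' : θ' ∈ principalBlock M (N.subgroupOf K) :=
    (mem_principal_comp_mulEquiv_iff hM (subgroupOfEquivOfLe hNK) fun _ => rfl).2 hθ
  have he' : ∀ n : N.subgroupOf K, η n = (θ' : N.subgroupOf K → ℂ) n := fun n => he ⟨n.1.1, n.2⟩
  obtain ⟨lam, h1, h2, h3⟩ := exists_isDadeExt hM hcov hη hθ' he'
  have hη' : IsIrrCharacter K η :=
    CL.Char.isIrrCharacter_of_restrict hη (N.subgroupOf K) (by rw [funext he']; exact θ'.2)
  refine ⟨lam, fun n => h1 _ n.2, h2, fun ξ hξ => IsDadeExt.mem_principal_top hM (funext hξ ▸ h3),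
    fun x hx => ?_⟩
  have h4 := h3.val_div_sub_one hM (hη'.monoidHom_mul lam).isCharacter (by
    have : (fun n : N.subgroupOf K => (lam n : ℂ) * η n) = θ' := funext fun n => by
      rw [h1 n n.2, he']; simp
    rw [this]; exact θ'.2) (x := x) (by
      rwa [centralizer_singleton_subgroup, relIndex_subgroupOf hNK])
  rwa [map_one, Units.val_one, one_mul, mul_div_assoc] at h4

omit [Finite G] in
theorem cosetCov_subgroupOf [N.Normal] {P : Subgroup G} (hP : ¬ p ∣ P.relIndex N) :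
    CosetCov p (N.subgroupOf (N ⊔ centralizer (P : Set G))) := fun ⟨g, hg⟩ => by
  have hg' : g ∈ ((centralizer (P : Set G) ⊔ N : Subgroup G) : Set G) := by rwa [sup_comm]
  rw [Subgroup.mul_normal] at hg'
  obtain ⟨c, hc, n, hn, rfl⟩ := hg'
  refine ⟨⟨c, mem_sup_right hc⟩, QuotientGroup.eq.2 (by simpa [mem_subgroupOf] using hn), fun h1 => hP ?_⟩
  rw [centralizer_singleton_subgroup, relIndex_subgroupOf le_sup_left] at h1
  exact h1.trans (relIndex_dvd_of_le_left N (le_centralizer_singleton_iff.2 hc))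

theorem exists_extension_of_cosetCov [N.Normal] (hM : IsPModular p M) (hcov : CosetCov p N)
    {θ : IrrCharacter N} (hθ : θ ∈ principalBlock M N) (hd : ¬ p ∣ charDegree (θ : N → ℂ))
    (ho : ¬ p ∣ detOrder (θ : N → ℂ)) :
    ∃ χ, IsIrrCharacter G χ ∧ ∀ n : N, χ n = (θ : N → ℂ) n := by
  obtain ⟨C⟩ := CL.Char.nonempty_charCover N θ.2 fun g n => by
    rw [← conjIrr_apply, conjIrr_eq_of_cosetCov hM hcov hθ]
  obtain ⟨a, ha⟩ := realizes_pow_of_cosetCov hM hcov hθ C
  refine (ha.of_coprime C.realizes_d_mul_detOrder (Nat.Coprime.pow_left _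
    ((Nat.Prime.coprime_iff_not_dvd hM.1).2 fun h => ?_))).exists_extension
  rw [← charDegree_eq_of_one_eq C.base_one] at h
  exact ((Nat.Prime.dvd_mul hM.1).1 h).elim hd ho

/-- An invariant member of the principal block of `N`, of `p'`-degree and `p'`-determinantal order, has an
extension of `p'`-determinantal order in the principal block when `N C_G(Q)` has `p`-power index. -/
theorem exists_principal_extension [Fact p.Prime] [hN : N.Normal] (hM : IsPModular p M) (Q : Sylow p N)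
    {a : ℕ} (ha : (N ⊔ centralizer (((Q : Subgroup N).map N.subtype : Subgroup G) : Set G)).index = p ^ a)
    {θ : IrrCharacter N} (hθ : θ ∈ principalBlock M N)
    (hinv : ∀ (g : G) (n : N), (θ : N → ℂ) ⟨g * n * g⁻¹, hN.conj_mem n n.2 g⟩ = (θ : N → ℂ) n)
    (hd : ¬ p ∣ charDegree (θ : N → ℂ)) (ho : ¬ p ∣ detOrder (θ : N → ℂ)) :
    ∃ χ ∈ principalBlock M G, (∀ n : N, (χ : G → ℂ) n = (θ : N → ℂ) n) ∧ ¬ p ∣ detOrder (χ : G → ℂ) ∧
      ∀ x ∈ centralizer (((Q : Subgroup N).map N.subtype : Subgroup G) : Set G), (χ : G → ℂ) x ≠ 0 := by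
  have hp : p.Prime := Fact.out
  have hKn := normal_sup_centralizer_sylow Q
  have hQ := not_dvd_relIndex_map_sylow Q
  have hcov := cosetCov_subgroupOf hQ
  generalize ((Q : Subgroup N).map N.subtype : Subgroup G) = P at *
  have hrel : ∀ x ∈ centralizer (P : Set G), ¬ p ∣ (centralizer ({x} : Set G)).relIndex N :=
    fun x hx h => hQ (h.trans (relIndex_dvd_of_le_left N (le_centralizer_singleton_iff.2 hx)))
  set K := N ⊔ centralizer (P : Set G) with hK
  have hNK : N ≤ K := le_sup_left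
  have hcop : ∀ {m : ℕ}, ¬ p ∣ m → K.index.Coprime m := fun hm => by
    rw [ha]; exact Nat.Coprime.pow_left _ ((Nat.Prime.coprime_iff_not_dvd hp).2 hm)
  -- an extension to `K`, hence to `G`
  obtain ⟨η, hη, hηe⟩ := exists_extension_of_cosetCov hM hcov (θ := irrEquiv (subgroupOfEquivOfLe hNK) θ)
    ((mem_principal_comp_mulEquiv_iff hM (subgroupOfEquivOfLe hNK) fun _ => rfl).2 hθ) hd (fun h => ho (by
      refine h.trans (orderOf_dvd_of_pow_eq_one (funext fun n => ?_))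
      rw [Pi.pow_apply, Pi.one_apply, ← CL.Char.detChar_pow_detOrder (θ : N → ℂ) (subgroupOfEquivOfLe hNK n)]
      congr 1
      exact congrFun (CL.Char.detChar_comp_of_irr θ.2.isCharacter (subgroupOfEquivOfLe hNK).toMonoidHom
        (irrEquiv (subgroupOfEquivOfLe hNK) θ).2) n))
  obtain ⟨C⟩ := CL.Char.nonempty_charCover N θ.2 hinv
  obtain ⟨χ₁, hχ₁, he₁⟩ := ((C.realizes_index_of_extension K hNK hη.isCharacter
    fun n => hηe ⟨⟨n, hNK n.2⟩, n.2⟩).of_coprime C.realizes_d_mul_detOrder (hcop fun h => by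
      rw [← charDegree_eq_of_one_eq C.base_one] at h
      exact ((Nat.Prime.dvd_mul hp).1 h).elim hd ho)).exists_extension
  -- twist into the principal block
  obtain ⟨lam, h1, h2, h3, h4⟩ := exists_dade_sub hM hNK hcov hθ (hχ₁.isCharacter.restrict K) he₁
  have hred : ∀ x : K, ¬ p ∣ (centralizer ({(x : G)} : Set G)).relIndex N →
      red M (lam x) * red M (χ₁ x / χ₁ 1) = 1 := fun x hx => by
    have h5 : val M (lam x * (χ₁ x / χ₁ 1)) = 1 := val_eq_one_of_sub_lt (map_one _) (h4 x hx)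
    have h6 : val M (lam x : ℂ) = 1 := val_eq_one_of_pow_eq_one (orderOf_pos x).ne' (by
      rw [← Units.val_pow_eq_pow_val, ← map_pow, pow_orderOf_eq_one, map_one, Units.val_one])
    have h7 : χ₁ x / χ₁ 1 ∈ valRing M := val_le_one_iff.1 (by rw [map_mul, h6, one_mul] at h5; exact h5.le)
    rw [← red_mul (monoidHom_mem_valRing _ _) h7, ← red_one (M := M)]
    exact (red_eq_iff (val_le_one_iff.1 h5.le) (one_mem _)).2 (h4 x hx)
  obtain ⟨mu, h5, h6⟩ := CL.Char.exists_linear_extension_of_coprime lam (fun g k => by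
    obtain ⟨k, hk⟩ := k
    have hk' : k ∈ ((centralizer (P : Set G) ⊔ N : Subgroup G) : Set G) := by rwa [sup_comm]
    rw [Subgroup.mul_normal] at hk'
    obtain ⟨c, hc, n, hn, rfl⟩ := hk'
    have hcK : c ∈ K := mem_sup_right hc
    have e1 : (⟨g * (c * n) * g⁻¹, hKn.conj_mem _ hk g⟩ : K) =
        ⟨g * c * g⁻¹, hKn.conj_mem _ hcK g⟩ * ⟨g * n * g⁻¹, hNK (hN.conj_mem _ hn g)⟩ :=
      Subtype.ext (by simp only [MulMemClass.mk_mul_mk]; group)
    have e2 : (⟨c * n, hk⟩ : K) = ⟨c, hcK⟩ * ⟨n, hNK hn⟩ := rfl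
    rw [e1, e2, map_mul, map_mul, h1 ⟨n, hn⟩, h1 ⟨_, hN.conj_mem _ hn g⟩, mul_one, mul_one]
    have e3 := hred ⟨c, hcK⟩ (hrel c hc)
    have e4 := hred ⟨_, hKn.conj_mem _ hcK g⟩ (by rw [relIndex_centralizer_conj]; exact hrel c hc)
    simp only [hχ₁.isClassFunction c g] at e3 e4
    have e5 : ∀ y, (lam y : ℂ) ^ orderOf lam = 1 := fun y => by
      rw [← Units.val_pow_eq_pow_val, ← MonoidHom.pow_apply, pow_orderOf_eq_one, MonoidHom.one_apply,
        Units.val_one]
    exact Units.ext (eq_of_red_eq_of_pow_eq_one hM h2 h2 (e5 _) (e5 _)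
      (mul_right_cancel₀ (right_ne_zero_of_mul (e3 ▸ one_ne_zero)) (e4.trans e3.symm)))) (hcop h2)
  let χ₂ : IrrCharacter G := ⟨_, hχ₁.monoidHom_mul mu⟩
  have he₂ : ∀ n : N, (χ₂ : G → ℂ) n = (θ : N → ℂ) n := fun n => by
    simp only [χ₂]
    rw [h5 ⟨n, hNK n.2⟩, h1, he₁, Units.val_one, one_mul]
  have hres : IsIrrCharacter K fun y : K => (χ₂ : G → ℂ) y :=
    CL.Char.isIrrCharacter_of_comp (χ₂.2.isCharacter.restrict K) (inclusion hNK) (by
      have : (fun x : N => (χ₂ : G → ℂ) (inclusion hNK x)) = θ := funext he₂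
      rw [this]; exact θ.2)
  have hχ₂ : χ₂ ∈ principalBlock M G :=
    (mem_principal_iff_of_res_eq hM (fun g hg => mem_of_index_eq_pow_of_not_dvd_orderOf hp ha hg)
      (θ := ⟨_, hres⟩) fun _ => rfl).2 (h3 _ fun y => by simp only [χ₂, h5])
  -- adjust the determinant
  obtain ⟨δ, hδ⟩ := CL.Char.exists_monoidHom_detChar (χ₂ : G → ℂ)
  obtain ⟨δp, δq, hδe, -, ⟨k, hk⟩, hq⟩ := exists_isPPart hp δ
  have hd1 : (χ₂ : G → ℂ) 1 = charDegree (θ : N → ℂ) := by rw [irr_natCast_charDegree, ← he₂]; rfl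
  obtain ⟨j, hj⟩ := CL.Char.exists_pow_pow_eq_of_coprime (a := δp⁻¹) (m := p ^ k)
    (Nat.Coprime.pow_left k ((Nat.Prime.coprime_iff_not_dvd hp).2 hd))
    ((inv_pow δp _).trans (inv_eq_one.2 (hk ▸ pow_orderOf_eq_one δp)))
  have hδN : ∀ n : N, δp n = 1 := fun n => by
    have e1 : δ n ^ detOrder (θ : N → ℂ) = 1 := Units.ext (by
      rw [Units.val_pow_eq_pow_val, ← congrFun hδ, ← CL.Char.detChar_restrict_of_irr χ₂.2.isCharacter N
        (by rw [funext he₂]; exact θ.2), funext he₂, CL.Char.detChar_pow_detOrder, Units.val_one])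
    have e2 : δp n ^ (detOrder (θ : N → ℂ) * orderOf δq) = 1 := by
      have e3 : δq n ^ (detOrder (θ : N → ℂ) * orderOf δq) = 1 := by
        rw [mul_comm, pow_mul, ← MonoidHom.pow_apply δq, pow_orderOf_eq_one, MonoidHom.one_apply, one_pow]
      have e4 : δ n ^ (detOrder (θ : N → ℂ) * orderOf δq) = 1 := by rw [pow_mul, e1, one_pow]
      rwa [← hδe, MonoidHom.mul_apply, mul_pow, e3, mul_one] at e4
    have e3 : δp n ^ p ^ k = 1 := by
      rw [← MonoidHom.pow_apply, ← hk, pow_orderOf_eq_one, MonoidHom.one_apply]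
    have := pow_gcd_eq_one.2 ⟨e3, e2⟩
    rwa [(Nat.Coprime.pow_left k ((Nat.Prime.coprime_iff_not_dvd hp).2 fun h =>
      ((Nat.Prime.dvd_mul hp).1 h).elim ho hq)).gcd_eq_one, pow_one] at this
  refine ⟨⟨_, χ₂.2.monoidHom_mul (δp⁻¹ ^ j)⟩, (mem_principal_iff_of_eq_on_regular hM fun g hg => ?_).2 hχ₂,
    fun n => ?_, ?_, fun x hx => ?_⟩
  · have : δp g = 1 := monoidHom_apply_eq_one_of_coprime
      (hk ▸ Nat.Coprime.pow_left k ((Nat.Prime.coprime_iff_not_dvd hp).2 hg))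
    simp [this]
  · simp [hδN, he₂]
  · have : (fun g => (((δp⁻¹ ^ j) g : ℂˣ) : ℂ) ^ charDegree (θ : N → ℂ) * detChar (χ₂ : G → ℂ) g) =
        fun g => (δq g : ℂ) := funext fun g => by
      rw [← Units.val_pow_eq_pow_val, ← MonoidHom.pow_apply, hj, hδ, ← hδe]
      simp
    rwa [detOrder, CL.Char.detChar_linear_mul χ₂.2 hd1, this, CL.Char.orderOf_coe_monoidHom]
  · refine mul_ne_zero (Units.ne_zero _) (mul_ne_zero (Units.ne_zero _) fun h => ?_)
    have := hred ⟨x, mem_sup_right hx⟩ (hrel x hx)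
    simp [h, red_zero] at this

end CL.Blk
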