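/-
Groups with the same multiset of character degrees as `PSL₂(p²)`.
-/
import Cfsg.Agent.Perm.ZassEven
import Cfsg.Agent.Fgs.SylTI
import Cfsg.Agent.Spor.CharTools
import Cfsg.Agent.Inv.POSimple
import Cfsg.Agent.Blk.DegOrdA

set_option autoImplicit false

open Cfsg Finset CL.Char CL.Perm CL.Fgs MulAction Subgroup

namespace CL.Blk.DegMult

variable {G : Type*} [Group G] [Finite G]

theorem exists_equiv {H : Type*} [Group H] [Finite H]
    (h : ∀ d : ℕ, Nat.card {χ : IrrCharacter G // (χ : G → ℂ) 1 = (d : ℂ)} =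
      Nat.card {χ : IrrCharacter H // (χ : H → ℂ) 1 = (d : ℂ)}) :
    ∃ e : IrrCharacter G ≃ IrrCharacter H, ∀ χ, charDegree (e χ : H → ℂ) = charDegree (χ : G → ℂ) := by
  have key : ∀ (d : ℕ) (χ : IrrCharacter G), charDegree (χ : G → ℂ) = d ↔
      (χ : G → ℂ) 1 = d := fun d χ => by rw [← χ.2.cast_charDegree, Nat.cast_inj]
  have key' : ∀ (d : ℕ) (χ : IrrCharacter H), charDegree (χ : H → ℂ) = d ↔
      (χ : H → ℂ) 1 = d := fun d χ => by rw [← χ.2.cast_charDegree, Nat.cast_inj]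
  exact ⟨Equiv.ofFiberEquiv (f := fun χ : IrrCharacter G => charDegree (χ : G → ℂ))
    (g := fun χ : IrrCharacter H => charDegree (χ : H → ℂ)) fun d =>
      (Finite.card_eq.1 (by simp only [key, key', h])).some,
    fun χ => Equiv.ofFiberEquiv_map (f := fun χ : IrrCharacter G => charDegree (χ : G → ℂ))
      (g := fun χ : IrrCharacter H => charDegree (χ : H → ℂ)) _ χ⟩

theorem false_of_vanish {g : G} (hg : g ≠ 1) {m : ℕ} (hm : m ≠ 1)
    (h : ∀ χ : IrrCharacter G, χ ≠ irrOne G → (χ : G → ℂ) g = 0 ∨ m ∣ charDegree (χ : G → ℂ)) : False := by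
  classical
  have key : ∀ χ : IrrCharacter G, χ ≠ irrOne G → ∃ α : ℂ, IsIntegral ℤ α ∧
      (χ : G → ℂ) 1 * (χ : G → ℂ) g = m.minFac * α := fun χ hχ => by
    rcases h χ hχ with e | e
    · exact ⟨0, isIntegral_zero, by simp [e]⟩
    · obtain ⟨k, hk⟩ := m.minFac_dvd.trans e
      exact ⟨k * (χ : G → ℂ) g, (isIntegral_natCast k).mul (irr_isIntegral χ g), by
        rw [← χ.2.cast_charDegree, hk]; push_cast; ring⟩
  choose! α hα using key
  have hs := burnside_sum_degree_mul hg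
  rw [← add_sum_erase _ _ (mem_univ (irrOne G)), sum_congr rfl fun χ hχ => (hα χ (ne_of_mem_erase hχ)).2,
    ← mul_sum, coe_irrOne, mul_one] at hs
  exact CL.Inv.PO.not_isIntegral_inv_prime (Nat.minFac_prime hm)
    (IsIntegral.sum _ fun χ hχ => (hα χ (ne_of_mem_erase hχ)).1) hs

/-- No element has order divisible by `p` and by a second prime. -/
theorem not_dvd_orderOf {p q s t r : ℕ} (hp : p.Prime) (hr : r.Prime) (hq : q = p ^ 2) (hrp : r ≠ p)
    (hG : Nat.card G = q * t * s) (hqt : q.Coprime t) (hqs : q.Coprime s) (hts : t.Coprime s) (ht : t ≠ 1)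
    (hs : s ≠ 1) (h : ∀ χ : IrrCharacter G, χ ≠ irrOne G → charDegree (χ : G → ℂ) = q ∨
      charDegree (χ : G → ℂ) = t ∨ s ∣ charDegree (χ : G → ℂ)) {g : G} (h1 : p ∣ orderOf g) :
    ¬ r ∣ orderOf g := fun h2 => by
  have hg : g ≠ 1 := by
    rintro rfl
    exact hp.one_lt.ne' (Nat.dvd_one.1 (orderOf_one (G := G) ▸ h1))
  have h0 : q * t * s ≠ 0 := hG ▸ Nat.card_pos.ne'
  have key : ∀ {l a b : ℕ}, l.Prime → l ∣ orderOf g → l ∣ a → a.Coprime b → Nat.card G = a * b →
      ∀ χ : IrrCharacter G, a ∣ charDegree (χ : G → ℂ) → (χ : G → ℂ) g = 0 := fun {l a b} hl h3 h4 h5 h6 χ h7 =>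
    CL.Spor.eq_zero_of_defect_zero hl χ (fun e => by
      have h8 := (Nat.mul_dvd_mul_left l h7).trans e
      rw [h6, mul_comm a] at h8
      exact hl.one_lt.ne' (Nat.eq_one_of_dvd_coprimes h5 h4 (Nat.dvd_of_mul_dvd_mul_right
        (Nat.pos_of_mul_pos_right (h6 ▸ Nat.card_pos)) h8))) h3
  have k1 := key hp h1 (hq ▸ dvd_pow_self p two_ne_zero) (hqt.mul_right hqs) (by rw [hG, mul_assoc])
  rcases hr.dvd_mul.1 (hG ▸ h2.trans (orderOf_dvd_natCard g)) with e | e
  · rcases hr.dvd_mul.1 e with e | e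
    · exact hrp ((Nat.prime_dvd_prime_iff_eq hr hp).1 (hr.dvd_of_dvd_pow (hq ▸ e)))
    · have k2 := key hr h2 e (hqt.symm.mul_right hts) (by rw [hG]; ring)
      exact false_of_vanish hg hs fun χ hχ => (h χ hχ).elim (fun a => .inl (k1 χ a.symm.dvd))
        fun a => a.imp_left fun a => k2 χ a.symm.dvd
  · have k2 := key hr h2 e (hqs.symm.mul_right hts.symm) (by rw [hG]; ring)
    exact false_of_vanish hg ht fun χ hχ => (h χ hχ).elim (fun a => .inl (k1 χ a.symm.dvd))
      fun a => a.symm.imp (k2 χ) fun a => a.symm.dvd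

theorem centralizer_eq {p : ℕ} [hp : Fact p.Prime] (P : Sylow p G) (hP : Nat.card P = p ^ 2)
    (h : ∀ r, r.Prime → r ≠ p → ∀ g : G, p ∣ orderOf g → ¬ r ∣ orderOf g) {x : G} (hx : x ∈ P) (h1 : x ≠ 1) :
    centralizer {x} = (P : Subgroup G) := by
  refine P.3 ?_ fun y hy => mem_centralizer_singleton_iff.2 (congrArg Subtype.val
    ((IsPGroup.isMulCommutative_of_card_eq_prime_sq hP).is_comm.comm (⟨y, hy⟩ : P) ⟨x, hx⟩))
  refine IsPGroup.of_card (Nat.eq_prime_pow_of_unique_prime_dvd Nat.card_pos.ne' fun {r} hr hd => ?_)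
  by_contra hrp
  have := Fact.mk hr
  obtain ⟨⟨y, hy⟩, hy'⟩ := exists_prime_orderOf_dvd_card' r hd
  replace hy' : orderOf y = r := (orderOf_coe _).trans hy'
  obtain ⟨k, hk⟩ := exists_orderOf_eq_pow_of_mem P.2 hx
  have h2 := (show Commute y x from mem_centralizer_singleton_iff.1 hy).orderOf_mul_eq_mul_orderOf_of_coprime
    (by rw [hk, hy']; exact ((Nat.coprime_primes hr hp.out).2 hrp).pow_right k)
  refine h r hr hrp (y * x) (h2 ▸ (hk ▸ dvd_pow_self p ?_).mul_left _) (h2 ▸ hy'.symm.dvd.mul_right _)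
  rintro rfl
  exact h1 (orderOf_eq_one_iff.1 hk)

/-- A group of order `q (q² - 1) / 2`, `q ≡ 1 mod 4`, with abelian Sylow subgroups of order `q` which are the
centralizers of their non-identity elements. -/
theorem psl2_of_selfCent {p q : ℕ} [hp : Fact p.Prime] (hq : ∀ P : Sylow p G, Nat.card P = q)
    (hC : ∀ P : Sylow p G, ∀ x ∈ P, x ≠ 1 → centralizer {x} = (P : Subgroup G))
    (hn : 2 * Nat.card G = q * (q ^ 2 - 1)) (h4 : q % 4 = 1) (hne : Nat.card (Sylow p G) ≠ 1) :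
    ∃ (K : Type) (_ : Field K) (_ : Fintype K), Fintype.card K = q ∧
      Nonempty (G ≃* Matrix.ProjectiveSpecialLinearGroup (Fin 2) K) := by
  classical
  have free : ∀ {P Q : Sylow p G}, P ≠ Q → ∀ x ∈ P, x • Q = Q → x = 1 := fun {P Q} h x hx e => by
    by_contra h1
    obtain ⟨k, hk⟩ := exists_orderOf_eq_pow_of_mem P.2 hx
    exact h (Sylow.ext ((hC P x hx h1).symm.trans
      (hC Q x (mem_sylow_of_mem_normalizer hk ((sylow_smul_eq_iff _ _).1 e)) h1)))
  have fix : ∀ P : Sylow p G, ∀ x ∈ P, x • P = P := fun P x hx => (sylow_smul_eq_iff _ _).2 (le_normalizer hx)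
  obtain ⟨P⟩ : Nonempty (Sylow p G) := inferInstance
  have hq1 : 5 ≤ q := by
    by_contra h
    rw [show q = 1 by omega] at hn
    have := Nat.card_pos (α := G)
    omega
  obtain ⟨k, hk⟩ : ∃ k, Nat.card (Sylow p G) + (q - 1) = k * q := by
    have := Fintype.ofFinite G
    have := Fintype.ofFinite (Sylow p G)
    refine ⟨Fintype.card (Quotient (orbitRel (P : Subgroup G) (Sylow p G))), ?_⟩
    rw [← hq P, Nat.card_eq_fintype_card (α := P), ← sum_card_fixedBy_eq_card_orbits_mul_card_group,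
      ← add_sum_erase _ _ (mem_univ 1), sum_congr rfl (g := fun _ => 1) fun x hx => ?_]
    · simp [card_erase_of_mem]
    · refine Fintype.card_eq_one_iff.2 ⟨⟨P, fix P x x.2⟩, fun Q => Subtype.ext ?_⟩
      by_contra e
      exact ne_of_mem_erase hx (Subtype.ext (free (Ne.symm e) x x.2 Q.2))
  have hΩ : Nat.card (Sylow p G) = q + 1 := by
    obtain ⟨e, he⟩ := hq P ▸ card_dvd_of_le (le_normalizer (H := (P : Subgroup G)))
    have h1 := (normalizer ((P : Subgroup G) : Set G)).index_mul_card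
    rw [show (normalizer ((P : Subgroup G) : Set G)).index = _ from P.card_eq_index_normalizer.symm, he] at h1
    have h0 := Nat.card_pos (α := Sylow p G)
    obtain ⟨j, rfl⟩ : ∃ j, k = j + 2 := ⟨k - 2, by
      rcases k with _ | _ | k <;> omega⟩
    generalize Nat.card (Sylow p G) = n at *
    obtain ⟨u, rfl⟩ : ∃ u, q = u + 1 := ⟨q - 1, by omega⟩
    have h2 : n = (j + 1) * (u + 1) + 1 := by
      rw [Nat.add_sub_cancel] at hk
      linarith
    have h3 : 2 * e * n + 1 = (u + 1) ^ 2 := by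
      rw [← h1, show (u + 1) ^ 2 - 1 = u ^ 2 + 2 * u from Nat.sub_eq_of_eq_add (by ring)] at hn
      have := Nat.eq_of_mul_eq_mul_left (show 0 < u + 1 by omega) (show _ * (2 * e * n) = _ by rw [← hn]; ring)
      linarith
    have h5 : u + 1 ∣ 2 * e + 1 := (Nat.dvd_add_right (Dvd.intro (2 * e * (j + 1)) rfl)).1
      ⟨u + 1, by rw [← sq, ← h3, h2]; ring⟩
    have h6 := Nat.le_of_dvd (by omega) h5
    rcases j with _ | j
    · omega
    · nlinarith [Nat.mul_le_mul_right n (show u ≤ 2 * e by omega), Nat.zero_le (j * u), Nat.zero_le (j * u * u)]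
  have tr : ∀ {P Q R : Sylow p G}, P ≠ Q → P ≠ R → ∃ x ∈ P, x • Q = R := fun {P Q R} h1 h2 => by
    have := Fintype.ofFinite (Sylow p G)
    let f : ↥(P : Subgroup G) → {T : Sylow p G // T ≠ P} := fun x => ⟨(x : G) • Q, fun e =>
      h1 (smul_left_cancel (x : G) ((fix P x x.2).trans e.symm))⟩
    have h3 : Function.Injective f := fun x y e => by
      have : (y : G)⁻¹ * x = 1 := free h1 _ (mul_mem (inv_mem y.2) x.2)
        (by rw [mul_smul, inv_smul_eq_iff]; exact congrArg Subtype.val e)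
      exact Subtype.ext (inv_mul_eq_one.1 this).symm
    obtain ⟨x, hx⟩ := (h3.bijective_of_nat_card_le (by
      rw [hq P, Nat.subtype_card (univ.erase P) (by simp), card_erase_of_mem (mem_univ _), card_univ,
        ← Nat.card_eq_fintype_card, hΩ, Nat.add_sub_cancel])).2 ⟨R, h2.symm⟩
    exact ⟨x, x.2, congrArg Subtype.val hx⟩
  have : Nontrivial (Sylow p G) := Finite.one_lt_card_iff_nontrivial.1 (by omega)
  obtain ⟨Q, hQ⟩ := exists_ne P
  have hZ : IsZ G (Sylow p G) := by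
    refine ⟨fun {a b c d} h1 h2 => ?_, fun {g a b c} h1 h2 h3 ha hb hc => ?_, ?_⟩
    · obtain ⟨g, rfl⟩ := exists_smul_eq G a c
      obtain ⟨x, hx, e⟩ := tr (fun e => h1 (smul_left_cancel g e)) h2
      exact ⟨x * g, by rw [mul_smul, fix _ x hx], by rw [mul_smul, e]⟩
    · obtain ⟨u, hu, rfl⟩ := tr h1 h3
      have h5 := free h1 _ (mul_mem (inv_mem hu)
        ((mem_normalizer_iff.1 ((sylow_smul_eq_iff _ _).1 ha) u).1 hu)) (by
          rw [mul_smul, mul_smul, mul_smul, inv_smul_eq_iff.2 hb.symm, hc, inv_smul_smul])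
      refine free h1 g ((hC a u hu fun e => h2 (by rw [e, one_smul])).le ?_) hb
      rw [inv_mul_eq_one, eq_mul_inv_iff_mul_eq] at h5
      exact mem_centralizer_singleton_iff.2 h5.symm
    · have := Fintype.ofFinite (Sylow p G)
      obtain ⟨a, b, c, h1, h2, h3⟩ := Fintype.two_lt_card_iff.1
        (by rw [← Nat.card_eq_fintype_card]; omega : 2 < Fintype.card (Sylow p G))
      exact ⟨a, b, c, h1, h3, h2⟩
  have h5 := hZ.card_group hQ
  have h6 : 2 * Nat.card (stab2 G Q P) + 1 = q := by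
    obtain ⟨u, rfl⟩ : ∃ u, q = u + 1 := ⟨q - 1, by omega⟩
    rw [h5, hΩ, Nat.add_sub_cancel, show (u + 1) ^ 2 - 1 = (u + 1 + 1) * u from Nat.sub_eq_of_eq_add (by ring)] at hn
    have := Nat.eq_of_mul_eq_mul_left (show 0 < (u + 1 + 1) * (u + 1) by positivity)
      (show _ * (2 * Nat.card (stab2 G Q P)) = _ * u by linarith)
    omega
  obtain ⟨K, _, _, h7, -, h8⟩ := hZ.psl2_of_even hQ (Nat.even_iff.2 (by omega)) (by omega)
  exact ⟨K, inferInstance, inferInstance, by omega, h8⟩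

end CL.Blk.DegMult
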