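/-
Symmetric and exterior squares of characters, and characters of degree three of perfect groups.
-/
import Cfsg.Agent.Char.FrobSchur
import Cfsg.Agent.Char.Blichfeldt
import Cfsg.Agent.Char.Constituent
import Cfsg.Agent.Char.Burnside

set_option autoImplicit false

open Module Cfsg Matrix
open scoped ComplexConjugate

namespace CL.Blk.DV

open CL.Char

variable {G : Type*} [Group G]

theorem isCharacter_sq_aux {n : ℕ} (ρ : Representation ℂ G (Fin n → ℂ)) {ε : ℂ} (hε : ε * ε = 1) :
    IsCharacter G (fun g => (ρ.character g * ρ.character g + ε * ρ.character (g * g)) / 2) := by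
  let U : Subrepresentation (fsRep ρ) :=
    { toSubmodule := LinearMap.ker (fsT n - ε • (1 : Module.End ℂ _))
      apply_mem_toSubmodule := fun g X hX => by
        rw [LinearMap.mem_ker] at hX ⊢
        have h1 := congrArg (fun f => f X) (fsRep_mul_T ρ g)
        simp only [Module.End.mul_apply] at h1
        simp only [LinearMap.sub_apply, LinearMap.smul_apply, Module.End.one_apply] at hX ⊢
        rw [← h1, ← map_smul, ← map_sub, hX, map_zero] }
  have h := isCharacter_character U.toRepresentation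
  convert h using 1
  funext g
  let e : Module.End ℂ (Matrix (Fin n) (Fin n) ℂ) := (2 : ℂ)⁻¹ • (1 + ε • fsT n)
  have he : ∀ X, e X ∈ U.toSubmodule := fun X => by
    change _ ∈ LinearMap.ker _
    rw [LinearMap.mem_ker]
    simp only [e, LinearMap.sub_apply, LinearMap.smul_apply, Module.End.one_apply,
      LinearMap.add_apply, map_smul, map_add, fsT_apply, transpose_transpose, smul_add, smul_smul]
    rw [smul_sub, smul_sub, smul_smul, smul_smul, mul_assoc, hε, mul_one]
    abel
  have he' : ∀ X ∈ U.toSubmodule, e X = X := fun X hX => by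
    change _ ∈ LinearMap.ker _ at hX
    rw [LinearMap.mem_ker] at hX
    simp only [LinearMap.sub_apply, LinearMap.smul_apply, Module.End.one_apply, sub_eq_zero] at hX
    simp only [e, LinearMap.smul_apply, Module.End.one_apply, LinearMap.add_apply, hX, smul_smul, hε,
      one_smul]
    rw [← two_smul ℂ X, smul_smul]
    norm_num
  have h2 : ∀ X, (fsRep ρ g * e) X ∈ U.toSubmodule := fun X =>
    U.apply_mem_toSubmodule g (he X)
  have h3 := LinearMap.trace_restrict_eq_of_forall_mem U.toSubmodule (fsRep ρ g * e) h2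
  have h4 : (fsRep ρ g * e).restrict (fun X _ => h2 X) = U.toRepresentation g := by
    ext X : 2
    simp only [LinearMap.coe_restrict_apply, Module.End.mul_apply, he' X X.2]
    rfl
  rw [h4] at h3
  have h5 : U.toRepresentation.character g = _ := h3
  have h6 : LinearMap.trace ℂ _ (fsRep ρ g) = _ := fsRep_character ρ g
  rw [h5]
  simp only [e, mul_smul_comm, mul_add, mul_one, map_smul, map_add, fsRep_trace_mul_T, smul_eq_mul,
    h6]
  ring

/-- The symmetric square of a class function. -/
noncomputable def sym2 (χ : G → ℂ) : G → ℂ := fun g => (χ g * χ g + χ (g * g)) / 2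

/-- The exterior square of a class function. -/
noncomputable def alt2 (χ : G → ℂ) : G → ℂ := fun g => (χ g * χ g - χ (g * g)) / 2

theorem isCharacter_sym2 {χ : G → ℂ} (h : IsCharacter G χ) : IsCharacter G (sym2 χ) := by
  obtain ⟨n, ρ, rfl⟩ := h
  unfold sym2
  simpa using isCharacter_sq_aux ρ (ε := 1) (by simp)

theorem isCharacter_alt2 {χ : G → ℂ} (h : IsCharacter G χ) : IsCharacter G (alt2 χ) := by
  obtain ⟨n, ρ, rfl⟩ := h
  unfold alt2
  simpa [← sub_eq_add_neg] using isCharacter_sq_aux ρ (ε := -1) (by simp)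

variable [Finite G]

theorem exists_eigenvalues_det {χ : G → ℂ} (h : IsCharacter G χ) {g : G} (hg : g ∈ commutator G)
    {n : ℕ} (hn : χ 1 = n) : ∃ μ : Fin n → ℂ, (∀ i, ‖μ i‖ = 1) ∧ χ g = ∑ i, μ i ∧
      χ (g * g) = ∑ i, μ i ^ 2 ∧ ∏ i, μ i = 1 := by
  obtain ⟨d, ρ, rfl⟩ := h
  have hd : finrank ℂ (Fin d → ℂ) = n := by
    rw [Representation.char_one] at hn
    exact_mod_cast hn
  subst hd
  obtain ⟨b, μ, h1, h2⟩ := exists_eigenbasis ρ g
  refine ⟨μ, fun i => norm_eq_one_of_pow_eq_one' (orderOf_pos g).ne' (h2 i), ?_, ?_, ?_⟩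
  · exact trace_eq_sum_of_eigenbasis b _ _ h1
  · rw [← pow_two, Representation.character, map_pow]
    exact trace_eq_sum_of_eigenbasis b _ _ fun i => pow_apply_of_eigen _ (h1 i) 2
  · have h3 := congrArg Units.val (mem_commutator_iff_forall_monoidHom.mp hg (detHom ρ))
    rw [detHom_apply, ← LinearMap.det_toMatrix b] at h3
    have h4 : LinearMap.toMatrix b b (ρ g) = Matrix.diagonal μ := by
      ext i j
      rw [LinearMap.toMatrix_apply, h1, map_smul, b.repr_self, Matrix.diagonal_apply]
      by_cases hij : i = j <;> simp [hij]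
    rwa [h4, Matrix.det_diagonal] at h3

theorem apply_sq_of_two {χ : G → ℂ} (h : IsCharacter G χ) (h2 : χ 1 = 2) {g : G}
    (hg : g ∈ commutator G) : χ (g * g) = χ g * χ g - 2 := by
  obtain ⟨μ, -, h3, h4, h5⟩ := exists_eigenvalues_det h hg (n := 2) (by exact_mod_cast h2)
  simp only [Fin.sum_univ_two, Fin.prod_univ_two] at h3 h4 h5
  rw [h3, h4]
  linear_combination (-2) * h5

theorem apply_sq_of_three {χ : G → ℂ} (h : IsCharacter G χ) (h2 : χ 1 = 3) {g : G}
    (hg : g ∈ commutator G) : χ (g * g) = χ g * χ g - 2 * conj (χ g) := by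
  obtain ⟨μ, h1, h3, h4, h5⟩ := exists_eigenvalues_det h hg (n := 3) (by exact_mod_cast h2)
  simp only [Fin.sum_univ_three, Fin.prod_univ_three] at h3 h4 h5
  have h6 : ∀ i, μ i * conj (μ i) = 1 := fun i => by
    rw [Complex.mul_conj, Complex.normSq_eq_norm_sq, h1]; simp
  rw [h3, h4, map_add, map_add]
  have e0 : conj (μ 0) = μ 1 * μ 2 := by
    linear_combination (μ 1 * μ 2) * h6 0 - conj (μ 0) * h5
  have e1 : conj (μ 1) = μ 0 * μ 2 := by
    linear_combination (μ 0 * μ 2) * h6 1 - conj (μ 1) * h5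
  have e2 : conj (μ 2) = μ 0 * μ 1 := by
    linear_combination (μ 0 * μ 1) * h6 2 - conj (μ 2) * h5
  rw [e0, e1, e2]
  ring

end CL.Blk.DV
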