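/-
Groups with an element `u ≠ 1` such that `χ(1) - χ(u) = 4` or `χ(u) = 0` for every non-principal
irreducible character: the character theory.
-/
import Cfsg.Agent.Blk.DegVal1

set_option autoImplicit false

open Module Cfsg
open scoped ComplexConjugate

namespace CL.Blk.DV

open CL.Char

variable {G : Type*} [Group G]

/-- The hypothesis. -/
structure H4 (u : G) : Prop where
  ne : u ≠ 1
  perf : commutator G = ⊤
  val : ∀ χ, IsIrrCharacter G χ → χ ≠ (fun _ => 1) → χ 1 - χ u = 4 ∨ χ u = 0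

theorem linear_eq_one [Finite G] (hp : commutator G = ⊤) {χ : G → ℂ} (h : IsCharacter G χ)
    (h1 : χ 1 = 1) : χ = fun _ => 1 := by
  have h2 := commutator_le_charKer_of_one_eq_one h h1
  rwa [hp, top_le_iff, (h.isIrrCharacter_of_one_eq_one h1).charKer_eq_top_iff] at h2

theorem inner_congr [Fintype G] {φ ψ φ' ψ' : G → ℂ}
    (h : ∀ g, φ g * conj (ψ g) = φ' g * conj (ψ' g)) : classInner φ ψ = classInner φ' ψ' := by
  simp only [classInner_def, h]

theorem re_sub_nonneg [Finite G] {φ : G → ℂ} (h : IsCharacter G φ) (g : G) : 0 ≤ (φ 1 - φ g).re := by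
  rw [Complex.sub_re, h.re_one, sub_nonneg]
  exact (Complex.re_le_norm _).trans (h.norm_le g)

/-- The degree five constituent of the square of a real character of degree three. -/
noncomputable def xi (χ : G → ℂ) : G → ℂ := fun g => χ g * χ g - χ g - 1

namespace H4

variable {u : G} (h : H4 u)
include h

theorem mem (g : G) : g ∈ commutator G := h.perf ▸ Subgroup.mem_top g

theorem not_ker {χ : G → ℂ} (hχ : IsIrrCharacter G χ) (h1 : χ ≠ fun _ => 1) : χ u ≠ χ 1 := by
  intro h2
  rcases h.val χ hχ h1 with h3 | h3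
  · rw [h2, sub_self] at h3
    norm_num at h3
  · exact hχ.one_ne_zero (h2 ▸ h3)

variable [Finite G]

theorem eq_top {N : Subgroup G} [N.Normal] (hu : u ∈ N) : N = ⊤ := by
  by_contra h1
  obtain ⟨g, -, hg⟩ := SetLike.exists_of_lt (lt_top_iff_ne_top.2 h1)
  obtain ⟨χ, hχ, h2, h3⟩ := exists_irr_le_charKer_not_mem N hg
  exact h.not_ker hχ (fun h4 => h3 (by rw [hχ.mem_charKer, h4])) (hχ.mem_charKer.1 (h2 hu))

theorem cases {χ : G → ℂ} (hχ : IsIrrCharacter G χ) (h1 : χ ≠ fun _ => 1) :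
    ∃ d : ℕ, χ 1 = d ∧ 2 ≤ d ∧ ((3 ≤ d ∧ χ u = d - 4) ∨ χ u = 0) := by
  obtain ⟨d, hd0, hd⟩ := hχ.exists_nat_one
  have hd1 : d ≠ 1 := by
    rintro rfl
    exact h1 (linear_eq_one h.perf hχ.isCharacter (by simpa using hd))
  refine ⟨d, hd, by omega, ?_⟩
  rcases h.val χ hχ h1 with h3 | h3
  · refine Or.inl ⟨?_, by rw [← hd]; linear_combination -h3⟩
    by_contra h4
    obtain rfl : d = 2 := by omega
    have h5 : χ u = -2 := by rw [hd] at h3; push_cast at h3; linear_combination -h3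
    haveI := hχ.isCharacter.charCenter_normal
    have h6 : charCenter χ = ⊤ := h.eq_top (hχ.isCharacter.mem_charCenter.2 (by rw [h5, hd]; simp))
    have h7 := (hχ.charDegree_sq_le_index (Z := ⊤) h6.ge).1
    rw [charDegree_eq_of_eq hd, Subgroup.index_top] at h7
    omega
  · exact Or.inr h3

theorem four_le_irr {χ : G → ℂ} (hχ : IsIrrCharacter G χ) (h1 : χ ≠ fun _ => 1)
    (hK : u * u ∈ charKer χ) : 4 ≤ (χ 1 - χ u).re := by
  rw [hχ.mem_charKer] at hK
  obtain ⟨d, hd, h2, ⟨-, h3⟩ | h3⟩ := h.cases hχ h1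
  · rw [h3, hd]; simp
  · rw [h3, hd, sub_zero, Complex.natCast_re]
    have h4 : d ≠ 2 := by
      rintro rfl
      rw [apply_sq_of_two hχ.isCharacter (by simpa using hd) (h.mem u), h3, hd] at hK
      norm_num at hK
    have h5 : d ≠ 3 := by
      rintro rfl
      rw [apply_sq_of_three hχ.isCharacter (by simpa using hd) (h.mem u), h3, hd] at hK
      norm_num at hK
    exact_mod_cast (show 4 ≤ d by omega)

theorem of_neg {χ : G → ℂ} (hχ : IsIrrCharacter G χ) (h1 : (χ u).re < 0) : χ 1 = 3 ∧ χ u = -1 := by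
  obtain ⟨d, hd, -, ⟨h2, h3⟩ | h3⟩ := h.cases hχ (by rintro rfl; norm_num at h1)
  · rw [h3] at h1
    simp only [Complex.sub_re, Complex.natCast_re, Complex.re_ofNat, sub_neg] at h1
    have h4 : d < 4 := by exact_mod_cast h1
    obtain rfl : d = 3 := by omega
    exact ⟨by simpa using hd, by rw [h3]; norm_num⟩
  · rw [h3] at h1; simp at h1

end H4

variable [Fintype G]

namespace H4

variable {u : G} (h : H4 u)
include h

theorem split {φ : G → ℂ} (hφ : IsCharacter G φ) (h0 : φ ≠ 0)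
    (h1 : classInner φ (fun _ => 1) = 0) (hK : u * u ∈ charKer φ) :
    ∃ η β, IsIrrCharacter G η ∧ IsCharacter G β ∧ φ = η + β ∧ 4 ≤ (η 1 - η u).re ∧
      classInner β (fun _ => 1) = 0 ∧ u * u ∈ charKer β := by
  obtain ⟨η, hη, h2⟩ := exists_irr_constituent hφ h0
  obtain ⟨β, hβ, rfl⟩ := exists_char_eq_add_of_classInner_ne_zero hφ hη h2
  have h3 : η ≠ fun _ => 1 := by
    rintro rfl
    exact h2 h1
  rw [charKer_add hη.isCharacter hβ] at hK
  refine ⟨η, β, hη, hβ, rfl, h.four_le_irr hη h3 hK.1, ?_, hK.2⟩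
  rwa [classInner_add_left, hη.classInner_of_ne isIrrCharacter_one h3, zero_add] at h1

theorem four_le {φ : G → ℂ} (hφ : IsCharacter G φ) (h0 : φ ≠ 0)
    (h1 : classInner φ (fun _ => 1) = 0) (hK : u * u ∈ charKer φ) : 4 ≤ (φ 1 - φ u).re := by
  obtain ⟨η, β, -, hβ, rfl, h2, -⟩ := h.split hφ h0 h1 hK
  have h3 := re_sub_nonneg hβ u
  simp only [Pi.add_apply, Complex.sub_re, Complex.add_re] at h2 h3 ⊢
  linarith

theorem irr_of_four {φ : G → ℂ} (hφ : IsCharacter G φ) (h1 : classInner φ (fun _ => 1) = 0)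
    (hK : u * u ∈ charKer φ) (h4 : φ 1 - φ u = 4) : IsIrrCharacter G φ := by
  obtain ⟨η, β, hη, hβ, rfl, h2, h3, h5⟩ := h.split hφ (by rintro rfl; norm_num at h4) h1 hK
  by_cases h0 : β = 0
  · rwa [h0, add_zero]
  · have h6 := h.four_le hβ h0 h3 h5
    have h7 := congrArg Complex.re h4
    simp only [Pi.add_apply, Complex.sub_re, Complex.add_re, Complex.re_ofNat] at h2 h6 h7
    linarith

theorem exists_three {φ : G → ℂ} (hφ : IsCharacter G φ) (h1 : (φ u).re < 0) :
    ∃ ρ, IsIrrCharacter G ρ ∧ classInner φ ρ ≠ 0 ∧ ρ 1 = 3 ∧ ρ u = -1 := by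
  by_contra h2
  obtain ⟨m, hm, -⟩ := hφ.exists_eq_sum_nat
  rw [hφ.isClassFunction.apply_eq_sum_irr u, Complex.re_sum] at h1
  refine absurd h1 (not_lt.2 (Finset.sum_nonneg fun χ _ => ?_))
  by_cases h3 : classInner φ χ = 0
  · simp [h3]
  · rw [hm, Complex.mul_re, Complex.natCast_re, Complex.natCast_im, zero_mul, sub_zero]
    exact mul_nonneg (Nat.cast_nonneg _) (not_lt.1 fun h4 => h2 ⟨χ, χ.2, h3, h.of_neg χ.2 h4⟩)

variable {χ : G → ℂ} (hχ : IsIrrCharacter G χ) (h3 : χ 1 = 3) (hu : χ u = -1)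
include hχ h3

theorem sq3 (g : G) : χ (g * g) = χ g * χ g - 2 * conj (χ g) :=
  apply_sq_of_three hχ.isCharacter h3 (h.mem g)

theorem mul_self_eq : χ * χ = sym2 χ + fun g => conj (χ g) := by
  funext g
  simp only [Pi.mul_apply, Pi.add_apply, sym2, h.sq3 hχ h3]
  ring

theorem sym2_apply (g : G) : sym2 χ g = χ g * χ g - conj (χ g) := by
  have := congrFun (h.mul_self_eq hχ h3) g
  simp only [Pi.mul_apply, Pi.add_apply] at this
  rw [this]; ring

omit h hχ [Fintype G] in
theorem ne_one : χ ≠ fun _ => 1 := by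
  rintro rfl; norm_num at h3

include hu

theorem uu : χ (u * u) = 3 := by
  rw [h.sq3 hχ h3, hu]; norm_num

theorem sym2_facts : sym2 χ 1 = 6 ∧ sym2 χ u = 2 ∧ sym2 χ (u * u) = 6 := by
  simp only [h.sym2_apply hχ h3, h3, hu, h.uu hχ h3 hu]
  norm_num [map_ofNat]

theorem real : (fun g => conj (χ g)) = χ := by
  by_contra hne
  set χ' : G → ℂ := fun g => conj (χ g) with hχ'
  have hc : IsIrrCharacter G χ' := hχ.conj
  have c1 : χ' 1 = 3 := by simp only [hχ', h3, map_ofNat]
  have cu : χ' u = -1 := by simp only [hχ', hu, map_neg, map_one]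
  have cuu : χ' (u * u) = 3 := by simp only [hχ', h.uu hχ h3 hu, map_ofNat]
  obtain ⟨s1, su, suu⟩ := h.sym2_facts hχ h3 hu
  have hS0 := isCharacter_sym2 hχ.isCharacter
  have hsq : χ * χ = sym2 χ + χ' := h.mul_self_eq hχ h3
  have e1 : classInner (χ * χ) (fun _ => 1) = 0 := by
    rw [← hχ.classInner_of_ne hc (Ne.symm hne)]
    exact inner_congr fun g => by simp [hχ']
  rw [hsq, classInner_add_left, hc.classInner_of_ne isIrrCharacter_one (ne_one c1), add_zero] at e1
  have hS := h.irr_of_four hS0 e1 (hS0.mem_charKer.2 (by rw [s1, suu])) (by rw [s1, su]; norm_num)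
  have hSc : sym2 χ ≠ χ' := fun h4 => by rw [h4, c1] at s1; norm_num at s1
  have e2 : classInner (χ * χ) (χ * χ) = 2 := by
    rw [hsq, classInner_add_left, classInner_add_right, classInner_add_right, hS.classInner_self,
      hc.classInner_self, hS.classInner_of_ne hc hSc, hc.classInner_of_ne hS hSc.symm]
    norm_num
  have hP := hχ.isCharacter.mul hc.isCharacter
  have e3 : classInner (χ * χ') (fun _ => 1) = 1 :=
    (inner_congr fun g => by simp [hχ']).trans hχ.classInner_self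
  obtain ⟨ψ, hψ0, hψe⟩ := exists_char_eq_add_of_classInner_ne_zero hP isIrrCharacter_one
    (by rw [e3]; exact one_ne_zero)
  have e4 : classInner ψ (fun _ => 1) = 0 := by
    rw [hψe, classInner_add_left, isIrrCharacter_one.classInner_self] at e3
    linear_combination e3
  have e5 : classInner (χ * χ') (χ * χ') = 2 := by
    rw [← e2]
    exact inner_congr fun g => by simp only [hχ', Pi.mul_apply, map_mul, Complex.conj_conj]; ring
  rw [hψe, classInner_add_left, classInner_add_right, classInner_add_right,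
    isIrrCharacter_one.classInner_self, e4, isCharacter_one.classInner_comm hψ0, e4] at e5
  have hψ := hψ0.isIrrCharacter_of_norm_one (by linear_combination e5)
  have p1 : ψ 1 = 8 := by
    have := congrFun hψe 1
    simp only [Pi.mul_apply, Pi.add_apply, h3, c1] at this
    linear_combination -this
  have hQ := hS0.mul hc.isCharacter
  have e6 : classInner (sym2 χ * χ') χ = 1 := by
    have : classInner (sym2 χ * χ') χ = classInner (sym2 χ) (χ * χ) :=
      inner_congr fun g => by simp only [hχ', Pi.mul_apply, map_mul]; ring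
    rw [this, hsq, classInner_add_right, hS.classInner_self, hS.classInner_of_ne hc hSc, add_zero]
  obtain ⟨T, hT, hTe⟩ := exists_char_eq_add_of_classInner_ne_zero hQ hχ
    (by rw [e6]; exact one_ne_zero)
  have tu : T u = -1 := by
    have := congrFun hTe u
    simp only [Pi.mul_apply, Pi.add_apply, su, cu, hu] at this
    linear_combination -this
  obtain ⟨ρ, hρ, e7, r1, -⟩ := h.exists_three hT (by rw [tu]; norm_num)
  have hρχ : χ ≠ ρ := by
    rintro rfl
    rw [hTe, classInner_add_left, hχ.classInner_self] at e6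
    exact e7 (by linear_combination e6)
  have e8 : classInner (sym2 χ * χ') ρ ≠ 0 := by
    rwa [hTe, classInner_add_left, hχ.classInner_of_ne hρ hρχ, zero_add]
  have e9 := classInner_ne_zero_of_add_left hQ (hc.isCharacter.mul hc.isCharacter) hρ.isCharacter e8
  have hR := hc.isCharacter.mul hρ.isCharacter
  have e10 : classInner (χ' * ρ) (fun _ => 1) = 0 := by
    rw [← hρ.classInner_of_ne hχ hρχ.symm]
    exact inner_congr fun g => by simp [hχ', mul_comm]
  rw [← add_mul, ← hsq, show classInner (χ * χ * χ') ρ = classInner (χ * χ') (χ' * ρ) from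
    inner_congr fun g => by simp only [hχ', Pi.mul_apply, map_mul, Complex.conj_conj]; ring,
    hψe, classInner_add_left, isCharacter_one.classInner_comm hR, e10, zero_add,
    hψ0.classInner_comm hR] at e9
  obtain ⟨β, hβ, hβe⟩ := exists_char_eq_add_of_classInner_ne_zero hR hψ e9
  have b1 : β 1 = 1 := by
    have := congrFun hβe 1
    simp only [Pi.mul_apply, Pi.add_apply, r1, c1, p1] at this
    linear_combination -this
  rw [hβe, linear_eq_one h.perf hβ b1, classInner_add_left, e4,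
    isIrrCharacter_one.classInner_self] at e10
  norm_num at e10

theorem conj_eq (g : G) : conj (χ g) = χ g := congrFun (h.real hχ h3 hu) g

theorem sq3' (g : G) : χ (g * g) = χ g * χ g - 2 * χ g := by
  rw [h.sq3 hχ h3, h.conj_eq hχ h3 hu]

theorem xi_irr : IsIrrCharacter G (xi χ) := by
  obtain ⟨s1, su, suu⟩ := h.sym2_facts hχ h3 hu
  have hS0 := isCharacter_sym2 hχ.isCharacter
  have hsq := h.mul_self_eq hχ h3
  rw [h.real hχ h3 hu] at hsq
  have e1 : classInner (χ * χ) (fun _ => 1) = 1 :=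
    (inner_congr fun g => by simp [h.conj_eq hχ h3 hu]).trans hχ.classInner_self
  rw [hsq, classInner_add_left, hχ.classInner_of_ne isIrrCharacter_one (ne_one h3), add_zero] at e1
  obtain ⟨ξ, hξ, hξe⟩ := exists_char_eq_add_of_classInner_ne_zero hS0 isIrrCharacter_one
    (by rw [e1]; exact one_ne_zero)
  have e2 : ∀ g, ξ g = sym2 χ g - 1 := fun g => by
    have := congrFun hξe g
    simp only [Pi.add_apply] at this
    rw [this]; ring
  rw [hξe, classInner_add_left, isIrrCharacter_one.classInner_self] at e1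
  have e3 : xi χ = ξ := by
    funext g
    rw [e2, h.sym2_apply hχ h3, h.conj_eq hχ h3 hu, xi]
  rw [e3]
  exact h.irr_of_four hξ (by linear_combination e1) (hξ.mem_charKer.2 (by rw [e2, e2, s1, suu]))
    (by rw [e2, e2, s1, su]; norm_num)

omit h hχ [Fintype G] in
theorem xi_facts : xi χ 1 = 5 ∧ xi χ u = 1 := by
  simp only [xi, h3, hu]
  norm_num

theorem xi_eq {χ' : G → ℂ} (hχ' : IsIrrCharacter G χ') (h3' : χ' 1 = 3) (hu' : χ' u = -1) :
    xi χ = xi χ' := by
  by_cases hne : χ = χ'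
  · rw [hne]
  by_contra hx
  have hξ := h.xi_irr hχ h3 hu
  have hξ' := h.xi_irr hχ' h3' hu'
  obtain ⟨x1, -⟩ := xi_facts h3 hu
  obtain ⟨x1', -⟩ := xi_facts h3' hu'
  have ne : ∀ {a b : G → ℂ} {s t : ℂ}, a 1 = s → b 1 = t → s ≠ t → a ≠ b := by
    rintro a b s t rfl rfl h1 rfl
    exact h1 rfl
  have o1 : (fun _ : G => (1 : ℂ)) 1 = 1 := rfl
  have e1 : classInner (χ * χ') (χ * χ') =
      classInner ((fun _ => 1) + χ + xi χ) ((fun _ => 1) + χ' + xi χ') :=
    inner_congr fun g => by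
      simp only [Pi.mul_apply, Pi.add_apply, xi, map_mul, map_add, map_sub, map_one,
        h.conj_eq hχ h3 hu, h.conj_eq hχ' h3' hu']
      ring
  simp only [classInner_add_left, classInner_add_right] at e1
  rw [isIrrCharacter_one.classInner_self,
    isIrrCharacter_one.classInner_of_ne hχ' (ne o1 h3' (by norm_num)),
    isIrrCharacter_one.classInner_of_ne hξ' (ne o1 x1' (by norm_num)),
    hχ.classInner_of_ne isIrrCharacter_one (ne h3 o1 (by norm_num)), hχ.classInner_of_ne hχ' hne,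
    hχ.classInner_of_ne hξ' (ne h3 x1' (by norm_num)),
    hξ.classInner_of_ne isIrrCharacter_one (ne x1 o1 (by norm_num)),
    hξ.classInner_of_ne hχ' (ne x1 h3' (by norm_num)), hξ.classInner_of_ne hξ' hx] at e1
  have hP := (hχ.isCharacter.mul hχ'.isCharacter).isIrrCharacter_of_norm_one
    (by linear_combination e1)
  have p1 : (χ * χ') 1 = 9 := by rw [Pi.mul_apply, h3, h3']; norm_num
  have pu : (χ * χ') u = 1 := by rw [Pi.mul_apply, hu, hu']; norm_num
  rcases h.val _ hP (ne p1 o1 (by norm_num)) with h4 | h4 <;> rw [pu] at h4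
  · rw [p1] at h4; norm_num at h4
  · norm_num at h4

theorem alt2_xi : classInner (alt2 (xi χ)) χ = 1 := by
  have hξ := h.xi_irr hχ h3 hu
  obtain ⟨x1, -⟩ := xi_facts h3 hu
  have e1 : classInner (alt2 (xi χ)) χ = classInner (xi χ) ((fun _ => 1) + xi χ) :=
    inner_congr fun g => by
      simp only [alt2, Pi.add_apply, xi, map_mul, map_add, map_sub, map_one,
        h.conj_eq hχ h3 hu, h.sq3' hχ h3 hu]
      ring
  rw [e1, classInner_add_right, hξ.classInner_self, hξ.classInner_of_ne isIrrCharacter_one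
    (fun h4 => by rw [h4] at x1; norm_num at x1), zero_add]

theorem ker_le {χ' : G → ℂ} (hχ' : IsIrrCharacter G χ') (h3' : χ' 1 = 3) (hu' : χ' u = -1) :
    charKer χ ≤ charKer χ' := by
  intro n hn
  rw [hχ.mem_charKer, h3] at hn
  rw [hχ'.mem_charKer, h3']
  have e1 := congrFun (h.xi_eq hχ h3 hu hχ' h3' hu') n
  simp only [xi, hn] at e1
  have e2 : (χ' n - 3) * (χ' n + 2) = 0 := by linear_combination -e1
  rcases mul_eq_zero.1 e2 with e3 | e3
  · linear_combination e3
  · have e4 := hχ'.isCharacter.norm_le (n * n)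
    rw [h.sq3' hχ' h3' hu', eq_neg_of_add_eq_zero_left e3,
      charDegree_eq_of_eq (n := 3) (by simpa using h3')] at e4
    norm_num at e4

theorem val_neg {x : G} (h1 : x ∉ charKer χ) (h2 : x * x ∈ charKer χ) : χ x = -1 := by
  rw [hχ.mem_charKer, h3] at h1 h2
  rw [h.sq3' hχ h3 hu] at h2
  have e2 : (χ x - 3) * (χ x + 1) = 0 := by linear_combination h2
  exact eq_neg_of_add_eq_zero_left ((mul_eq_zero.1 e2).resolve_left (sub_ne_zero.2 h1))

omit hχ h3 hu

theorem five_le {η : G → ℂ} (hη : IsIrrCharacter G η) (h1 : η ≠ fun _ => 1)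
    (h2 : ¬ (η 1 = 3 ∧ η u = -1)) (h0 : η u ≠ 0) : 5 ≤ (η 1 * η u).re := by
  obtain ⟨d, hd, -, ⟨h4, h5⟩ | h5⟩ := h.cases hη h1
  · have h6 : d ≠ 3 := by
      rintro rfl
      exact h2 ⟨by simpa using hd, by rw [h5]; norm_num⟩
    have h7 : d ≠ 4 := by
      rintro rfl
      exact h0 (by rw [h5]; norm_num)
    obtain ⟨k, rfl⟩ : ∃ k, d = k + 5 := ⟨d - 5, by omega⟩
    rw [hd, h5, show ((k + 5 : ℕ) : ℂ) * (((k + 5 : ℕ) : ℂ) - 4) = ((k + 5) * (k + 1) : ℕ) by
      push_cast; ring, Complex.natCast_re]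
    exact_mod_cast (show 5 ≤ (k + 5) * (k + 1) by nlinarith)
  · exact absurd h5 h0

theorem main : ∃ χ, IsIrrCharacter G χ ∧ χ 1 = 3 ∧ χ u = -1 ∧
    Nat.card (Subgroup.centralizer ({u} : Set G)) = 4 ∧
    ∀ x, x ∉ charKer χ → x * x ∈ charKer χ → IsConj u x := by
  classical
  have hsum := congrArg Complex.re (burnside_sum_degree_mul h.ne)
  rw [Complex.re_sum, Complex.zero_re] at hsum
  set A := Finset.univ.filter fun η : IrrCharacter G => (η : G → ℂ) 1 = 3 ∧ (η : G → ℂ) u = -1
    with hA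
  have hone : ∀ η : IrrCharacter G, η ≠ irrOne G → (η : G → ℂ) ≠ fun _ => 1 :=
    fun η h1 h2 => h1 (Subtype.ext h2)
  have hnn : ∀ η : IrrCharacter G, η ∉ A → 0 ≤ ((η : G → ℂ) 1 * (η : G → ℂ) u).re := by
    intro η hη
    by_cases h1 : η = irrOne G
    · simp [h1]
    by_cases h0 : (η : G → ℂ) u = 0
    · simp [h0]
    · exact le_trans (by norm_num) (h.five_le η.2 (hone η h1) (by simpa [hA] using hη) h0)
  obtain ⟨χ, hχA⟩ : A.Nonempty := by
    by_contra h1
    rw [Finset.not_nonempty_iff_eq_empty] at h1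
    exact absurd hsum (Finset.sum_pos' (fun η _ => hnn η (by simp [h1]))
      ⟨irrOne G, Finset.mem_univ _, by simp⟩).ne'
  obtain ⟨h3, hu⟩ := (Finset.mem_filter.1 hχA).2
  set ξ : IrrCharacter G := ⟨xi χ, h.xi_irr χ.2 h3 hu⟩ with hξ
  obtain ⟨x1, xu⟩ : (ξ : G → ℂ) 1 = 5 ∧ (ξ : G → ℂ) u = 1 := xi_facts h3 hu
  have h1A : irrOne G ∈ Finset.univ \ A := by
    simp only [hA, Finset.mem_sdiff, Finset.mem_univ, Finset.mem_filter, irrOne_apply]
    norm_num
  have hξA : ξ ∈ (Finset.univ \ A).erase (irrOne G) := by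
    refine Finset.mem_erase.2 ⟨fun h1 => ?_, ?_⟩
    · rw [h1, irrOne_apply] at x1; norm_num at x1
    · simp only [hA, Finset.mem_sdiff, Finset.mem_univ, Finset.mem_filter, x1]
      norm_num
  set B := ((Finset.univ \ A).erase (irrOne G)).erase ξ with hB
  have hsplit : ∀ f : IrrCharacter G → ℝ,
      ∑ η, f η = f (irrOne G) + (f ξ + ∑ η ∈ B, f η) + ∑ η ∈ A, f η := fun f => by
    rw [Finset.add_sum_erase _ _ hξA, Finset.add_sum_erase _ _ h1A,
      Finset.sum_sdiff (Finset.subset_univ A)]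
  have hcard : A.card ≤ 3 := by
    have hL := isCharacter_alt2 ξ.2.isCharacter
    obtain ⟨m, hm, -⟩ := hL.exists_eq_sum_nat
    have e1 := hL.charDegree_eq_sum m hm
    rw [charDegree_eq_of_eq (n := 10) (by simp only [alt2, mul_one, x1]; norm_num)] at e1
    have e2 : ∑ η ∈ A, m η * charDegree (η : G → ℂ) ≤ 10 :=
      e1 ▸ Finset.sum_le_sum_of_subset (Finset.subset_univ A)
    rw [Finset.sum_congr rfl (g := fun _ => 3) fun η hη => by
      obtain ⟨h3', hu'⟩ := (Finset.mem_filter.1 hη).2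
      have e3 := hm η
      rw [show (ξ : G → ℂ) = xi η from h.xi_eq χ.2 h3 hu η.2 h3' hu', h.alt2_xi η.2 h3' hu'] at e3
      rw [charDegree_eq_of_eq (n := 3) (by simpa using h3'),
        show m η = 1 by exact_mod_cast e3.symm], Finset.sum_const, smul_eq_mul] at e2
    omega
  rw [hsplit, Finset.sum_congr rfl (s₁ := A) (g := fun _ => -3) fun η hη => by
    obtain ⟨h3', hu'⟩ := (Finset.mem_filter.1 hη).2
    rw [h3', hu']; norm_num, Finset.sum_const, nsmul_eq_mul, x1, xu] at hsum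
  simp only [irrOne_apply, mul_one, Complex.one_re, Complex.re_ofNat] at hsum
  have hBA : ∀ η ∈ B, η ∉ A := fun η hη =>
    (Finset.mem_sdiff.1 (Finset.mem_of_mem_erase (Finset.mem_of_mem_erase hη))).2
  have hc3 : (A.card : ℝ) ≤ 3 := by exact_mod_cast hcard
  have hB0 : ∀ η ∈ B, (η : G → ℂ) u = 0 := by
    intro η hη
    by_contra h0
    have e1 := h.five_le η.2 (hone η (Finset.ne_of_mem_erase (Finset.mem_of_mem_erase hη)))
      (by simpa [hA] using hBA η hη) h0
    have e2 := Finset.single_le_sum (fun η hη => hnn η (hBA η hη)) hη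
    linarith
  rw [Finset.sum_eq_zero fun η hη => by rw [hB0 η hη]; simp] at hsum
  have hn := sum_irr_norm_sq u
  rw [hsplit, Finset.sum_eq_zero fun η hη => by rw [hB0 η hη]; simp,
    Finset.sum_congr rfl (s₁ := A) (g := fun _ => 1) fun η hη => by
      rw [(Finset.mem_filter.1 hη).2.2]; simp, Finset.sum_const, nsmul_eq_mul, xu] at hn
  simp only [irrOne_apply, norm_one] at hn
  have h4 : Nat.card (Subgroup.centralizer ({u} : Set G)) = 4 := by
    exact_mod_cast (show (Nat.card (Subgroup.centralizer ({u} : Set G)) : ℝ) = 4 by linarith)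
  refine ⟨χ, χ.2, h3, hu, h4, fun x hx1 hx2 => ?_⟩
  have key : ∀ η : IrrCharacter G, (η : G → ℂ) u ≠ 0 → (η : G → ℂ) x = (η : G → ℂ) u := by
    intro η h0
    by_cases h1 : η ∈ A
    · obtain ⟨h3', hu'⟩ := (Finset.mem_filter.1 h1).2
      rw [hu']
      exact h.val_neg η.2 h3' hu' (fun h5 => hx1 (h.ker_le η.2 h3' hu' χ.2 h3 hu h5))
        (h.ker_le χ.2 h3 hu η.2 h3' hu' hx2)
    by_cases h2 : η = irrOne G
    · simp [h2]
    by_cases h5 : η = ξ
    · simp only [h5, hξ, xi, h.val_neg χ.2 h3 hu hx1 hx2, hu]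
    · exact absurd (hB0 η (Finset.mem_erase.2 ⟨h5, Finset.mem_erase.2
        ⟨h2, Finset.mem_sdiff.2 ⟨Finset.mem_univ _, h1⟩⟩⟩)) h0
  by_contra hc
  have e1 := sum_irr_mul_conj_of_not_isConj (fun h5 : IsConj x u => hc h5.symm)
  rw [Finset.sum_congr rfl (g := fun η : IrrCharacter G => (η : G → ℂ) u * conj ((η : G → ℂ) u))
    fun η _ => by
      by_cases h0 : (η : G → ℂ) u = 0
      · simp [h0]
      · rw [key η h0], sum_irr_mul_conj_self, h4] at e1
  norm_num at e1

end H4

end CL.Blk.DV
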