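/-
Groups with an element `u ≠ 1` such that `χ(1) - χ(u) = 4` or `χ(u) = 0` for every non-principal
irreducible character: the group theory.
-/
import Cfsg.Agent.Blk.DegVal2
import Cfsg.Agent.Inv.FewInv
import Cfsg.Agent.Inv.SL2Cover
import Cfsg.Agent.Inv.Rk2Fus
import Cfsg.Agent.Cls.SmallIso
import Cfsg.Agent.Char.BSGroup
import Cfsg.Agent.Grp.CoresPi
import Cfsg.Agent.Grp.MinNormal

set_option autoImplicit false
set_option linter.style.haveILetI false

open Cfsg
open scoped MatrixGroups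

namespace CL.Blk.DV

open CL.Char CL.Grp CL.Inv.FI

variable {G : Type*} [Group G]

theorem eq_sq_of_four {c w : G} (hc : orderOf c = 4) (hw : w ∈ Subgroup.zpowers c) (h1 : w ≠ 1)
    (h2 : w * w = 1) : w = c * c := by
  classical
  have hf : IsOfFinOrder c := orderOf_pos_iff.1 (by omega)
  rw [← hf.mem_powers_iff_mem_zpowers, hf.mem_powers_iff_mem_range_orderOf, hc] at hw
  obtain ⟨i, hi, rfl⟩ := Finset.mem_image.1 hw
  rw [← pow_add, ← orderOf_dvd_iff_pow_eq_one, hc] at h2
  rw [Finset.mem_range] at hi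
  obtain rfl | rfl : i = 0 ∨ i = 2 := by omega
  · simp at h1
  · exact pow_two c

theorem orderOf_eq_of_isConj {a b : G} (h : IsConj a b) : orderOf b = orderOf a := by
  obtain ⟨c, hc⟩ := h
  exact (hc.orderOf_eq (c : G)).symm

variable [Finite G]

theorem cent_eq_zpowers {c : G} (hc : orderOf c = 4)
    (h : Nat.card (Subgroup.centralizer ({c} : Set G)) = 4) :
    Subgroup.centralizer ({c} : Set G) = Subgroup.zpowers c :=
  (Subgroup.eq_of_le_of_card_ge (Subgroup.zpowers_le.2 (by rintro _ rfl; rfl))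
    (by rw [h, Nat.card_zpowers, hc])).symm

theorem not_npc (hp : commutator G = ⊤) (h2 : 2 ∣ Nat.card G) : ¬ HasNormalPComplement 2 G := by
  intro h
  haveI : Group.IsPerfect G := ⟨hp⟩
  rw [hasNormalPComplement_iff_not_dvd_pResidual] at h
  haveI := (isPGroup_quotient_pResidual 2 G).isNilpotent
  have h3 : pResidual 2 G = ⊤ := by
    by_contra h4
    haveI := QuotientGroup.nontrivial_iff.2 h4
    exact Group.IsPerfect.not_isNilpotent (G ⧸ pResidual 2 G) inferInstance
  rw [h3, Subgroup.card_top] at h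
  exact h h2

omit [Finite G] in
theorem index_ne_two (hp : commutator G = ⊤) (H : Subgroup G) : H.index ≠ 2 := by
  intro h
  haveI : Group.IsPerfect G := ⟨hp⟩
  haveI := H.normal_of_index_eq_two h
  haveI : Fact (Nat.Prime 2) := ⟨Nat.prime_two⟩
  haveI : IsCyclic (G ⧸ H) := isCyclic_of_prime_card (p := 2) h
  have h3 : Subsingleton (G ⧸ H) := Group.IsPerfect.subsingleton_of_isMulCommutative
  rw [Subgroup.index, Nat.card_of_subsingleton (1 : G ⧸ H)] at h
  omega

namespace H4

omit [Finite G] in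
theorem quotient {u : G} (h : H4 u) {N : Subgroup G} [N.Normal] (hu : u ∉ N) : H4 (u : G ⧸ N) where
  ne := (QuotientGroup.eq_one_iff u).not.2 hu
  perf := by
    haveI : Group.IsPerfect G := ⟨h.perf⟩
    exact Group.IsPerfect.commutator_eq_top
  val := fun ψ hψ h1 => h.val _ hψ.inflate fun h2 => h1 (by
    funext q
    obtain ⟨g, rfl⟩ := QuotientGroup.mk_surjective q
    exact congrFun h2 g)

theorem alt5 {v : G} (h : H4 v) (hv : orderOf v = 2) (hc : ∀ y, orderOf y = 2 → IsConj v y) :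
    Nonempty (G ≃* alternatingGroup (Fin 5)) ∧ IsKleinFour (Subgroup.centralizer ({v} : Set G)) ∧
      ∀ S : Sylow 2 G, Nat.card S = 4 ∧ ∀ y ∈ S, y * y = 1 := by
  haveI := Fintype.ofFinite G
  obtain ⟨χ, hχ, h3, hu, h4, -⟩ := h.main
  obtain ⟨S, hS⟩ := exists_sylow_le_of_one_class hv hc
  have hSC := S.is_maximal' (IsPGroup.of_card (n := 2) h4) hS
  have hsq : ∀ c ∈ Subgroup.centralizer ({v} : Set G), c ^ 2 = 1 := by
    intro c hc
    by_contra h5
    have h6 : orderOf (⟨c, hc⟩ : Subgroup.centralizer ({v} : Set G)) ∣ 2 ^ 2 :=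
      (orderOf_dvd_natCard _).trans h4.dvd
    obtain ⟨k, hk, h7⟩ := (Nat.dvd_prime_pow Nat.prime_two).1 h6
    have h8 : k = 2 := by
      by_contra h8
      refine h5 (orderOf_dvd_iff_pow_eq_one.1 ?_)
      rw [← Subgroup.orderOf_mk c hc, h7]
      obtain rfl | rfl : k = 0 ∨ k = 1 := by omega
      all_goals norm_num
    have h9 : IsCyclic (Subgroup.centralizer ({v} : Set G)) :=
      isCyclic_of_orderOf_eq_card _ (by rw [h7, h8, h4]; rfl)
    exact not_npc h.perf (hv ▸ orderOf_dvd_natCard v)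
      (bs_hasNormalPComplement_of_isCyclic S (by rwa [hSC] at h9))
  have hK := isKleinFour_of_sq h4 hsq
  refine ⟨?_, hK, fun T => ?_⟩
  · obtain ⟨F, _, _, hF | hF, ⟨e⟩⟩ := psl_of_klein hv hK fun y hy _ => hc y hy
    · obtain ⟨e'⟩ := CL.Cls.nonempty_PSL2_three hF
      have h5 := ((h.xi_irr hχ h3 hu).charDegree_sq_le_index (Z := ⊥) bot_le).1
      rw [charDegree_eq_of_eq (n := 5) (by simpa using (xi_facts h3 hu).1), Subgroup.index_bot,
        Nat.card_congr (e.trans e').toEquiv, nat_card_alternatingGroup] at h5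
      simp [Nat.factorial] at h5
    · obtain ⟨e'⟩ := CL.Cls.nonempty_PSL2_five hF
      exact ⟨e.trans e'⟩
  · obtain ⟨g, rfl⟩ := MulAction.exists_smul_eq G S T
    refine ⟨by rw [Sylow.coe_subgroup_smul, card_conj_smul, ← hSC, h4], fun y hy => ?_⟩
    have h5 := hsq _ (hS ((mem_sylow_smul_iff g y S).1 hy))
    have h6 : g⁻¹ * (y * y) * g = 1 := by rw [← h5, pow_two]; group
    rwa [mul_assoc, inv_mul_eq_one, eq_comm, mul_eq_right] at h6

end H4

theorem H4.structure {u : G} (h : H4 u) : IsMulCommutative (oddCore G) ∧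
    ((Nonempty (G ⧸ oddCore G ≃* PSL(2, ZMod 5)) ∧ orderOf u = 2) ∨
      (Nonempty (G ⧸ oddCore G ≃* SL(2, ZMod 5)) ∧ orderOf u = 4)) := by
  haveI := Fintype.ofFinite G
  haveI : Fact (Nat.Prime 5) := ⟨by norm_num⟩
  obtain ⟨χ, hχ, h3, hu, h4, hconj⟩ := h.main
  haveI := hχ.charKer_normal
  have huN : u ∉ charKer χ := fun h5 => h.not_ker hχ (H4.ne_one h3) (hχ.mem_charKer.1 h5)
  have huu : u * u ∈ charKer χ := hχ.mem_charKer.2 (by rw [h.uu hχ h3 hu, h3])
  generalize charKer χ = N at *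
  set π := QuotientGroup.mk' N with hπ
  have hπ1 : ∀ x, π x = 1 ↔ x ∈ N := QuotientGroup.eq_one_iff
  have hlift : ∀ x, π x ≠ 1 → π x * π x = 1 → IsConj u x := fun x h1 h2 =>
    hconj x (fun h5 => h1 ((hπ1 x).2 h5)) ((hπ1 _).1 (by rw [map_mul, h2]))
  have hv1 : π u ≠ 1 := (hπ1 u).not.2 huN
  have hv2 : π u * π u = 1 := by rw [← map_mul, hπ1]; exact huu
  have hv : orderOf (π u) = 2 := orderOf_eq_prime (by rw [pow_two, hv2]) hv1
  obtain ⟨⟨e⟩, hK, hS⟩ := (h.quotient huN).alt5 hv fun y hy => by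
    obtain ⟨x, rfl⟩ := QuotientGroup.mk'_surjective N y
    exact π.map_isConj (hlift x (by rintro h5; rw [← hπ, h5] at hy; simp at hy)
      (by rw [← pow_two, ← hy, pow_orderOf_eq_one]))
  obtain ⟨e'⟩ := CL.Cls.nonempty_PSL2_five (F := ZMod 5) (ZMod.card 5)
  have hON : oddCore G ≤ N := by
    haveI : IsSimpleGroup (G ⧸ N) := e.isSimpleGroup
    have h5 := map_pPrimeCore_le_of_surjective (p := 2) (QuotientGroup.mk'_surjective N)
    rcases Subgroup.Normal.eq_bot_or_eq_top (inferInstance : (pPrimeCore 2 (G ⧸ N)).Normal)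
      with h6 | h6
    · rwa [h6, le_bot_iff, Subgroup.map_eq_bot_iff, QuotientGroup.ker_mk'] at h5
    · have h7 := (pPrimeCore_eq_top_iff.1 h6).coprime_dvd_left (hv ▸ orderOf_dvd_natCard (π u))
      norm_num at h7
  have huC : u ∈ Subgroup.centralizer ({u} : Set G) := by rintro _ rfl; rfl
  have hmem : ∀ {a b : G}, a ∈ Subgroup.centralizer ({b} : Set G) ↔ a * b = b * a :=
    Subgroup.mem_centralizer_singleton_iff
  obtain ⟨k, hk, hk'⟩ := (Nat.dvd_prime_pow Nat.prime_two (m := 2)).1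
    ((Subgroup.orderOf_dvd_natCard _ huC).trans h4.dvd)
  obtain ⟨P, hP⟩ := (IsPGroup.of_card (n := k) ((Nat.card_zpowers u).trans hk')).exists_le_sylow
  have huP := hP (Subgroup.mem_zpowers u)
  obtain ⟨hc, hsq⟩ := hS (P.mapSurjective (QuotientGroup.mk'_surjective N))
  have hsq' : ∀ x ∈ P, π x * π x = 1 := fun x hx => hsq _ (Subgroup.mem_map_of_mem π hx)
  obtain ⟨t, htP, ht⟩ : ∃ t ∈ P, π t ∉ Subgroup.zpowers (π u) := by
    by_contra h5
    push Not at h5
    have h6 := Subgroup.card_le_of_le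
      (show (P.mapSurjective (QuotientGroup.mk'_surjective N) : Subgroup (G ⧸ N)) ≤
        Subgroup.zpowers (π u) from Subgroup.map_le_iff_le_comap.2 fun t ht => h5 t ht)
    rw [hc, Nat.card_zpowers, hv] at h6
    omega
  have ht1 : π t ≠ 1 := fun h5 => ht (h5 ▸ one_mem _)
  have hut1 : π (u * t) ≠ 1 := fun h5 => ht (by
    rw [map_mul, mul_eq_one_iff_inv_eq] at h5
    exact h5 ▸ inv_mem (Subgroup.mem_zpowers _))
  have hcos : ∀ x ∈ P, π x ≠ 1 → ∀ n ∈ N, IsConj u (x * n) := fun x hx h1 n hn =>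
    hlift _ (by rwa [map_mul, (hπ1 n).2 hn, mul_one])
      (by rw [map_mul, (hπ1 n).2 hn, mul_one, hsq' x hx])
  -- an element of `N` inverted by `u`, `t` and `u t` is an involution commuting with `u`
  have hinv : ∀ n : G, u * n * (u * n) = u * u → t * n * (t * n) = t * t →
      u * t * n * (u * t * n) = u * t * (u * t) → n * n = 1 ∧ n * u = u * n := by
    intro n h1 h2 h5
    have e1 : n * u = u * n⁻¹ := by
      rw [eq_mul_inv_iff_mul_eq, ← mul_left_cancel_iff (a := u), ← h1]; group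
    have e2 : n * t = t * n⁻¹ := by
      rw [eq_mul_inv_iff_mul_eq, ← mul_left_cancel_iff (a := t), ← h2]; group
    have e3 : n * (u * t) = u * t * n⁻¹ := by
      rw [eq_mul_inv_iff_mul_eq, ← mul_left_cancel_iff (a := u * t), ← h5]; group
    have e4 : n⁻¹ * t = t * n := by
      rw [inv_mul_eq_iff_eq_mul, ← mul_assoc, e2, inv_mul_cancel_right]
    rw [← mul_assoc, e1, mul_assoc, e4, ← mul_assoc, mul_left_cancel_iff] at e3
    exact ⟨by nth_rewrite 2 [e3]; simp, by rw [e1, ← e3]⟩
  have hk0 : k ≠ 0 := by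
    rintro rfl
    exact h.ne (orderOf_eq_one_iff.1 hk')
  obtain rfl | rfl : k = 1 ∨ k = 2 := by omega
  · have hs : ∀ x, IsConj u x → x * x = 1 := fun x hx => by
      rw [← pow_two, ← orderOf_dvd_iff_pow_eq_one, orderOf_eq_of_isConj hx, hk', pow_one]
    have hs' : ∀ x ∈ P, π x ≠ 1 → ∀ n ∈ N, x * n * (x * n) = x * x := fun x hx h1 n hn => by
      rw [hs _ (hcos x hx h1 n hn), hs _ (hlift x h1 (hsq' x hx))]
    have htC : t ∈ Subgroup.centralizer ({u} : Set G) := by
      have e1 := hs _ (hlift _ hut1 (hsq' _ (P.1.mul_mem huP htP)))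
      have e2 := hs _ (hlift _ ht1 (hsq' _ htP))
      have e3 := hs u (IsConj.refl u)
      rw [hmem]
      calc t * u = (u * u) * t * u * (t * t) := by rw [e2, e3]; group
        _ = u * (u * t * (u * t)) * t := by group
        _ = u * t := by rw [e1, mul_one]
    have e1 := card_eq_card_inf_ker_mul_card_map π (Subgroup.centralizer ({u} : Set G))
    have e2 : 2 < Nat.card ((Subgroup.centralizer ({u} : Set G)).map π) := by
      rw [← hv, ← Nat.card_zpowers]
      exact card_lt_card_of_lt (lt_of_le_of_ne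
        (Subgroup.zpowers_le.2 (Subgroup.mem_map_of_mem π huC))
        fun h5 => ht (h5 ▸ Subgroup.mem_map_of_mem π htC))
    rw [h4, hπ, QuotientGroup.ker_mk', inf_eq_left.2 fun n hn => hmem.2
      (hinv n (hs' u huP hv1 n hn) (hs' t htP ht1 n hn)
        (hs' _ (P.1.mul_mem huP htP) hut1 n hn)).2] at e1
    have e3 : Nat.card N = 1 := by
      have := Nat.card_pos (α := N)
      rw [hπ] at e2
      nlinarith
    have e4 : oddCore G = N := le_antisymm hON (by rw [Subgroup.eq_bot_of_card_eq _ e3]; exact bot_le)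
    refine ⟨?_, Or.inl ⟨⟨((QuotientGroup.quotientMulEquivOfEq e4).trans e).trans e'.symm⟩, hk'⟩⟩
    rw [e4, Subgroup.eq_bot_of_card_eq _ e3]
    infer_instance
  · have ho : orderOf u = 4 := hk'
    have hz1 : u * u ≠ 1 := fun h5 => by
      have := orderOf_dvd_iff_pow_eq_one.2 ((pow_two u).trans h5)
      rw [ho] at this
      omega
    have hz2 : u * u * (u * u) = 1 := by rw [← pow_orderOf_eq_one u, ho]; simp [pow_succ, mul_assoc]
    have hzP : ∀ x ∈ P, x * (u * u) = u * u * x := by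
      obtain ⟨w, -, w1, w2, hw⟩ := CL.Rk2.exists_central_involution P.isPGroup'
        fun h5 => h.ne (by simpa [h5] using huP)
      rwa [← eq_sq_of_four ho (cent_eq_zpowers ho h4 ▸ hmem.2 (hw u huP).symm) w1 w2]
    have hs : ∀ x, IsConj u x → x * (u * u) = u * u * x → x * x = u * u := fun x hx hc => by
      have e1 : orderOf x = 4 := (orderOf_eq_of_isConj hx).trans ho
      exact (eq_sq_of_four e1 (cent_eq_zpowers e1 (card_centralizer_eq_of_isConj hx ▸ h4) ▸
        hmem.2 hc.symm) hz1 hz2).symm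
    have hC : ∀ n ∈ N, n * (u * u) = u * u * n → n = 1 ∨ n = u * u := by
      intro n hn hc
      have hs' : ∀ x ∈ P, π x ≠ 1 → x * n * (x * n) = x * x := fun x hx h1 => by
        rw [hs _ (hcos x hx h1 n hn) (by rw [mul_assoc, hc, ← mul_assoc, hzP x hx, mul_assoc]),
          hs _ (hlift x h1 (hsq' x hx)) (hzP x hx)]
      obtain ⟨e1, e2⟩ := hinv n (hs' u huP hv1) (hs' t htP ht1) (hs' _ (P.1.mul_mem huP htP) hut1)
      exact or_iff_not_imp_left.2 fun e3 =>
        eq_sq_of_four ho (cent_eq_zpowers ho h4 ▸ hmem.2 e2) e3 e1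
    have hzo : orderOf (u * u) = 2 := orderOf_eq_prime (by rw [pow_two, hz2]) hz1
    have hzO : u * u ∉ oddCore G := fun h5 =>
      not_dvd_card_pPrimeCore 2 G (hzo.symm.dvd.trans (Subgroup.orderOf_dvd_natCard _ h5))
    have hQ : (P : Subgroup G) ⊓ N = Subgroup.zpowers (u * u) := by
      refine le_antisymm (fun x hx => ?_) (Subgroup.zpowers_le.2 ⟨P.1.mul_mem huP huP, huu⟩)
      rcases hC x hx.2 (hzP x hx.1) with rfl | rfl
      · exact one_mem _
      · exact Subgroup.mem_zpowers _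
    have hSyl := isSylowIn_inf_normal P N
    rw [hQ] at hSyl
    have hnpc := bs_hasNormalPComplement_of_isSylowIn hSyl inferInstance
    have hrel : (oddCore G).relIndex N = 2 := by
      have e1 := (HasNormalPComplement.isComplement' hnpc hSyl.toSylow).symm.index_eq_card
      rw [hSyl.coe_toSylow, card_subgroupOf_of_le hSyl.le, Nat.card_zpowers, hzo] at e1
      have e2 : (pResidual 2 N).map N.subtype ≤ oddCore G := le_pPrimeCore (by
        rw [card_map_subtype]; exact hasNormalPComplement_iff_coprime_pResidual.1 hnpc)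
      have e3 : (oddCore G).relIndex N ∣ 2 :=
        e1 ▸ Subgroup.index_dvd_of_le (Subgroup.map_le_iff_le_comap.1 e2)
      exact ((Nat.dvd_prime Nat.prime_two).1 e3).resolve_left fun h5 =>
        hzO (Subgroup.relIndex_eq_one.1 h5 huu)
    refine ⟨⟨⟨fun a b => ?_⟩⟩, Or.inr ⟨?_, ho⟩⟩
    · refine MonoidHom.FixedPointFree.commute_all_of_involutive
        (φ := (MulAut.conjNormal (u * u) : MulAut (oddCore G))) (fun g hg => ?_) (fun g => ?_) a b
      · have e1 : u * u * g * (u * u)⁻¹ = g := congrArg Subtype.val hg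
        rcases hC g (hON g.2) (mul_inv_eq_iff_eq_mul.1 e1).symm with e2 | e2
        · exact Subtype.ext e2
        · exact absurd (e2 ▸ g.2) hzO
      · rw [← MulAut.mul_apply, ← map_mul, hz2, map_one, MulAut.one_apply]
    · let f : G →* PSL(2, ZMod 5) := (e.trans e'.symm).toMonoidHom.comp π
      have hf : f.ker = N := by
        ext x
        simp only [f, MonoidHom.mem_ker, MonoidHom.comp_apply, MulEquiv.coe_toMonoidHom,
          MulEquiv.map_eq_one_iff, hπ1]
      haveI : Group.IsPerfect G := ⟨h.perf⟩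
      refine CL.Inv.nonempty_equiv_SL2_of_cover (by rw [ZMod.card]; decide)
        (QuotientGroup.lift (oddCore G) f (hf ▸ hON)) ?_ ?_
        (index_ne_two Group.IsPerfect.commutator_eq_top)
      · exact QuotientGroup.lift_surjective_of_surjective _ _
          ((e.trans e'.symm).surjective.comp (QuotientGroup.mk'_surjective N)) _
      · rw [QuotientGroup.ker_lift, hf, card_map_mk', hrel]

end CL.Blk.DV
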