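/-
The principal 3-block of a group with a central element `z` of order three, whose remaining
3-elements have 3-nilpotent centralizers.
-/
import Cfsg.Agent.Blk.Ex27Loc

set_option autoImplicit false
set_option linter.unusedSectionVars false

open scoped ComplexConjugate Classical
open Cfsg CL.Char CL.Blk.Rk Subgroup Finset

namespace CL.Blk.Ex

variable {M : Ideal AlgInt} {K : Type*} [Group K] [Fintype K] {ι : Type*} [Fintype ι]

/-- A primitive cube root of unity. -/
noncomputable def om : ℂ := ⟨-1 / 2, √3 / 2⟩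

theorem om_add : om + conj om = -1 := by
  apply Complex.ext <;> simp [om]

theorem om_mul : om * conj om = 1 := by
  have : (√3 : ℝ) * √3 = 3 := Real.mul_self_sqrt (by norm_num)
  apply Complex.ext <;> simp [om]
  · linarith
  · ring

theorem om_ne_one : om ≠ 1 := fun h => by
  have := congrArg Complex.re h
  norm_num [om] at this

theorem om_ne_conj : om ≠ conj om := fun h => by
  have := congrArg Complex.im h
  have h3 : (0 : ℝ) < √3 := Real.sqrt_pos.2 (by norm_num)
  simp [om] at this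
  linarith

theorem conj_om_ne_one : conj om ≠ 1 := fun h => om_ne_one (by simpa using congrArg conj h)

theorem cube_cases {a : ℂ} (h : a ^ 3 = 1) : a = 1 ∨ a = om ∨ a = conj om := by
  have : (a - 1) * ((a - om) * (a - conj om)) = 0 := by
    linear_combination h - (a - 1) * a * om_add + (a - 1) * om_mul
  simpa only [mul_eq_zero, sub_eq_zero] using this

/-- Eigenfunctions of the translation by `z`. -/
def Eig (z : K) (a : ℂ) (α : K → ℂ) : Prop := ∀ g, α (z * g) = a * α g

/-- The inner product over the 3-regular elements. -/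
noncomputable def R (α β : K → ℂ) : ℂ := classInner (pRegularPart 3 α) β

theorem R_congr {α β α' β' : K → ℂ} (h : ∀ g, IsPRegular 3 g → α g = α' g)
    (h' : ∀ g, IsPRegular 3 g → β g = β' g) : R α β = R α' β' := by
  rw [R, R, ← classInner_pReg_pReg, ← classInner_pReg_pReg α', pReg_eq_iff.2 h, pReg_eq_iff.2 h']

variable {z : K} {a c : ℂ} {α β : K → ℂ}

theorem Eig.sub (h : Eig z a α) (h' : Eig z a β) : Eig z a (α - β) := fun g => by
  simp only [Pi.sub_apply, h g, h' g, mul_sub]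

theorem Eig.smul (h : Eig z a α) (c : ℂ) : Eig z a (c • α) := fun g => by
  simp only [Pi.smul_apply, smul_eq_mul, h g]; ring

theorem eig_sum {κ : Type*} (s : Finset κ) {f : κ → K → ℂ} (h : ∀ i ∈ s, Eig z a (f i)) :
    Eig z a (∑ i ∈ s, f i) := fun g => by
  simp only [Finset.sum_apply, mul_sum]
  exact sum_congr rfl fun i hi => h i hi g

theorem Eig.inner (h : Eig z a α) (h' : Eig z c β) :
    classInner α β = a * conj c * classInner α β := by
  have := classInner_comp_equiv (Equiv.mulLeft z) α β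
  simp only [Equiv.coe_mulLeft, h _, h' _] at this
  rw [show (fun x => a * α x) = a • α from rfl, show (fun x => c * β x) = c • β from rfl,
    classInner_smul_left, classInner_smul_right] at this
  rw [mul_assoc, this]

theorem Eig.inner_zero (h : Eig z a α) (h' : Eig z c β) (hac : a * conj c ≠ 1) :
    classInner α β = 0 := by
  have := h.inner h'
  exact (mul_eq_zero.1 (show (a * conj c - 1) * classInner α β = 0 by
    linear_combination -this)).resolve_left (sub_ne_zero.2 hac)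

theorem Eig.inv (h : Eig z a α) (ha : a * conj a = 1) : Eig z⁻¹ (conj a) α := fun g => by
  have := h (z⁻¹ * g)
  rw [mul_inv_cancel_left] at this
  rw [this, ← mul_assoc, mul_comm _ a, ha, one_mul]

/-- The eigenvalue of a central element. -/
noncomputable def lam (z : K) (ψ : IrrCharacter K) : ℂ := (ψ : K → ℂ) z / (ψ : K → ℂ) 1

theorem eig_irr (hc : ∀ g, g * z = z * g) (ψ : IrrCharacter K) : Eig z (lam z ψ) ψ :=
  irr_apply_central_mul ψ.2 hc

theorem lam_mul_conj (hc : ∀ g, g * z = z * g) (ψ : IrrCharacter K) : lam z ψ * conj (lam z ψ) = 1 :=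
  irr_central_mul_conj ψ.2 hc

theorem lam_cases (hc : ∀ g, g * z = z * g) (hz : orderOf z = 3) (ψ : IrrCharacter K) :
    lam z ψ = 1 ∨ lam z ψ = om ∨ lam z ψ = conj om :=
  cube_cases (hz ▸ irr_central_pow_orderOf ψ.2 hc)

theorem lam_eq_of_inner (hc : ∀ g, g * z = z * g) (h : Eig z a α) {ψ : IrrCharacter K}
    (h0 : classInner α (ψ : K → ℂ) ≠ 0) : lam z ψ = a := by
  by_contra hne
  refine h0 (h.inner_zero (eig_irr hc ψ) fun e => hne ?_)
  linear_combination (-(lam z ψ)) * e + a * lam_mul_conj hc ψ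

theorem Eig.blockPart (hc : ∀ g, g * z = z * g) (h : Eig z a α) (B : Set (IrrCharacter K)) :
    Eig z a (blockPart B α) := fun g => by
  rw [blockPart_apply, blockPart_apply, mul_sum]
  refine sum_congr rfl fun χ _ => ?_
  by_cases h0 : classInner α (χ : K → ℂ) = 0
  · simp [h0]
  · rw [eig_irr hc χ g, lam_eq_of_inner hc h h0]; ring

theorem Eig.apply_zero (h : Eig z a α) (hα : IsClassFunction K α) (ha : a ≠ 1) {u : K}
    (hu : IsConj u (z * u)) : α u = 0 := by
  have := hα.apply_eq_of_isConj hu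
  rw [h] at this
  exact (mul_eq_zero.1 (show (a - 1) * α u = 0 by linear_combination -this)).resolve_left
    (sub_ne_zero.2 ha)

theorem inner_shift {w : K} (h : Eig w c β) (α : K → ℂ) :
    classInner (fun g => pRegularPart 3 α (w⁻¹ * g)) β = conj c * R α β := by
  have := classInner_comp_equiv (Equiv.mulLeft w) (fun g => pRegularPart 3 α (w⁻¹ * g)) β
  simp only [Equiv.coe_mulLeft, h _, inv_mul_cancel_left] at this
  rw [← this, show (fun x => c * β x) = c • β from rfl, classInner_smul_right, R]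

theorem reg_mul_iff {w g s : K} (hc : ∀ g, g * w = w * g) (hw : w ^ 3 = 1) (hs : IsPPart 3 g s) :
    IsPRegular 3 (w * g) ↔ w * s = 1 := by
  obtain ⟨y, rfl, hsy, ⟨k, hk⟩, hy⟩ := hs
  have hws : Commute w s := (hc s).symm
  have h1 : IsPPart 3 (w * (s * y)) (w * s) := by
    rw [← mul_assoc]
    refine isPPart_mul (Commute.mul_left (hc y).symm hsy) ?_ hy
    have : orderOf (w * s) ∣ 3 ^ (k + 1) := orderOf_dvd_of_pow_eq_one (by
      rw [hws.mul_pow, pow_succ', pow_mul, hw, one_pow, one_mul, mul_comm, pow_mul, ← hk,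
        pow_orderOf_eq_one, one_pow])
    obtain ⟨j, -, hj⟩ := (Nat.dvd_prime_pow Nat.prime_three).1 this
    exact ⟨j, hj⟩
  exact ⟨isPPart_eq_one Nat.prime_three h1, fun e => isPPart_one_iff.1 (e ▸ h1)⟩

theorem eq_of_isConj_central {w s : K} (hc : ∀ g, g * w = w * g) (h : IsConj w s) : s = w := by
  obtain ⟨c, rfl⟩ := isConj_iff.1 h
  rw [hc, mul_inv_cancel_right]

theorem central_inv (hc : ∀ g, g * z = z * g) (g : K) : g * z⁻¹ = z⁻¹ * g :=
  (Commute.inv_right (hc g)).eq

theorem apply_ne_zero (hM : IsPModular 3 M) (hc : ∀ g, g * z = z * g) (hz : orderOf z = 3)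
    {P : Subgroup K} (hP : ¬ 3 ∣ P.index) {u : K} (hu : ∀ q ∈ P, q * u * q⁻¹ * u⁻¹ ∈ zpowers z)
    {χ : IrrCharacter K} (hχ : χ ∈ principalBlock M K) (h1 : lam z χ = 1) : (χ : K → ℂ) u ≠ 0 := by
  have hZ : zpowers z ≤ center K := zpowers_le.2 (mem_center_iff.2 hc)
  have : (zpowers z).Normal := ⟨fun n hn g => by rwa [mem_center_iff.1 (hZ hn) g, mul_inv_cancel_right]⟩
  have := Fact.mk hM.1
  obtain ⟨ψ, rfl⟩ := exists_inflIrr_eq (N := zpowers z) (ψ := χ) fun n hn => by
    obtain ⟨k, rfl⟩ := (mem_powers_iff_mem_zpowers.2 hn : n ∈ Submonoid.powers z)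
    have := irr_central_pow χ.2 hc k
    rw [show (χ : K → ℂ) z / (χ : K → ℂ) 1 = 1 from h1, one_pow, div_eq_one_iff_eq χ.2.one_ne_zero]
      at this
    exact this
  have h2 : ψ ∈ principalBlock M (K ⧸ zpowers z) := by
    rw [← preimage_inflIrr_principal hM (isPGroup_zpowers_of_orderOf (pow3 hz)) fun g _ =>
      mem_centralizer_iff.2 fun n hn => (mem_center_iff.1 (hZ hn) g).symm]
    exact hχ
  rw [inflIrr_apply]
  refine principal_apply_ne_zero hM h2 fun h3 => hP (h3.trans ?_)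
  rw [← index_comap_of_surjective _ (QuotientGroup.mk'_surjective (zpowers z))]
  refine index_dvd_of_le fun q hq => ?_
  rw [mem_comap, mem_centralizer_singleton_iff, QuotientGroup.mk'_apply, ← QuotientGroup.mk_mul,
    ← QuotientGroup.mk_mul, QuotientGroup.eq_iff_div_mem]
  simpa [div_eq_mul_inv, mul_assoc] using hu q hq

namespace Loc

variable {x : ι → K} (h : Loc z x) (hM : IsPModular 3 M) (hc : ∀ g, g * z = z * g)
include h hM hc

theorem split (hα : InB M α) (ha : Eig z a α) (ha1 : a * conj a = 1) :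
    α = pRegularPart 3 α + a • (fun g => pRegularPart 3 α (z⁻¹ * g)) +
      conj a • (fun g => pRegularPart 3 α (z⁻¹⁻¹ * g)) + ∑ i, (α (x i) / 9) • col M (x i) := by
  funext g
  obtain ⟨s, hs⟩ := exists_isPPart Nat.prime_three g
  have z3 : z ^ 3 = 1 := h.oz ▸ pow_orderOf_eq_one z
  have z1 := ne_one3 h.oz
  have zz : z * z ≠ 1 := fun e => z1 (by rw [pow_succ, pow_two, e, one_mul] at z3; exact z3)
  have r0 : IsPRegular 3 g ↔ s = 1 :=
    ⟨isPPart_eq_one Nat.prime_three hs, fun e => isPPart_one_iff.1 (e ▸ hs)⟩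
  have r1 := reg_mul_iff (central_inv hc) (by rw [inv_pow, z3, inv_one]) hs
  have r2 := reg_mul_iff hc z3 hs
  have c0 : (∀ i, ¬ IsConj s (x i)) → ∑ i, α (x i) / 9 * col M (x i) g = 0 := fun e =>
    sum_eq_zero fun i _ => by rw [col_eq_zero hM (pow3 (h.ox i)) hs (e i), mul_zero]
  simp only [Pi.add_apply, Pi.smul_apply, Finset.sum_apply, smul_eq_mul, pReg_apply, r0, r1, r2,
    inv_inv]
  rcases h.cover s (isPPart_orderOf hs) with rfl | e | e | ⟨i, e⟩
  · rw [c0 fun i e => ne_one3 (h.ox i) (isConj_one_right.1 e)]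
    simp [z1]
  · obtain rfl := eq_of_isConj_central hc e
    rw [c0 h.zx]
    simp [z1, zz, ← ha _]
  · obtain rfl := eq_of_isConj_central (central_inv hc) e
    rw [c0 h.zx', ha.inv ha1, ha]
    have : z⁻¹ * z⁻¹ ≠ 1 := by rw [← mul_inv_rev]; exact inv_ne_one.2 zz
    simp [z1, this, ← mul_assoc, mul_comm _ a, ha1]
  · have s0 : s ≠ 1 := fun e' => ne_one3 (h.ox i) (isConj_one_left.1 (e' ▸ e))
    have s1 : z⁻¹ * s ≠ 1 := fun e' => h.zx i (by rw [inv_mul_eq_one.1 e']; exact e.symm)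
    have s2 : z * s ≠ 1 := fun e' => h.zx' i (by rw [← eq_inv_of_mul_eq_one_right e']; exact e.symm)
    rw [sum_eq_single i (fun j _ hj => by
      rw [col_eq_zero hM (pow3 (h.ox j)) hs fun c => hj (h.xx i j (e.trans c)).symm, mul_zero])
      (by simp), (inB_col _).apply_eq hM (h.npc i) hs e, h.col_self hM, hα.apply_eq hM (h.npc i) hs e]
    simp [s0, s1, s2]

theorem inner_split (hα : InB M α) (hβ : InB M β) (ha : Eig z a α) (hb : Eig z c β)
    (ha1 : a * conj a = 1) (hc1 : c * conj c = 1) : classInner α β =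
      (1 + a * conj c + conj a * c) * R α β + ∑ i, α (x i) * conj (β (x i)) / 9 := by
  conv_lhs => rw [h.split hM hc hα ha ha1]
  rw [classInner_add_left, classInner_add_left, classInner_add_left, classInner_smul_left,
    classInner_smul_left, inner_shift hb, inner_shift (hb.inv hc1), classInner_sum_left,
    Complex.conj_conj, ← R, sum_congr rfl fun i _ => by rw [classInner_smul_left, inner_col_left _ hβ]]
  simp only [div_mul_eq_mul_div]
  ring

theorem eq_zero (hα : InB M α) (ha : Eig z 1 α) (h0 : ∀ g, IsPRegular 3 g → α g = 0)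
    (h1 : ∀ i, α (x i) = 0) : α = 0 := by
  rw [← classInner_self_eq_zero, h.inner_split hM hc hα hα ha ha (by simp) (by simp),
    R_congr (α' := 0) (β' := 0) h0 h0, R, classInner_zero_right]
  simp [h1]

theorem sum_lam_R : ∑ ξ : IrrCharacter K with ξ ∈ principalBlock M K, lam z ξ * R (ξ : K → ℂ) ξ = 0 := by
  simp only [R, classInner_def, mul_sum]
  rw [sum_comm]
  refine sum_eq_zero fun g _ => ?_
  by_cases hg : IsPRegular 3 g
  · have := block_orth hM (isPBlock_principal M) (isPPart_mul (hc g).symm (pow3 h.oz) hg)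
      (isPPart_one hg) fun c => ne_one3 h.oz (isConj_one_left.1 c)
    rw [← mul_zero (Nat.card K : ℂ)⁻¹, ← this, mul_sum]
    exact sum_congr rfl fun ξ _ => by rw [pReg_of_reg hg, ξ.2.conj_apply, eig_irr hc]; ring
  · simp [pReg_of_sing hg]

variable (xz : ∀ i, IsConj (x i) (z * x i))
include xz

theorem irr_zero {ψ : IrrCharacter K} (hψ : lam z ψ ≠ 1) (i : ι) : (ψ : K → ℂ) (x i) = 0 :=
  (eig_irr hc ψ).apply_zero ψ.2.isClassFunction hψ (xz i)

theorem three_R {ψ ψ' : IrrCharacter K} (hψ : ψ ∈ principalBlock M K) (hψ' : ψ' ∈ principalBlock M K)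
    (h1 : lam z ψ ≠ 1) (e : lam z ψ' = lam z ψ) :
    3 * R (ψ : K → ℂ) ψ' = if ψ = ψ' then 1 else 0 := by
  have l1 := lam_mul_conj hc ψ
  rw [← classInner_irr, h.inner_split hM hc (inB_irr hψ) (inB_irr hψ') (eig_irr hc ψ) (eig_irr hc ψ')
    l1 (lam_mul_conj hc ψ'), e, l1, mul_comm (conj _), l1]
  simp only [h.irr_zero hM hc xz h1]
  norm_num

theorem eig_col (i : ι) : Eig z 1 (col M (x i)) := fun g => by
  rw [col_apply, col_apply, one_mul]
  refine sum_congr rfl fun ξ _ => ?_
  by_cases e : lam z ξ = 1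
  · rw [eig_irr hc, e, one_mul]
  · rw [← ξ.2.conj_apply, h.irr_zero hM hc xz e]; simp

variable (hr : ∀ i, IsConj (x i) (x i)⁻¹)
  (nz : ∀ i, ∀ χ ∈ principalBlock M K, lam z χ = 1 → (χ : K → ℂ) (x i) ≠ 0)
include hr nz

theorem exists_xi (u : ι) {ψ : IrrCharacter K} (hψ : ψ ∈ principalBlock M K) (h1 : lam z ψ ≠ 1) :
    ∃ (ξ : K → ℂ) (δ : ℂ), IsGeneralizedCharacter K ξ ∧ InB M ξ ∧ Eig z 1 ξ ∧
      (∀ g, IsPRegular 3 g → ξ g = (ψ : K → ℂ) g) ∧ δ * δ = 1 ∧ conj δ = δ ∧ (∃ n : ℤ, δ = n) ∧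
      ∀ i, ξ (x i) = if i = u then 3 * δ else 0 := by
  have hZ : zpowers z ≤ center K := zpowers_le.2 (mem_center_iff.2 hc)
  have : (zpowers z).Normal := ⟨fun n hn g => by rwa [mem_center_iff.1 (hZ hn) g, mul_inv_cancel_right]⟩
  obtain ⟨η, hη, e0⟩ := exists_genChar_eq_on_pRegular (N := zpowers z) Nat.prime_three
    (isPGroup_zpowers_of_orderOf (pow3 h.oz)) (fun g _ => mem_centralizer_iff.2 fun n hn =>
      (mem_center_iff.1 (hZ hn) g).symm) ψ.2.isGeneralizedCharacter
  set ξ0 := blockPart (principalBlock M K) fun g : K => η (g : K ⧸ zpowers z)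
  have g0 : IsGeneralizedCharacter K ξ0 :=
    isGeneralizedCharacter_blockPart _ (hη.comp (QuotientGroup.mk' _))
  have eig0 : Eig z 1 ξ0 := Eig.blockPart hc (fun g => by
    rw [QuotientGroup.mk_mul, (QuotientGroup.eq_one_iff z).2 (mem_zpowers z), one_mul, one_mul]) _
  have r0 : ∀ g, IsPRegular 3 g → ξ0 g = (ψ : K → ℂ) g := fun g hg =>
    (blockPart_congr_of_pRegular hM (blockIdem_mem_OG hM (isPBlock_principal M))
      (fun s hs => (pReg_eq_iff.1 e0 s hs).symm) hg).trans (blockPart_irr_apply_of_mem hψ g)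
  have v0 : ∀ i, ∃ c : ℤ, ξ0 (x i) = 3 * c := fun i => by
    obtain ⟨n, d, hn, hd, e⟩ := apply_int (h.ox i) (hr i) g0
    obtain ⟨n', d', hn', hd', e'⟩ := apply_int (h.ox i) (hr i) ψ.2.isGeneralizedCharacter
    rw [r0 1 (isPRegular_one Nat.prime_three), hd'] at hd
    rw [h.irr_zero hM hc xz h1] at hn'
    have a1 : d' = d := by exact_mod_cast hd
    have a2 : 0 = n' := by exact_mod_cast hn'
    obtain ⟨c, hc⟩ : 3 ∣ n := by omega
    exact ⟨c, by rw [hn, hc]; push_cast; rfl⟩
  choose c hc0 using v0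
  obtain ⟨q, d, hq, hd⟩ : ∃ q d : ℤ, ∑ i, c i = 3 * q + d ∧ (d = 0 ∨ d = 1 ∨ d = -1) :=
    ⟨(∑ i, c i + 1) / 3, ∑ i, c i - 3 * ((∑ i, c i + 1) / 3), by omega, by omega⟩
  let e : ι → K → ℂ := fun i => (3 : ℂ)⁻¹ • (col M (x i) - col M (x u))
  have ge : ∀ i, IsGeneralizedCharacter K (e i) := fun i =>
    isGeneralizedCharacter_iff.2 ⟨(((inB_col _).sub (inB_col _)).smul _).cls, fun χ hχ => by
      obtain ⟨n, hn⟩ := h.dvd_coef_sub hM hr i u ⟨χ, hχ⟩
      have a1 := coef_spec (h.gen_col hM hr i) ⟨χ, hχ⟩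
      have a2 := coef_spec (h.gen_col hM hr u) ⟨χ, hχ⟩
      refine ⟨n, ?_⟩
      rw [classInner_smul_left, classInner_sub_left]
      erw [← a1, ← a2]
      rw [← Int.cast_sub, hn]; push_cast; ring⟩
  set ξ := ξ0 - ∑ i, (c i : ℂ) • e i - (q : ℂ) • col M (x u) with hξ
  have g1 : IsGeneralizedCharacter K ξ := (g0.sub (isGeneralizedCharacter_sum _ _ fun i _ =>
    (ge i).intCast_smul _)).sub ((h.gen_col hM hr u).intCast_smul _)
  have b1 : InB M ξ := ((inB_blockPart _).sub (inB_sum _ fun i _ =>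
    (((inB_col _).sub (inB_col _)).smul _).smul _)).sub ((inB_col _).smul _)
  have ec := h.eig_col hM hc xz
  have eig1 : Eig z 1 ξ := (eig0.sub (eig_sum _ fun i _ => (((ec i).sub (ec u)).smul _).smul _)).sub
    ((ec u).smul _)
  have r1 : ∀ g, IsPRegular 3 g → ξ g = (ψ : K → ℂ) g := fun g hg => by
    simp [hξ, e, Finset.sum_apply, h.col_reg hM _ hg, r0 g hg]
  have v1 : ∀ i, ξ (x i) = if i = u then 3 * (d : ℂ) else 0 := fun i => by
    have hq' : ∑ i, (c i : ℂ) = 3 * q + d := by exact_mod_cast hq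
    simp only [hξ, e, Finset.sum_apply, Pi.sub_apply, Pi.smul_apply, smul_eq_mul, h.col_col hM, hc0,
      mul_sub, sum_sub_distrib, mul_ite, mul_zero, sum_ite_eq', mem_univ, if_true]
    by_cases hi : i = u
    · subst hi
      simp only [if_true, ← sum_mul, hq']; ring
    · simp only [if_neg hi, if_neg (Ne.symm hi), sum_const_zero]; ring
  have hd0 : d ≠ 0 := by
    rintro rfl
    have n1 : classInner ξ ξ = 1 := by
      have := h.three_R hM hc xz hψ hψ h1 rfl
      rw [h.inner_split hM hc b1 b1 eig1 eig1 (by simp) (by simp), R_congr r1 r1]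
      simp only [v1, if_true] at this ⊢
      simp; linear_combination this
    obtain ⟨ε, χ, hε, hχ, e1⟩ := g1.exists_sign_irr n1
    have n2 : classInner ξ ((⟨χ, hχ⟩ : IrrCharacter K) : K → ℂ) ≠ 0 := by
      change classInner ξ χ ≠ 0
      rw [e1, classInner_smul_left, hχ.classInner_self]
      rcases hε with rfl | rfl <;> simp
    have n3 : (⟨χ, hχ⟩ : IrrCharacter K) ∈ principalBlock M K := by_contra fun hn =>
      n2 ((blockPart_eq_self_iff b1.cls).1 b1 _ hn)
    have n4 := v1 u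
    rw [e1, if_pos rfl] at n4
    refine nz u _ n3 (lam_eq_of_inner hc eig1 n2) ?_
    change χ (x u) = 0
    rcases hε with rfl | rfl <;> simpa using n4
  refine ⟨ξ, d, g1, b1, eig1, r1, ?_, map_intCast _ d, ⟨d, rfl⟩, v1⟩
  rcases hd with e | e | e <;> simp_all

end Loc

end CL.Blk.Ex
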