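/-
The principal 3-block of a group with a central element `z` of order three: the invariants and
the generalized characters vanishing on the 3-regular elements.
-/
import Cfsg.Agent.Blk.Ex27Cent

set_option autoImplicit false
set_option linter.unusedSectionVars false

open scoped ComplexConjugate Classical
open Cfsg CL.Char CL.Blk.Rk Subgroup Finset

namespace CL.Blk.Ex

variable {M : Ideal AlgInt} {K : Type*} [Group K] [Fintype K] {ι : Type*} [Fintype ι] {z : K}

theorem exists_sigma (hz : orderOf z = 3) : ∃ σ : IrrCharacter K ≃ IrrCharacter K,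
    (∀ ψ g, IsPRegular 3 g → (σ ψ : K → ℂ) g = (ψ : K → ℂ) g) ∧
      ∀ ψ, lam z (σ ψ) = conj (lam z ψ) := by
  have h0 : Nat.card K ≠ 0 := Nat.card_pos.ne'
  have hco : Nat.Coprime 3 (ordCompl[3] (Nat.card K)) := Nat.coprime_ordCompl Nat.prime_three h0
  obtain ⟨m, h1, h2⟩ := Nat.chineseRemainder hco 2 1
  have hm : m.Coprime (Nat.card K) := by
    rw [← Nat.ordProj_mul_ordCompl_eq_self (Nat.card K) 3]
    refine Nat.Coprime.mul_right (Nat.Coprime.pow_right _ ?_) ?_
    · rw [Nat.Coprime, h1.gcd_eq]; rfl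
    · rw [Nat.Coprime, h2.gcd_eq]; simp
  obtain ⟨σ, hσ⟩ := exists_ringEquiv_map_genChar_eq_pow hm
  have e : ∀ (ψ : IrrCharacter K) g, (galIrr σ ψ : K → ℂ) g = (ψ : K → ℂ) (g ^ m) := fun ψ g => by
    rw [galIrr_apply, hσ _ ψ.2.isGeneralizedCharacter]
  refine ⟨galIrr σ, fun ψ g hg => ?_, fun ψ => ?_⟩
  · have : orderOf g ∣ ordCompl[3] (Nat.card K) := by
      refine Nat.Coprime.dvd_of_dvd_mul_left (m := ordProj[3] (Nat.card K)) (Nat.Coprime.pow_right _
        ((Nat.Prime.coprime_iff_not_dvd Nat.prime_three).2 hg).symm) ?_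
      rw [Nat.ordProj_mul_ordCompl_eq_self]; exact orderOf_dvd_natCard g
    rw [e, pow_eq_pow_iff_modEq.2 (h2.of_dvd this), pow_one]
  · rw [lam, e, e, one_pow, pow_eq_pow_iff_modEq.2 (show m ≡ 2 [MOD orderOf z] from hz ▸ h1), lam,
      ← irr_central_inv ψ.2, show z ^ 2 = z⁻¹ by
        rw [eq_inv_iff_mul_eq_one, ← pow_succ]; exact (hz ▸ pow_orderOf_eq_one z : z ^ 3 = 1)]

/-- The characters of the principal block with a given eigenvalue. -/
noncomputable def part (M : Ideal AlgInt) (z : K) (a : ℂ) : Finset (IrrCharacter K) :=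
  univ.filter fun ψ => ψ ∈ principalBlock M K ∧ lam z ψ = a

theorem mem_part {a : ℂ} {ψ : IrrCharacter K} :
    ψ ∈ part M z a ↔ ψ ∈ principalBlock M K ∧ lam z ψ = a := by simp [part]

theorem sum_three (hM : IsPModular 3 M) (hc : ∀ g, g * z = z * g) (hz : orderOf z = 3)
    {σ : IrrCharacter K ≃ IrrCharacter K}
    (h1 : ∀ ψ g, IsPRegular 3 g → (σ ψ : K → ℂ) g = (ψ : K → ℂ) g)
    (h2 : ∀ ψ, lam z (σ ψ) = conj (lam z ψ)) {A : Type*} [AddCommMonoid A] (f : IrrCharacter K → A) :
    ∑ ξ : IrrCharacter K with ξ ∈ principalBlock M K, f ξ =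
      ∑ ξ ∈ part M z 1, f ξ + ∑ ξ ∈ part M z om, f ξ + ∑ ξ ∈ part M z om, f (σ ξ) := by
  have e : ∑ ξ ∈ part M z om, f (σ ξ) = ∑ ξ ∈ part M z (conj om), f ξ :=
    sum_equiv σ (fun ξ => by
      rw [mem_part, mem_part, h2, mem_principal_iff_of_eq_on_regular hM (h1 ξ),
        (starRingEnd ℂ).injective.eq_iff]) fun _ _ => rfl
  rw [e]
  simp only [part, sum_filter, ← sum_add_distrib]
  refine sum_congr rfl fun ξ _ => ?_
  by_cases hξ : ξ ∈ principalBlock M K
  · rcases lam_cases hc hz ξ with c | c | c <;>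
      simp [hξ, c, om_ne_one, om_ne_one.symm, om_ne_conj, om_ne_conj.symm, conj_om_ne_one,
        conj_om_ne_one.symm]
  · simp [hξ]

/-- Generalized characters of the principal block vanishing on the 3-regular elements. -/
structure V0 (M : Ideal AlgInt) (θ : K → ℂ) : Prop where
  gen : IsGeneralizedCharacter K θ
  inB : InB M θ
  reg : ∀ g, IsPRegular 3 g → θ g = 0

namespace Loc

variable {x : ι → K} (h : Loc z x) (hM : IsPModular 3 M) (hc : ∀ g, g * z = z * g)
  (xz : ∀ i, IsConj (x i) (z * x i))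
include h hM hc xz

theorem counts : (part M z 1).card = (part M z om).card + Fintype.card ι ∧
    blockRank 3 (principalBlock M K) = (part M z om).card := by
  obtain ⟨σ, s1, s2⟩ := exists_sigma h.oz
  have hs := fun f : IrrCharacter K → ℂ => sum_three hM hc h.oz s1 s2 f
  have a1 : 3 * ∑ ξ ∈ part M z om, R (ξ : K → ℂ) ξ = (part M z om).card := by
    rw [mul_sum, card_eq_sum_ones]
    push_cast
    exact sum_congr rfl fun ξ hξ => by
      obtain ⟨b1, b2⟩ := mem_part.1 hξ
      rw [h.three_R hM hc xz b1 b1 (b2 ▸ om_ne_one) rfl, if_pos rfl]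
  have a2 : ∀ ξ, R (σ ξ : K → ℂ) (σ ξ) = R (ξ : K → ℂ) ξ := fun ξ => R_congr (s1 ξ) (s1 ξ)
  have a3 := h.sum_lam_R hM hc
  have q : ∀ a, ∑ ξ ∈ part M z a, lam z ξ * R (ξ : K → ℂ) ξ = a * ∑ ξ ∈ part M z a, R (ξ : K → ℂ) ξ :=
    fun a => by rw [mul_sum]; exact sum_congr rfl fun ξ hξ => by rw [(mem_part.1 hξ).2]
  have q' : ∑ ξ ∈ part M z om, lam z (σ ξ) * R (σ ξ : K → ℂ) (σ ξ) =
      conj om * ∑ ξ ∈ part M z om, R (ξ : K → ℂ) ξ := by
    rw [mul_sum]; exact sum_congr rfl fun ξ hξ => by rw [s2, (mem_part.1 hξ).2, a2]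
  rw [hs, q, q, q'] at a3
  have a4 := (regClosed_of_isPBlock hM (isPBlock_principal (G := K) M)).blockRank_eq_sum
  simp only [← R.eq_1] at a4
  rw [hs, sum_congr rfl fun ξ _ => a2 ξ] at a4
  have a5 : ∀ i, ∑ ξ ∈ part M z 1, (ξ : K → ℂ) (x i) * conj ((ξ : K → ℂ) (x i)) / 9 = 1 := fun i => by
    have := h.col_self hM i
    rw [col_apply, hs, sum_eq_zero (s := part M z om), sum_eq_zero (s := part M z om)] at this
    · rw [← sum_div, sum_congr rfl fun ξ _ => by rw [ξ.2.conj_apply]]
      linear_combination this / 9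
    · intro ξ hξ
      rw [h.irr_zero hM hc xz (by rw [s2, (mem_part.1 hξ).2]; exact conj_om_ne_one), zero_mul]
    · intro ξ hξ
      rw [h.irr_zero hM hc xz (by rw [(mem_part.1 hξ).2]; exact om_ne_one), zero_mul]
  have a6 : ((part M z 1).card : ℂ) = 3 * ∑ ξ ∈ part M z 1, R (ξ : K → ℂ) ξ + Fintype.card ι := by
    rw [card_eq_sum_ones, ← card_univ, card_eq_sum_ones]
    push_cast
    rw [← sum_congr rfl fun i _ => a5 i, sum_comm, mul_sum, ← sum_add_distrib]
    refine sum_congr rfl fun ξ hξ => ?_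
    obtain ⟨b1, b2⟩ := mem_part.1 hξ
    have e1 := eig_irr hc ξ
    rw [b2] at e1
    rw [← ξ.2.classInner_self, h.inner_split hM hc (inB_irr b1) (inB_irr b1) e1 e1 (by simp) (by simp)]
    norm_num
  constructor
  · have : ((part M z 1).card : ℂ) = (part M z om).card + Fintype.card ι := by
      linear_combination a6 + a1 + 3 * a3 - 3 * (∑ ξ ∈ part M z om, R (ξ : K → ℂ) ξ) * om_add
    exact_mod_cast this
  · have : (blockRank 3 (principalBlock M K) : ℂ) = (part M z om).card := by
      linear_combination a4 + a1 + a3 - (∑ ξ ∈ part M z om, R (ξ : K → ℂ) ξ) * om_add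
    exact_mod_cast this

variable (hr : ∀ i, IsConj (x i) (x i)⁻¹)
  (nz : ∀ i, ∀ χ ∈ principalBlock M K, lam z χ = 1 → (χ : K → ℂ) (x i) ≠ 0)
include hr nz

theorem card_part (u : ι) : (part M z 1).card = 6 ∨ (part M z 1).card = 9 := by
  have e : part M z 1 = univ.filter fun χ => coef (col M (x u)) χ ≠ 0 := by
    ext χ
    rw [mem_part, mem_filter, ← Int.cast_ne_zero (α := ℂ), h.coef_col hM hr]
    constructor
    · rintro ⟨a, b⟩
      exact ⟨mem_univ _, by rw [if_pos a]; exact nz u χ a b⟩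
    · rintro ⟨-, a⟩
      split_ifs at a with b
      · exact ⟨b, by_contra fun c => a (h.irr_zero hM hc xz c u)⟩
      · exact absurd rfl a
  rw [e]
  refine card_six_or_nine (d := fun χ => charDegree (χ : K → ℂ)) (by simp [h.dot_col hM hr])
    (h.coef_col_one hM hr u) (by rw [charDegree_eq_of_one_eq (n := 1) (by simp)]; rfl) ?_
  have := h.col_reg hM u (isPRegular_one Nat.prime_three)
  rw [(inB_col _).cls.apply_eq_sum_irr] at this
  rw [← Int.cast_eq_zero (α := ℂ), ← this, dot]
  push_cast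
  exact sum_congr rfl fun χ _ => by rw [coef_spec (h.gen_col hM hr u), irr_natCast_charDegree]

theorem exists_theta (u : ι) : ∃ θ θ' : part M z om → K → ℂ, (∀ j, V0 M (θ j)) ∧ (∀ j, V0 M (θ' j)) ∧
    (∀ i j, classInner (θ i) (θ j) = if i = j then 3 else 1) ∧
    (∀ i j, classInner (θ' i) (θ' j) = if i = j then 3 else 1) ∧
    (∀ i j, classInner (θ i) (θ' j) = if i = j then 2 else 1) ∧
    (∀ i j, θ j (x i) = if i = u then -3 else 0) ∧ (∀ i j, θ' j (x i) = if i = u then -3 else 0) ∧
    (∀ j, classInner (θ j) (irrOne K : K → ℂ) = classInner (θ' j) (irrOne K : K → ℂ)) ∧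
    ∃ (a a' : part M z om → ℂ) (c : ℂ),
      col M z = ∑ j, a j • θ j + ∑ j, a' j • θ' j + c • col M (x u) := by
  obtain ⟨σ, s1, s2⟩ := exists_sigma h.oz
  have m1 := fun j : part M z om => (mem_part.1 j.2).1
  have m2 := fun j : part M z om => (mem_part.1 j.2).2
  have m3 : ∀ j : part M z om, σ j ∈ principalBlock M K := fun j =>
    (mem_principal_iff_of_eq_on_regular hM (s1 j)).2 (m1 j)
  have m4 : ∀ j : part M z om, lam z (σ j) = conj om := fun j => by rw [s2, m2]
  have n1 : ∀ j : part M z om, lam z j.1 ≠ 1 := fun j => by rw [m2]; exact om_ne_one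
  have n2 : ∀ j : part M z om, lam z (σ j) ≠ 1 := fun j => by rw [m4]; exact conj_om_ne_one
  have e1 : ∀ j : part M z om, Eig z om (j.1 : K → ℂ) := fun j => by
    have := eig_irr hc j.1; rwa [m2] at this
  have e2 : ∀ j : part M z om, Eig z (conj om) (σ j : K → ℂ) := fun j => by
    have := eig_irr hc (σ j); rwa [m4] at this
  choose ξ δ g1 b1 eig1 r1 d1 d2 d3 v1 using fun j : part M z om =>
    h.exists_xi hM hc xz hr nz u (m1 j) (n1 j)
  have xx : ∀ i j, classInner (ξ i) (ξ j) = (if i = j then 1 else 0) + δ i * δ j := fun i j => by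
    have := h.three_R hM hc xz (m1 i) (m1 j) (n1 i) (by rw [m2, m2])
    rw [h.inner_split hM hc (b1 i) (b1 j) (eig1 i) (eig1 j) (by simp) (by simp),
      R_congr (r1 i) (r1 j), sum_eq_single u (fun k _ hk => by simp [v1, hk]) (by simp), v1, v1,
      if_pos rfl, if_pos rfl, map_mul, d2, map_ofNat]
    simp only [Subtype.val_inj] at this
    rw [← this]; simp; ring
  have v0 : ∀ (j) (ψ : IrrCharacter K), ψ ∈ principalBlock M K →
      (∀ g, IsPRegular 3 g → (ψ : K → ℂ) g = (j.1 : K → ℂ) g) → V0 M (δ j • ((ψ : K → ℂ) - ξ j)) :=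
    fun j ψ hψ e => ⟨by
      obtain ⟨n, hn⟩ := d3 j
      exact hn ▸ (ψ.2.isGeneralizedCharacter.sub (g1 j)).intCast_smul n,
      ((inB_irr hψ).sub (b1 j)).smul _, fun g hg => by simp [e g hg, r1 j g hg]⟩
  have gram : ∀ (i j) {ψ ψ' : K → ℂ} {a c : ℂ}, Eig z a ψ → Eig z c ψ' → a ≠ 1 → conj c ≠ 1 →
      classInner (δ i • (ψ - ξ i)) (δ j • (ψ' - ξ j)) =
        δ i * δ j * (classInner ψ ψ' + if i = j then 1 else 0) + 1 :=
    fun i j ψ ψ' a c f1 f2 c1 c2 => by
    rw [classInner_smul_left, classInner_smul_right, d2, classInner_sub_left, classInner_sub_right,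
      classInner_sub_right, f1.inner_zero (eig1 j) (by simpa using c1),
      (eig1 i).inner_zero f2 (by simpa using c2), xx]
    linear_combination (δ j * δ j) * d1 i + d1 j
  have cc : conj (conj om) ≠ 1 := by simpa using om_ne_one
  have one : Eig z 1 (irrOne K : K → ℂ) := fun g => by simp
  refine ⟨fun j => δ j • ((j.1 : K → ℂ) - ξ j), fun j => δ j • ((σ j : K → ℂ) - ξ j),
    fun j => v0 j _ (m1 j) fun _ _ => rfl, fun j => v0 j _ (m3 j) (s1 j), fun i j => ?_, fun i j => ?_,
    fun i j => ?_, fun i j => ?_, fun i j => ?_, fun j => ?_,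
    fun j => conj om * (j.1 : K → ℂ) 1 * δ j, fun j => om * (j.1 : K → ℂ) 1 * δ j,
    -(∑ j : part M z om, (j.1 : K → ℂ) 1 * δ j) / 3, ?_⟩
  · rw [gram i j (e1 i) (e1 j) om_ne_one conj_om_ne_one, classInner_irr]
    by_cases e : i = j
    · subst e; simp only [if_true]; linear_combination 2 * d1 i
    · simp [e]
  · rw [gram i j (e2 i) (e2 j) conj_om_ne_one cc, classInner_irr]
    by_cases e : i = j
    · subst e; simp only [if_true]; linear_combination 2 * d1 i
    · simp [e]
  · rw [gram i j (e1 i) (e2 j) om_ne_one cc, classInner_irr,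
      if_neg fun e => om_ne_conj (by rw [← m4 j, ← e, m2])]
    by_cases e : i = j
    · subst e; simp only [if_true]; linear_combination d1 i
    · simp [e]
  · simp only [Pi.smul_apply, Pi.sub_apply, smul_eq_mul, v1, h.irr_zero hM hc xz (n1 j)]
    split_ifs
    · linear_combination -3 * d1 j
    · simp
  · simp only [Pi.smul_apply, Pi.sub_apply, smul_eq_mul, v1, h.irr_zero hM hc xz (n2 j)]
    split_ifs
    · linear_combination -3 * d1 j
    · simp
  · simp only [classInner_smul_left, classInner_sub_left]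
    rw [(e1 j).inner_zero one (by simpa using om_ne_one),
      (e2 j).inner_zero one (by simpa using conj_om_ne_one)]
  · have zi : ∀ ψ : IrrCharacter K, (ψ : K → ℂ) z⁻¹ = conj (lam z ψ) * (ψ : K → ℂ) 1 := fun ψ => by
      simpa using (eig_irr hc ψ).inv (lam_mul_conj hc ψ) 1
    set E : K → ℂ := ∑ ψ ∈ part M z 1, (ψ : K → ℂ) 1 • (ψ : K → ℂ) with hE
    have c1 : ∀ g, col M z g = E g + conj om * ∑ j : part M z om, (j.1 : K → ℂ) 1 * (j.1 : K → ℂ) g +
        om * ∑ j : part M z om, (j.1 : K → ℂ) 1 * (σ j : K → ℂ) g := fun g => by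
      rw [col_apply, sum_three hM hc h.oz s1 s2, hE, Finset.sum_apply, mul_sum, mul_sum,
        ← sum_coe_sort (part M z om), ← sum_coe_sort (part M z om)]
      congr 1
      · congr 1
        · exact sum_congr rfl fun ψ hψ => by rw [zi, (mem_part.1 hψ).2]; simp [mul_comm]
        · exact sum_congr rfl fun j _ => by rw [zi, m2]; ring
      · exact sum_congr rfl fun j _ => by
          rw [zi, m4, Complex.conj_conj, s1 _ 1 (isPRegular_one Nat.prime_three)]; ring
    have key := h.eq_zero hM hc (α := E - ∑ j : part M z om, (j.1 : K → ℂ) 1 • ξ j -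
        (-(∑ j : part M z om, (j.1 : K → ℂ) 1 * δ j) / 3) • col M (x u))
      (((inB_sum _ fun ψ hψ => (inB_irr (mem_part.1 hψ).1).smul _).sub
        (inB_sum _ fun j _ => (b1 j).smul _)).sub ((inB_col _).smul _))
      (((eig_sum _ fun ψ hψ => Eig.smul ((mem_part.1 hψ).2 ▸ eig_irr hc ψ) _).sub
        (eig_sum _ fun j _ => (eig1 j).smul _)).sub ((h.eig_col hM hc xz u).smul _))
      (fun g hg => by
        have := c1 g
        rw [col_eq_zero hM (pow3 h.oz) (isPPart_one hg) fun c => ne_one3 h.oz (isConj_one_right.1 c)]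
          at this
        simp only [s1 _ g hg] at this
        simp only [Pi.sub_apply, Pi.smul_apply, Finset.sum_apply, smul_eq_mul, r1 _ g hg,
          h.col_reg hM u hg]
        linear_combination -this - (∑ j : part M z om, (j.1 : K → ℂ) 1 * (j.1 : K → ℂ) g) * om_add)
      (fun i => by
        have := c1 (x i)
        rw [col_eq_zero hM (pow3 h.oz) (isPPart_self hM.1 (pow3 (h.ox i))) fun c => h.zx i c.symm]
          at this
        simp only [h.irr_zero hM hc xz (n1 _), h.irr_zero hM hc xz (n2 _), mul_zero, sum_const_zero,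
          add_zero] at this
        simp only [Pi.sub_apply, Pi.smul_apply, Finset.sum_apply, smul_eq_mul, v1, h.col_col hM,
          ← this]
        by_cases e : i = u
        · simp only [e, if_true, mul_left_comm _ (3 : ℂ), ← mul_sum]; ring
        · simp [e, Ne.symm e])
    funext g
    have k := congrFun key g
    simp only [Pi.sub_apply, Pi.smul_apply, Finset.sum_apply, smul_eq_mul, Pi.zero_apply] at k
    have t : ∀ (a : ℂ) (f : part M z om → ℂ), ∑ j, a * (j.1 : K → ℂ) 1 * δ j * (δ j * (f j - ξ j g)) =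
        a * ∑ j, (j.1 : K → ℂ) 1 * f j - a * ∑ j, (j.1 : K → ℂ) 1 * ξ j g := fun a f => by
      rw [mul_sum, mul_sum, ← sum_sub_distrib]
      exact sum_congr rfl fun j _ => by linear_combination (a * (j.1 : K → ℂ) 1 * (f j - ξ j g)) * d1 j
    simp only [Pi.add_apply, Pi.sub_apply, Pi.smul_apply, Finset.sum_apply, smul_eq_mul, t, c1]
    linear_combination k + (∑ j : part M z om, (j.1 : K → ℂ) 1 * ξ j g) * om_add

end Loc

end CL.Blk.Ex
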