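/-
The principal 3-block for an extraspecial Sylow subgroup of order 27: passage from `C(z)` to `G`.
-/
import Cfsg.Agent.Blk.Ex27Cent2

set_option autoImplicit false
set_option linter.unusedSectionVars false

open scoped ComplexConjugate Classical
open Cfsg CL.Char CL.Blk.Rk Subgroup Finset

namespace CL.Blk.Ex

variable {M : Ideal AlgInt} {G : Type*} [Group G] [Fintype G] {ι : Type*} [Fintype ι]

theorem conj_col (u g : G) : conj (col M u g) = col M g u := by
  rw [col_apply, col_apply, map_sum]
  exact sum_congr rfl fun χ _ => by rw [map_mul, χ.2.conj_apply, χ.2.conj_apply, inv_inv, mul_comm]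

theorem col_inv (u g : G) : col M u⁻¹ g⁻¹ = col M g u := by
  rw [col_apply, col_apply]
  exact sum_congr rfl fun χ _ => by rw [inv_inv, mul_comm]

theorem Loc.col_sec {z : G} {x : ι → G} (h : Loc z x) (hM : IsPModular 3 M) {i : ι} {c s g r : G}
    (hs : IsPPart 3 c s) (e : IsConj (x i) s) (hr : IsPPart 3 g r) (e' : IsConj (x i) r) :
    col M c g = 9 := by
  rw [(inB_col c).apply_eq hM (h.npc i) hr e', ← conj_col, (inB_col _).apply_eq hM (h.npc i) hs e,
    h.col_self hM, map_ofNat]

/-- The central element of its centralizer. -/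
def zc (z : G) : centralizer ({z} : Set G) := ⟨z, mem_centralizer_singleton_iff.2 rfl⟩

theorem zc_comm (z : G) (g : centralizer ({z} : Set G)) : g * zc z = zc z * g :=
  Subtype.ext (mem_centralizer_singleton_iff.1 g.2)

theorem isConj_coe {H : Subgroup G} {a b : H} (h : IsConj a b) : IsConj (a : G) (b : G) :=
  H.subtype.map_isConj h

theorem col_zc (hM : IsPModular 3 M) {z : G} (hz : orderOf z = 3) {c g : centralizer ({z} : Set G)}
    (hc : IsPPart 3 c (zc z)) (hg : IsPPart 3 g (zc z)) : col M (c : G) (g : G) = col M c g := by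
  obtain ⟨y, rfl, -, -, hy⟩ := hg
  obtain ⟨y', rfl, -, -, hy'⟩ := hc
  rw [col_apply, col_apply]
  refine (sum_principal_section_eq hM (pow3 hz) hy hy').trans (sum_congr rfl fun ξ _ => ?_)
  rw [← ξ.2.conj_apply, ← ξ.2.conj_apply, eig_irr (zc_comm z), eig_irr (zc_comm z), map_mul]
  linear_combination (-((ξ : _ → ℂ) y * conj ((ξ : _ → ℂ) y'))) * lam_mul_conj (zc_comm z) ξ

section

variable {z : G} {x : ι → centralizer ({z} : Set G)} (h : Loc z fun i => (x i : G))
  (h' : Loc (zc z) x) (hM : IsPModular 3 M)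
include h h'

theorem fusion {r s : centralizer ({z} : Set G)} (hr : ∃ k : ℕ, orderOf r = 3 ^ k)
    (hs : ∃ k : ℕ, orderOf s = 3 ^ k) (e : IsConj (r : G) s) : IsConj r s := by
  rcases h'.cover r hr with rfl | a | a | ⟨i, a⟩
  · rw [show s = 1 from Subtype.ext (isConj_one_right.1 e)]
  all_goals
    have a' := (isConj_coe a).trans e
    rcases h'.cover s hs with rfl | b | b | ⟨j, b⟩
    · rw [show r = 1 from Subtype.ext (isConj_one_left.1 e)]
  all_goals have b' := a'.trans (isConj_coe b).symm
  exacts [a.symm.trans b, absurd b' h.zz, absurd b' (h.zx j), absurd b'.symm h.zz, a.symm.trans b,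
    absurd b' (h.zx' j), absurd b'.symm (h.zx i), absurd b'.symm (h.zx' i),
    a.symm.trans (h.xx i j b' ▸ b)]

include hM

theorem col_coe {c : centralizer ({z} : Set G)} (hc : ¬ IsPRegular 3 c)
    (g : centralizer ({z} : Set G)) : col M (c : G) (g : G) = col M c g := by
  obtain ⟨s, hs⟩ := exists_isPPart Nat.prime_three c
  obtain ⟨r, hr⟩ := exists_isPPart Nat.prime_three g
  by_cases e : IsConj r s
  · rcases h'.cover s (isPPart_orderOf hs) with rfl | a | a | ⟨i, a⟩
    · exact absurd (isPPart_one_iff.1 hs) hc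
    · obtain rfl := eq_of_isConj_central (zc_comm z) a
      obtain rfl := eq_of_isConj_central (zc_comm z) e.symm
      exact col_zc hM h.oz hs hr
    · obtain rfl := eq_of_isConj_central (central_inv (zc_comm z)) a
      obtain rfl := eq_of_isConj_central (central_inv (zc_comm z)) e.symm
      have := col_zc hM h.oz (c := g⁻¹) (g := c⁻¹) (by simpa using isPPart_inv hr)
        (by simpa using isPPart_inv hs)
      rwa [Subgroup.coe_inv, Subgroup.coe_inv, col_inv, col_inv] at this
    · rw [h'.col_sec hM hs a hr (a.trans e.symm),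
        h.col_sec hM (isPPart_coe hs) (isConj_coe a) (isPPart_coe hr) (isConj_coe (a.trans e.symm))]
  · rw [col_apply, col_apply, block_orth hM (isPBlock_principal M) hr hs e,
      block_orth hM (isPBlock_principal M) (isPPart_coe hr) (isPPart_coe hs)
        fun c => e (fusion h h' (isPPart_orderOf hr) (isPPart_orderOf hs) c)]

theorem tau_coe {θ : centralizer ({z} : Set G) → ℂ} (hθ : V0 M θ) (g : centralizer ({z} : Set G)) :
    tau M _ θ g = θ g := by
  conv_rhs => rw [← hθ.inB, blockPart_eq_sum_elems]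
  rw [tau_apply_eq_sum]
  congr 1
  refine sum_congr rfl fun y _ => ?_
  by_cases hy : IsPRegular 3 y
  · simp [hθ.reg y hy]
  · have := col_coe h h' hM hy g
    rw [col_apply, col_apply] at this
    rw [this]

theorem dot_tau {θ η : centralizer ({z} : Set G) → ℂ} (hθ : V0 M θ) (hη : V0 M η) :
    (dot (coef (tau M _ θ)) (coef (tau M _ η)) : ℂ) = classInner θ η := by
  rw [dot_coef (isGeneralizedCharacter_tau hθ.gen) (isGeneralizedCharacter_tau hη.gen),
    classInner_tau_tau_eq_res, funext (tau_coe h h' hM hη)]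

theorem glob (hz : ¬ 3 ∣ (centralizer ({z} : Set G)).index) (xz : ∀ i, IsConj (x i) (zc z * x i))
    (hr : ∀ i, IsConj (x i) (x i)⁻¹)
    (nz : ∀ i, ∀ χ ∈ principalBlock M (centralizer ({z} : Set G)), lam (zc z) χ = 1 →
      (χ : _ → ℂ) (x i) ≠ 0)
    (hι : Fintype.card ι = 1 ∨ Fintype.card ι = 2 ∨ Fintype.card ι = 4) :
    Nat.card (principalBlock M G) + 2 * Fintype.card ι = 18 ∧
    Nat.card {χ : IrrCharacter G // χ ∈ principalBlock M G ∧
      blockHeight 3 (principalBlock M G) (χ : G → ℂ) = 0} = 6 ∧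
    blockRank 3 (principalBlock M G) + Fintype.card ι = 6 := by
  obtain ⟨u⟩ : Nonempty ι := Fintype.card_pos_iff.1 (by omega)
  have hr' : ∀ i, IsConj (x i : G) (x i : G)⁻¹ := fun i => isConj_coe (hr i)
  obtain ⟨c1, c2⟩ := h'.counts hM (zc_comm z) xz
  have c3 := h'.card_part hM (zc_comm z) xz hr nz u
  have c4 := h.card_eq hM
  obtain ⟨θ, θ', v, v', g1, g2, g3, f, f', o, a, a', c, e⟩ :=
    h'.exists_theta hM (zc_comm z) xz hr nz u
  have nt : ∀ i {η : centralizer ({z} : Set G) → ℂ}, V0 M η → η (x i) = (if i = u then -3 else 0) →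
      dot (coef (col M (x i : G))) (coef (tau M _ η)) = if i = u then -3 else 0 := fun i η hη e => by
    have := dot_coef (h.gen_col hM hr' i) (isGeneralizedCharacter_tau (M := M) hη.gen)
    rw [inner_col_left (β := tau M _ η) _ (inB_blockPart _), tau_coe h h' hM hη, e] at this
    split_ifs at this ⊢
    · rw [map_neg, map_ofNat] at this; exact_mod_cast this
    · rw [map_zero] at this; exact_mod_cast this
  have tc : ∀ {η : centralizer ({z} : Set G) → ℂ}, V0 M η → ∀ χ ∈ principalBlock M G,
      (coef (tau M _ η) χ : ℂ) = classInner η fun y => (χ : G → ℂ) y := fun hη χ hχ => by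
    rw [coef_spec (isGeneralizedCharacter_tau hη.gen), classInner_tau_of_mem _ hχ]
  have tn : ∀ {η : centralizer ({z} : Set G) → ℂ}, V0 M η → ∀ χ, coef (tau M _ η) χ ≠ 0 →
      χ ∈ principalBlock M G := fun hη χ hχ => mem_principal_of_classInner_tau _ (by
    rw [← coef_spec (isGeneralizedCharacter_tau hη.gen)]; exact_mod_cast hχ)
  obtain ⟨r1, r2, r3⟩ := comb (univ.filter fun χ => χ ∈ principalBlock M G)
    (fun i => coef (col M (x i : G))) u (irrOne G) (fun j => coef (tau M _ (θ j)))
    (fun j => coef (tau M _ (θ' j))) (fun i j => by simp [h.dot_col hM hr'])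
    (h.coef_col_one hM hr') (fun i => h.dvd_coef_sub hM hr' u i)
    (fun i j => by have := dot_tau h h' hM (v i) (v j); rw [g1] at this; split_ifs at this ⊢ <;>
      exact_mod_cast this)
    (fun i j => by have := dot_tau h h' hM (v' i) (v' j); rw [g2] at this; split_ifs at this ⊢ <;>
      exact_mod_cast this)
    (fun i j => by have := dot_tau h h' hM (v i) (v' j); rw [g3] at this; split_ifs at this ⊢ <;>
      exact_mod_cast this)
    (fun i j => nt i (v j) (f i j)) (fun i j => nt i (v' j) (f' i j))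
    (fun j => by
      have := (tc (v j) _ (irrOne_mem_principal hM)).trans ((o j).trans
        (tc (v' j) _ (irrOne_mem_principal hM)).symm)
      exact_mod_cast this)
    (fun χ => by
      simp only [mem_filter, mem_univ, true_and]
      refine ⟨fun hχ => by_contra fun hn => principal_apply_ne_zero hM hχ hz ?_, ?_⟩
      · push Not at hn
        have k := congrArg (classInner · fun y : centralizer ({z} : Set G) => (χ : G → ℂ) y) e
        have hcl := χ.2.isClassFunction.restrict (centralizer ({z} : Set G))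
        have n0 := h.coef_col hM hr' u χ
        rw [hn.1, if_pos hχ, Int.cast_zero] at n0
        simp only [classInner_add_left, classInner_sum_left, classInner_smul_left, ← tc (v _) χ hχ,
          ← tc (v' _) χ hχ, hn.2, col, classInner_blockPart_left,
          classInner_clsFun _ (Rk.isClassFunction_blockPart _ _)] at k
        rw [← blockPart_principal_restrict hM χ.2.isClassFunction (pow3 h.oz) (zc z)
          (isPPart_self hM.1 (pow3 h.oz)) le_rfl, blockPart_irr_apply_of_mem hχ,
          blockPart_eq_zero_of_section hM (blockIdem_mem_OG hM (isPBlock_principal M)) (x := x u)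
            (fun y s hs c => ((inB_irr hχ).apply_eq hM (h.npc u) (isPPart_coe hs)
              (isConj_coe c)).trans n0.symm) (isPPart_self hM.1 (pow3 (h'.ox u))) (IsConj.refl _)] at k
        simpa [zc] using k
      · rintro (c | ⟨j, c | c⟩)
        exacts [((h.coef_col_ne_zero hM hr' u χ).1 c).1, tn (v j) χ c, tn (v' j) χ c])
    hι (by rw [Fintype.card_coe]; omega)
  rw [Fintype.card_coe] at r1 r3
  rw [← natCard_eq_sum_filter] at r3
  refine ⟨by omega, ?_, by omega⟩
  rw [← r2, Nat.card_eq_fintype_card, Fintype.card_subtype]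
  congr 1
  refine filter_congr fun χ _ => ?_
  rw [h.coef_col_ne_zero hM hr']
  exact and_congr_right fun hχ => blockHeight_principal_eq_zero_iff hM hχ

end

theorem Loc.nilp {z : G} {x : ι → G} (h : Loc z x) (hM : IsPModular 3 M)
    (hG : HasNormalPComplement 3 G) (h27 : (Nat.card G).factorization 3 = 3)
    (hι : Fintype.card ι = 8) : Nat.card (principalBlock M G) = 11 ∧
    Nat.card {χ : IrrCharacter G // χ ∈ principalBlock M G ∧
      blockHeight 3 (principalBlock M G) (χ : G → ℂ) = 0} = 9 ∧
    blockRank 3 (principalBlock M G) = 1 := by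
  have := Fact.mk hM.1
  have c1 := h.card_eq hM
  have c2 := rank_of_npc hM hG
  rw [c2, rank_of_npc hM (CL.Grp.HasNormalPComplement.subgroup hG _), hι] at c1
  refine ⟨c1, ?_, c2⟩
  have c3 := degSq_of_npc hM hG
  rw [h27, degSq] at c3
  set S := univ.filter fun χ : IrrCharacter G => χ ∈ principalBlock M G with hS
  have c4 : ∑ χ ∈ S, charDegree (χ : G → ℂ) * charDegree (χ : G → ℂ) = 27 := by
    have : ((∑ χ ∈ S, charDegree (χ : G → ℂ) * charDegree (χ : G → ℂ) : ℕ) : ℂ) = (3 ^ 3 : ℕ) := by
      rw [← c3]; push_cast; simp only [irr_natCast_charDegree]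
    exact_mod_cast this
  rw [natCard_eq_sum_filter, ← hS] at c1
  have c5 := card_filter_add_card_filter_not (s := S) fun χ => 3 ∣ charDegree (χ : G → ℂ)
  rw [← sum_filter_add_sum_filter_not S fun χ => 3 ∣ charDegree (χ : G → ℂ)] at c4
  have a1 : (S.filter fun χ : IrrCharacter G => 3 ∣ charDegree (χ : G → ℂ)).card • 9 ≤ _ :=
    card_nsmul_le_sum _ (fun χ : IrrCharacter G => charDegree (χ : G → ℂ) * charDegree (χ : G → ℂ)) 9 fun χ hχ => by
      have := Nat.le_of_dvd (irr_charDegree_pos χ) (mem_filter.1 hχ).2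
      nlinarith
  have a2 : (S.filter fun χ : IrrCharacter G => ¬ 3 ∣ charDegree (χ : G → ℂ)).card • 1 ≤ _ :=
    card_nsmul_le_sum _ (fun χ : IrrCharacter G => charDegree (χ : G → ℂ) * charDegree (χ : G → ℂ)) 1 fun χ _ => by
      have := irr_charDegree_pos χ
      nlinarith
  have a3 : 3 ∣ ∑ χ ∈ S.filter fun χ : IrrCharacter G => 3 ∣ charDegree (χ : G → ℂ),
      charDegree (χ : G → ℂ) * charDegree (χ : G → ℂ) :=
    dvd_sum fun χ hχ => (mem_filter.1 hχ).2.mul_right _
  have a4 : (∑ χ ∈ S.filter fun χ : IrrCharacter G => ¬ 3 ∣ charDegree (χ : G → ℂ),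
      charDegree (χ : G → ℂ) * charDegree (χ : G → ℂ)) % 3 =
      (S.filter fun χ : IrrCharacter G => ¬ 3 ∣ charDegree (χ : G → ℂ)).card % 3 := by
    rw [sum_nat_mod, card_eq_sum_ones]
    congr 1
    refine sum_congr rfl fun χ hχ => ?_
    have := (mem_filter.1 hχ).2
    have e : charDegree (χ : G → ℂ) % 3 = 1 ∨ charDegree (χ : G → ℂ) % 3 = 2 := by omega
    rcases e with e | e <;> rw [Nat.mul_mod, e]
  have a5 : (S.filter fun χ : IrrCharacter G => ¬ 3 ∣ charDegree (χ : G → ℂ)).card = 9 := by
    simp only [smul_eq_mul] at a1 a2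
    omega
  rw [← a5, Nat.card_eq_fintype_card, Fintype.card_subtype, hS, filter_filter]
  congr 1
  exact filter_congr fun χ _ => and_congr_right fun hχ => blockHeight_principal_eq_zero_iff hM hχ

end CL.Blk.Ex
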