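/-
Fusion in an extraspecial Sylow subgroup of order 27 whose normalizer centralizes the centre.
-/
import Cfsg.Agent.Blk.Ex27Glob
import Cfsg.Agent.Grp.PNilpFrob
import Cfsg.Agent.Blk.SubSec

set_option autoImplicit false
set_option linter.unusedSectionVars false

open scoped Classical Pointwise
open Cfsg CL.Char CL.Grp Subgroup Finset

namespace CL.Blk.Ex

instance fact3 : Fact (Nat.Prime 3) := ⟨Nat.prime_three⟩

variable {G : Type*} [Group G] [Fintype G]

/-- The standing hypotheses on the Sylow subgroup `P` with centre `⟨z⟩`. -/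
structure Ext (P : Sylow 3 G) (z : G) : Prop where
  zP : z ∈ (P : Subgroup G)
  oz : orderOf z = 3
  cen : ∀ y ∈ (P : Subgroup G), (∀ w ∈ (P : Subgroup G), w * y = y * w) → y ∈ zpowers z
  comm : ∀ a ∈ (P : Subgroup G), ∀ b ∈ (P : Subgroup G), a * b * a⁻¹ * b⁻¹ ∈ zpowers z
  card : Nat.card (P : Subgroup G) = 27
  exp : ∀ y ∈ (P : Subgroup G), y ^ 3 = 1
  norm : ∀ g ∈ normalizer ((P : Subgroup G) : Set G), g * z = z * g

theorem exists_ext (P : Sylow 3 G) (hE : IsExtraspecial 3 (P : Subgroup G))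
    (h27 : Nat.card (P : Subgroup G) = 27) (hexp : ∀ x ∈ (P : Subgroup G), x ^ 3 = 1)
    (hNC : ∀ g ∈ normalizer ((P : Subgroup G) : Set G), ∀ z ∈ (P : Subgroup G),
      (∀ y ∈ (P : Subgroup G), z * y = y * z) → g * z = z * g) : ∃ z, Ext P z := by
  obtain ⟨⟨-, -, hc⟩, h3⟩ := hE
  obtain ⟨z, hz⟩ := exists_prime_orderOf_dvd_card' (G := center (P : Subgroup G)) 3 (by rw [h3])
  have e : zpowers (z : (P : Subgroup G)) = center (P : Subgroup G) :=
    eq_of_le_of_card_ge (zpowers_le.2 z.2) (by rw [h3, Nat.card_zpowers, orderOf_coe, hz])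
  have key : ∀ y : (P : Subgroup G), y ∈ center (P : Subgroup G) → (y : G) ∈ zpowers ((z : (P : Subgroup G)) : G) :=
    fun y hy => by
      obtain ⟨k, rfl⟩ := e ▸ hy
      exact ⟨k, by simp⟩
  refine ⟨(z : (P : Subgroup G)), (z : (P : Subgroup G)).2, by rw [orderOf_coe, orderOf_coe, hz],
    fun y hy h => key ⟨y, hy⟩ (mem_center_iff.2 fun w => Subtype.ext (h w w.2)),
    fun a ha b hb => key (⟨a, ha⟩ * ⟨b, hb⟩ * (⟨a, ha⟩ : (P : Subgroup G))⁻¹ * (⟨b, hb⟩ : (P : Subgroup G))⁻¹)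
      (hc ▸ commutator_mem_commutator (mem_top _) (mem_top _)), h27, hexp,
    fun g hg => hNC g hg _ (z : (P : Subgroup G)).2 fun y hy =>
      congrArg Subtype.val (mem_center_iff.1 z.2 ⟨y, hy⟩).symm⟩

theorem mem_zpowers3 {z y : G} (hz : orderOf z = 3) (hy : y ∈ zpowers z) : y = 1 ∨ y = z ∨ y = z⁻¹ := by
  obtain ⟨k, rfl⟩ := (mem_powers_iff_mem_zpowers.2 hy : y ∈ Submonoid.powers z)
  have h3 : z ^ 3 = 1 := hz ▸ pow_orderOf_eq_one z
  simp only
  rw [← pow_mod_orderOf, hz]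
  have : k % 3 = 0 ∨ k % 3 = 1 ∨ k % 3 = 2 := by omega
  rcases this with e | e | e <;> rw [e]
  exacts [.inl (pow_zero z), .inr (.inl (pow_one z)),
    .inr (.inr (by rw [eq_inv_iff_mul_eq_one, ← pow_succ, h3]))]

/-- The elements centralizing `z` and fixing `u` modulo `⟨z⟩`. -/
def stab (z u : G) : Subgroup G where
  carrier := {k | k * z = z * k ∧ k * u * k⁻¹ * u⁻¹ ∈ zpowers z}
  one_mem' := by simp
  mul_mem' := fun {a b} ha hb => ⟨by rw [mul_assoc, hb.1, ← mul_assoc, ha.1, mul_assoc], by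
    obtain ⟨i, hi⟩ := hb.2
    have h1 : a * z ^ i = z ^ i * a := (Commute.zpow_right ha.1 i).eq
    have : a * b * u * (a * b)⁻¹ * u⁻¹ = z ^ i * (a * u * a⁻¹ * u⁻¹) := by
      simp only at hi
      rw [← mul_assoc, ← mul_assoc, ← mul_assoc, ← h1, hi]; group
    rw [this]
    exact mul_mem ⟨i, rfl⟩ ha.2⟩
  inv_mem' := fun {a} ha => ⟨(Commute.inv_left ha.1).eq, by
    obtain ⟨i, hi⟩ := ha.2
    have h1 : a * z ^ i = z ^ i * a := (Commute.zpow_right ha.1 i).eq
    refine ⟨-i, ?_⟩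
    simp only at hi ⊢
    have : a⁻¹ * z ^ i * a = z ^ i := by rw [mul_assoc, ← h1, inv_mul_cancel_left]
    rw [zpow_neg, ← this]
    have h2 : z ^ i * u = a * u * a⁻¹ := by rw [hi]; group
    have h3 : u = a⁻¹ * (z ^ i) * a * (a⁻¹ * u * a) := by
      rw [show a⁻¹ * (z ^ i) * a * (a⁻¹ * u * a) = a⁻¹ * (z ^ i * u) * a by group, h2]; group
    conv_rhs => rw [inv_inv]; enter [2]; rw [h3]
    group⟩

namespace Ext

variable {P : Sylow 3 G} {z u v : G} (h : Ext P z)
include h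

theorem zc {y : G} (hy : y ∈ (P : Subgroup G)) : y * z = z * y := h.norm y (le_normalizer hy)

theorem le_cent : (P : Subgroup G) ≤ centralizer ({z} : Set G) := fun _ hy =>
  mem_centralizer_singleton_iff.2 (h.zc hy)

theorem zpow_le : zpowers z ≤ (P : Subgroup G) := zpowers_le.2 h.zP

theorem le_stab (hu : u ∈ (P : Subgroup G)) : (P : Subgroup G) ≤ stab z u := fun q hq =>
  ⟨h.zc hq, h.comm q hq u hu⟩

theorem ord (hu : u ∈ (P : Subgroup G)) (hz : u ∉ zpowers z) : orderOf u = 3 :=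
  orderOf_eq_prime (h.exp u hu) fun e => hz (e ▸ one_mem _)

theorem zz : ¬ IsConj z z⁻¹ := fun c => by
  obtain ⟨g, hg⟩ := isConj_iff.1 c
  have h1 : z ∈ centralizer ((P : Subgroup G) : Set G) := mem_centralizer_iff.2 fun y hy => h.zc hy
  obtain ⟨n, hn, e⟩ := P.conj_eq_normalizer_conj_of_mem_centralizer z g⁻¹ h1
    (by rw [inv_inv, hg]; exact inv_mem h1)
  rw [inv_inv, hg, mul_assoc, ← h.norm n hn, inv_mul_cancel_left, inv_eq_iff_mul_eq_one, ← pow_two,
    ← orderOf_dvd_iff_pow_eq_one, h.oz] at e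
  omega

theorem exists_conj (hu : u ∈ (P : Subgroup G)) (hz : u ∉ zpowers z) {w : G} (hw : w ∈ zpowers z) :
    ∃ q ∈ (P : Subgroup G), q * u * q⁻¹ = w * u := by
  obtain ⟨q, hq, hne⟩ : ∃ q ∈ (P : Subgroup G), q * u ≠ u * q := by
    by_contra hc; push Not at hc; exact hz (h.cen u hu hc)
  have h1 : ∃ q ∈ (P : Subgroup G), q * u * q⁻¹ = z * u := by
    rcases mem_zpowers3 h.oz (h.comm q hq u hu) with e | e | e
    · exact absurd (by rw [mul_inv_eq_one, mul_inv_eq_iff_eq_mul] at e; exact e) hne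
    · exact ⟨q, hq, by rw [← e]; group⟩
    · refine ⟨q⁻¹, inv_mem hq, ?_⟩
      have e1 : u = z * (q * u * q⁻¹) := by rw [mul_inv_eq_iff_eq_mul.1 e]; group
      conv_lhs => rw [e1]
      rw [← mul_assoc, h.zc (inv_mem hq)]; group
  obtain ⟨q, hq, e⟩ := h1
  obtain ⟨k, rfl⟩ := (mem_powers_iff_mem_zpowers.2 hw : w ∈ Submonoid.powers z)
  refine ⟨q ^ k, pow_mem hq k, ?_⟩
  induction k with
  | zero => simp
  | succ k ih =>
    have := ih ⟨k, by simp⟩
    simp only at this ⊢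
    rw [pow_succ' q, show q * q ^ k * u * (q * q ^ k)⁻¹ = q * (q ^ k * u * (q ^ k)⁻¹) * q⁻¹ by group,
      this, ← mul_assoc, (Commute.pow_right (h.zc hq) k).eq, pow_succ, mul_assoc _ z, ← e]
    group

theorem isConj_mul (hu : u ∈ (P : Subgroup G)) (hz : u ∉ zpowers z) {w : G} (hw : w ∈ zpowers z) :
    IsConj u (w * u) := by
  obtain ⟨q, -, e⟩ := h.exists_conj hu hz hw
  exact isConj_iff.2 ⟨q, e⟩

theorem weak (hu : u ∈ (P : Subgroup G)) (c : IsConj z u) : u = z := by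
  by_cases hz : u ∈ zpowers z
  · rcases mem_zpowers3 h.oz hz with e | e | e
    exacts [absurd (isConj_one_left.1 (e ▸ c)) (ne_one3 h.oz), e, absurd (e ▸ c) h.zz]
  exfalso
  obtain ⟨g, rfl⟩ := isConj_iff.1 c
  have h1 : g⁻¹ * z * g ∈ centralizer ({z} : Set G) := by
    have := h.zc hu
    rw [mem_centralizer_singleton_iff]
    calc _ = g⁻¹ * (z * (g * z * g⁻¹)) * g := by group
      _ = _ := by rw [← this]; group
  obtain ⟨c, hc, hle⟩ := (isSylowIn_of_le P h.le_cent).exists_conj_le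
    (isPGroup_zpowers_of_orderOf (pow3 (g := g⁻¹ * z * g) (by
      rw [← h.oz]; simpa using MulAut.conj g⁻¹ |>.orderOf_eq z))) (zpowers_le.2 h1)
  have hw := (conj_smul_le_iff _ _ _).1 hle _ (mem_zpowers _)
  have hc' := mem_centralizer_singleton_iff.1 hc
  have hwz : c * (g⁻¹ * z * g) * c⁻¹ ∉ zpowers z := fun hm => hz (by
    rcases mem_zpowers3 h.oz hm with e | e | e
    · exact absurd (isConj_one_left.1 (isConj_iff.2 ⟨c * g⁻¹, by rw [← e]; group⟩)) (ne_one3 h.oz)
    · have : g * z * g⁻¹ = z := by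
        have e1 : g⁻¹ * z * g = z := by
          rw [mul_inv_eq_iff_eq_mul, ← hc'] at e; exact mul_left_cancel e
        conv_lhs => rw [← e1]
        group
      rw [this]; exact mem_zpowers z
    · exact absurd (isConj_iff.2 ⟨c * g⁻¹, by rw [← e]; group⟩) h.zz)
  have a1 := h.isConj_mul hw hwz (inv_mem (mem_zpowers z))
  have a2 := h.isConj_mul (inv_mem hu) (fun hm => hz (inv_mem_iff.1 hm)) (mem_zpowers z)
  have a3 : IsConj (z⁻¹ * (c * (g⁻¹ * z * g) * c⁻¹)) (z * (g * z * g⁻¹)⁻¹) :=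
    isConj_iff.2 ⟨g * c⁻¹, by
      rw [(Commute.inv_right (h.zc hu).symm).eq]
      calc _ = g * (c⁻¹ * z⁻¹ * c) * g⁻¹ * z := by group
        _ = _ := by rw [mul_assoc c⁻¹, ← (Commute.inv_right hc').eq]; group⟩
  have a4 : IsConj z (c * (g⁻¹ * z * g) * c⁻¹) := isConj_iff.2 ⟨c * g⁻¹, by group⟩
  have a5 : IsConj z⁻¹ (g * z * g⁻¹)⁻¹ := isConj_iff.2 ⟨g, by group⟩
  exact h.zz ((((a4.trans a1).trans a3).trans a2.symm).trans a5.symm)

theorem weak' (hu : u ∈ (P : Subgroup G)) {w : G} (hw : w ∈ zpowers z) (c : IsConj w u) : u = w := by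
  rcases mem_zpowers3 h.oz hw with rfl | rfl | rfl
  · exact isConj_one_right.1 c
  · exact h.weak hu c
  · obtain ⟨g, rfl⟩ := isConj_iff.1 c
    rw [← inv_inj, inv_inv]
    exact h.weak (inv_mem hu) (isConj_iff.2 ⟨g, by group⟩)

theorem nine (hu : u ∈ (P : Subgroup G)) (hz : u ∉ zpowers z) {W : Subgroup G} (h1 : u ∈ W)
    (h2 : z ∈ W) (hW : W ≤ (P : Subgroup G) ⊓ centralizer ({u} : Set G)) : Nat.card W = 9 := by
  have a1 : Nat.card W ∣ 3 ^ 3 := (card_dvd_of_le (hW.trans inf_le_left)).trans h.card.dvd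
  obtain ⟨k, hk, e⟩ := (Nat.dvd_prime_pow Nat.prime_three).1 a1
  have a2 : 3 < Nat.card W := by
    rw [← h.oz, ← Nat.card_zpowers]
    exact lt_of_not_ge fun c => hz (eq_of_le_of_card_ge (zpowers_le.2 h2) c ▸ h1)
  have a3 : Nat.card W ≠ 27 := fun c => hz (h.cen u hu fun w hw => by
    rw [← eq_of_le_of_card_ge (hW.trans inf_le_left) (by rw [c, h.card])] at hw
    exact mem_centralizer_singleton_iff.1 (hW hw).2)
  interval_cases k <;> omega

theorem nine' (hu : u ∈ (P : Subgroup G)) (hz : u ∉ zpowers z) :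
    Nat.card ((P : Subgroup G) ⊓ centralizer ({u} : Set G) : Subgroup G) = 9 :=
  h.nine hu hz ⟨hu, mem_centralizer_singleton_iff.2 rfl⟩
    ⟨h.zP, mem_centralizer_singleton_iff.2 (h.zc hu).symm⟩ le_rfl

theorem cent_V (hu : u ∈ (P : Subgroup G)) (hz : u ∉ zpowers z) {n : G} (h1 : n * u = u * n)
    (h2 : n * z = z * n) {y : G} (hy : y ∈ (P : Subgroup G) ⊓ centralizer ({u} : Set G)) :
    y * n = n * y := by
  have := eq_of_le_of_card_ge (inf_le_left (a := (P : Subgroup G) ⊓ centralizer ({u} : Set G))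
    (b := centralizer ({n} : Set G))) (by
      rw [h.nine' hu hz, h.nine hu hz _ _ inf_le_left]
      · exact ⟨⟨hu, mem_centralizer_singleton_iff.2 rfl⟩, mem_centralizer_singleton_iff.2 h1.symm⟩
      · exact ⟨⟨h.zP, mem_centralizer_singleton_iff.2 (h.zc hu).symm⟩,
          mem_centralizer_singleton_iff.2 h2.symm⟩)
  rw [← this] at hy
  exact mem_centralizer_singleton_iff.1 hy.2

theorem sylow (hu : u ∈ (P : Subgroup G)) (hz : u ∉ zpowers z) :
    IsSylowIn 3 ((P : Subgroup G) ⊓ centralizer ({u} : Set G)) (centralizer ({u} : Set G)) := by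
  have hV : IsPGroup 3 ((P : Subgroup G) ⊓ centralizer ({u} : Set G) : Subgroup G) :=
    P.isPGroup'.to_inf_left
  obtain ⟨S, hS, hle⟩ := exists_isSylowIn_ge hV inf_le_right
  refine hS.of_card_le hV inf_le_right ?_
  obtain ⟨g, hg⟩ := exists_conj_le_sylow P hS.isPGroup
  have a1 : Nat.card S ∣ 3 ^ 3 := by
    rw [← card_conj_smul g S]; exact (card_dvd_of_le hg).trans h.card.dvd
  obtain ⟨k, hk, e⟩ := (Nat.dvd_prime_pow Nat.prime_three).1 a1
  have a3 : Nat.card S ≠ 27 := fun c => by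
    have e1 := eq_of_le_of_card_ge hg (by rw [card_conj_smul, c, h.card])
    have uS : u ∈ S := hle ⟨hu, mem_centralizer_singleton_iff.2 rfl⟩
    have e2 := h.cen _ (hg (conj_mem_conj_smul g uS)) fun w hw => by
      rw [← e1, mem_conj_smul_iff] at hw
      have := mem_centralizer_singleton_iff.1 (hS.le hw)
      calc _ = g * (g⁻¹ * w * g * u) * g⁻¹ := by group
        _ = _ := by rw [this]; group
    exact hz (h.weak' hu e2 (isConj_iff.2 ⟨g⁻¹, by group⟩) ▸ e2)
  rw [h.nine' hu hz]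
  interval_cases k <;> omega

theorem npc (hu : u ∈ (P : Subgroup G)) (hz : u ∉ zpowers z) :
    HasNormalPComplement 3 (centralizer ({u} : Set G)) := by
  refine hasNormalPComplement_of_normalizer_le_centralizer (h.sylow hu hz).toSylow fun n hn => ?_
  have zu : z ∈ centralizer ({u} : Set G) := mem_centralizer_singleton_iff.2 (h.zc hu).symm
  have h1 := (mem_normalizer_iff.1 hn ⟨z, zu⟩).1 (show _ ∈ Subgroup.subgroupOf _ _ from ⟨h.zP, zu⟩)
  have h2 := h.weak (h1.1 : (n : G) * z * (n : G)⁻¹ ∈ _) (isConj_iff.2 ⟨n, rfl⟩)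
  exact mem_centralizer_iff.2 fun y hy => Subtype.ext (h.cent_V hu hz
    (mem_centralizer_singleton_iff.1 n.2) (mul_inv_eq_iff_eq_mul.1 h2) hy)

theorem conj_norm (hu : u ∈ (P : Subgroup G)) (hv : v ∈ (P : Subgroup G)) (c : IsConj u v) :
    ∃ n ∈ normalizer ((P : Subgroup G) : Set G), n * u * n⁻¹ = v := by
  by_cases hz : u ∈ zpowers z
  · exact ⟨1, one_mem _, by simp [h.weak' hv hz c]⟩
  have hz' : v ∉ zpowers z := fun hm => hz (h.weak' hu hm c.symm ▸ hm)
  obtain ⟨g, rfl⟩ := isConj_iff.1 c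
  have h1 : g⁻¹ * z * g ∈ centralizer ({u} : Set G) := by
    have := h.zc hv
    rw [mem_centralizer_singleton_iff]
    calc _ = g⁻¹ * (z * (g * u * g⁻¹)) * g := by group
      _ = _ := by rw [← this]; group
  obtain ⟨c, hc, hle⟩ := (h.sylow hu hz).exists_conj_le
    (isPGroup_zpowers_of_orderOf (pow3 (g := g⁻¹ * z * g) (by
      rw [← h.oz]; simpa using MulAut.conj g⁻¹ |>.orderOf_eq z))) (zpowers_le.2 h1)
  have hw := h.weak ((conj_smul_le_iff _ _ _).1 hle _ (mem_zpowers _)).1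
    (isConj_iff.2 ⟨c * g⁻¹, by group⟩)
  have hc' := mem_centralizer_singleton_iff.1 hc
  set k := g * c⁻¹ with hk
  have k1 : k * z = z * k := by
    conv_lhs => rw [← hw]
    rw [hk]; group
  have k2 : k * u * k⁻¹ = g * u * g⁻¹ := by
    rw [hk, mul_assoc g, (Commute.inv_left hc').eq]; group
  have s1 := isSylowIn_of_le P (h.le_stab hv)
  have s2 : IsSylowIn 3 (MulAut.conj k • (P : Subgroup G)) (stab z (g * u * g⁻¹)) := by
    refine s1.of_card_le (IsPGroup.conj_smul P.isPGroup' k) ((conj_smul_le_iff _ _ _).2 fun q hq => ?_)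
      (card_conj_smul _ _).ge
    obtain ⟨i, hi⟩ := h.comm q hq u hu
    refine ⟨by rw [mul_assoc, (Commute.inv_left k1).eq, ← mul_assoc, mul_assoc k, h.zc hq,
      ← mul_assoc, k1]; group, i, ?_⟩
    simp only at hi ⊢
    rw [← k2, ← mul_inv_cancel_right (z ^ i) k, ← (Commute.zpow_right k1 i).eq, hi]
    group
  obtain ⟨m, hm, e⟩ := s2.exists_conj_eq s1
  rw [conj_smul_conj_smul, conj_smul_eq_self_iff] at e
  obtain ⟨q, hq, e'⟩ := h.exists_conj hv hz' hm.2
  refine ⟨q⁻¹ * (m * k), mul_mem (inv_mem (le_normalizer hq)) e, ?_⟩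
  calc _ = q⁻¹ * (m * (k * u * k⁻¹) * m⁻¹ * (g * u * g⁻¹)⁻¹ * (g * u * g⁻¹)) * q := by group
    _ = _ := by rw [k2, ← e']; group

theorem cover {H : Subgroup G} (hH : (P : Subgroup G) ≤ H) {g : G} (hg : g ∈ H)
    (ho : ∃ k : ℕ, orderOf g = 3 ^ k) : ∃ c ∈ H, c * g * c⁻¹ ∈ (P : Subgroup G) := by
  obtain ⟨c, hc, hle⟩ := (isSylowIn_of_le P hH).exists_conj_le (isPGroup_zpowers_of_orderOf ho)
    (zpowers_le.2 hg)
  exact ⟨c, hc, (conj_smul_le_iff _ _ _).1 hle _ (mem_zpowers _)⟩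

theorem mem_sup (hu : u ∈ (P : Subgroup G)) (hz : u ∉ zpowers z) {n : G}
    (hn : n ∈ normalizer ((P : Subgroup G) : Set G)) (h1 : n * u = u * n) :
    n ∈ (P : Subgroup G) ⊔ centralizer ((P : Subgroup G) : Set G) := by
  have h3 : n ^ 3 ∈ centralizer ((P : Subgroup G) : Set G) := mem_centralizer_iff.2 fun q hq => by
    have hq' := (mem_normalizer_iff.1 hn q).1 hq
    obtain ⟨i, hi⟩ := h.comm q hq u hu
    have a1 : n * z ^ i = z ^ i * n := (Commute.zpow_right (h.norm n hn) i).eq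
    have a0 : q * u * q⁻¹ = z ^ i * u := by simp only at hi; rw [hi]; group
    have hv : q⁻¹ * (n * q * n⁻¹) ∈ (P : Subgroup G) ⊓ centralizer ({u} : Set G) :=
      ⟨(P : Subgroup G).mul_mem (inv_mem hq) hq', mem_centralizer_singleton_iff.2 (by
        have a2 : n * q * n⁻¹ * u * (n * q * n⁻¹)⁻¹ = q * u * q⁻¹ := by
          calc _ = n * (q * (n⁻¹ * u * n) * q⁻¹) * n⁻¹ := by group
            _ = _ := by
              rw [mul_assoc n⁻¹, ← h1, inv_mul_cancel_left, a0, ← mul_assoc, a1, mul_assoc _ n, h1]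
              group
        calc _ = q⁻¹ * (n * q * n⁻¹ * u * (n * q * n⁻¹)⁻¹) * (n * q * n⁻¹) := by group
          _ = _ := by rw [a2]; group)⟩
    have a3 := h.cent_V hu hz h1 (h.norm n hn) hv
    have a4 := h.exp _ hv.1
    set v := q⁻¹ * (n * q * n⁻¹)
    have a5 : n * q = q * v * n := by simp only [v]; group
    have a6 : ∀ k : ℕ, n ^ k * q = q * v ^ k * n ^ k := fun k => by
      induction k with
      | zero => simp
      | succ k ih => rw [pow_succ' n, mul_assoc, ih, ← mul_assoc, ← mul_assoc, a5, mul_assoc _ n,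
          ← (Commute.pow_left a3 k).eq, pow_succ' v]; group
    rw [a6, a4, mul_one]
  obtain ⟨s, hs⟩ := exists_isPPart Nat.prime_three n
  have hsN := isPPart_mem Nat.prime_three hs hn
  have hsP : s ∈ (P : Subgroup G) := by
    have := (isPGroup_zpowers_of_orderOf (isPPart_orderOf hs)).inf_normalizer_sylow P
    exact (this.le ⟨mem_zpowers s, hsN⟩).2
  obtain ⟨y, rfl, hsy, -, hy⟩ := hs
  have hy3 : y ^ 3 ∈ centralizer ((P : Subgroup G) : Set G) := by
    rwa [hsy.mul_pow, h.exp s hsP, one_mul] at h3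
  have : y ∈ zpowers (y ^ 3) := mem_zpowers_pow_iff.2
    ((Nat.Prime.coprime_iff_not_dvd Nat.prime_three).2 hy)
  exact mul_mem_sup hsP (zpowers_le.2 hy3 this)

theorem sup_le_stab (hu : u ∈ (P : Subgroup G)) :
    (P : Subgroup G) ⊔ centralizer ((P : Subgroup G) : Set G) ≤ stab z u :=
  sup_le (h.le_stab hu) fun c hc => ⟨(mem_centralizer_iff.1 hc z h.zP).symm, by
    rw [← mem_centralizer_iff.1 hc u hu]; simp⟩

theorem sup_le_norm : (P : Subgroup G) ⊔ centralizer ((P : Subgroup G) : Set G) ≤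
    normalizer ((P : Subgroup G) : Set G) := sup_le le_normalizer (centralizer_le_normalizer _)

theorem relIndex_cent (hu : u ∈ (P : Subgroup G)) (hz : u ∉ zpowers z) :
    (centralizer ({u} : Set G)).relIndex (normalizer ((P : Subgroup G) : Set G)) =
      3 * ((P : Subgroup G) ⊔ centralizer ((P : Subgroup G) : Set G)).relIndex
        (normalizer ((P : Subgroup G) : Set G)) := by
  have a1 : centralizer ({u} : Set G) ⊓ normalizer ((P : Subgroup G) : Set G) =
      centralizer ({u} : Set G) ⊓ ((P : Subgroup G) ⊔ centralizer ((P : Subgroup G) : Set G)) :=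
    le_antisymm (fun n hn => ⟨hn.1, h.mem_sup hu hz hn.2 (mem_centralizer_singleton_iff.1 hn.1)⟩)
      (inf_le_inf_left _ h.sup_le_norm)
  have a2 : (centralizer ({u} : Set G)).relIndex (P : Subgroup G) = 3 := by
    have := card_mul_index ((centralizer ({u} : Set G)).subgroupOf (P : Subgroup G))
    rw [← inf_subgroupOf_left, Nat.card_congr (subgroupOfEquivOfLe inf_le_left).toEquiv, h.nine' hu hz,
      h.card, inf_subgroupOf_left] at this
    rw [relIndex]; omega
  rw [← inf_relIndex_right, a1, ← relIndex_mul_relIndex _ _ _ inf_le_right h.sup_le_norm,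
    inf_relIndex_right, ← Pair.ncard_cls]
  rw [← Pair.ncard_cls] at a2
  congr 1
  refine Eq.trans (congrArg _ ?_) a2
  refine Set.Subset.antisymm ?_ fun y ⟨c, hc, e⟩ => ⟨c, mem_sup_left hc, e⟩
  rintro _ ⟨c, hc, rfl⟩
  obtain ⟨q, hq, e⟩ := h.exists_conj hu hz (h.sup_le_stab hu hc).2
  exact ⟨q, hq, by rw [e]; group⟩

theorem rat (he : 2 ∣ ((P : Subgroup G) ⊔ centralizer ((P : Subgroup G) : Set G)).relIndex
    (normalizer ((P : Subgroup G) : Set G))) (hu : u ∈ (P : Subgroup G)) (hz : u ∉ zpowers z) :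
    IsConj u u⁻¹ := by
  have := Fact.mk Nat.prime_two
  obtain ⟨S, hS⟩ := exists_isSylowIn 2 (normalizer ((P : Subgroup G) : Set G))
  obtain ⟨s, hs, hs'⟩ : ∃ s ∈ S, s ∉ (P : Subgroup G) ⊔ centralizer ((P : Subgroup G) : Set G) := by
    by_contra hc; push Not at hc
    exact hS.not_dvd_relIndex_of_le hc h.sup_le_norm he
  have ex : ∃ k, s ^ 2 ^ k ∈ (P : Subgroup G) ⊔ centralizer ((P : Subgroup G) : Set G) := by
    obtain ⟨k, hk⟩ := hS.isPGroup ⟨s, hs⟩
    exact ⟨k, by rw [show s ^ 2 ^ k = 1 from congrArg Subtype.val hk]; exact one_mem _⟩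
  obtain ⟨k, hk⟩ := Nat.exists_eq_succ_of_ne_zero (n := Nat.find ex) fun e => hs' (by
    simpa [e] using Nat.find_spec ex)
  have t1 := Nat.find_min ex (m := k) (by omega)
  have t2 := Nat.find_spec ex
  rw [hk, pow_succ, pow_mul, pow_two] at t2
  have tN : s ^ 2 ^ k ∈ normalizer ((P : Subgroup G) : Set G) := pow_mem (hS.le hs) _
  generalize s ^ 2 ^ k = t at t1 t2 tN
  have hu' := (mem_normalizer_iff.1 tN u).1 hu
  have ha : u * (t * u * t⁻¹) ∈ zpowers z := by_contra fun ha => by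
    have hP := mul_mem hu hu'
    have a1 : t * (u * (t * u * t⁻¹)) * t⁻¹ * (u * (t * u * t⁻¹))⁻¹ ∈ zpowers z := by
      obtain ⟨i, hi⟩ := (h.sup_le_stab hu t2).2
      have a2 := h.comm _ hu' u hu
      have a3 := (Commute.zpow_right (h.zc hu') i).eq
      simp only at hi
      have : t * (u * (t * u * t⁻¹)) * t⁻¹ * (u * (t * u * t⁻¹))⁻¹ =
          z ^ i * (t * u * t⁻¹ * u * (t * u * t⁻¹)⁻¹ * u⁻¹) := by
        rw [← mul_assoc (z ^ i), ← mul_assoc (z ^ i), ← mul_assoc (z ^ i), ← a3, hi]; group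
      rw [this]
      exact mul_mem ⟨i, rfl⟩ a2
    obtain ⟨q, hq, e⟩ := h.exists_conj hP ha a1
    have a4 := h.mem_sup hP ha (mul_mem (inv_mem (le_normalizer hq)) tN) (by
      rw [inv_mul_cancel_right] at e
      calc _ = q⁻¹ * (t * (u * (t * u * t⁻¹)) * t⁻¹) * t := by group
        _ = _ := by rw [← e]; group)
    exact t1 ((mul_mem_cancel_left (inv_mem (mem_sup_left hq))).1 a4)
  have a5 := h.isConj_mul (inv_mem hu) (fun hm => hz (inv_mem_iff.1 hm)) ha
  exact (isConj_iff.2 ⟨u * t, by group⟩ : IsConj u (u * (t * u * t⁻¹) * u⁻¹)).trans a5.symm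

theorem npc_top (he : ((P : Subgroup G) ⊔ centralizer ((P : Subgroup G) : Set G)).relIndex
    (normalizer ((P : Subgroup G) : Set G)) = 1) : HasNormalPComplement 3 G :=
  hasNormalPComplement_of_no_fusion P fun u hu g hg => by
    have c : IsConj u (g⁻¹ * u * g) := isConj_iff.2 ⟨g⁻¹, by group⟩
    by_cases hz : u ∈ zpowers z
    · exact ⟨1, one_mem _, by simp [h.weak' hg hz c]⟩
    obtain ⟨n, hn, e⟩ := h.conj_norm hu hg c
    obtain ⟨q, hq, e'⟩ := h.exists_conj hu hz (h.sup_le_stab hu (relIndex_eq_one.1 he hn)).2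
    exact ⟨q⁻¹, inv_mem hq, by rw [inv_inv, e', ← e]; group⟩

theorem exists_loc : ∃ (ι : Finset (ConjClasses G)) (x : ι → centralizer ({z} : Set G)),
    (Loc z fun i => (x i : G)) ∧ Loc (Ex.zc z) x ∧ (∀ i, (x i : G) ∈ (P : Subgroup G) ∧ (x i : G) ∉ zpowers z) ∧
    Fintype.card ι * ((P : Subgroup G) ⊔ centralizer ((P : Subgroup G) : Set G)).relIndex
      (normalizer ((P : Subgroup G) : Set G)) = 8 := by
  set s := univ.filter fun u => u ∈ (P : Subgroup G) ∧ u ∉ zpowers z with hs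
  have ms : ∀ {u}, u ∈ s ↔ u ∈ (P : Subgroup G) ∧ u ∉ zpowers z := by simp [hs]
  choose y hy hy' using fun i : s.image ConjClasses.mk => mem_image.1 i.2
  have y1 := fun i => (ms.1 (hy i)).1
  have y2 := fun i => (ms.1 (hy i)).2
  have nc : normalizer ((P : Subgroup G) : Set G) ≤ centralizer ({z} : Set G) := fun n hn =>
    mem_centralizer_singleton_iff.2 (h.norm n hn)
  have cov : ∀ u ∈ (P : Subgroup G), u = 1 ∨ u = z ∨ u = z⁻¹ ∨
      ∃ i, ∃ n ∈ centralizer ({z} : Set G), n * y i * n⁻¹ = u := fun u hu => by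
    by_cases hz : u ∈ zpowers z
    · rcases mem_zpowers3 h.oz hz with e | e | e <;> simp [e]
    · obtain ⟨n, hn, e⟩ := h.conj_norm (y1 ⟨_, mem_image_of_mem _ (ms.2 ⟨hu, hz⟩)⟩) hu
        (ConjClasses.mk_eq_mk_iff_isConj.1 (hy' _))
      exact .inr (.inr (.inr ⟨_, n, nc hn, e⟩))
  have f9 : ∀ {H : Subgroup G} {u}, u ∈ (P : Subgroup G) → u ∉ zpowers z → (P : Subgroup G) ≤ H →
      (Nat.card (H ⊓ centralizer ({u} : Set G) : Subgroup G)).factorization 3 = 2 :=
    fun hu hz hH => by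
    have := ((h.sylow hu hz).of_le (inf_le_inf_right _ hH) inf_le_right).card_eq_pow
    rw [h.nine' hu hz] at this
    exact Nat.pow_right_injective (by norm_num : 2 ≤ 3) this.symm
  have L : Loc z y := ⟨h.oz, fun i => h.ord (y1 i) (y2 i), fun i => h.npc (y1 i) (y2 i),
    fun i => by simpa using f9 (y1 i) (y2 i) le_top, fun g hg => by
      obtain ⟨c, -, hc⟩ := h.cover le_top (mem_top g) hg
      have c1 : IsConj (c * g * c⁻¹) g := isConj_iff.2 ⟨c⁻¹, by group⟩
      rcases cov _ hc with e | e | e | ⟨i, n, -, e⟩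
      exacts [.inl (isConj_one_right.1 (e ▸ c1)), .inr (.inl (e ▸ c1)), .inr (.inr (.inl (e ▸ c1))),
        .inr (.inr (.inr ⟨i, (isConj_iff.2 ⟨n, e⟩).trans c1⟩))], h.zz,
    fun i c => y2 i (h.weak (y1 i) c ▸ mem_zpowers z),
    fun i c => y2 i (h.weak' (y1 i) (inv_mem (mem_zpowers z)) c ▸ inv_mem (mem_zpowers z)),
    fun i j c => Subtype.ext ((hy' i).symm.trans ((ConjClasses.mk_eq_mk_iff_isConj.2 c).trans (hy' j)))⟩
  refine ⟨_, fun i => ⟨y i, h.le_cent (y1 i)⟩, L, ⟨by rw [← orderOf_coe]; exact h.oz,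
    fun i => by rw [← orderOf_coe]; exact L.ox i, fun i => ?_,
    fun i => by rw [card_centralizer_subgroup]; exact f9 (y1 i) (y2 i) h.le_cent, fun g hg => ?_,
    fun c => L.zz (isConj_coe c), fun i c => L.zx i (isConj_coe c), fun i c => L.zx' i (isConj_coe c),
    fun i j c => L.xx i j (isConj_coe c)⟩, fun i => ⟨y1 i, y2 i⟩, ?_⟩
  · refine CL.Grp.HasNormalPComplement.of_injective (L.npc i) (MonoidHom.codRestrict
      ((Subgroup.subtype _).comp (Subgroup.subtype _)) _ fun a => mem_centralizer_singleton_iff.2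
        (congrArg Subtype.val (mem_centralizer_singleton_iff.1 a.2))) fun a b e => ?_
    have := congrArg Subtype.val e
    exact Subtype.ext (Subtype.ext this)
  · obtain ⟨c, hc', hc⟩ := h.cover h.le_cent g.2 (by rwa [orderOf_coe])
    have c1 : ∀ w : centralizer ({z} : Set G), c * g * c⁻¹ = w → IsConj w g := fun w e =>
      isConj_iff.2 ⟨⟨c, hc'⟩⁻¹, Subtype.ext (by simp [← e, mul_assoc])⟩
    rcases cov _ hc with e | e | e | ⟨i, n, hn, e⟩
    exacts [.inl (isConj_one_right.1 (c1 1 e)), .inr (.inl (c1 _ e)), .inr (.inr (.inl (c1 _ e))),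
      .inr (.inr (.inr ⟨i, (isConj_iff.2 ⟨⟨n, hn⟩, rfl⟩).trans (c1 _ e.symm)⟩))]
  · have a1 : s.card = 24 := by
      have b1 := card_filter_add_card_filter_not (s := univ.filter fun u => u ∈ (P : Subgroup G))
        fun u => u ∈ zpowers z
      have b2 : (univ.filter fun u => u ∈ (P : Subgroup G)).card = 27 := by
        rw [← h.card, Nat.card_eq_fintype_card, Fintype.card_subtype]
      have b3 : ((univ.filter fun u => u ∈ (P : Subgroup G)).filter fun u => u ∈ zpowers z).card = 3 := by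
        refine Eq.trans ?_ h.oz
        rw [← Nat.card_zpowers, Nat.card_eq_fintype_card, Fintype.card_subtype, filter_filter]
        congr 1
        exact filter_congr fun u _ => and_iff_right_of_imp fun hu => h.zpow_le hu
      rw [b2, b3, filter_filter] at b1
      have : 3 + s.card = 27 := by convert b1
      omega
    rw [card_eq_sum_card_image ConjClasses.mk, sum_const_nat (m := 3 * ((P : Subgroup G) ⊔
      centralizer ((P : Subgroup G) : Set G)).relIndex (normalizer ((P : Subgroup G) : Set G)))] at a1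
    · rw [Fintype.card_coe]; linarith
    intro c hc
    obtain ⟨u, hu, rfl⟩ := mem_image.1 hc
    obtain ⟨u1, u2⟩ := ms.1 hu
    rw [← h.relIndex_cent u1 u2, ← Pair.ncard_cls, ← Set.ncard_coe_finset]
    congr 1
    ext v
    simp only [coe_filter, Set.mem_ofPred_eq, ms, ConjClasses.mk_eq_mk_iff_isConj]
    refine ⟨fun ⟨a, b⟩ => h.conj_norm u1 a.1 b.symm, ?_⟩
    rintro ⟨n, hn, rfl⟩
    have c : IsConj (n * u * n⁻¹) u := isConj_iff.2 ⟨n⁻¹, by group⟩
    exact ⟨⟨(mem_normalizer_iff.1 hn u).1 u1, fun hm => u2 (h.weak' u1 hm c ▸ hm)⟩, c⟩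

theorem main {M : Ideal AlgInt} (hM : IsPModular 3 M) {e : ℕ}
    (he : ((P : Subgroup G) ⊔ centralizer ((P : Subgroup G) : Set G)).relIndex
      (normalizer ((P : Subgroup G) : Set G)) = e) (h2 : 2 ∣ e) : ∃ r, r * e = 8 ∧
    Nat.card (principalBlock M G) + 2 * r = 18 ∧
    Nat.card {χ : IrrCharacter G // χ ∈ principalBlock M G ∧
      blockHeight 3 (principalBlock M G) (χ : G → ℂ) = 0} = 6 ∧
    blockRank 3 (principalBlock M G) + r = 6 := by
  obtain ⟨ι, x, L, L', hx, hc⟩ := h.exists_loc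
  rw [he] at hc
  have h3 := not_dvd_index_centralizer_of_sylow_le P h.le_cent
  have cj : ∀ i (w : centralizer ({z} : Set G)), (w : G) ∈ (P : Subgroup G) → IsConj (x i : G) w →
      IsConj (x i) w := fun i w hw c => by
    obtain ⟨n, hn, e⟩ := h.conj_norm (hx i).1 hw c
    exact isConj_iff.2 ⟨⟨n, mem_centralizer_singleton_iff.2 (h.norm n hn)⟩, Subtype.ext e⟩
  refine ⟨_, hc, glob L L' hM h3 (fun i => cj i _ (mul_mem h.zP (hx i).1)
    (h.isConj_mul (hx i).1 (hx i).2 (mem_zpowers z))) (fun i => cj i _ (inv_mem (hx i).1)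
    (h.rat (he ▸ h2) (hx i).1 (hx i).2)) (fun i χ hχ h1 => ?_) ?_⟩
  · refine apply_ne_zero hM (zc_comm z) L'.oz (P := (P : Subgroup G).subgroupOf _)
      (isSylowIn_of_le P h.le_cent).not_dvd (fun q hq => ?_) hχ h1
    obtain ⟨k, hk⟩ := h.comm q hq _ (hx i).1
    exact ⟨k, Subtype.ext (by simpa [Ex.zc] using hk)⟩
  · obtain ⟨f, rfl⟩ := h2
    have : Fintype.card ι ∣ 4 := ⟨f, by linarith⟩
    have := Nat.le_of_dvd (by norm_num) this
    interval_cases Fintype.card ι <;> simp_all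

theorem main_one {M : Ideal AlgInt} (hM : IsPModular 3 M)
    (he : ((P : Subgroup G) ⊔ centralizer ((P : Subgroup G) : Set G)).relIndex
      (normalizer ((P : Subgroup G) : Set G)) = 1) : Nat.card (principalBlock M G) = 11 ∧
    Nat.card {χ : IrrCharacter G // χ ∈ principalBlock M G ∧
      blockHeight 3 (principalBlock M G) (χ : G → ℂ) = 0} = 9 ∧
    blockRank 3 (principalBlock M G) = 1 := by
  obtain ⟨ι, x, L, -, -, hc⟩ := h.exists_loc
  rw [he, mul_one] at hc
  refine L.nilp hM (h.npc_top he) ?_ hc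
  have := P.card_eq_multiplicity
  rw [h.card] at this
  exact Nat.pow_right_injective (by norm_num : 2 ≤ 3) this.symm

end Ext

end CL.Blk.Ex
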