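/-
Navarro–Wolf: if every irreducible character of `p'`-degree of a `p`- and `q`-solvable group has
`q'`-degree, a Sylow `p`-subgroup normalizes a (unique) Sylow `q`-subgroup.
-/
import Cfsg.Agent.Blk.PPrimeKer
import Cfsg.Agent.Blk.FongP
import Cfsg.Agent.Blk.PrincCrit2
import Cfsg.Agent.Fgs.ClassBasic
import Cfsg.Agent.Grp.Coprime2
import Cfsg.Agent.Grp.Hall2

set_option autoImplicit false
set_option linter.unusedSectionVars false

open scoped ComplexConjugate Pointwise commutatorElement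
open Cfsg CL.Grp CL.Char Subgroup

namespace CL.Blk.NW

universe u

variable {G : Type*} [Group G] [Finite G] {p q : ℕ} [hp : Fact p.Prime] [hq : Fact q.Prime]

/-- Glauberman's count for a solvable subgroup acting coprimely. -/
theorem card_invariant_irr_solv {N A : Subgroup G} [hN : N.Normal] [Group.IsSolvable A]
    (h : (Nat.card A).Coprime (Nat.card N)) :
    Nat.card {θ : IrrCharacter N // A ≤ inertia N (θ : N → ℂ)} =
      Nat.card (IrrCharacter (N ⊓ centralizer (A : Set G) : Subgroup G)) := by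
  have hnorm : ∀ s ∈ A, ∀ g ∈ N, s * g * s⁻¹ ∈ N := fun s _ g hg => hN.conj_mem g hg s
  have h1 := gl_card_irr_solvable h (glConjHom hnorm)
    (inclusion (inf_le_left : N ⊓ centralizer (A : Set G) ≤ N)) (inclusion_injective _)
    (glConjHom_range_inclusion hnorm rfl _)
  exact Eq.trans (Nat.card_congr (Equiv.subtypeEquivRight fun θ =>
    ⟨fun h a g => h a.2 g, fun h a ha g => h ⟨a, ha⟩ g⟩)) h1

/-- If all `P`-invariant characters of `N` are `A`-invariant, then `C_N(P) = C_N(A)`. -/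
theorem centralizer_le_of_invariant {N P A : Subgroup G} [hN : N.Normal] [Group.IsSolvable A]
    (hPA : P ≤ A) (h : (Nat.card A).Coprime (Nat.card N))
    (hi : ∀ θ, IsIrrCharacter N θ → P ≤ inertia N θ → A ≤ inertia N θ) :
    N ⊓ centralizer (P : Set G) ≤ centralizer (A : Set G) := by
  have := isSolvable_of_le hPA
  have h1 := card_invariant_irr_solv h
  have h2 := card_invariant_irr_solv (h.coprime_dvd_left (card_dvd_of_le hPA))
  rw [Nat.card_congr (Equiv.subtypeEquivRight fun θ : IrrCharacter N =>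
    (⟨hi _ θ.2, hPA.trans⟩ : P ≤ inertia N (θ : N → ℂ) ↔ A ≤ inertia N (θ : N → ℂ))), h1,
    card_irr_eq_card_conjClasses, card_irr_eq_card_conjClasses] at h2
  have hle : N ⊓ centralizer (A : Set G) ≤ N ⊓ centralizer (P : Set G) :=
    inf_le_inf_left _ (centralizer_le hPA)
  have hinj : Function.Injective (ConjClasses.map (inclusion hle)) := by
    intro a b e
    obtain ⟨x, rfl⟩ := ConjClasses.mk_surjective a
    obtain ⟨y, rfl⟩ := ConjClasses.mk_surjective b
    obtain ⟨k, hk⟩ := isConj_iff.1 (ConjClasses.mk_eq_mk_iff_isConj.1 e)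
    have hk' : (k : G) * x * (k : G)⁻¹ = y := congrArg Subtype.val hk
    obtain ⟨c, hc, e'⟩ := exists_centralizer_conj_elem_eq (A := A) (K := N) le_normalizer_of_normal h
      (Or.inl inferInstance) x.2.2 k.2.1 (hk' ▸ y.2.2)
    exact ConjClasses.mk_eq_mk_iff_isConj.2 (isConj_iff.2 ⟨⟨c, hc⟩, Subtype.ext (e'.trans hk')⟩)
  have hsurj := (hinj.bijective_of_nat_card_le h2.ge).2
  have htop : (N ⊓ centralizer (A : Set G)).subgroupOf (N ⊓ centralizer (P : Set G)) = ⊤ := by
    refine CL.Fgs.eq_top_of_forall_exists_conj_mem fun x => ?_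
    obtain ⟨b, hb⟩ := hsurj (ConjClasses.mk x)
    obtain ⟨y, rfl⟩ := ConjClasses.mk_surjective b
    obtain ⟨k, hk⟩ := isConj_iff.1 (ConjClasses.mk_eq_mk_iff_isConj.1 hb).symm
    exact ⟨k, by rw [hk]; exact y.2⟩
  exact (subgroupOf_eq_top.1 htop).trans inf_le_right

variable (p q G) in
/-- Every irreducible character of `p'`-degree has `q'`-degree. -/
def Hyp : Prop := ∀ χ, IsIrrCharacter G χ → ¬ p ∣ charDegree χ → ¬ q ∣ charDegree χ

theorem Hyp.quot (h : Hyp G p q) (N : Subgroup G) [N.Normal] : Hyp (G ⧸ N) p q :=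
  fun _ hχ h1 => h _ hχ.inflate h1

theorem Hyp.inertia (h : Hyp G p q) {N S : Subgroup G} [hN : N.Normal] (hNS : N ≤ S)
    (hS : ¬ p ∣ S.index) {η : S → ℂ} (hη : IsIrrCharacter S η) (hd : ¬ p ∣ charDegree η) {θ : N → ℂ}
    (hθ : IsIrrCharacter N θ) (he : ∀ n : N, η ⟨n, hNS n.2⟩ = θ n) :
    ¬ q ∣ (inertia N θ).index := by
  have := Fintype.ofFinite G
  have := Fintype.ofFinite S
  have := Fintype.ofFinite N
  obtain ⟨χ, h3, h4, h5⟩ := exists_irr_constituent_not_dvd (p := p) (isCharacter_indFun hη.isCharacter) (by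
    rw [charDegree_indFun hη.isCharacter]
    exact fun h => (hp.out.dvd_mul.1 h).elim hS hd)
  rw [classInner_indFun_eq_res hη.isCharacter h3.isCharacter] at h5
  have h6 := classInner_comp_ne_zero_of_constituent (inclusion hNS) (θ := θ)
    (h3.isCharacter.comp S.subtype) hη hθ.isCharacter h5 (by
      rw [show (fun x => η (inclusion hNS x)) = θ from funext he, hθ.classInner_self]; exact one_ne_zero)
  have h6' : classInner (fun n : N => χ n) θ ≠ 0 := h6
  obtain ⟨e, he⟩ := (h3.isCharacter.comp N.subtype).exists_nat_classInner hθ.isCharacter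
  have h7 := clifford_degree h3 hθ h6'
  have he' : classInner (fun n : N => χ n) θ = e := he
  rw [he', ← h3.cast_charDegree, ← hθ.cast_charDegree] at h7
  refine fun hd => h χ h3 h4 ?_
  have : charDegree χ = e * (CL.Char.inertia N θ).index * charDegree θ := by exact_mod_cast h7
  rw [this]
  exact (hd.mul_left _).mul_right _

/-- An invariant character of a normal `p'`-subgroup has inertia group of `q'`-index. -/
theorem Hyp.inertia_coprime (h : Hyp G p q) {N P : Subgroup G} [hN : N.Normal] (hP : IsSylowIn p P ⊤)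
    (hNp : ¬ p ∣ Nat.card N) {θ : N → ℂ} (hθ : IsIrrCharacter N θ) (hi : P ≤ CL.Char.inertia N θ) :
    ¬ q ∣ (CL.Char.inertia N θ).index := by
  have hNS : N ≤ P ⊔ N := le_sup_right
  have hS : P ⊔ N ≤ CL.Char.inertia N θ := sup_le hi (le_inertia hθ.isClassFunction)
  obtain ⟨η, h1, h2⟩ := exists_extension_of_hall (isIrrCharacter_subgroupOf hNS hθ)
    (fun g n => hS g.2 ⟨(n : ↥(P ⊔ N)), mem_subgroupOf.1 n.2⟩) hθ.cast_charDegree.symm
    (by rw [card_subgroupOf_of_le hNS]; exact hθ.charDegree_dvd_card) (by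
      rw [card_subgroupOf_of_le hNS]
      obtain ⟨k, hk⟩ := IsPGroup.iff_card.1 hP.isPGroup
      have : (N.subgroupOf (P ⊔ N)).index ∣ p ^ k := by
        rw [← hk, ← relIndex, relIndex_sup_right]; exact relIndex_dvd_card _ _
      exact (((Nat.Prime.coprime_iff_not_dvd hp.out).2 hNp).symm.pow_right k).coprime_dvd_right this)
  have h3 : ∀ n : N, η ⟨n, hNS n.2⟩ = θ n := fun n => h2 ⟨⟨n, hNS n.2⟩, n.2⟩
  refine h.inertia hNS ?_ h1 ?_ hθ h3
  · have := hP.not_dvd_relIndex_of_le (le_sup_left : P ≤ P ⊔ N) le_top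
    rwa [relIndex_top_right] at this
  · have : charDegree η = charDegree θ := charDegree_eq_of_eq ((h3 1).trans hθ.cast_charDegree.symm)
    rw [this]
    exact fun hd => hNp (hd.trans hθ.charDegree_dvd_card)

/-- The data obtained from the quotient by a normal subgroup `N`. -/
structure Lift (p q : ℕ) (P N M : Subgroup G) : Prop where
  le : N ≤ M
  pow : ∃ k, N.relIndex M = q ^ k
  idx : ¬ q ∣ M.index
  norm : P ≤ normalizer (M : Set G)
  uniq : ∀ T : Subgroup G, P ≤ T → ¬ q ∣ T.index → M ≤ T ⊔ N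

/-- The conclusion of the induction. -/
def Concl (q : ℕ) (P : Subgroup G) : Prop :=
  ∃ Q : Subgroup G, IsSylowIn q Q ⊤ ∧ P ≤ normalizer (Q : Set G) ∧
    ∀ T : Subgroup G, P ≤ T → ¬ q ∣ T.index → Q ≤ T

theorem exists_lift {P N : Subgroup G} [N.Normal] (h : Concl q (P.map (QuotientGroup.mk' N))) :
    ∃ M, Lift p q P N M := by
  obtain ⟨Q, h1, h2, h3⟩ := h
  refine ⟨Q.comap (QuotientGroup.mk' N), fun n hn => ?_, ?_, ?_, ?_, fun T hT hi => ?_⟩
  · rw [mem_comap, QuotientGroup.mk'_apply, (QuotientGroup.eq_one_iff n).2 hn]; exact one_mem _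
  · obtain ⟨k, hk⟩ := IsPGroup.iff_card.1 h1.isPGroup
    refine ⟨k, ?_⟩
    have h4 := hall_card_comap_mk' N Q
    have h5 : N ≤ Q.comap (QuotientGroup.mk' N) := fun n hn => by
      rw [mem_comap, QuotientGroup.mk'_apply, (QuotientGroup.eq_one_iff n).2 hn]; exact one_mem _
    rw [← hall_card_mul_relIndex h5, hk] at h4
    exact Nat.eq_of_mul_eq_mul_left Nat.card_pos h4
  · rw [index_comap_of_surjective _ (QuotientGroup.mk'_surjective N), ← relIndex_top_right]
    exact h1.not_dvd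
  · exact (le_comap_map _ _).trans ((comap_mono h2).trans (le_normalizer_comap _))
  · have := comap_mono (f := QuotientGroup.mk' N) (h3 _ (map_mono hT) fun hd =>
      hi (hd.trans (index_map_dvd _ (QuotientGroup.mk'_surjective N))))
    rwa [comap_map_eq, QuotientGroup.ker_mk'] at this

namespace Lift

variable {P N M : Subgroup G} [hN : N.Normal] (L : Lift p q P N M)
include L

theorem sylow {Q : Subgroup G} (hQ : IsSylowIn q Q M) : IsSylowIn q Q ⊤ :=
  ⟨le_top, hQ.isPGroup, by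
    rw [relIndex_top_right, ← relIndex_mul_index hQ.le]
    exact fun h => (hq.out.dvd_mul.1 h).elim hQ.not_dvd L.idx⟩

theorem exists_mul {Q : Subgroup G} (hQ : IsSylowIn q Q M) {m : G} (hm : m ∈ M) :
    ∃ n ∈ N, ∃ y ∈ Q, m = n * y := by
  obtain ⟨k, hk⟩ := L.pow
  exact hQ.exists_mul_eq_of_relIndex_pow hk hm

theorem concl_q (hNq : IsPGroup q N) : Concl q P := by
  obtain ⟨k, hk⟩ := L.pow
  obtain ⟨j, hj⟩ := IsPGroup.iff_card.1 hNq
  have hM : IsPGroup q M := IsPGroup.of_card (n := j + k) (by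
    rw [← hall_card_mul_relIndex L.le, hj, hk, pow_add])
  refine ⟨M, L.sylow ⟨le_rfl, hM, by rw [relIndex_self]; exact hq.out.not_dvd_one⟩, L.norm,
    fun T hT hi => (L.uniq T hT hi).trans (sup_le le_rfl ?_)⟩
  obtain ⟨S, hS⟩ := exists_sylow_le_of_not_dvd_index' hi
  exact ((isSylowIn_top S).le_of_normalized hNq le_top le_normalizer_of_normal).trans hS

theorem concl_p (h : Hyp G p q) (hpq : p ≠ q) (hP : IsSylowIn p P ⊤) (hNp : IsPGroup p N) :
    Concl q P := by
  have hNP : N ≤ P := hP.le_of_normalized hNp le_top le_normalizer_of_normal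
  obtain ⟨Q, hQ⟩ := exists_isSylowIn q M
  refine ⟨Q, L.sylow hQ, ?_, fun T hT hi =>
    hQ.le.trans ((L.uniq T hT hi).trans (sup_le le_rfl (hNP.trans hT)))⟩
  by_contra hn
  have hR : P ⊓ normalizer (Q : Set G) < P := inf_lt_left.2 hn
  have := hP.isPGroup.isNilpotent
  have hL := commutator_sup_lt_of_isNilpotent hR
  obtain ⟨n, hn1, hn2⟩ : ∃ n ∈ N, n ∉ ⁅P, P⁆ ⊔ P ⊓ normalizer (Q : Set G) := by
    by_contra hc
    push Not at hc
    refine hL.not_ge fun x hx => ?_
    obtain ⟨m, hm, hmx⟩ := hQ.frattini L.norm hx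
    obtain ⟨a, ha, y, hy, rfl⟩ := L.exists_mul hQ hm
    have h1 : y⁻¹ * a * y ∈ N := by simpa using hN.conj_mem a ha y⁻¹
    have h2 : y⁻¹ * a * y * x ∈ normalizer (Q : Set G) := by
      have := mul_mem (inv_mem (le_normalizer hy)) hmx
      simpa [mul_assoc] using this
    have h3 := mul_mem (inv_mem (hc _ h1)) (mem_sup_right (⟨mul_mem (hNP h1) hx, h2⟩ :
      y⁻¹ * a * y * x ∈ P ⊓ normalizer (Q : Set G)))
    rwa [inv_mul_cancel_left] at h3
  obtain ⟨lam, hl1, hl2⟩ := exists_monoidHom_of_not_mem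
    (N := (⁅P, P⁆ ⊔ P ⊓ normalizer (Q : Set G)).subgroupOf P) (g := ⟨n, hNP hn1⟩) (by
      intro x hx
      refine mem_sup_left (S := ⁅P, P⁆) ?_
      rw [← map_subtype_commutator]
      exact ⟨x, hx, rfl⟩) hn2
  have hθ := isIrrCharacter_linear (lam.comp (inclusion hNP))
  have h1 := h.inertia hNP (by rw [← relIndex_top_right]; exact hP.not_dvd) (isIrrCharacter_linear lam)
    (by rw [charDegree_monoidHom]; exact hp.out.not_dvd_one) hθ fun _ => rfl
  have h2 : P ≤ CL.Char.inertia N fun g => ((lam.comp (inclusion hNP)) g : ℂ) := fun x hx g => by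
    have : inclusion hNP ⟨x * g * x⁻¹, hN.conj_mem g g.2 x⟩ = ⟨x, hx⟩ * inclusion hNP g * (⟨x, hx⟩ : P)⁻¹ := rfl
    simp only [MonoidHom.comp_apply, this, map_mul, map_inv, mul_inv_cancel_comm]
  have h3 := hQ.le.trans ((L.uniq _ h2 h1).trans (sup_le le_rfl (le_inertia hθ.isClassFunction)))
  have hcop : (Nat.card Q).Coprime (Nat.card N) := IsPGroup.coprime_card_of_ne q p hpq.symm _ _ hQ.isPGroup hNp
  have := hQ.isPGroup.isNilpotent
  obtain ⟨x, hx, c, hc, rfl⟩ := exists_commutator_mul_centralizer (A := Q) (K := N)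
    le_normalizer_of_normal hcop (Or.inl inferInstance) hn1
  have h4 : ⁅N, Q⁆ ≤ (lam.comp (inclusion hNP)).ker.map N.subtype := commutator_le.2 fun a ha y hy => by
    refine ⟨⟨a, ha⟩ * ⟨y * a⁻¹ * y⁻¹, hN.conj_mem _ (inv_mem ha) y⟩, ?_, by
      simp [commutatorElement_def, mul_assoc]⟩
    have h5 := h3 hy ⟨a⁻¹, inv_mem ha⟩
    rw [SetLike.mem_coe, MonoidHom.mem_ker, map_mul, Units.val_injective h5, ← map_mul]
    exact (congrArg _ (Subtype.ext (mul_inv_cancel a))).trans (map_one _)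
  obtain ⟨x', hx', rfl⟩ := h4 hx
  have h5 : lam ⟨c, hNP hc.1⟩ = 1 := hl1 (mem_sup_right (S := ⁅P, P⁆)
    ⟨hNP hc.1, centralizer_le_normalizer _ hc.2⟩)
  refine hl2 ?_
  have : (⟨N.subtype x' * c, hNP hn1⟩ : P) = inclusion hNP x' * ⟨c, hNP hc.1⟩ := rfl
  rw [this, map_mul, h5, mul_one]
  exact hx'

theorem concl_cop (h : Hyp G p q) (hpq : p ≠ q) (hP : IsSylowIn p P ⊤) (hNp : ¬ p ∣ Nat.card N)
    (hNq : ¬ q ∣ Nat.card N) : Concl q P := by
  obtain ⟨k, hk⟩ := L.pow
  obtain ⟨j, hj⟩ := IsPGroup.iff_card.1 hP.isPGroup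
  have hpN := (Nat.Prime.coprime_iff_not_dvd hp.out).2 hNp
  have hqN := (Nat.Prime.coprime_iff_not_dvd hq.out).2 hNq
  have hpq' : p.Coprime q := (Nat.coprime_primes hp.out hq.out).2 hpq
  have hM : (Nat.card P).Coprime (Nat.card M) := by
    rw [← hall_card_mul_relIndex L.le, hj, hk]
    exact (hpN.mul_right (hpq'.pow_right k)).pow_left j
  have := hP.isPGroup.isNilpotent
  obtain ⟨Q, hQ, hPQ⟩ := exists_isSylowIn_le_normalizer q L.norm hM (Or.inl inferInstance)
  obtain ⟨i, hi⟩ := IsPGroup.iff_card.1 hQ.isPGroup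
  have hc : Nat.card (Q ⊔ P : Subgroup G) = q ^ i * p ^ j := by
    rw [card_sup_of_coprime hPQ (hM.symm.coprime_dvd_left (card_dvd_of_le hQ.le)), hi, hj]
  have : Group.IsSolvable (Q ⊔ P : Subgroup G) := by
    have := normal_subgroupOf_of_le_normalizer' (sup_le le_normalizer hPQ : Q ⊔ P ≤ normalizer (Q : Set G))
    have : Group.IsNilpotent (Q.subgroupOf (Q ⊔ P)) := (hQ.isPGroup.comap_subtype (K := Q ⊔ P)).isNilpotent
    have h1 : IsPGroup p (↥(Q ⊔ P) ⧸ Q.subgroupOf (Q ⊔ P)) := IsPGroup.of_card (n := j) (by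
      have h2 := hall_card_mul_relIndex (le_sup_left : Q ≤ Q ⊔ P)
      rw [hc, hi] at h2
      exact Nat.eq_of_mul_eq_mul_left (pow_pos hq.out.pos i) h2)
    have := h1.isNilpotent
    exact Group.isSolvable_of_ker_le_range (Q.subgroupOf (Q ⊔ P)).subtype
      (QuotientGroup.mk' (Q.subgroupOf (Q ⊔ P))) (by simp)
  have hC := centralizer_le_of_invariant (N := N) (le_sup_right : P ≤ Q ⊔ P)
    (by rw [hc]; exact (hqN.pow_left i).mul_left (hpN.pow_left j)) fun θ hθ h1 =>
      sup_le (hQ.le.trans ((L.uniq _ h1 (h.inertia_coprime hP hNp hθ h1)).trans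
        (sup_le le_rfl (le_inertia hθ.isClassFunction)))) h1
  refine ⟨Q, L.sylow hQ, hPQ, fun T hT hi => ?_⟩
  obtain ⟨S, hS, hPS⟩ := exists_isSylowIn_le_normalizer (A := P) (K := T ⊓ M) q
    (le_normalizer_inf' (hT.trans le_normalizer) L.norm) (hM.coprime_dvd_right (card_dvd_of_le inf_le_right))
    (Or.inl inferInstance)
  have hS' : IsSylowIn q S M := by
    refine ⟨hS.le.trans inf_le_right, hS.isPGroup, ?_⟩
    rw [← relIndex_mul_relIndex S (T ⊓ M) M hS.le inf_le_right]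
    refine fun hd => (hq.out.dvd_mul.1 hd).elim hS.not_dvd fun hd => hNq (hd.trans ?_)
    have h1 := hall_inf_sup_normal T M N (L.uniq T hT hi)
    rw [sup_eq_left.2 L.le] at h1
    have h2 := relIndex_sup_normal_left (T ⊓ M) N
    rw [h1] at h2
    rw [h2]
    exact relIndex_dvd_card _ _
  obtain ⟨m, hm, e⟩ := hQ.exists_conj_eq hS'
  obtain ⟨n, hn, y, hy, rfl⟩ := L.exists_mul hQ hm
  rw [← conj_smul_conj_smul, (conj_smul_eq_self_iff y Q).2 (le_normalizer hy)] at e
  obtain ⟨c, hc, e'⟩ := exists_centralizer_conj_eq (A := P) (K := N) le_normalizer_of_normal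
    (hM.coprime_dvd_right (card_dvd_of_le L.le)) (Or.inl inferInstance) hPQ hPS hn e
  rw [(conj_smul_eq_self_iff c Q).2 (centralizer_le_normalizer _
    (centralizer_le (show (Q : Set G) ⊆ (Q ⊔ P : Subgroup G) from (le_sup_left : Q ≤ Q ⊔ P)) (hC hc)))] at e'
  exact e'.le.trans (hS.le.trans inf_le_left)

end Lift

theorem concl (hpq : p ≠ q) (G : Type u) [Group G] [Finite G] :
    IsPSolvable p G → IsPSolvable q G → Hyp G p q → ∀ P : Subgroup G, IsSylowIn p P ⊤ → Concl q P := by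
  refine induction_on_card (P := fun G _ _ => IsPSolvable p G → IsPSolvable q G → Hyp G p q →
    ∀ P : Subgroup G, IsSylowIn p P ⊤ → Concl q P) (fun G _ _ ih h1 h2 h P hP => ?_) G
  rcases subsingleton_or_nontrivial G with hG | hG
  · refine ⟨⊥, ⟨bot_le, IsPGroup.of_bot, ?_⟩, le_normalizer_of_normal, fun _ _ _ => bot_le⟩
    rw [relIndex_top_right, index_bot, Nat.card_of_subsingleton (1 : G)]
    exact hq.out.not_dvd_one
  obtain ⟨N, hN⟩ := exists_isMinNormal G
  have := hN.normal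
  obtain ⟨M, L⟩ := exists_lift (p := p) (ih (G ⧸ N) (card_quotient_lt hN.ne_bot) (CL.Loc.isPSolvable_quotient h1 N)
    (CL.Loc.isPSolvable_quotient h2 N) (h.quot N) (P.map (QuotientGroup.mk' N)) (by
      have := CL.Loc.isSylowIn_map hP (QuotientGroup.mk' N)
      rwa [map_top_of_surjective _ (QuotientGroup.mk'_surjective N)] at this))
  have key : ∀ (r : ℕ) [Fact r.Prime], IsPSolvable r G → IsPGroup r N ∨ ¬ r ∣ Nat.card N := by
    intro r hr h
    have := hN.nontrivial
    rcases CL.Loc.pCore_ne_bot_or_pPrimeCore_ne_bot (CL.Loc.isPSolvable_subgroup h N) with h3 | h3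
    · have h4 := (hN.eq_bot_or_top_of_characteristic (pCore r N)).resolve_left h3
      exact Or.inl ((h4 ▸ pCore_isPGroup r N :).of_equiv topEquiv)
    · have h4 := (hN.eq_bot_or_top_of_characteristic (pPrimeCore r N)).resolve_left h3
      exact Or.inr ((Nat.Prime.coprime_iff_not_dvd hr.out).1 (pPrimeCore_eq_top_iff.1 h4).symm)
  rcases key q h2 with h3 | h3
  · exact L.concl_q h3
  rcases key p h1 with h4 | h4
  · exact L.concl_p h hpq hP h4
  · exact L.concl_cop h hpq hP h4 h3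

theorem Hyp.not_dvd_card (h : Hyp G p q) (hpq : p ≠ q) (h1 : IsPSolvable p G) (h2 : IsPSolvable q G)
    (hO : pPrimeCore p G = ⊥) : ¬ q ∣ Nat.card G := by
  obtain ⟨P, hP⟩ := exists_isSylowIn p (⊤ : Subgroup G)
  obtain ⟨Q, h3, h4, -⟩ := concl hpq G h1 h2 h P hP
  have h5 : pCore p G ≤ P := hP.le_of_normalized (pCore_isPGroup p G) le_top le_normalizer_of_normal
  have hd : Disjoint Q (pCore p G) := IsPGroup.disjoint_of_ne q p hpq.symm _ _ h3.isPGroup (pCore_isPGroup p G)
  have h6 : Q ≤ pCore p G := fun y hy => CL.Loc.centralizer_pCore_le_of_isPSolvable h1 hO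
    (mem_centralizer_iff.2 fun x hx => (mem_centralizer_iff.1 (mem_centralizer_of_mem_normalizer_of_disjoint
      (A := Q) (K := pCore p G) le_normalizer_of_normal hd hx (h4 (h5 hx))) y hy).symm)
  have h7 := h3.not_dvd
  rwa [hd.eq_bot_of_le h6, relIndex_top_right, index_bot] at h7

/-- Block form: the `q`-elements lie in `O_{p'}(G)`. -/
theorem not_dvd_index_core {M : Ideal AlgInt} (hM : IsPModular p M) (hpq : p ≠ q) (h1 : IsPSolvable p G)
    (h2 : IsPSolvable q G) (h : ∀ χ : IrrCharacter G, χ ∈ principalBlock M G →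
      ¬ p ∣ charDegree (χ : G → ℂ) → ¬ q ∣ charDegree (χ : G → ℂ)) : ¬ q ∣ (pPrimeCore p G).index := by
  refine Hyp.not_dvd_card (G := G ⧸ pPrimeCore p G) (fun χ hχ => h (inflIrr _ ⟨χ, hχ⟩) ?_) hpq
    (CL.Loc.isPSolvable_quotient h1 _) (CL.Loc.isPSolvable_quotient h2 _) (pPrimeCore_quotient_pPrimeCore p G)
  rw [principalBlock_eq_range_inflIrr hM (CL.Loc.isPConstrained_of_isPSolvable h1)]
  exact ⟨_, rfl⟩

theorem sylow_le_core {N : Subgroup G} [N.Normal] (h : ¬ q ∣ N.index) (Q : Sylow q G) :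
    (Q : Subgroup G) ≤ N := by
  obtain ⟨S, hS⟩ := exists_sylow_le_of_not_dvd_index' h
  obtain ⟨g, -, hg⟩ := (isSylowIn_top S).exists_conj_eq (isSylowIn_top Q)
  rw [← hg, conj_smul_le_iff]
  exact fun x hx => Normal.conj_mem inferInstance x (hS hx) g

/-- If the Sylow `p`-subgroups lie in `O_{q'}` and the Sylow `q`-subgroups in `O_{p'}`, some pair commutes. -/
theorem exists_commute (h1 : ¬ q ∣ (pPrimeCore p G).index) (h2 : ¬ p ∣ (pPrimeCore q G).index) :
    ∃ (P : Sylow p G) (Q : Sylow q G), ∀ x ∈ (P : Subgroup G), ∀ y ∈ (Q : Subgroup G), x * y = y * x := by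
  obtain ⟨P⟩ : Nonempty (Sylow p G) := inferInstance
  have := P.2.isNilpotent
  obtain ⟨j, hj⟩ := IsPGroup.iff_card.1 P.2
  obtain ⟨Q, hQ, hPQ⟩ := exists_isSylowIn_le_normalizer (A := P) (K := pPrimeCore p G) q
    le_normalizer_of_normal (by rw [hj]; exact (pPrimeCore_coprime p G).symm.pow_left j) (Or.inl inferInstance)
  obtain ⟨Q, rfl⟩ := isSylowIn_top_iff.1 (⟨le_top, hQ.isPGroup, by
    rw [relIndex_top_right, ← relIndex_mul_index hQ.le]
    exact fun h => (hq.out.dvd_mul.1 h).elim hQ.not_dvd h1⟩ : IsSylowIn q Q ⊤)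
  refine ⟨P, Q, fun x hx y hy => ?_⟩
  have h3 : y⁻¹ * (x * y * x⁻¹) ∈ (Q : Subgroup G) ⊓ pPrimeCore q G :=
    ⟨(Q : Subgroup G).mul_mem (inv_mem hy) (((mem_normalizer_iff.1 (hPQ hx)) y).1 hy), by
      have h4 := sylow_le_core h2 P hx
      have h5 := mul_mem (Normal.conj_mem inferInstance x h4 y⁻¹) (inv_mem h4)
      simpa [mul_assoc] using h5⟩
  rw [inf_pPrimeCore_eq_bot Q.2, mem_bot, inv_mul_eq_one, eq_mul_inv_iff_mul_eq] at h3
  exact h3.symm

/-- Commuting Sylow subgroups: `G/O_{p'}(G)` is a `q'`-group. -/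
theorem not_dvd_index_of_commute (hpq : p ≠ q) (h1 : IsPSolvable p G) (P : Sylow p G) (Q : Sylow q G)
    (h : ∀ x ∈ (P : Subgroup G), ∀ y ∈ (Q : Subgroup G), x * y = y * x) :
    ¬ q ∣ (pPrimeCore p G).index := by
  let f := QuotientGroup.mk' (pPrimeCore p G)
  have hf : Function.Surjective f := QuotientGroup.mk'_surjective _
  have hP := CL.Loc.isSylowIn_map (isSylowIn_top P) f
  have hQ := CL.Loc.isSylowIn_map (isSylowIn_top Q) f
  rw [map_top_of_surjective _ hf] at hP hQ
  have h5 := hP.le_of_normalized (pCore_isPGroup p _) le_top le_normalizer_of_normal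
  have hd : Disjoint ((Q : Subgroup G).map f) (pCore p _) :=
    IsPGroup.disjoint_of_ne q p hpq.symm _ _ hQ.isPGroup (pCore_isPGroup p _)
  have h6 : (Q : Subgroup G).map f ≤ pCore p _ := by
    rintro _ ⟨y, hy, rfl⟩
    refine CL.Loc.centralizer_pCore_le_of_isPSolvable (CL.Loc.isPSolvable_quotient h1 _)
      (pPrimeCore_quotient_pPrimeCore p G) (mem_centralizer_iff.2 fun x hx => ?_)
    obtain ⟨x, hx', rfl⟩ := h5 hx
    rw [← map_mul, ← map_mul, h x hx' y hy]
  have h7 := hQ.not_dvd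
  rwa [hd.eq_bot_of_le h6, relIndex_top_right, index_bot] at h7

theorem not_dvd_degree {M : Ideal AlgInt} (hM : IsPModular p M) (h1 : IsPSolvable p G)
    (h : ¬ q ∣ (pPrimeCore p G).index) {χ : IrrCharacter G} (hχ : χ ∈ principalBlock M G) :
    ¬ q ∣ charDegree (χ : G → ℂ) := fun hd =>
  h (hd.trans (charDegree_dvd_index_of_le_charKer χ.2 fun n hn => χ.2.mem_charKer.2
    ((mem_principalBlock_iff_of_isPConstrained hM (CL.Loc.isPConstrained_of_isPSolvable h1)).1 hχ n hn)))

/-- A principal block character of `p'`-degree that is nontrivial on a Sylow `p`-subgroup. -/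
theorem exists_principal_not_le {M : Ideal AlgInt} (hM : IsPModular p M) (h1 : IsPSolvable p G)
    (hd : p ∣ Nat.card G) (P : Sylow p G) : ∃ χ ∈ principalBlock M G, ¬ p ∣ charDegree (χ : G → ℂ) ∧
      ¬ (P : Subgroup G) ≤ charKer (χ : G → ℂ) := by
  let f := QuotientGroup.mk' (pPrimeCore p G)
  have hf : Function.Surjective f := QuotientGroup.mk'_surjective _
  have hP := CL.Loc.isSylowIn_map (isSylowIn_top P) f
  rw [map_top_of_surjective _ hf] at hP
  by_contra hn
  push Not at hn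
  have h2 : (P : Subgroup G).map f ≤ pPrimeKer _ p := by
    rintro _ ⟨x, hx, rfl⟩
    refine mem_pPrimeKer.2 fun χ hχ h3 => hχ.mem_charKer.2 ?_
    have := hn (inflIrr _ ⟨χ, hχ⟩) (by
      rw [principalBlock_eq_range_inflIrr hM (CL.Loc.isPConstrained_of_isPSolvable h1)]
      exact ⟨_, rfl⟩) h3 hx
    have h4 := apply_eq_one_of_mem_charKer this
    exact h4
  have h3 := (pPrimeKer_subgroupOf_le (p := p) (H := (P : Subgroup G).map f) (by
    rw [← relIndex_top_right]; exact hP.not_dvd)).trans pPrimeKer_le_commutator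
  rw [subgroupOf_eq_top.2 h2] at h3
  have := hP.isPGroup.isNilpotent
  have h4 : (P : Subgroup G).map f = ⊥ := by
    by_contra h4
    have h5 := commutator_sup_lt_of_isNilpotent (bot_lt_iff_ne_bot.2 h4)
    refine h5.not_ge fun x hx => mem_sup_left (S := ⁅_, _⁆) ?_
    rw [← map_subtype_commutator]
    exact ⟨⟨x, hx⟩, h3 (mem_top _), rfl⟩
  have h5 := hP.not_dvd
  rw [h4, relIndex_top_right, index_bot] at h5
  rw [← (pPrimeCore p G).card_mul_index] at hd
  exact (hp.out.dvd_mul.1 hd).elim (not_dvd_card_pPrimeCore p G) h5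

end CL.Blk.NW
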