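/-
Weights and canonical characters of Brauer pairs.
-/
import Cfsg.Agent.Blk.PairNil2
import Cfsg.Agent.Blk.Quot
import Cfsg.Agent.Blk.CentDef
import Cfsg.Agent.Char.Triple

set_option autoImplicit false
set_option linter.unusedSectionVars false
set_option linter.style.haveILetI false

namespace CL.Blk.Pair

open MonoidAlgebra CL.Grp CL.Char Cfsg

section alg

variable {k : Type*} [Field k] {G : Type*} [Group G] [Finite G]
variable {p : ℕ} {N H C T D P Q R : Subgroup G} {a b e f g : k[G]}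
variable [Fact p.Prime] [CharP k p]

/-- Every Brauer pair belongs to a block. -/
theorem IsPair.exists_isBlk (hf : IsPair p N Q f) (hNH : N ≤ H) (hQ : Q ≤ H) :
    ∃ b, IsBlk N H b ∧ br Q b * f = f := by
  classical
  by_contra hn
  push Not at hn
  have h1 := congrArg (fun x => br Q x * f) (sum_isBlk (k := k) hNH)
  simp only [br_one, one_mul, map_sum, Finset.sum_mul] at h1
  refine hf.blk.ne_zero (h1.symm.trans (Finset.sum_eq_zero fun b hb => ?_))
  have hb' : IsBlk N H b := by simpa using hb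
  exact (hf.br_mul_or hb'.supp (hb'.fix.mono (inf_le_left.trans hNH)) (hb'.fix.mono hQ)
    hb'.idem).resolve_left (hn b hb')

/-- For a maximal pair `(P, e)` and `C_N(P) ≤ T ≤ P C(P)`, `P ∩ T` is a defect group of `e`. -/
theorem IsMax.isDef_inf_self (h : IsMax p N H b P e) (hCT : cen N P ≤ T) (hT : T ≤ nst H P e)
    (hn : H ⊓ Subgroup.normalizer (P : Set G) ≤ Subgroup.normalizer (T : Set G)) :
    IsDef p T e (P ⊓ T) := by
  refine (h.isDef_inf_iff (PLe.refl p N P e) hCT hT).2 fun x hx hle => ?_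
  have h1 : cjs x P = P := Subgroup.eq_of_le_of_card_ge hle.le (card_cjs x P).ge
  rw [cjs_eq_self_iff.2 (hn ⟨hx, cjs_eq_self_iff.1 h1⟩)]

end alg

section res

variable {G : Type*} [Group G] [Finite G] {M : Ideal AlgInt} {p : ℕ} [hp : Fact p.Prime]

/-- A block of `G = D C(D)` containing a character of defect zero of `G / D` has defect group `D`. -/
theorem isDefectGroup_of_canon (hM : IsPModular p M) {D : Subgroup G} (hD : IsPGroup p D)
    (hG : D ⊔ Subgroup.centralizer (D : Set G) = ⊤) {B : Set (IrrCharacter G)} (hB : IsPBlock M B)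
    {ψ : IrrCharacter G} (hψ : ψ ∈ B) (h1 : ∀ x ∈ D, (ψ : G → ℂ) x = (ψ : G → ℂ) 1)
    (h2 : (charDegree (ψ : G → ℂ)).factorization p = D.index.factorization p) :
    IsDefectGroup p M B D := by
  have := dc_normal hG
  obtain ⟨k, hk⟩ := dc_index_centralizer hD hG
  obtain ⟨χ, rfl⟩ := exists_inflIrr_eq h1
  obtain ⟨P, hP, hDP⟩ := exists_isDefectGroup_ge hM hB hD (trunc_eBlk_ne_zero_of_normal hM hB hD)
  obtain ⟨b, hb, hsub, hbP⟩ := exists_dominated_isDefectGroup hM hD hB hP
  have hb' := isPBlock_preimage_inflIrr_of_index hM hD hk hB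
  obtain rfl := tr_eq_of_subset hM hb hb' hsub
  rw [charDegree_inflIrr] at h2
  have h3 := (defectGroup_eq_bot_iff hM hb hbP).2 ((blockDefect_eq_zero_iff_of_mem hM hb hψ).2 h2)
  rw [Subgroup.map_eq_bot_iff, QuotientGroup.ker_mk'] at h3
  rwa [le_antisymm hDP h3]

/-- A constituent on a normal subgroup of a character of defect zero modulo `Q` has defect zero
modulo `Q`. -/
theorem Over.defect_zero_mod {N Q : Subgroup G} [N.Normal] [Q.Normal] (hQN : Q ≤ N)
    {χ : IrrCharacter G} {θ : IrrCharacter N} (h : Over N (χ : G → ℂ) (θ : N → ℂ))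
    (h1 : ∀ x ∈ Q, (χ : G → ℂ) x = (χ : G → ℂ) 1)
    (h2 : (charDegree (χ : G → ℂ)).factorization p = Q.index.factorization p) :
    (∀ x ∈ Q.subgroupOf N, (θ : N → ℂ) x = (θ : N → ℂ) 1) ∧
      (charDegree (θ : N → ℂ)).factorization p = (Q.subgroupOf N).index.factorization p := by
  have := Fintype.ofFinite N
  rw [over_iff] at h
  have h3 : ∀ x ∈ Q.subgroupOf N, (θ : N → ℂ) x = (θ : N → ℂ) 1 := fun x hx =>
    θ.2.mem_charKer.1 ((χ.2.isCharacter.restrict N).charKer_le_of_classInner_ne_zero θ.2 h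
      ((χ.2.isCharacter.restrict N).mem_charKer.2 (h1 x hx)))
  refine ⟨h3, ?_⟩
  obtain ⟨k, hk, hk'⟩ := exists_degree_eq_mul_dvd_index θ.2 χ.2 h
  have h4 : charDegree (χ : G → ℂ) = k * charDegree (θ : N → ℂ) := by
    rw [← χ.2.cast_charDegree, ← θ.2.cast_charDegree] at hk'
    exact_mod_cast hk'
  obtain ⟨φ, rfl⟩ := exists_inflIrr_eq h3
  rw [charDegree_inflIrr] at h4 ⊢
  have h5 : charDegree (φ : N ⧸ Q.subgroupOf N → ℂ) ∣ (Q.subgroupOf N).index :=
    isIrr_degree_dvd_card φ.2 φ.2.cast_charDegree.symm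
  have h6 : Q.index = (Q.subgroupOf N).index * N.index := (Subgroup.relIndex_mul_index hQN).symm
  have hk0 : k ≠ 0 := by
    rintro rfl; exact Subgroup.index_ne_zero_of_finite (Nat.eq_zero_of_zero_dvd hk)
  have h7 := (Nat.factorization_le_iff_dvd hk0 Subgroup.index_ne_zero_of_finite).2 hk p
  have h8 := (Nat.factorization_le_iff_dvd φ.2.charDegree_pos.ne'
    Subgroup.index_ne_zero_of_finite).2 h5 p
  rw [h4, h6, Nat.factorization_mul hk0 φ.2.charDegree_pos.ne',
    Nat.factorization_mul Subgroup.index_ne_zero_of_finite Subgroup.index_ne_zero_of_finite] at h2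
  simp only [Finsupp.coe_add, Pi.add_apply] at h2
  omega

/-- If `G / Q` has a character of defect zero, normal `p`-subgroups of `G` lie in `Q`. -/
theorem le_of_defect_zero_mod (hM : IsPModular p M) {Q R : Subgroup G} [Q.Normal] [R.Normal]
    (hR : IsPGroup p R) {χ : IrrCharacter G} (h1 : ∀ x ∈ Q, (χ : G → ℂ) x = (χ : G → ℂ) 1)
    (h2 : (charDegree (χ : G → ℂ)).factorization p = Q.index.factorization p) : R ≤ Q := by
  obtain ⟨φ, rfl⟩ := exists_inflIrr_eq h1
  rw [charDegree_inflIrr] at h2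
  have hb := tr_isPBlock_blockOf (M := M) φ
  have hD := (isDefectGroup_bot_iff hM hb).2
    ((blockDefect_eq_zero_iff_of_mem hM hb (tr_mem_blockOf_self hM φ)).2 h2)
  have : (R.map (QuotientGroup.mk' Q)).Normal :=
    Subgroup.Normal.map inferInstance _ (QuotientGroup.mk'_surjective Q)
  have h3 := le_defectGroup_of_normal hM hb hD (hR.map (QuotientGroup.mk' Q))
  rwa [le_bot_iff, Subgroup.map_eq_bot_iff, QuotientGroup.ker_mk'] at h3

/-- A character under a character of `B` lies in the block of `N` with the same idempotent. -/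
theorem Over.mem_of_hat_eq (hM : IsPModular p M) {N : Subgroup G} {B : Set (IrrCharacter G)}
    (hB : IsPBlock M B) {b : Set (IrrCharacter N)} (hb : IsPBlock M b) (h : hat M N b = eBlk M B)
    {χ : IrrCharacter G} (hχ : χ ∈ B) {θ : IrrCharacter N} (ho : Over N (χ : G → ℂ) (θ : N → ℂ)) :
    θ ∈ b := by
  have h1 := ho.lam_incl (M := M) (z := eBlk M b)
    (by change hat M N b ∈ _; rw [h]; exact fixedBy_top_iff.1 (isBlk_eBlk hM hB).fix)
  change lam M χ (hat M N b) = _ at h1
  rw [h, lam_eBlk_of_mem' (blockIdem_mem_OG hM hB) hχ] at h1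
  exact mem_of_lam_eBlk_ne_zero (blockIdem_mem_OG hM hb) (h1 ▸ one_ne_zero)

/-- The block of a normal subgroup `N ≤ Q C(Q)` below a weight has defect group `Q`. -/
theorem isDef_of_weight (hM : IsPModular p M) {N Q : Subgroup G} [N.Normal] [Q.Normal]
    (hQ : IsPGroup p Q) (hQN : Q ≤ N) (hN : N ≤ Q ⊔ Subgroup.centralizer (Q : Set G))
    {B : Set (IrrCharacter G)} (hB : IsPBlock M B) (hb : IsBlk N N (eBlk M B))
    {χ : IrrCharacter G} (hχ : χ ∈ B) (h1 : ∀ x ∈ Q, (χ : G → ℂ) x = (χ : G → ℂ) 1)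
    (h2 : (charDegree (χ : G → ℂ)).factorization p = Q.index.factorization p) :
    IsDef p N (eBlk M B) Q := by
  obtain ⟨b, hb1, hb2⟩ := exists_hat_eq hM hb
  obtain ⟨θ, hθ⟩ := exists_over N χ
  obtain ⟨h3, h4⟩ := Over.defect_zero_mod hQN hθ h1 h2
  rw [← hb2, ← isDefectGroup_subgroupOf_iff_isDef hM hb1 hQN]
  refine isDefectGroup_of_canon hM (hQ.comap_of_injective _ N.subtype_injective) ?_ hb1
    (Over.mem_of_hat_eq hM hB hb1 hb2 hχ hθ) h3 h4
  rw [eq_top_iff]
  intro x _
  obtain ⟨u, hu, c, hc, huc⟩ := (mem_sup_iff_of_le_normalizer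
    (Subgroup.le_normalizer.trans (normalizer_le_normalizer_centralizer Q))).1 (hN x.2)
  have hcN : c ∈ N := by
    have : c = u⁻¹ * x := by rw [← huc]; group
    rw [this]; exact N.mul_mem (N.inv_mem (hQN hu)) x.2
  have : x = (⟨u, hQN hu⟩ : N) * ⟨c, hcN⟩ := Subtype.ext huc.symm
  rw [this]
  exact Subgroup.mul_mem _ (Subgroup.mem_sup_left hu)
    (Subgroup.mem_sup_right fun y hy => Subtype.ext (hc y hy))

end res

end CL.Blk.Pair
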