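/-
A normal `p`-complement from the members of the principal block fixed by the power map `u ↦ u ^ (1 + p)`.
-/
import Cfsg.Agent.Blk.PrincRes
import Cfsg.Agent.Char.Schur
import Cfsg.Agent.Char.GlaubRel

set_option autoImplicit false

open Cfsg CL.Char

namespace CL.Blk

variable {G : Type*} [Group G] {p : ℕ} {M : Ideal AlgInt}

theorem sum_eq_sum_fixed_of_iterate {X : Type*} [Fintype X] [DecidableEq X] [hp : Fact p.Prime] (f : X → X) {e : ℕ}
    (hf : ∀ x, f^[p ^ e] x = x) (w : X → ZMod p) (hw : ∀ x, w (f x) = w x) : ∑ x, w x = ∑ x with f x = x, w x := by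
  classical
  let σ : Equiv.Perm X := Equiv.ofBijective f (Finite.injective_iff_bijective.1 fun x y h => by
    rw [← hf x, ← hf y, ← Nat.sub_add_cancel (Nat.one_le_pow e p hp.out.pos), Function.iterate_succ_apply,
      Function.iterate_succ_apply, h])
  have h1 : ∀ n x, (σ ^ n) x = f^[n] x := fun n x => by rw [← Equiv.Perm.iterate_eq_pow]; rfl
  have h2 : σ ^ p ^ e = 1 := Equiv.ext fun x => (h1 _ x).trans (hf x)
  have h3 : ∀ {P : X → X → Prop}, (∀ x, P x x) → (∀ x y, P x y → P x (f y)) →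
      ∀ (a : Subgroup.zpowers σ) x, P x (a • x) := fun {P} k1 k2 a x => by
    obtain ⟨n, hn⟩ := (mem_powers_iff_mem_zpowers.2 a.2)
    change P x ((a : Equiv.Perm X) x)
    rw [← hn, h1]
    clear hn
    induction n with
    | zero => exact k1 x
    | succ n ih => rw [Function.iterate_succ_apply']; exact k2 _ _ ih
  rw [gl_sum_eq_sum_fixed (A := Subgroup.zpowers σ) (fun a => ⟨e, Subtype.ext (by
      obtain ⟨n, hn⟩ := a.2
      rw [Subgroup.coe_pow, ← hn, ← zpow_natCast, ← zpow_mul, mul_comm, zpow_mul, zpow_natCast, h2, one_zpow]; rfl)⟩) w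
    (h3 (P := fun x y => w y = w x) (fun _ => rfl) fun x y h => (hw y).trans h)]
  refine Finset.sum_congr (Finset.filter_congr fun x _ => ⟨fun h => h ⟨σ, Subgroup.mem_zpowers σ⟩, fun h a => ?_⟩)
    fun _ _ => rfl
  exact h3 (P := fun x y => f x = x → y = x) (fun _ _ => rfl) (fun x y k h => by rw [k h, h]) a x h

theorem hasNormalPComplement_of_principal_fixed [Finite G] [Fact p.Prime] (hM : IsPModular p M) {k : ℕ}
    (hk₁ : ∀ g : G, (∃ j : ℕ, orderOf g = p ^ j) → g ^ k = g ^ (1 + p))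
    (hk₂ : ∀ g : G, ¬ p ∣ orderOf g → g ^ k = g)
    (h : ∀ χ ∈ principalBlock M G, ¬ p ∣ charDegree (χ : G → ℂ) → (∀ g, (χ : G → ℂ) (g ^ k) = (χ : G → ℂ) g) →
      charDegree (χ : G → ℂ) = 1) : HasNormalPComplement p G := by
  classical
  have hp : p.Prime := Fact.out
  rw [CL.Grp.hasNormalPComplement_iff_not_dvd_pResidual]
  intro hd
  set N := pResidual p G with hNdef
  have hidx := CL.Grp.index_pResidual p G
  have hcop : ∀ {m : ℕ}, ¬ p ∣ m → N.index.Coprime m := by
    intro m hm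
    obtain ⟨k, hk⟩ := hidx
    rw [hk]
    exact Nat.Coprime.pow_left _ ((Nat.Prime.coprime_iff_not_dvd hp).mpr hm)
  have hk := coprime_card_of_pow_eq hp hk₁ hk₂
  have hkN : k.Coprime (Nat.card N) := hk.coprime_dvd_right N.card_subgroup_dvd_card
  obtain ⟨e, he⟩ := exists_pow_pow_eq_self hp hk₁ hk₂
  obtain ⟨σ, hσ⟩ := exists_ringEquiv_map_genChar_eq_pow (G := G) hk
  have h1 := (ZMod.natCast_eq_zero_iff _ _).2 (dvd_sum_principal_sq hM hd)
  rw [Nat.cast_sum, Finset.sum_filter] at h1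
  simp only [mem_principal_iff_regSum hM, Nat.cast_pow] at h1
  let f : IrrCharacter N → IrrCharacter N := fun θ => ⟨_, isIrr_pow_coprime θ.2 hkN⟩
  have hf : ∀ (n : ℕ) (θ : IrrCharacter N) (g : N), (f^[n] θ : N → ℂ) g = (θ : N → ℂ) (g ^ k ^ n) := by
    intro n
    induction n with
    | zero => intro θ g; rw [pow_zero k, pow_one]; rfl
    | succ n ih => intro θ g; rw [pow_succ k, pow_mul, Function.iterate_succ_apply]; exact ih (f θ) g
  have hfe : ∀ θ, f^[p ^ e] θ = θ := fun θ => Subtype.ext (funext fun g => by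
    rw [hf]; exact congrArg _ (Subtype.ext (he g)))
  have hfi : ∀ θ : IrrCharacter N, inertia N (θ : N → ℂ) = ⊤ → inertia N (f θ : N → ℂ) = ⊤ := fun θ hθ =>
    inertia_eq_top_iff.2 fun g n => (congrArg (θ : N → ℂ) (Subtype.ext conj_pow)).trans
      (inertia_eq_top_iff.1 hθ g (n ^ k))
  rw [sum_irr_eq_sum_invariant N hidx
    (fun θ => if regSum p θ ≠ 0 then (charDegree θ : ZMod p) ^ 2 else 0) (fun g θ => by
      rw [charDegree_conjChar, ← regSum_comp_mulEquiv (MulAut.conjNormal g) θ]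
      rfl), Finset.sum_filter, sum_eq_sum_fixed_of_iterate f hfe _ (fun θ => by
      refine if_congr ⟨fun h2 => ?_, hfi θ⟩ (if_congr ?_ (by simp [f, charDegree]) rfl) rfl
      · rw [← hfe θ, ← Nat.sub_add_cancel (Nat.one_le_pow e p hp.pos), Function.iterate_succ_apply]
        exact Function.Iterate.rec (fun θ : IrrCharacter N => inertia N (θ : N → ℂ) = ⊤) h2 hfi _
      · rw [← mem_principal_iff_regSum hM, ← mem_principal_iff_regSum hM]
        exact mem_principal_pow_iff hM hkN fun _ => rfl), ← Finset.sum_filter] at h1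
  let L : Subgroup (N →* ℂˣ) := principalLinear M N ⊓
    ⨅ g : G, (MonoidHom.eqLocus (MonoidHom.id (N →* ℂˣ))
      (MonoidHom.compHom' (MulAut.conjNormal g).toMonoidHom))
  have hno := not_dvd_orderOf_of_pResidual_eq_top hp (CL.Grp.pResidual_pResidual (p := p) (G := G))
  have hL : ¬ p ∣ Nat.card L := fun h2 => by
    obtain ⟨x, hx⟩ := exists_prime_orderOf_dvd_card' p h2
    exact hno x.1 (by rw [Subgroup.orderOf_coe, hx])
  refine hL ((ZMod.natCast_eq_zero_iff _ _).1 ?_)
  rw [← h1]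
  have := Fintype.ofFinite L
  rw [Nat.card_eq_fintype_card, ← Finset.card_univ, Finset.card_eq_sum_ones, Nat.cast_sum]
  have hmem : ∀ lam : N →* ℂˣ, lam ∈ L ↔ lam ∈ principalLinear M N ∧
      ∀ (g : G) (n : N), lam (MulAut.conjNormal g n) = lam n := fun lam => by
    simp only [L, Subgroup.mem_inf, Subgroup.mem_iInf]
    exact and_congr_right fun _ => forall_congr' fun g =>
      ⟨fun h n => (DFunLike.congr_fun h n).symm, fun h => MonoidHom.ext fun n => (h n).symm⟩
  refine Finset.sum_bij_ne_zero (fun lam _ _ => (⟨fun g => ((lam.1 g : ℂˣ) : ℂ),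
    isIrrCharacter_linear _⟩ : IrrCharacter N)) ?_ ?_ ?_ ?_
  · intro lam _ _
    simp only [Finset.mem_filter, Finset.mem_univ, true_and]
    refine ⟨Subtype.ext (funext fun n => congrArg Units.val ?_),
      inertia_eq_top_iff.2 fun g n => congrArg Units.val (((hmem _).1 lam.2).2 g n)⟩
    obtain ⟨u, s, rfl, hus, ⟨j, hj⟩, hs⟩ := exists_isPPart hp n
    have h2 : lam.1 u = 1 := orderOf_eq_one_iff.1 (Nat.eq_one_of_dvd_coprimes
      (((Nat.Prime.coprime_iff_not_dvd hp).2 (hno lam.1)).pow_left j) (hj ▸ orderOf_map_dvd _ u)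
      (orderOf_dvd_of_pow_eq_one (by rw [← MonoidHom.pow_apply, pow_orderOf_eq_one, MonoidHom.one_apply])))
    rw [hus.mul_pow, map_mul, map_mul, map_pow, h2, one_pow,
      show s ^ k = s from Subtype.ext (hk₂ s (by rwa [Subgroup.orderOf_coe]))]
  · intro a _ _ b _ _ hab
    exact Subtype.ext (monoidHom_coe_injective (congrArg Subtype.val hab))
  · intro θ hθ h0
    simp only [Finset.mem_filter, Finset.mem_univ, true_and] at hθ
    have h2 : regSum p (θ : N → ℂ) ≠ 0 := fun h3 => h0 (by simp [h3])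
    have h3 : ¬ p ∣ charDegree (θ : N → ℂ) := fun h3 => h0 (by
      simp [(ZMod.natCast_eq_zero_iff _ _).2 h3])
    have hdet := not_dvd_detOrder_of_pResidual_eq_top hp CL.Grp.pResidual_pResidual (θ : N → ℂ)
    obtain ⟨η, ⟨hη, h6, h7⟩, h8⟩ := exists_canonical_extension θ.2 (inertia_eq_top_iff.1 hθ.2)
      θ.2.cast_charDegree.symm (Nat.Coprime.mul_right (hcop hdet) (hcop h3))
    have hd : charDegree η = charDegree (θ : N → ℂ) := charDegree_congr (h6 1)
    have h4 := h ⟨η, hη⟩ ((mem_principal_iff_of_res_eq hM (fun g hg => CL.Grp.mem_pResidual_of_coprime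
      ((Nat.Prime.coprime_iff_not_dvd hp).2 hg).symm) h6).2 ((mem_principal_iff_regSum hM).2 h2))
      (hd ▸ h3) fun g => by
        change η _ = η g
        rw [← hσ η hη.isGeneralizedCharacter]
        refine congrFun (h8 _ (isIrr_gal hη σ.toRingHom) (fun n => ?_) (hcop fun h9 => hdet ?_)) g
        · change σ (η n) = _
          rw [hσ η hη.isGeneralizedCharacter, ← Subgroup.coe_pow, h6]
          exact congrFun (congrArg Subtype.val hθ.1) n
        · rw [← h7]
          refine h9.trans (orderOf_dvd_of_pow_eq_one (funext fun x => ?_))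
          rw [Pi.pow_apply, gl_detChar_gal hη, ← map_pow, detChar_pow_detOrder, map_one, Pi.one_apply]
    have h5 : (θ : N → ℂ) 1 = 1 := by
      rw [← θ.2.cast_charDegree, ← hd, show charDegree η = 1 from h4, Nat.cast_one]
    obtain ⟨lam, hlam⟩ := (linearIrrEquiv N).surjective ⟨θ, h5⟩
    have h6 : ∀ n, (θ : N → ℂ) n = lam n := fun n => by
      rw [← linearIrrEquiv_apply, hlam]
    refine ⟨⟨lam, (hmem _).2 ⟨(mem_principalLinear_iff hM h6).2 ((mem_principal_iff_regSum hM).2 h2),
      fun g n => Units.ext ?_⟩⟩, Finset.mem_univ _, by simp, Subtype.ext (funext fun n => (h6 n).symm)⟩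
    rw [← h6, ← h6]
    exact inertia_eq_top_iff.1 hθ.2 g n
  · intro lam _ _
    have := (mem_principal_iff_regSum hM).1 ((mem_principalLinear_iff hM (χ := ⟨fun g => ((lam.1 g : ℂˣ) : ℂ),
      isIrrCharacter_linear _⟩) fun _ => rfl).1 ((hmem _).1 lam.2).1)
    simp only [ne_eq] at this ⊢
    rw [if_pos this, charDegree_monoidHom]
    simp

end CL.Blk
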