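/-
Representations of symplectic groups in which only weights of rank at most one occur, part 1:
weights of the long root subgroups.
-/
import Cfsg.Agent.Known.LSWeight
import Cfsg.Agent.Cls.SpSimple
import Cfsg.Agent.Char.Basic

set_option autoImplicit false
set_option linter.unusedSimpArgs false

open Module

namespace CL.Blk.Rk1

open CL.Sp CL.LS

section Gen

variable {F K G W A : Type*} [Field F] [Finite F] [Field K] [Group G] [AddCommGroup W] [Module K W]
  [AddCommGroup A] [Module F A] [Finite A] {ρ : G →* End K W} {ψ : AddChar F K} {a : A → G}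

theorem le_of_wsp (hψ : ψ ≠ 1) (ha : ∀ x y, a (x + y) = a x * a y) {S N : Submodule K W}
    (hS : ∀ x, ∀ y ∈ S, ρ (a x) y ∈ S) (h : ∀ l, ∀ y ∈ S, y ∈ wsp ρ ψ a l → y ∈ N) : S ≤ N := by
  let _ := Fintype.ofFinite A
  let _ := Fintype.ofFinite (Dual F A)
  intro y hy
  rw [← sum_wproj (ρ := ρ) hψ ha y]
  refine N.sum_mem fun l _ => h l _ ?_ (wproj_mem ha l y)
  rw [wproj_apply]
  exact S.smul_mem _ (S.sum_mem fun x _ => S.smul_mem _ (hS x y hy))

end Gen

variable {F V : Type*} [Field F] [AddCommGroup V] [Module F V] {B : LinearMap.BilinForm F V}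

/-- Transvections as elements of the isometry group. -/
def tz (hB : B.IsAlt) (v : V) (c : F) : Isom B := ⟨tv hB v c, tv_mem_isom hB v c⟩

theorem tz_apply (hB : B.IsAlt) (v : V) (c : F) (x : V) :
    (tz hB v c : V ≃ₗ[F] V) x = x + (c * B x v) • v := tv_apply hB v c x

theorem tz_add (hB : B.IsAlt) (v : V) (c d : F) : tz hB v (c + d) = tz hB v c * tz hB v d :=
  Subtype.ext (tv_mul hB v c d).symm

theorem tz_inv (hB : B.IsAlt) (v : V) (c : F) : (tz hB v c)⁻¹ = tz hB v (-c) :=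
  Subtype.ext (tv_inv hB v c)

theorem tz_smul (hB : B.IsAlt) (a : F) (v : V) (c : F) : tz hB (a • v) c = tz hB v (a ^ 2 * c) :=
  Subtype.ext (tv_smul hB a v c)

theorem tz_neg (hB : B.IsAlt) (v : V) (c : F) : tz hB (-v) c = tz hB v c :=
  Subtype.ext (tv_neg hB v c)

theorem tz_zero_left (hB : B.IsAlt) (c : F) : tz hB 0 c = 1 := Subtype.ext (tv_zero_left hB c)

theorem tz_zero (hB : B.IsAlt) (v : V) : tz hB v 0 = 1 := Subtype.ext (tv_zero hB v)

theorem mul_tz (hB : B.IsAlt) (g : Isom B) (v : V) (c : F) :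
    g * tz hB v c = tz hB ((g : V ≃ₗ[F] V) v) c * g := by
  rw [← mul_inv_eq_iff_eq_mul]
  exact Subtype.ext (conj_tv hB g.2 v c)

theorem isom_ext {g h : Isom B} (e : ∀ x, (g : V ≃ₗ[F] V) x = (h : V ≃ₗ[F] V) x) : g = h :=
  Subtype.ext (LinearEquiv.ext e)

theorem isom_mul_apply (g h : Isom B) (x : V) :
    ((g * h : Isom B) : V ≃ₗ[F] V) x = (g : V ≃ₗ[F] V) ((h : V ≃ₗ[F] V) x) := rfl

/-- Short root elements. -/
def sg (hB : B.IsAlt) (u v : V) : Isom B := tz hB (u + v) 1 * tz hB u (-1) * tz hB v (-1)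

theorem sg_apply (hB : B.IsAlt) {u v : V} (h : B u v = 0) (x : V) :
    (sg hB u v : V ≃ₗ[F] V) x = x + B x u • v + B x v • u := by
  have h' : B v u = 0 := (alt_eq_zero_comm hB).mp h
  simp only [sg, isom_mul_apply, tz_apply, map_add, map_smul, LinearMap.add_apply, LinearMap.smul_apply,
    h, h', alt_self hB, smul_eq_mul]
  module

theorem sg_mul (hB : B.IsAlt) {w u v : V} (hu : B w u = 0) (hv : B w v = 0) :
    sg hB w u * sg hB w v = sg hB w (u + v) * tz hB w (B v u) := by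
  have huv : B w (u + v) = 0 := by rw [map_add, hu, hv, add_zero]
  have hv' : B v w = 0 := (alt_eq_zero_comm hB).mp hv
  refine isom_ext fun x => ?_
  simp only [isom_mul_apply, sg_apply hB hu, sg_apply hB hv, sg_apply hB huv, tz_apply, map_add, map_smul,
    LinearMap.add_apply, LinearMap.smul_apply, hu, hv, hv', alt_self hB, smul_eq_mul]
  module

theorem tz_comb (hB : B.IsAlt) {u v : V} (h : B u v = 0) (s r c : F) :
    tz hB (s • u + r • v) c = tz hB u (s ^ 2 * c) * sg hB u ((s * r * c) • v) * tz hB v (r ^ 2 * c) := by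
  have h' : B v u = 0 := (alt_eq_zero_comm hB).mp h
  have h1 : B u ((s * r * c) • v) = 0 := by rw [map_smul, h, smul_zero]
  refine isom_ext fun x => ?_
  simp only [isom_mul_apply, sg_apply hB h1, tz_apply, map_add, map_smul,
    LinearMap.add_apply, LinearMap.smul_apply, h, h', alt_self hB, smul_eq_mul]
  module

/-- The abelian family attached to two orthogonal vectors. -/
def fam (hB : B.IsAlt) (u v : V) (c : F × F × F) : Isom B :=
  tz hB u c.1 * sg hB u (c.2.1 • v) * tz hB v c.2.2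

theorem fam_apply (hB : B.IsAlt) {u v : V} (h : B u v = 0) (c : F × F × F) (x : V) :
    (fam hB u v c : V ≃ₗ[F] V) x =
      x + (c.1 * B x u + c.2.1 * B x v) • u + (c.2.1 * B x u + c.2.2 * B x v) • v := by
  have h' : B v u = 0 := (alt_eq_zero_comm hB).mp h
  have h1 : B u (c.2.1 • v) = 0 := by rw [map_smul, h, smul_zero]
  simp only [fam, isom_mul_apply, sg_apply hB h1, tz_apply, map_add, map_smul,
    LinearMap.add_apply, LinearMap.smul_apply, h, h', alt_self hB, smul_eq_mul]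
  module

theorem fam_add (hB : B.IsAlt) {u v : V} (h : B u v = 0) (c d : F × F × F) :
    fam hB u v (c + d) = fam hB u v c * fam hB u v d := by
  have h' : B v u = 0 := (alt_eq_zero_comm hB).mp h
  refine isom_ext fun x => ?_
  simp only [isom_mul_apply, fam_apply hB h, map_add, map_smul, Prod.fst_add, Prod.snd_add,
    LinearMap.add_apply, LinearMap.smul_apply, h, h', alt_self hB, smul_eq_mul]
  module

theorem fam_one (hB : B.IsAlt) {u v : V} (h : B u v = 0) (c : F) : fam hB u v (c, 0, 0) = tz hB u c :=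
  isom_ext fun x => by simp [fam_apply hB h, tz_apply]

theorem fam_two (hB : B.IsAlt) (u v : V) (c : F) : fam hB u v (0, c, 0) = sg hB u (c • v) := by
  simp [fam, tz_zero]

theorem fam_three (hB : B.IsAlt) {u v : V} (h : B u v = 0) (c : F) : fam hB u v (0, 0, c) = tz hB v c :=
  isom_ext fun x => by simp [fam_apply hB h, tz_apply]

variable {W : Type*} [AddCommGroup W] [Module ℂ W]

/-- The weight spaces of a long root subgroup. -/
noncomputable def Wt (hB : B.IsAlt) (ρ : Isom B →* End ℂ W) (ψ : AddChar F ℂ) (v : V) (α : F) : Submodule ℂ W :=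
  wsp ρ ψ (tz hB v) (LinearMap.mul F F α)

/-- Only weights of rank at most one occur. -/
def R1 (hB : B.IsAlt) (ρ : Isom B →* End ℂ W) (ψ : AddChar F ℂ) : Prop :=
  ∀ u v, B u v = 0 → ∀ l : Dual F (F × F × F), wsp ρ ψ (fam hB u v) l ≠ ⊥ →
    l (0, 1, 0) ^ 2 = 4 * l (1, 0, 0) * l (0, 0, 1)

variable {hB : B.IsAlt} {ρ : Isom B →* End ℂ W} {ψ : AddChar F ℂ}

theorem mem_Wt {v : V} {α : F} {y : W} : y ∈ Wt hB ρ ψ v α ↔ ∀ c, ρ (tz hB v c) y = ψ (α * c) • y := Iff.rfl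

theorem rho_mul (g h : Isom B) (y : W) : ρ (g * h) y = ρ g (ρ h y) := by rw [map_mul, End.mul_apply]

theorem map_mem_Wt (g : Isom B) {v : V} {α : F} {y : W} (hy : y ∈ Wt hB ρ ψ v α) :
    ρ g y ∈ Wt hB ρ ψ ((g : V ≃ₗ[F] V) v) α := fun c => by
  rw [← rho_mul, ← mul_tz, rho_mul, hy c, map_smul]

theorem map_mem_Wt_of_fix {g : Isom B} {v : V} (hg : (g : V ≃ₗ[F] V) v = v) {α : F} {y : W}
    (hy : y ∈ Wt hB ρ ψ v α) : ρ g y ∈ Wt hB ρ ψ v α := by
  have := map_mem_Wt g hy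
  rwa [hg] at this

theorem tz_mem_Wt {u v : V} (h : B v u = 0) (c : F) {α : F} {y : W} (hy : y ∈ Wt hB ρ ψ v α) :
    ρ (tz hB u c) y ∈ Wt hB ρ ψ v α :=
  map_mem_Wt_of_fix (by rw [tz_apply, h, mul_zero, zero_smul, add_zero]) hy

theorem sg_mem_Wt {u v x : V} (h : B u v = 0) (hu : B x u = 0) (hv : B x v = 0) {α : F} {y : W}
    (hy : y ∈ Wt hB ρ ψ x α) : ρ (sg hB u v) y ∈ Wt hB ρ ψ x α :=
  map_mem_Wt_of_fix (by rw [sg_apply hB h, hu, hv, zero_smul, zero_smul, add_zero, add_zero]) hy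

theorem smul_mem_Wt {v : V} {α : F} {y : W} (hy : y ∈ Wt hB ρ ψ v α) (s : F) :
    y ∈ Wt hB ρ ψ (s • v) (s ^ 2 * α) := fun c => by
  rw [tz_smul, hy]
  congr 2
  simp only [LinearMap.mul_apply']
  ring

theorem eq_of_mem_Wt (hψ : ψ ≠ 1) {v : V} {α β : F} {y : W} (hy : y ≠ 0) (h1 : y ∈ Wt hB ρ ψ v α)
    (h2 : y ∈ Wt hB ρ ψ v β) : α = β := by
  have := dual_eq_of_psi hψ (l := LinearMap.mul F F α) (l' := LinearMap.mul F F β)
    fun c => smul_left_injective ℂ hy ((h1 c).symm.trans (h2 c))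
  simpa using LinearMap.congr_fun this 1

variable [Finite F]

theorem ind1 (hψ : ψ ≠ 1) (v : V) {S N : Submodule ℂ W} (hS : ∀ c, ∀ y ∈ S, ρ (tz hB v c) y ∈ S)
    (h : ∀ α, ∀ y ∈ S, y ≠ 0 → y ∈ Wt hB ρ ψ v α → y ∈ N) : S ≤ N := by
  refine le_of_wsp (ρ := ρ) hψ (tz_add hB v) hS fun l y hy hl => ?_
  by_cases h0 : y = 0
  · exact h0 ▸ N.zero_mem
  refine h (l 1) y hy h0 fun c => ?_
  rw [hl c]
  congr 2
  simpa [mul_comm] using l.map_smul c 1

theorem ind2 (hψ : ψ ≠ 1) (hR : R1 hB ρ ψ) {u v : V} (huv : B u v = 0) {S N : Submodule ℂ W}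
    (h1 : ∀ c, ∀ y ∈ S, ρ (tz hB u c) y ∈ S) (h2 : ∀ c : F, ∀ y ∈ S, ρ (sg hB u (c • v)) y ∈ S)
    (h3 : ∀ c, ∀ y ∈ S, ρ (tz hB v c) y ∈ S)
    (h : ∀ α β γ : F, β ^ 2 = 4 * α * γ → ∀ y ∈ S, y ≠ 0 → y ∈ Wt hB ρ ψ u α →
      (∀ c, ρ (sg hB u (c • v)) y = ψ (β * c) • y) → y ∈ Wt hB ρ ψ v γ → y ∈ N) : S ≤ N := by
  refine le_of_wsp (ρ := ρ) hψ (fam_add hB huv) (fun c y hy => ?_) fun l y hy hl => ?_
  · rw [fam, rho_mul, rho_mul]
    exact h1 _ _ (h2 _ _ (h3 _ _ hy))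
  by_cases h0 : y = 0
  · exact h0 ▸ N.zero_mem
  refine h _ _ _ (hR u v huv l ((Submodule.ne_bot_iff _).mpr ⟨y, hl, h0⟩)) y hy h0 (fun c => ?_) (fun c => ?_)
    fun c => ?_
  · rw [← fam_one hB huv, hl]
    congr 2
    simpa [mul_comm] using l.map_smul c (1, 0, 0)
  · rw [← fam_two hB u v, hl]
    congr 2
    simpa [mul_comm] using l.map_smul c (0, 1, 0)
  · rw [← fam_three hB huv, hl]
    congr 2
    simpa [mul_comm] using l.map_smul c (0, 0, 1)

omit [Finite F] in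
theorem mem_Wt_comb {u v : V} (huv : B u v = 0) {α β γ : F} {y : W} (h1 : y ∈ Wt hB ρ ψ u α)
    (h2 : ∀ c, ρ (sg hB u (c • v)) y = ψ (β * c) • y) (h3 : y ∈ Wt hB ρ ψ v γ) (s r : F) :
    y ∈ Wt hB ρ ψ (s • u + r • v) (s ^ 2 * α + s * r * β + r ^ 2 * γ) := fun c => by
  rw [tz_comb hB huv, rho_mul, rho_mul, h3, map_smul, h2, map_smul, map_smul, h1, smul_smul, smul_smul,
    ← AddChar.map_add_eq_mul, ← AddChar.map_add_eq_mul]
  congr 2
  simp only [LinearMap.mul_apply']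
  ring

/-- A vector fixed by one of two commuting long root subgroups is fixed by the short root elements. -/
theorem sg_fix (hψ : ψ ≠ 1) (hR : R1 hB ρ ψ) {u v : V} (huv : B u v = 0) {y : W}
    (hy : y ∈ Wt hB ρ ψ v 0) : ρ (sg hB u v) y = y := by
  have h' : B v u = 0 := (alt_eq_zero_comm hB).mp huv
  have := ind2 hψ hR huv (S := Wt hB ρ ψ v 0) (N := LinearMap.eqLocus (ρ (sg hB u v)) 1)
    (fun c y hy => tz_mem_Wt h' c hy)
    (fun c y hy => sg_mem_Wt (by rw [map_smul, huv, smul_zero]) h'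
      (by rw [map_smul, alt_self hB, smul_zero]) hy)
    (fun c y hy => tz_mem_Wt (alt_self hB v) c hy) (fun α β γ h y hy h0 _ h2 h3 => by
      obtain rfl := eq_of_mem_Wt hψ h0 hy h3
      have hβ : β = 0 := pow_eq_zero_iff two_ne_zero |>.mp (by rw [h, mul_zero])
      have := h2 1
      rw [hβ, one_smul, zero_mul, AddChar.map_zero_eq_one, one_smul] at this
      exact this)
  exact this hy

/-- The weights of two commuting long root subgroups are in the same class modulo squares. -/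
theorem exists_sq (hψ : ψ ≠ 1) (h2 : (2 : F) ≠ 0) (hR : R1 hB ρ ψ) {w v : V} (hwv : B w v = 0) {δ γ : F}
    (hδ : δ ≠ 0) {y : W} (hy : y ≠ 0) (h1 : y ∈ Wt hB ρ ψ w δ) (h3 : y ∈ Wt hB ρ ψ v γ) :
    ∃ x, γ = δ * x ^ 2 := by
  by_contra hne
  have h' : B v w = 0 := (alt_eq_zero_comm hB).mp hwv
  have := ind2 hψ hR hwv (S := Wt hB ρ ψ w δ ⊓ Wt hB ρ ψ v γ) (N := ⊥)
    (fun c y hy => ⟨tz_mem_Wt (alt_self hB w) c hy.1, tz_mem_Wt h' c hy.2⟩)
    (fun c y hy => ⟨sg_mem_Wt (by rw [map_smul, hwv, smul_zero]) (alt_self hB w)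
      (by rw [map_smul, hwv, smul_zero]) hy.1, sg_mem_Wt (by rw [map_smul, hwv, smul_zero]) h'
      (by rw [map_smul, alt_self hB, smul_zero]) hy.2⟩)
    (fun c y hy => ⟨tz_mem_Wt hwv c hy.1, tz_mem_Wt (alt_self hB v) c hy.2⟩)
    (fun α β γ' h y hy h0 h4 _ h5 => by
      obtain rfl := eq_of_mem_Wt hψ h0 hy.1 h4
      obtain rfl := eq_of_mem_Wt hψ h0 hy.2 h5
      refine absurd ⟨β / (2 * δ), ?_⟩ hne
      field_simp
      linear_combination -h)
  exact hy (this ⟨h1, h3⟩)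

/-- No non-zero vector is fixed by the long root subgroups of the orthogonal complement of a hyperbolic
plane. -/
theorem eq_zero_of_fix (hψ : ψ ≠ 1) (hR : R1 hB ρ ψ) (hfix : ∀ y, (∀ v, y ∈ Wt hB ρ ψ v 0) → y = 0)
    {u v w₁ w₂ : V} (huv : B u v ≠ 0) (h1 : B w₁ u = 0) (h2 : B w₁ v = 0) (h3 : B w₂ u = 0) (h4 : B w₂ v = 0)
    (h5 : B w₁ w₂ ≠ 0) {y : W} (hy : ∀ w, B w u = 0 → B w v = 0 → y ∈ Wt hB ρ ψ w 0) : y = 0 := by
  let S : Submodule ℂ W := ⨅ w : {w // B w u = 0 ∧ B w v = 0}, Wt hB ρ ψ w 0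
  have hS : ∀ y, y ∈ S ↔ ∀ w, B w u = 0 → B w v = 0 → y ∈ Wt hB ρ ψ w 0 := fun y => by
    simp [S, Submodule.mem_iInf]
  have key : ∀ s r : F, S ≤ Wt hB ρ ψ (s • u + r • v) 0 := fun s r => by
    have hx : ∀ w, B w u = 0 → B w v = 0 → B w (s • u + r • v) = 0 := fun w ha hb => by simp [ha, hb]
    have hx' : ∀ w, B w u = 0 → B w v = 0 → B (s • u + r • v) w = 0 := fun w ha hb =>
      (alt_eq_zero_comm hB).mp (hx w ha hb)
    refine ind1 hψ (s • u + r • v) (fun c y hy => (hS _).mpr fun w ha hb =>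
      tz_mem_Wt (hx w ha hb) c ((hS _).mp hy w ha hb)) fun α y hy h0 hα => ?_
    have hf : ∀ w, B w u = 0 → B w v = 0 → ρ (sg hB (s • u + r • v) w) y = y := fun w ha hb =>
      sg_fix hψ hR (hx' w ha hb) ((hS _).mp hy w ha hb)
    have : α = 0 := eq_zero_of_forall_psi hψ fun t => by
      have ha : B ((t / B w₁ w₂) • w₁) u = 0 := by simp [h1]
      have hb : B ((t / B w₁ w₂) • w₁) v = 0 := by simp [h2]
      have e := congrArg (fun g => ρ g y) (sg_mul hB (hx' _ h3 h4) (hx' _ ha hb))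
      simp only [rho_mul] at e
      rw [hf _ ha hb, hf _ h3 h4, hα, map_smul, hf _ (by simp [h1, h3]) (by simp [h2, h4])] at e
      have e' := smul_left_injective ℂ h0 ((one_smul ℂ y).trans e)
      simp only [LinearMap.mul_apply', map_smul, LinearMap.smul_apply, smul_eq_mul,
        div_mul_cancel₀ _ h5] at e'
      rw [mul_comm, ← e']
    exact this ▸ hα
  refine hfix y fun x c => ?_
  have hvu : B v u = -B u v := alt_neg hB v u
  let s := B x v / B u v
  let r := -(B x u / B u v)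
  have ha : B (x - (s • u + r • v)) u = 0 := by
    simp only [map_sub, map_add, map_smul, LinearMap.sub_apply, LinearMap.add_apply, LinearMap.smul_apply,
      alt_self hB, hvu, smul_eq_mul, s, r]
    field_simp
    ring
  have hb : B (x - (s • u + r • v)) v = 0 := by
    simp only [map_sub, map_add, map_smul, LinearMap.sub_apply, LinearMap.add_apply, LinearMap.smul_apply,
      alt_self hB, smul_eq_mul, s, r]
    field_simp
    ring
  have hc : B (s • u + r • v) (x - (s • u + r • v)) = 0 :=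
    (alt_eq_zero_comm hB).mp (by rw [map_add, map_smul, map_smul, ha, hb]; simp)
  have := mem_Wt_comb hc (β := 0) (key s r ((hS y).mpr hy)) (fun c => by
    rw [sg_fix hψ hR (by rw [map_smul, hc, smul_zero])
      (by simpa using smul_mem_Wt (hy _ ha hb) c)]
    simp) (hy _ ha hb) 1 1
  simpa using this c

end CL.Blk.Rk1
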