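/-
Representations of symplectic groups in which only weights of rank at most one occur, part 2:
the operators `T v` and their multiplication table.
-/
import Cfsg.Agent.Blk.SpRk1

set_option autoImplicit false
set_option linter.unusedSimpArgs false

open Module

namespace CL.Blk.Rk1

open CL.Sp CL.LS

variable {F V : Type*} [Field F] [Fintype F] [AddCommGroup V] [Module F V] {B : LinearMap.BilinForm F V}
  {W : Type*} [AddCommGroup W] [Module ℂ W]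

/-- The standing hypotheses. -/
structure Good (hB : B.IsAlt) (ρ : Isom B →* End ℂ W) (ψ : AddChar F ℂ) : Prop where
  psi : ψ ≠ 1
  two : (2 : F) ≠ 0
  r1 : R1 hB ρ ψ
  fix : ∀ y, (∀ v, y ∈ Wt hB ρ ψ v 0) → y = 0
  dim : ∀ u v, B u v ≠ 0 → ∃ w₁ w₂, B w₁ u = 0 ∧ B w₁ v = 0 ∧ B w₂ u = 0 ∧ B w₂ v = 0 ∧ B w₁ w₂ ≠ 0

/-- All weights are in the class of `κ` modulo squares. -/
def Pure (hB : B.IsAlt) (ρ : Isom B →* End ℂ W) (ψ : AddChar F ℂ) (κ : F) : Prop :=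
  ∀ v α y, y ≠ 0 → y ∈ Wt hB ρ ψ v α → ∃ x, α = κ * x ^ 2

/-- The spectral projections of a long root subgroup. -/
noncomputable def Ep (hB : B.IsAlt) (ρ : Isom B →* End ℂ W) (ψ : AddChar F ℂ) (v : V) (α : F) : End ℂ W :=
  wproj ρ ψ (tz hB v) (LinearMap.mul F F α)

/-- The even Heisenberg operators. -/
noncomputable def Tk (hB : B.IsAlt) (ρ : Isom B →* End ℂ W) (ψ : AddChar F ℂ) (κ : F) (v : V) : End ℂ W :=
  Ep hB ρ ψ v 0 + ∑ x : F, ψ x • Ep hB ρ ψ v (κ * x ^ 2)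

variable {hB : B.IsAlt} {ρ : Isom B →* End ℂ W} {ψ : AddChar F ℂ}

theorem Ep_mem (v : V) (α : F) (y : W) : Ep hB ρ ψ v α y ∈ Wt hB ρ ψ v α := wproj_mem (tz_add hB v) _ y

theorem Ep_of_mem (hψ : ψ ≠ 1) {v : V} {α : F} {y : W} (hy : y ∈ Wt hB ρ ψ v α) : Ep hB ρ ψ v α y = y :=
  wproj_of_mem hψ hy

theorem Ep_of_ne (hψ : ψ ≠ 1) {v : V} {α β : F} (h : β ≠ α) {y : W} (hy : y ∈ Wt hB ρ ψ v β) :
    Ep hB ρ ψ v α y = 0 :=
  wproj_of_mem_ne hψ (fun e => h (by simpa using LinearMap.congr_fun e 1)) hy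

theorem Ep_mem_Wt {x v : V} (h : B x v = 0) (α : F) {δ : F} {y : W} (hy : y ∈ Wt hB ρ ψ x δ) :
    Ep hB ρ ψ v α y ∈ Wt hB ρ ψ x δ := by
  rw [Ep, wproj_apply]
  exact Submodule.smul_mem _ _ (Submodule.sum_mem _ fun c _ => Submodule.smul_mem _ _ (tz_mem_Wt h c hy))

theorem Tk_mem_Wt {x v : V} (h : B x v = 0) (κ : F) {δ : F} {y : W} (hy : y ∈ Wt hB ρ ψ x δ) :
    Tk hB ρ ψ κ v y ∈ Wt hB ρ ψ x δ := by
  rw [Tk, LinearMap.add_apply, LinearMap.sum_apply]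
  exact Submodule.add_mem _ (Ep_mem_Wt h _ hy)
    (Submodule.sum_mem _ fun c _ => Submodule.smul_mem _ _ (Ep_mem_Wt h _ hy))

theorem mul_Ep (g : Isom B) (v : V) (α : F) :
    ρ g * Ep hB ρ ψ v α = Ep hB ρ ψ ((g : V ≃ₗ[F] V) v) α * ρ g := by
  simp only [Ep, wproj, mul_smul_comm, smul_mul_assoc, Finset.mul_sum, Finset.sum_mul, ← map_mul, mul_tz]

theorem mul_Tk (g : Isom B) (κ : F) (v : V) :
    ρ g * Tk hB ρ ψ κ v = Tk hB ρ ψ κ ((g : V ≃ₗ[F] V) v) * ρ g := by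
  simp only [Tk, mul_add, add_mul, mul_smul_comm, smul_mul_assoc, Finset.mul_sum, Finset.sum_mul, mul_Ep]

theorem Tk_neg (κ : F) (v : V) : Tk hB ρ ψ κ (-v) = Tk hB ρ ψ κ v := by
  have : tz hB (-v) = tz hB v := funext (tz_neg hB v)
  simp only [Tk, Ep, this]

theorem Tk_apply (hψ : ψ ≠ 1) (h2 : (2 : F) ≠ 0) {κ : F} (hκ : κ ≠ 0) {v : V} {x : F} {y : W}
    (hy : y ∈ Wt hB ρ ψ v (κ * x ^ 2)) : Tk hB ρ ψ κ v y = (ψ x + ψ (-x)) • y := by
  classical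
  rw [Tk, LinearMap.add_apply, LinearMap.sum_apply]
  have h1 : ∀ z : F, z ≠ x → z ≠ -x → (ψ z • Ep hB ρ ψ v (κ * z ^ 2)) y = 0 := fun z ha hb => by
    rw [LinearMap.smul_apply, Ep_of_ne hψ (fun e => ?_) hy, smul_zero]
    rcases sq_eq_sq_iff_eq_or_eq_neg.mp (mul_left_cancel₀ hκ e).symm with e | e
    exacts [ha e, hb e]
  by_cases hx : x = 0
  · subst hx
    rw [Finset.sum_eq_single 0 (fun z _ hz => h1 z hz (by simpa using hz)) (by simp), LinearMap.smul_apply,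
      Ep_of_mem hψ hy, Ep_of_mem hψ (by simpa using hy)]
    simp [add_smul]
  · have hne : x ≠ -x := fun e => hx (by
      have : 2 * x = 0 := by linear_combination e
      exact (mul_eq_zero.mp this).resolve_left h2)
    rw [Ep_of_ne hψ (mul_ne_zero hκ (pow_ne_zero 2 hx)) hy, zero_add,
      Finset.sum_eq_add x (-x) hne (fun z _ hz => h1 z hz.1 hz.2) (by simp) (by simp), LinearMap.smul_apply,
      LinearMap.smul_apply, neg_sq, Ep_of_mem hψ hy, add_smul]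

theorem Tk_zero (hψ : ψ ≠ 1) (h2 : (2 : F) ≠ 0) {κ : F} (hκ : κ ≠ 0) : Tk hB ρ ψ κ 0 = (2 : ℂ) • 1 := by
  ext y
  rw [Tk_apply hψ h2 hκ (x := 0) (fun c => by simp [tz_zero_left])]
  simp [one_add_one_eq_two]

variable [Finite V]

instance finite_isom : Finite (Isom B) :=
  Finite.of_injective (fun g : Isom B => ((g : V ≃ₗ[F] V) : V → V))
    fun _ _ h => isom_ext (congrFun h)

theorem ind3 (hG : Good hB ρ ψ) {u v : V} (huv : B u v ≠ 0) {N : Submodule ℂ W}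
    (h : ∀ w δ, B w u = 0 → B w v = 0 → δ ≠ 0 → ∀ y, y ≠ 0 → y ∈ Wt hB ρ ψ w δ → y ∈ N) (y : W) : y ∈ N := by
  obtain ⟨w₁, w₂, h1, h2, h3, h4, h5⟩ := hG.dim u v huv
  let K : Subgroup (Isom B) :=
    { carrier := {g | ∀ y, ρ g y - y ∈ N}
      mul_mem' := fun {a b} ha hb y => by
        have := N.add_mem (ha (ρ b y)) (hb y)
        rwa [sub_add_sub_cancel, ← rho_mul] at this
      one_mem' := fun y => by simp
      inv_mem' := fun {a} ha y => by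
        have := N.neg_mem (ha (ρ a⁻¹ y))
        rwa [← rho_mul, mul_inv_cancel, map_one, End.one_apply, neg_sub] at this }
  have hK : ∀ w, B w u = 0 → B w v = 0 → ∀ c, tz hB w c ∈ K := fun w ha hb c y =>
    ind1 hG.psi w (S := ⊤) (N := N.comap (ρ (tz hB w c) - 1)) (fun _ _ _ => trivial) (fun α y _ h0 hα => by
      rw [Submodule.mem_comap, LinearMap.sub_apply, hα, End.one_apply]
      by_cases h6 : α = 0
      · simp [h6]
      · exact N.sub_mem (N.smul_mem _ (h w α ha hb h6 y h0 hα)) (h w α ha hb h6 y h0 hα)) trivial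
  let _ := Fintype.ofFinite K
  have h6 : ∑ g : K, ρ g y = 0 := eq_zero_of_fix hG.psi hG.r1 hG.fix huv h1 h2 h3 h4 h5 fun w ha hb c => by
    rw [map_sum]
    simp only [LinearMap.mul_apply', zero_mul, AddChar.map_zero_eq_one, one_smul, ← rho_mul]
    exact Fintype.sum_equiv (Equiv.mulLeft (⟨_, hK w ha hb c⟩ : K)) _ _ fun g => rfl
  have h7 : ∑ g : K, (ρ g y - y) ∈ N := N.sum_mem fun g _ => g.2 y
  rw [Finset.sum_sub_distrib, h6, zero_sub, Finset.sum_const, Finset.card_univ, neg_mem_iff,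
    ← Nat.cast_smul_eq_nsmul ℂ] at h7
  exact (N.smul_mem_iff (Nat.cast_ne_zero.mpr Fintype.card_ne_zero)).mp h7

theorem pure_of_mem (hG : Good hB ρ ψ)
    (hirr : ∀ N : Submodule ℂ W, (∀ g, ∀ y ∈ N, ρ g y ∈ N) → N = ⊥ ∨ N = ⊤) {v₀ : V} {κ : F} (hκ : κ ≠ 0)
    {y₀ : W} (h0 : y₀ ≠ 0) (hy₀ : y₀ ∈ Wt hB ρ ψ v₀ κ) : Pure hB ρ ψ κ := by
  intro u α z hz0 hz
  by_contra hne
  have hN : ⨆ v, Wt hB ρ ψ v κ = ⊤ := by
    refine (hirr _ fun g y hy => ?_).resolve_left fun e => h0 ?_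
    · have : ⨆ v, Wt hB ρ ψ v κ ≤ (⨆ v, Wt hB ρ ψ v κ).comap (ρ g) :=
        iSup_le fun v y hy => Submodule.mem_iSup_of_mem _ (map_mem_Wt g hy)
      exact this hy
    · have := Submodule.mem_iSup_of_mem (p := fun v => Wt hB ρ ψ v κ) v₀ hy₀
      rwa [e] at this
  have h1 : ⨆ v, Wt hB ρ ψ v κ ≤ LinearMap.ker (Ep hB ρ ψ u α) := iSup_le fun v y hy => by
    by_cases huv : B v u = 0
    · by_contra h3
      exact hne (exists_sq hG.psi hG.two hG.r1 huv hκ h3 (Ep_mem_Wt huv α hy) (Ep_mem u α y))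
    · have := ind3 hG huv (N := LinearMap.ker (Ep hB ρ ψ u α * Ep hB ρ ψ v κ))
        (fun w δ ha hb hδ y _ hy => by
          by_contra h3
          have h4 : Ep hB ρ ψ v κ y ≠ 0 := fun e => h3 (by rw [LinearMap.mem_ker, End.mul_apply, e, map_zero])
          obtain ⟨x, hx⟩ := exists_sq hG.psi hG.two hG.r1 ha hδ h4 (Ep_mem_Wt ha κ hy) (Ep_mem v κ y)
          obtain ⟨x', hx'⟩ := exists_sq hG.psi hG.two hG.r1 hb hδ h3 (Ep_mem_Wt hb α (Ep_mem_Wt ha κ hy))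
            (Ep_mem u α _)
          have h5 : x ≠ 0 := fun e => hκ (by rw [hx, e]; ring)
          exact hne ⟨x' / x, by rw [hx, hx']; field_simp⟩) y
      rwa [LinearMap.mem_ker, End.mul_apply, Ep_of_mem hG.psi hy] at this
  rw [hN] at h1
  exact hz0 ((Ep_of_mem hG.psi hz).symm.trans (h1 trivial))

omit [Finite V] in
theorem Tk_eq_sg (hG : Good hB ρ ψ) {κ : F} (hκ : κ ≠ 0) {w v : V} (hwv : B w v = 0) {a : F} (ha : a ≠ 0)
    {y : W} (hy : y ∈ Wt hB ρ ψ w (κ * a ^ 2)) : Tk hB ρ ψ κ v y =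
      ρ (sg hB w ((2 * κ * a)⁻¹ • v)) y + ρ (sg hB w (-(2 * κ * a)⁻¹ • v)) y := by
  have h2 := hG.two
  refine ind2 hG.psi hG.r1 hwv (S := Wt hB ρ ψ w (κ * a ^ 2)) (N := LinearMap.eqLocus (Tk hB ρ ψ κ v)
    (ρ (sg hB w ((2 * κ * a)⁻¹ • v)) + ρ (sg hB w (-(2 * κ * a)⁻¹ • v))))
    (fun c y hy => tz_mem_Wt (alt_self hB w) c hy)
    (fun c y hy => sg_mem_Wt (by rw [map_smul, hwv, smul_zero]) (alt_self hB w)
      (by rw [map_smul, hwv, smul_zero]) hy)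
    (fun c y hy => tz_mem_Wt hwv c hy) (fun α β γ h y hy h0 h3 h4 h5 => ?_) hy
  obtain rfl := eq_of_mem_Wt hG.psi h0 hy h3
  have h6 : γ = κ * (β * (2 * κ * a)⁻¹) ^ 2 := by
    field_simp
    linear_combination -h
  rw [LinearMap.mem_eqLocus, Tk_apply hG.psi h2 hκ (h6 ▸ h5), LinearMap.add_apply, h4, h4, add_smul, mul_neg]

theorem Tk_mul (hG : Good hB ρ ψ) {κ : F} (hκ : κ ≠ 0) (hP : Pure hB ρ ψ κ) (u v : V) :
    Tk hB ρ ψ κ u * Tk hB ρ ψ κ v = ψ (B v u / (4 * κ)) • Tk hB ρ ψ κ (u + v) +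
      ψ (-(B v u / (4 * κ))) • Tk hB ρ ψ κ (u - v) := by
  have h2 := hG.two
  ext y
  change y ∈ LinearMap.eqLocus _ _
  by_cases huv : B u v = 0
  · refine ind2 hG.psi hG.r1 huv (S := ⊤) (fun _ _ _ => trivial) (fun _ _ _ => trivial) (fun _ _ _ => trivial)
      (fun α β γ h y _ h0 h3 h4 h5 => ?_) trivial
    obtain ⟨x, rfl⟩ := hP u α y h0 h3
    obtain ⟨z, hz, rfl⟩ : ∃ z, γ = κ * z ^ 2 ∧ β = 2 * κ * x * z := by
      obtain ⟨z, rfl⟩ := hP v γ y h0 h5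
      rcases sq_eq_sq_iff_eq_or_eq_neg.mp (show β ^ 2 = (2 * κ * x * z) ^ 2 by linear_combination h) with e | e
      · exact ⟨z, rfl, e⟩
      · exact ⟨-z, by ring, by rw [e]; ring⟩
    subst hz
    have h6 := mem_Wt_comb huv h3 h4 h5 1 1
    have h7 := mem_Wt_comb huv h3 h4 h5 1 (-1)
    rw [one_smul, one_smul, show 1 ^ 2 * (κ * x ^ 2) + 1 * 1 * (2 * κ * x * z) + 1 ^ 2 * (κ * z ^ 2) =
      κ * (x + z) ^ 2 by ring] at h6
    rw [one_smul, neg_one_smul, ← sub_eq_add_neg, show 1 ^ 2 * (κ * x ^ 2) + 1 * -1 * (2 * κ * x * z) +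
      (-1) ^ 2 * (κ * z ^ 2) = κ * (x - z) ^ 2 by ring] at h7
    rw [LinearMap.mem_eqLocus, End.mul_apply, Tk_apply hG.psi h2 hκ h5, map_smul, Tk_apply hG.psi h2 hκ h3,
      LinearMap.add_apply, LinearMap.smul_apply, LinearMap.smul_apply, Tk_apply hG.psi h2 hκ h6,
      Tk_apply hG.psi h2 hκ h7, (alt_eq_zero_comm hB).mp huv]
    simp only [zero_div, neg_zero, AddChar.map_zero_eq_one, one_smul, smul_smul, ← add_smul, neg_add, neg_sub,
      sub_eq_add_neg, AddChar.map_add_eq_mul, neg_neg]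
    congr 1
    ring
  · refine ind3 hG huv (fun w δ ha hb hδ y h0 hy => ?_) y
    obtain ⟨a, rfl⟩ := hP w δ y h0 hy
    have ha0 : a ≠ 0 := fun e => hδ (by rw [e]; ring)
    have hs : ∀ s t : F, ρ (sg hB w (s • u)) (ρ (sg hB w (t • v)) y) =
        ψ (κ * a ^ 2 * (s * t * B v u)) • ρ (sg hB w (s • u + t • v)) y := fun s t => by
      rw [← rho_mul, sg_mul hB (by rw [map_smul, ha, smul_zero]) (by rw [map_smul, hb, smul_zero]), rho_mul,
        hy, map_smul]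
      congr 2
      simp only [LinearMap.mul_apply', map_smul, LinearMap.smul_apply, smul_eq_mul, mul_assoc]
    have h4 : (4 : F) ≠ 0 := by
      rw [show (4 : F) = 2 * 2 by norm_num]
      exact mul_ne_zero h2 h2
    have e1 : κ * a ^ 2 * ((2 * κ * a)⁻¹ * (2 * κ * a)⁻¹ * B v u) = B v u / (4 * κ) := by
      field_simp
      ring
    rw [LinearMap.mem_eqLocus, End.mul_apply, Tk_eq_sg hG hκ ha ha0 (Tk_mem_Wt hb κ hy), Tk_eq_sg hG hκ hb ha0 hy,
      LinearMap.add_apply, LinearMap.smul_apply, LinearMap.smul_apply,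
      Tk_eq_sg hG hκ (v := u + v) (by rw [map_add, ha, hb, add_zero]) ha0 hy,
      Tk_eq_sg hG hκ (v := u - v) (by rw [map_sub, ha, hb, sub_zero]) ha0 hy, map_add, map_add, hs, hs, hs, hs]
    simp only [mul_neg, neg_mul, neg_neg, e1, smul_add, smul_sub, neg_smul, sub_eq_add_neg, smul_neg]
    abel

omit [Finite V] in
theorem tz_eq_sum (hG : Good hB ρ ψ) {κ : F} (hκ : κ ≠ 0) (hP : Pure hB ρ ψ κ) (v : V) (c : F) :
    ρ (tz hB v c) = ∑ s : F, ((2 * Fintype.card F : ℂ)⁻¹ * ∑ z : F, ψ (κ * z ^ 2 * c - s * z)) •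
      Tk hB ρ ψ κ (s • v) := by
  classical
  ext y
  change y ∈ LinearMap.eqLocus _ _
  refine ind1 (hB := hB) (ρ := ρ) hG.psi v (S := ⊤) (fun _ _ _ => trivial) (fun α y _ h0 hy => ?_) trivial
  obtain ⟨x, rfl⟩ := hP v α y h0 hy
  have h1 : ∀ s : F, Tk hB ρ ψ κ (s • v) y = (ψ (s * x) + ψ (-(s * x))) • y := fun s =>
    Tk_apply hG.psi hG.two hκ (by convert smul_mem_Wt hy s using 2; ring)
  rw [LinearMap.mem_eqLocus, hy, LinearMap.sum_apply]
  simp only [LinearMap.smul_apply, h1, smul_smul, ← Finset.sum_smul, mul_assoc, ← Finset.mul_sum]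
  congr 1
  have hq : (2 * Fintype.card F : ℂ) ≠ 0 := mul_ne_zero two_ne_zero (Nat.cast_ne_zero.mpr Fintype.card_ne_zero)
  rw [eq_inv_mul_iff_mul_eq₀ hq]
  have h3 : ∀ t : F, ∑ s : F, (∑ z : F, ψ (κ * (z ^ 2 * c) - s * z)) * ψ (s * t) =
      Fintype.card F * ψ (κ * (t ^ 2 * c)) := fun t => by
    simp only [Finset.sum_mul]
    rw [Finset.sum_comm]
    have : ∀ z s : F, ψ (κ * (z ^ 2 * c) - s * z) * ψ (s * t) = ψ (κ * (z ^ 2 * c)) * ψ (s * (t - z)) :=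
      fun z s => by
        rw [← AddChar.map_add_eq_mul, ← AddChar.map_add_eq_mul]
        congr 1
        ring
    simp only [this, ← Finset.mul_sum, AddChar.sum_mulShift _ (AddChar.IsPrimitive.of_ne_one hG.psi)]
    rw [Finset.sum_eq_single t (fun z _ hz => by simp [sub_eq_zero, hz.symm]) (by simp)]
    simp [mul_comm]
  simp only [mul_add, Finset.sum_add_distrib, ← mul_neg, h3, neg_sq, LinearMap.mul_apply']
  ring_nf

end CL.Blk.Rk1
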