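/-
Representations of symplectic groups in which only weights of rank at most one occur, part 3:
degrees and uniqueness.
-/
import Cfsg.Agent.Blk.SpRk2

set_option autoImplicit false
set_option linter.unusedSimpArgs false
set_option linter.unusedSectionVars false

open Module

namespace CL.Blk.Rk1

open CL.Sp CL.LS

section Lin

variable {W : Type*} [AddCommGroup W] [Module ℂ W] [FiniteDimensional ℂ W]

theorem sum_trace_sq {ι : Type*} [Fintype ι] (A : ι → End ℂ W) (c : ℂ)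
    (h : ∀ X : End ℂ W, ∑ i, A i * X * A i = (c * LinearMap.trace ℂ W X) • 1) :
    ∑ i, LinearMap.trace ℂ W (A i) ^ 2 = c * finrank ℂ W := by
  classical
  let b := Module.finBasis ℂ W
  have htr : ∀ X : End ℂ W, LinearMap.trace ℂ W X = ∑ j, b.repr (X (b j)) j := fun X => by
    rw [LinearMap.trace_eq_matrix_trace ℂ b, Matrix.trace]
    simp [LinearMap.toMatrix_apply]
  have h1 : ∀ j k, ∑ i, b.repr (A i (b j)) j * b.repr (A i (b k)) k = if j = k then c else 0 := fun j k => by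
    have h2 := congrArg (fun X : End ℂ W => b.repr (X (b k)) j) (h ((b.coord k).smulRight (b j)))
    rw [LinearMap.trace_smulRight] at h2
    simp only [LinearMap.sum_apply, End.mul_apply, LinearMap.smulRight_apply, map_smul, map_sum,
      Finsupp.finsetSum_apply, Finsupp.smul_apply, smul_eq_mul, Basis.coord_apply, LinearMap.smul_apply,
      End.one_apply, Basis.repr_self, Finsupp.single_apply] at h2
    simp only [mul_comm (b.repr (A _ (b j)) j), h2]
    by_cases e : j = k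
    · simp [e]
    · simp [e]
  simp only [htr, sq, Finset.sum_mul_sum]
  rw [Finset.sum_comm]
  simp only [Finset.sum_comm (s := (Finset.univ : Finset ι)), h1]
  simp [mul_comm]

theorem exists_smul_of_irr {G : Type*} [Group G] {ρ : G →* End ℂ W} [Nontrivial W]
    (hirr : ∀ N : Submodule ℂ W, (∀ g, ∀ y ∈ N, ρ g y ∈ N) → N = ⊥ ∨ N = ⊤) {X : End ℂ W}
    (h : ∀ g, ρ g * X = X * ρ g) : ∃ c : ℂ, X = c • 1 := by
  obtain ⟨c, hc⟩ := End.exists_eigenvalue X
  have := (hirr (X.eigenspace c) fun g y hy => by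
    rw [End.mem_eigenspace_iff] at hy ⊢
    rw [← End.mul_apply, ← h, End.mul_apply, hy, map_smul]).resolve_left hc
  exact ⟨c, LinearMap.ext fun y => End.mem_eigenspace_iff.mp (this ▸ Submodule.mem_top)⟩

theorem solve_eqs {z t : ℂ} {d Q : ℕ} (hd : 0 < d) (hQ : 1 < Q) (e1 : z * t = 2 * (2 * d - t))
    (e2 : z * d = (Q : ℂ) ^ 2 * t + 2 * d - t) (e3 : (Q : ℂ) ^ 2 * t ^ 2 + 4 * d ^ 2 - t ^ 2 = z + 2 * Q ^ 2) :
    (2 * d = Q + 1 ∧ t = 1) ∨ (2 * d + 1 = Q ∧ t = -1) := by
  have hd0 : (d : ℂ) ≠ 0 := Nat.cast_ne_zero.mpr hd.ne'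
  have hQ0 : (Q : ℂ) ≠ 0 := Nat.cast_ne_zero.mpr (by omega)
  have hQ1 : (Q : ℂ) + 1 ≠ 0 := by exact_mod_cast Nat.succ_ne_zero Q
  have hQ2 : (Q : ℂ) - 1 ≠ 0 := sub_ne_zero.mpr (by exact_mod_cast hQ.ne')
  have h1 : ((Q + 1) * t - 2 * d) * ((Q - 1) * t + 2 * d) = 0 := by
    linear_combination (d : ℂ) * e1 - t * e2
  rcases mul_eq_zero.mp h1 with h | h
  · have hz : z = 2 * Q := mul_right_cancel₀ hd0 (by linear_combination e2 + (Q - 1) * h)
    have ht : (t - 1) * (t + 1) = 0 := mul_left_cancel₀ (mul_ne_zero (mul_ne_zero two_ne_zero hQ0) hQ1) (by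
      linear_combination e3 + hz + ((Q + 1) * t + 2 * d) * h)
    rcases mul_eq_zero.mp ht with h2 | h2
    · refine Or.inl ⟨?_, sub_eq_zero.mp h2⟩
      exact_mod_cast (show (2 * d : ℂ) = Q + 1 by linear_combination (Q + 1) * h2 - h)
    · have : ((2 * d + Q + 1 : ℕ) : ℂ) = 0 := by
        push_cast
        linear_combination (Q + 1) * h2 - h
      exact absurd (Nat.cast_eq_zero.mp this) (by omega)
  · have hz : z = -2 * Q := mul_right_cancel₀ hd0 (by linear_combination e2 + (Q + 1) * h)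
    have ht : (t - 1) * (t + 1) = 0 := mul_left_cancel₀ (mul_ne_zero (mul_ne_zero two_ne_zero hQ0) hQ2) (by
      linear_combination e3 + hz + ((Q - 1) * t - 2 * d) * h)
    rcases mul_eq_zero.mp ht with h2 | h2
    · have : ((2 * d + Q : ℕ) : ℂ) = (1 : ℕ) := by
        push_cast
        linear_combination h - (Q - 1) * h2
      exact absurd (Nat.cast_injective this) (by omega)
    · refine Or.inr ⟨?_, eq_neg_of_add_eq_zero_left h2⟩
      exact_mod_cast (show (2 * d + 1 : ℂ) = Q by linear_combination h - (Q - 1) * h2)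

end Lin

variable {F V : Type*} [Field F] [AddCommGroup V] [Module F V] {B : LinearMap.BilinForm F V}
  {W : Type*} [AddCommGroup W] [Module ℂ W] {hB : B.IsAlt} {ρ : Isom B →* End ℂ W} {ψ : AddChar F ℂ}

theorem tz_induction [FiniteDimensional F V] (hB : B.IsAlt) (hN : B.Nondegenerate) {P : Isom B → Prop}
    (h1 : P 1) (hm : ∀ v c g, P g → P (tz hB v c * g)) (g : Isom B) : P g := by
  have h : Subgroup.closure {g | ∃ v c, g = tz hB v c} = ⊤ :=
    eq_top_of_tv_mem hB hN fun v c => Subgroup.subset_closure ⟨v, c, rfl⟩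
  have hg : g ∈ Subgroup.closure {g | ∃ v c, g = tz hB v c} := h ▸ Subgroup.mem_top g
  induction hg using Subgroup.closure_induction_left with
  | one => exact h1
  | mul_left x hx y _ hy =>
    obtain ⟨v, c, rfl⟩ := hx
    exact hm v c y hy
  | inv_mul_cancel x hx y _ hy =>
    obtain ⟨v, c, rfl⟩ := hx
    rw [tz_inv]
    exact hm v _ y hy

variable [Fintype F] [Finite V]

theorem comm_of_comm_Tk (hN : B.Nondegenerate) (hG : Good hB ρ ψ) {κ : F} (hκ : κ ≠ 0) (hP : Pure hB ρ ψ κ)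
    {X : End ℂ W} (h : ∀ v, Tk hB ρ ψ κ v * X = X * Tk hB ρ ψ κ v) (g : Isom B) : ρ g * X = X * ρ g := by
  induction g using tz_induction hB hN with
  | h1 => simp
  | hm v c g hg =>
    have : ρ (tz hB v c) * X = X * ρ (tz hB v c) := by
      rw [tz_eq_sum hG hκ hP]
      simp only [Finset.sum_mul, Finset.mul_sum, smul_mul_assoc, mul_smul_comm, h]
    rw [map_mul, mul_assoc, hg, ← mul_assoc, this, mul_assoc]

variable [FiniteDimensional ℂ W]

theorem trace_Tk_eq (hN : B.Nondegenerate) (κ : F) {u v : V} (hu : u ≠ 0) (hv : v ≠ 0) :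
    LinearMap.trace ℂ W (Tk hB ρ ψ κ u) = LinearMap.trace ℂ W (Tk hB ρ ψ κ v) := by
  obtain ⟨g, hg, rfl⟩ := exists_isom_apply_eq hB hN hu hv
  have h1 := mul_Tk (hB := hB) (ρ := ρ) (ψ := ψ) ⟨g, hg⟩ κ u
  have h2 := congrArg (fun X => LinearMap.trace ℂ W (X * ρ (⟨g, hg⟩ : Isom B)⁻¹)) h1
  simp only [mul_assoc, ← map_mul, mul_inv_cancel, map_one, mul_one] at h2
  rw [← h2, LinearMap.trace_mul_comm, mul_assoc, ← map_mul, inv_mul_cancel, map_one, mul_one]

theorem degree_and_trace [Nontrivial W] (hN : B.Nondegenerate) (hG : Good hB ρ ψ)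
    (hirr : ∀ N : Submodule ℂ W, (∀ g, ∀ y ∈ N, ρ g y ∈ N) → N = ⊥ ∨ N = ⊤) {κ : F} (hκ : κ ≠ 0)
    (hP : Pure hB ρ ψ κ) {Q : ℕ} (hQ : 1 < Q) (hV : Nat.card V = Q ^ 2) {u : V} (hu : u ≠ 0) :
    (2 * finrank ℂ W = Q + 1 ∧ LinearMap.trace ℂ W (Tk hB ρ ψ κ u) = 1) ∨
      (2 * finrank ℂ W + 1 = Q ∧ LinearMap.trace ℂ W (Tk hB ρ ψ κ u) = -1) := by
  classical
  let _ := Fintype.ofFinite V
  have h2 := hG.two
  set T := Tk hB ρ ψ κ with hT
  set t := LinearMap.trace ℂ W (T u) with ht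
  have hcard : (Fintype.card V : ℂ) = (Q : ℂ) ^ 2 := by rw [← Nat.card_eq_fintype_card, hV, Nat.cast_pow]
  have hd0 : (finrank ℂ W : ℂ) ≠ 0 := Nat.cast_ne_zero.mpr finrank_pos.ne'
  have hT0 : T 0 = (2 : ℂ) • 1 := Tk_zero hG.psi h2 hκ
  have hneg : ∀ v, T (-v) = T v := Tk_neg κ
  have hmul := Tk_mul hG hκ hP
  simp only [← hT] at hmul
  have hsum : ∀ f : V → ℂ → ℂ, ∑ v, f v (LinearMap.trace ℂ W (T v)) =
      ∑ v, f v t + f 0 (2 * finrank ℂ W) - f 0 t := fun f => by
    rw [← Finset.add_sum_erase _ _ (Finset.mem_univ 0), ← Finset.add_sum_erase _ (fun v => f v t)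
      (Finset.mem_univ 0), Finset.sum_congr rfl fun v hv => by
        rw [trace_Tk_eq hN κ (Finset.ne_of_mem_erase hv) hu], hT0, map_smul, LinearMap.trace_one, smul_eq_mul]
    ring
  obtain ⟨z, hz⟩ := exists_smul_of_irr hirr (X := ∑ v, T v) fun g => by
    simp only [Finset.mul_sum, Finset.sum_mul, hT, mul_Tk]
    exact Fintype.sum_equiv (g : V ≃ₗ[F] V).toEquiv _ _ fun v => rfl
  have e2 : z * finrank ℂ W = (Q : ℂ) ^ 2 * t + 2 * finrank ℂ W - t := by
    have := congrArg (LinearMap.trace ℂ W) hz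
    rw [map_smul, LinearMap.trace_one, map_sum, hsum fun _ x => x, Finset.sum_const, Finset.card_univ,
      nsmul_eq_mul, hcard] at this
    exact this.symm
  have e1 : z * t = 2 * (2 * finrank ℂ W - t) := by
    have h3 : T u * ∑ v, T v = (2 : ℂ) • ∑ w, ψ (B w u / (4 * κ)) • T w := by
      simp only [Finset.mul_sum, hmul, Finset.sum_add_distrib, two_smul]
      congr 1
      · exact Fintype.sum_equiv (Equiv.addLeft u) _ _ fun v => by simp [alt_self hB]
      · exact Fintype.sum_equiv (Equiv.subLeft u) _ _ fun v => by simp [alt_self hB, neg_div]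
    have h4 : (4 * κ)⁻¹ ≠ 0 := inv_ne_zero (mul_ne_zero (by
      rw [show (4 : F) = 2 * 2 by norm_num]
      exact mul_ne_zero h2 h2) hκ)
    have h5 : ∑ w, ψ (B w u / (4 * κ)) = 0 := by
      have := sum_psi_dual hG.psi (l := (4 * κ)⁻¹ • B.flip u) (smul_ne_zero h4 fun e =>
        hu (hN.2 u fun w => LinearMap.congr_fun e w))
      simpa [div_eq_inv_mul] using this
    have h6 := congrArg (LinearMap.trace ℂ W) h3
    rw [hz, mul_smul_comm, mul_one, map_smul, map_smul, map_sum] at h6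
    simp only [map_smul, smul_eq_mul] at h6
    rw [hsum fun w x => ψ (B w u / (4 * κ)) * x, ← Finset.sum_mul, h5] at h6
    simpa using h6
  have h7 : ∑ v, T v * T v = (z + 2 * Q ^ 2) • (1 : End ℂ W) := by
    simp only [hmul, alt_self hB, zero_div, neg_zero, AddChar.map_zero_eq_one, one_smul, sub_self,
      Finset.sum_add_distrib, hT0, Finset.sum_const, Finset.card_univ]
    rw [add_smul, ← hz, ← Nat.cast_smul_eq_nsmul ℂ, smul_smul, hcard, mul_comm]
    congr 1
    exact Fintype.sum_equiv (LinearEquiv.smulOfNeZero F V 2 h2).toEquiv _ _ fun v => by simp [two_smul]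
  have h8 : ∀ X : End ℂ W, ∑ v, T v * X * T v = ((z + 2 * Q ^ 2) / finrank ℂ W * LinearMap.trace ℂ W X) • 1 := by
    intro X
    obtain ⟨c, hc⟩ := exists_smul_of_irr hirr (X := ∑ v, T v * X * T v) (comm_of_comm_Tk hN hG hκ hP fun w => by
      simp only [← hT, Finset.mul_sum, Finset.sum_mul, ← mul_assoc, hmul]
      simp only [mul_assoc, hmul, add_mul, mul_add, smul_mul_assoc, mul_smul_comm, Finset.sum_add_distrib]
      congr 1
      · refine Fintype.sum_equiv ((Equiv.addLeft w).trans (Equiv.neg V)) _ _ fun v => ?_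
        simp only [Equiv.trans_apply, Equiv.coe_addLeft, Equiv.neg_apply, hneg, map_neg, map_add, alt_self hB,
          zero_add, alt_neg hB w v, neg_neg]
        rw [show -(w + v) + w = -v by abel, hneg]
      · refine Fintype.sum_equiv (Equiv.subLeft w) _ _ fun v => ?_
        simp only [Equiv.subLeft_apply, map_sub, alt_self hB, zero_sub, alt_neg hB w v, neg_neg]
        rw [show w - v - w = -v by abel, hneg])
    have h9 := congrArg (LinearMap.trace ℂ W) hc
    rw [map_sum, Finset.sum_congr rfl fun v _ => LinearMap.trace_mul_cycle ℂ (T v) X (T v), ← map_sum,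
      ← Finset.sum_mul, h7, smul_mul_assoc, one_mul, map_smul, map_smul, LinearMap.trace_one] at h9
    rw [hc]
    congr 1
    field_simp
    exact h9.symm
  have e3 := sum_trace_sq T _ h8
  rw [hsum fun _ x => x ^ 2, Finset.sum_const, Finset.card_univ, nsmul_eq_mul, hcard,
    div_mul_cancel₀ _ hd0] at e3
  exact solve_eqs finrank_pos hQ e1 e2 (by linear_combination e3)

theorem trace_eq_of_trace_Tk {W' : Type*} [AddCommGroup W'] [Module ℂ W'] {ρ' : Isom B →* End ℂ W'}
    (hN : B.Nondegenerate) (hG : Good hB ρ ψ) (hG' : Good hB ρ' ψ) {κ : F} (hκ : κ ≠ 0) (hP : Pure hB ρ ψ κ)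
    (hP' : Pure hB ρ' ψ κ)
    (h : ∀ v, LinearMap.trace ℂ W (Tk hB ρ ψ κ v) = LinearMap.trace ℂ W' (Tk hB ρ' ψ κ v)) (g : Isom B) :
    LinearMap.trace ℂ W (ρ g) = LinearMap.trace ℂ W' (ρ' g) := by
  let P : V → End ℂ W × End ℂ W' := fun v => (Tk hB ρ ψ κ v, Tk hB ρ' ψ κ v)
  let S := Submodule.span ℂ (Set.range P)
  have hP1 : ∀ v, P v ∈ S := fun v => Submodule.subset_span ⟨v, rfl⟩
  have h1 : ∀ u, ∀ x ∈ S, P u * x ∈ S := fun u x hx => by
    induction hx using Submodule.span_induction with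
    | mem x hx =>
      obtain ⟨v, rfl⟩ := hx
      have : P u * P v = ψ (B v u / (4 * κ)) • P (u + v) + ψ (-(B v u / (4 * κ))) • P (u - v) :=
        Prod.ext (Tk_mul hG hκ hP u v) (Tk_mul hG' hκ hP' u v)
      exact this ▸ S.add_mem (S.smul_mem _ (hP1 _)) (S.smul_mem _ (hP1 _))
    | zero => simp
    | add x y _ _ hx hy => exact mul_add (P u) x y ▸ S.add_mem hx hy
    | smul c x _ hx => exact mul_smul_comm c (P u) x ▸ S.smul_mem c hx
  have h2 : (ρ g, ρ' g) ∈ S := by
    induction g using tz_induction hB hN with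
    | h1 =>
      have : (ρ 1, ρ' 1) = (2 : ℂ)⁻¹ • P 0 :=
        Prod.ext (by simp [P, Tk_zero hG.psi hG.two hκ, smul_smul]) (by simp [P, Tk_zero hG.psi hG.two hκ, smul_smul])
      exact this ▸ S.smul_mem _ (hP1 0)
    | hm v c g hg =>
      have : (ρ (tz hB v c * g), ρ' (tz hB v c * g)) = ∑ s : F, ((2 * Fintype.card F : ℂ)⁻¹ *
          ∑ z : F, ψ (κ * z ^ 2 * c - s * z)) • (P (s • v) * (ρ g, ρ' g)) :=
        Prod.ext (by simp [P, tz_eq_sum hG hκ hP, Finset.sum_mul, Prod.fst_sum])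
          (by simp [P, tz_eq_sum hG' hκ hP', Finset.sum_mul, Prod.snd_sum])
      exact this ▸ S.sum_mem fun s _ => S.smul_mem _ (h1 _ _ hg)
  have h3 : S ≤ LinearMap.eqLocus (LinearMap.trace ℂ W ∘ₗ LinearMap.fst ℂ _ _)
      (LinearMap.trace ℂ W' ∘ₗ LinearMap.snd ℂ _ _) :=
    Submodule.span_le.mpr (by rintro _ ⟨v, rfl⟩; exact h v)
  exact h3 h2

end CL.Blk.Rk1
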