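/-
Orbits of `GL(V)` on quadratic forms of rank at least two in odd characteristic.
-/
import Cfsg.Agent.Known.LSForms

set_option autoImplicit false
set_option linter.unusedSimpArgs false
set_option linter.unusedSectionVars false

open Module QuadraticMap

namespace CL.Blk.Rk1

open CL.LS

variable {F V : Type*} [Field F] [Finite F] [AddCommGroup V] [Module F V] [Finite V]

theorem card_fiber_plane_odd (h2 : (2 : F) ≠ 0) {a b : F} (ha : a ≠ 0) (hb : b ≠ 0) :
    Nat.card {w : (F × F) × (F × F) // a * w.1.1 ^ 2 + b * w.1.2 ^ 2 = a ∧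
      a * w.2.1 ^ 2 + b * w.2.2 ^ 2 = b ∧ a * w.1.1 * w.2.1 + b * w.1.2 * w.2.2 = 0} ≤
      2 * (Nat.card F + 1) := by
  classical
  refine (card_le_mul_ncard (S := {x : F × F | a * x.1 ^ 2 + b * x.2 ^ 2 = a}) (Set.toFinite _)
    (fun w => w.1.1) (fun w => w.2.1) (m := 2) ?_).trans (Nat.mul_le_mul_left _ ?_)
  · rintro ⟨⟨⟨s, t⟩, ⟨s', t'⟩⟩, h1, h3, h4⟩
    refine le_trans (Nat.card_le_card_of_injective
      (β := ({(-(b * t / a), s), (b * t / a, -s)} : Set (F × F))) (fun j => ⟨j.1.1.2, ?_⟩) ?_) ?_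
    · obtain ⟨⟨⟨⟨x, y⟩, ⟨x', y'⟩⟩, -, h5, h6⟩, h7⟩ := j
      obtain ⟨rfl, rfl⟩ := Prod.mk.inj h7
      dsimp only at *
      have hx : x' = -(b * y / a) * (x * y' - y * x') := by
        field_simp
        linear_combination (-x') * h1 + x * h6
      have hy : y' = x * (x * y' - y * x') := mul_left_cancel₀ ha (by
        linear_combination (-y') * h1 + y * h6)
      generalize x * y' - y * x' = c at hx hy
      subst hx hy
      have h8 : c ^ 2 = 1 ^ 2 := by
        field_simp at h5
        exact mul_left_cancel₀ ha (by linear_combination h5 - c ^ 2 * h1)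
      rcases sq_eq_sq_iff_eq_or_eq_neg.mp h8 with h9 | h9
      · left; simp [h9]
      · right; simp [h9]
    · intro i j hij
      exact Subtype.ext (Subtype.ext (Prod.ext (i.2.trans j.2.symm) (Subtype.mk.inj hij)))
    · rw [Nat.card_coe_set_eq]
      exact Set.ncard_insert_le _ _ |>.trans (by simp)
  · rw [← Nat.card_coe_set_eq, ← Finite.card_option]
    refine Nat.card_le_card_of_injective (fun x => if x.1.1 = 1 then none else some (x.1.2 / (x.1.1 - 1))) ?_
    rintro ⟨⟨s, t⟩, h1⟩ ⟨⟨s', t'⟩, h3⟩ h4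
    simp only [Set.mem_ofPred_eq] at h1 h3 h4
    by_cases ht : s = 1 <;> by_cases ht' : s' = 1 <;> simp only [ht, ht', if_true, if_false, reduceCtorEq] at h4
    · subst ht ht'
      have h5 : t = 0 := pow_eq_zero_iff two_ne_zero |>.mp (mul_left_cancel₀ hb (by linear_combination h1))
      have h6 : t' = 0 := pow_eq_zero_iff two_ne_zero |>.mp (mul_left_cancel₀ hb (by linear_combination h3))
      simp [h5, h6]
    · have h5 := Option.some.inj h4
      have hs := sub_ne_zero.mpr ht
      have hs' := sub_ne_zero.mpr ht'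
      have h6 : t = t / (s - 1) * (s - 1) := by field_simp
      have h7 : t' = t / (s - 1) * (s' - 1) := by rw [h5]; field_simp
      generalize t / (s - 1) = m at h6 h7
      subst h6 h7
      have h8 : a * (s + 1) + b * m ^ 2 * (s - 1) = 0 := mul_left_cancel₀ hs (by linear_combination h1)
      have h9 : a * (s' + 1) + b * m ^ 2 * (s' - 1) = 0 := mul_left_cancel₀ hs' (by linear_combination h3)
      have h10 : s = s' := mul_left_cancel₀ (mul_ne_zero h2 ha) (by
        linear_combination (1 - s') * h8 + (s - 1) * h9)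
      simp [h10]

theorem le_ncard_qOrbit_of_plane_odd (h2 : (2 : F) ≠ 0) {Q : QuadraticForm F V} {a b : F} (ha : a ≠ 0)
    (hb : b ≠ 0) {f g : Dual F V} (hfg : LinearIndependent F ![f, g])
    (h : ∀ x, Q x = a * f x ^ 2 + b * g x ^ 2) :
    (Nat.card F ^ finrank F V - 1) * (Nat.card F ^ finrank F V - Nat.card F) ≤
      2 * (Nat.card F + 1) * (qOrbit Q).ncard := by
  let _ := Fintype.ofFinite F
  have h1 := card_linearIndependent (K := F) (V := Dual F V) (k := 2) (by simpa using hfg.fintype_card_le_finrank)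
  rw [Fin.prod_univ_two, Subspace.dual_finrank_eq, ← Nat.card_eq_fintype_card] at h1
  simp only [Fin.val_zero, Fin.val_one, pow_zero, pow_one] at h1
  rw [← h1]
  have hpair : ∀ s : {s : Fin 2 → Dual F V // LinearIndependent F s}, LinearIndependent F ![s.1 0, s.1 1] :=
    fun s => by convert s.2 using 1; ext i; fin_cases i <;> rfl
  obtain ⟨u, v, hu1, hv1, hu2, hv2⟩ := exists_dual_pair_of_linearIndependent hfg
  let D : {s : Fin 2 → Dual F V // LinearIndependent F s} → QuadraticForm F V := fun s =>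
    a • linMulLin (s.1 0) (s.1 0) + b • linMulLin (s.1 1) (s.1 1)
  have hD : ∀ s x, D s x = a * s.1 0 x ^ 2 + b * s.1 1 x ^ 2 := fun s x => by
    simp [D, pow_two]
  have hP : ∀ s x y, polar (D s) x y = 2 * (a * s.1 0 x * s.1 0 y + b * s.1 1 x * s.1 1 y) := fun s x y => by
    simp only [polar, hD, map_add]
    ring
  refine card_le_mul_ncard (Set.toFinite _) D (fun s => ?_) fun s => ?_
  · obtain ⟨u', v', h3, h4, h5, h6⟩ := exists_dual_pair_of_linearIndependent (hpair s)
    obtain ⟨k, -, -, h7, h8⟩ := exists_equiv_two h3 h4 h5 h6 hu1 hv1 hu2 hv2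
    exact ⟨k, fun x => by rw [hD, h, h7, h8]⟩
  · obtain ⟨u', v', h3, h4, h5, h6⟩ := exists_dual_pair_of_linearIndependent (hpair s)
    refine le_trans (Nat.card_le_card_of_injective (fun j =>
      ⟨((j.1.1 0 u', j.1.1 1 u'), (j.1.1 0 v', j.1.1 1 v')), by rw [← hD, j.2, hD, h3, h5]; simp,
        by rw [← hD, j.2, hD, h4, h6]; simp, mul_left_cancel₀ h2 (by rw [← hP, j.2, hP, h4, h5]; simp)⟩) ?_)
      (card_fiber_plane_odd h2 ha hb)
    · have key : ∀ j : {j // D j = D s}, ∀ x, ∀ i, j.1.1 i x = s.1 0 x * j.1.1 i u' + s.1 1 x * j.1.1 i v' := by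
        intro j x
        obtain ⟨h7, h8⟩ := LinearIndependent.pair_iff.mp (hpair j.1)
          (a * j.1.1 0 (x - s.1 0 x • u' - s.1 1 x • v'))
          (b * j.1.1 1 (x - s.1 0 x • u' - s.1 1 x • v')) (LinearMap.ext fun y => by
            have h9 := hP j.1 (x - s.1 0 x • u' - s.1 1 x • v') y
            rw [j.2, hP] at h9
            simp only [map_sub, map_smul, h3, h4, h5, h6, smul_eq_mul, mul_one, mul_zero, sub_zero, sub_self,
              zero_mul, add_zero] at h9
            simp only [LinearMap.add_apply, LinearMap.smul_apply, map_sub, map_smul, smul_eq_mul,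
              LinearMap.zero_apply]
            exact (mul_eq_zero.mp h9.symm).resolve_left h2)
        replace h7 := (mul_eq_zero.mp h7).resolve_left ha
        replace h8 := (mul_eq_zero.mp h8).resolve_left hb
        simp only [map_sub, map_smul, smul_eq_mul] at h7 h8
        intro i
        fin_cases i
        · exact by simpa using (by linear_combination h7)
        · exact by simpa using (by linear_combination h8)
      intro i j hij
      simp only [Subtype.mk.injEq, Prod.mk.injEq] at hij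
      refine Subtype.ext (Subtype.ext (funext fun t => LinearMap.ext fun x => ?_))
      rw [key i, key j]
      fin_cases t
      · simp [hij.1.1, hij.2.1]
      · simp [hij.1.2, hij.2.2]

theorem exists_orth_pair (h2 : (2 : F) ≠ 0) {Q : QuadraticForm F V} {u z w : V} (hu : Q u ≠ 0) (hz : Q z ≠ 0)
    (hw : Q w ≠ 0) (huz : polar Q u z = 0) (huw : polar Q u w = 0) (hzw : polar Q z w = 0) {α : F} (hα : α ≠ 0)
    (β : F) : ∃ v₁ v₂, Q v₁ = α ∧ Q v₂ = β ∧ polar Q v₁ v₂ = 0 := by
  obtain ⟨s, t, hst⟩ := exists_add_sq_eq h2 hu hz α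
  have h1 : Q ((t * Q z) • u + (-(s * Q u)) • z) = Q u * Q z * α := by
    rw [map_add_smul, huz, ← hst]
    ring
  obtain ⟨s', t', hst'⟩ := exists_add_sq_eq h2 (mul_ne_zero (mul_ne_zero hu hz) hα) hw β
  refine ⟨s • u + t • z, s' • ((t * Q z) • u + (-(s * Q u)) • z) + t' • w, ?_, ?_, ?_⟩
  · rw [map_add_smul, huz, ← hst]
    ring
  · rw [map_add_smul, h1, ← hst']
    simp only [polar_add_left, polar_smul_left, huw, hzw, smul_zero, add_zero, mul_zero]
  · simp only [polar_add_left, polar_add_right, polar_smul_left, polar_smul_right, polar_self, huz, huw, hzw,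
      polar_comm Q z u, smul_eq_mul, nsmul_eq_mul]
    push_cast
    ring

theorem le_ncard_qOrbit_of_three (h2 : (2 : F) ≠ 0) {Q : QuadraticForm F V} {u z w : V} (hu : Q u ≠ 0)
    (hz : Q z ≠ 0) (hw : Q w ≠ 0) (huz : polar Q u z = 0) (huw : polar Q u w = 0) (hzw : polar Q z w = 0) :
    (Nat.card F - 1) ^ 2 * Nat.card F * (Nat.card F ^ (finrank F V - 2)) ^ 2 ≤ (qOrbit Q).ncard := by
  have hzu : polar Q z u = 0 := by rw [polar_comm, huz]
  let ε₁ : Dual F V := (2 * Q u)⁻¹ • Q.polarBilin u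
  let ε₂ : Dual F V := (2 * Q z)⁻¹ • Q.polarBilin z
  have h11 : ε₁ u = 1 := by simp [ε₁, polar_self]; field_simp
  have h12 : ε₁ z = 0 := by simp [ε₁, huz]
  have h21 : ε₂ u = 0 := by simp [ε₂, hzu]
  have h22 : ε₂ z = 1 := by simp [ε₂, polar_self]; field_simp
  let π : V →ₗ[F] F × F := ε₁.prod ε₂
  let s : F × F →ₗ[F] V := (LinearMap.toSpanSingleton F V u).coprod (LinearMap.toSpanSingleton F V z)
  have hs : ∀ y, π (s y) = y := fun y => by simp [π, s, h11, h12, h21, h22]
  have hdim := finrank_ker_of_section π s hs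
  let r : V →ₗ[F] LinearMap.ker π := LinearMap.snd F _ _ ∘ₗ (splitEquiv π s hs).toLinearMap
  have hr : ∀ y, r (s y) = 0 := fun y => Subtype.ext (by simp [r, splitEquiv, hs])
  have hru : r u = 0 := by simpa [s] using hr (1, 0)
  have hrz : r z = 0 := by simpa [s] using hr (0, 1)
  have hrw : ∀ w : LinearMap.ker π, r w = w := fun w => Subtype.ext (by simp [r, splitEquiv])
  have hk1 : ∀ w : LinearMap.ker π, ε₁ w = 0 := fun w => congrArg Prod.fst (LinearMap.mem_ker.mp w.2)
  have hk2 : ∀ w : LinearMap.ker π, ε₂ w = 0 := fun w => congrArg Prod.snd (LinearMap.mem_ker.mp w.2)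
  refine le_trans (le_of_eq ?_) (card_le_ncard_of_data (Set.toFinite _)
    (fun Q' => (Q'.polarBilin u, Q'.polarBilin z))
    (fun i : Fˣ × Fˣ × F × Dual F (LinearMap.ker π) × Dual F (LinearMap.ker π) =>
      ((i.1 : F) • ε₁ + (i.2.2.1 * i.1) • ε₂ + i.2.2.2.1 ∘ₗ r,
        (i.2.2.1 * i.1) • ε₁ + (i.2.2.1 ^ 2 * i.1 + i.2.1) • ε₂ + i.2.2.2.2 ∘ₗ r)) ?_ ?_)
  · simp only [Nat.card_prod, card_dual, Nat.card_units]
    rw [Module.natCard_eq_pow_finrank (K := F) (V := LinearMap.ker π), ← hdim]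
    simp only [finrank_prod, finrank_self]
    rw [show 1 + 1 + finrank F (LinearMap.ker π) - 2 = finrank F (LinearMap.ker π) by omega]
    ring
  · rintro ⟨a, b, c, η₁, η₂⟩ ⟨a', b', c', η₁', η₂'⟩ h
    simp only [Prod.mk.injEq] at h
    obtain ⟨h3, h4⟩ := h
    obtain rfl : a = a' := Units.ext (by simpa [h11, h21, hru] using LinearMap.congr_fun h3 u)
    obtain rfl : c = c' := by simpa [h12, h22, hrz] using LinearMap.congr_fun h3 z
    obtain rfl : b = b' := Units.ext (by simpa [h12, h22, hrz] using LinearMap.congr_fun h4 z)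
    have h6 := add_left_cancel h3
    have h7 := add_left_cancel h4
    refine Prod.ext rfl (Prod.ext rfl (Prod.ext rfl (Prod.ext (LinearMap.ext fun w => ?_)
      (LinearMap.ext fun w => ?_))))
    · simpa [hrw] using LinearMap.congr_fun h6 w
    · simpa [hrw] using LinearMap.congr_fun h7 w
  · rintro ⟨a, b, c, η₁, η₂⟩
    obtain ⟨v₁, v₂, e1, e2, e3⟩ := exists_orth_pair h2 hu hz hw huz huw hzw (div_ne_zero a.ne_zero h2) (b / 2)
    have ha := a.ne_zero
    have hb := b.ne_zero
    obtain ⟨k, h4, h5, h6, h7⟩ := exists_equiv_two (e₁ := u) (e₂ := z - c • u) (e₁' := v₁) (e₂' := v₂)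
      (f₁ := (a : F)⁻¹ • ((a : F) • ε₁ + (c * a) • ε₂ + η₁ ∘ₗ r))
      (f₂ := (b : F)⁻¹ • ((b : F) • ε₂ + η₂ ∘ₗ r - c • η₁ ∘ₗ r))
      (f₁' := (a : F)⁻¹ • Q.polarBilin v₁) (f₂' := (b : F)⁻¹ • Q.polarBilin v₂)
      (by simp [h11, h21, hru]) (by simp [h11, h12, h21, h22, hru, hrz]; field_simp; ring) (by simp [h21, hru])
      (by simp [h21, h22, hru, hrz])
      (by simp [polar_self, e1]; field_simp) (by simp [e3]) (by simp [polar_comm Q v₂ v₁, e3])
      (by simp [polar_self, e2]; field_simp)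
    have h8 : ∀ x, Q.polarBilin v₁ (k x) = ((a : F) • ε₁ + (c * a) • ε₂ + η₁ ∘ₗ r) x := fun x =>
      smul_right_injective F (inv_ne_zero ha) (h6 x)
    have h9 : ∀ x, Q.polarBilin v₂ (k x) = ((b : F) • ε₂ + η₂ ∘ₗ r - c • η₁ ∘ₗ r) x := fun x =>
      smul_right_injective F (inv_ne_zero hb) (h7 x)
    refine ⟨_, comp_mem_qOrbit Q k, Prod.ext (LinearMap.ext fun x => ?_) (LinearMap.ext fun x => ?_)⟩
    · rw [polarBilin_comp_apply, LinearEquiv.coe_coe, h4, h8]
    · have : k z = v₂ + c • v₁ := by rw [← h4, ← h5, map_sub, map_smul, sub_add_cancel]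
      rw [polarBilin_comp_apply, LinearEquiv.coe_coe, this, map_add, map_smul, LinearMap.add_apply,
        LinearMap.smul_apply, h8, h9]
      simp
      ring

theorem le_ncard_qOrbit_rank_two (h2 : (2 : F) ≠ 0) {Q : QuadraticForm F V} {u z : V} (hu : Q u ≠ 0)
    (hz : Q z ≠ 0) (huz : polar Q u z = 0) :
    (Nat.card F ^ finrank F V - 1) * (Nat.card F ^ finrank F V - Nat.card F) ≤
      2 * (Nat.card F + 1) * (qOrbit Q).ncard := by
  have hzu : polar Q z u = 0 := by rw [polar_comm, huz]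
  have hli : LinearIndependent F ![(2 * Q u)⁻¹ • Q.polarBilin u, (2 * Q z)⁻¹ • Q.polarBilin z] :=
    LinearIndependent.pair_iff.mpr fun s t hst => ⟨by
      simpa [hzu, polar_self, h2, hu] using LinearMap.congr_fun hst u, by
      simpa [huz, polar_self, h2, hz] using LinearMap.congr_fun hst z⟩
  by_cases h : ∀ w, polar Q u w = 0 → polar Q z w = 0 → Q w = 0
  · refine le_ncard_qOrbit_of_plane_odd h2 hu hz hli fun x => ?_
    simp only [LinearMap.smul_apply, polarBilin_apply_apply, smul_eq_mul]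
    have h3 : polar Q u (x - (((2 * Q u)⁻¹ * polar Q u x) • u + ((2 * Q z)⁻¹ * polar Q z x) • z)) = 0 := by
      simp [polar_sub_right, polar_add_right, polar_smul_right, huz, polar_self]
      field_simp
      ring
    have h4 : polar Q z (x - (((2 * Q u)⁻¹ * polar Q u x) • u + ((2 * Q z)⁻¹ * polar Q z x) • z)) = 0 := by
      simp [polar_sub_right, polar_add_right, polar_smul_right, hzu, polar_self]
      field_simp
      ring
    have h5 := QuadraticMap.map_add Q (((2 * Q u)⁻¹ * polar Q u x) • u + ((2 * Q z)⁻¹ * polar Q z x) • z)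
      (x - (((2 * Q u)⁻¹ * polar Q u x) • u + ((2 * Q z)⁻¹ * polar Q z x) • z))
    rw [add_sub_cancel, h _ h3 h4, polar_add_left, polar_smul_left, polar_smul_left, h3, h4, map_add_smul,
      huz] at h5
    rw [h5]
    simp only [smul_zero]
    ring
  · push Not at h
    obtain ⟨w, h3, h4, h5⟩ := h
    refine le_trans ?_ (Nat.mul_le_mul_left _ (le_ncard_qOrbit_of_three h2 hu hz h5 huz h3 h4))
    have h6 : 2 ≤ finrank F V := by simpa using hli.fintype_card_le_finrank
    obtain ⟨m, hm⟩ : ∃ m, finrank F V = m + 2 := ⟨_, (Nat.sub_add_cancel h6).symm⟩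
    have h7 : 3 ≤ Nat.card F := by
      classical
      let _ := Fintype.ofFinite F
      have h8 := FiniteField.odd_card_of_char_ne_two (F := F)
        (fun h => h2 (by simpa [h] using (ringChar.spec F 2).mpr (h ▸ dvd_rfl)))
      have h9 : 1 < Fintype.card F := Fintype.one_lt_card
      rw [Nat.card_eq_fintype_card]
      omega
    obtain ⟨r, hr⟩ : ∃ r, Nat.card F = r + 3 := ⟨_, (Nat.sub_add_cancel h7).symm⟩
    rw [hm, Nat.add_sub_cancel, pow_add, hr]
    refine le_trans (Nat.mul_le_mul (Nat.sub_le _ _) (Nat.sub_le _ _)) ?_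
    rw [show r + 3 - 1 = r + 2 from rfl]
    generalize (r + 3) ^ m = X
    nlinarith [Nat.zero_le (X ^ 2 * r ^ 4), Nat.zero_le (X ^ 2 * r ^ 3), Nat.zero_le (X ^ 2 * r ^ 2),
      Nat.zero_le (X ^ 2 * r)]

end CL.Blk.Rk1
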