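/-
Representations of symplectic groups in which only weights of rank at most one occur, part 5:
small representations of `Sp(2n, q)`, `q` odd, are Weil representations.
-/
import Cfsg.Agent.Blk.SpRk3
import Cfsg.Agent.Blk.SpRk4
import Cfsg.Agent.Known.Weil2

set_option autoImplicit false
set_option linter.unusedSimpArgs false
set_option linter.unusedSectionVars false

open Module Matrix QuadraticMap Cfsg

namespace CL.Blk.Rk1

open CL.Sp CL.LS

section Geo

variable {F V : Type*} [Field F] [AddCommGroup V] [Module F V] {B : LinearMap.BilinForm F V}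

theorem exists_proj (hB : B.IsAlt) {u v : V} (huv : B u v ≠ 0) (x : V) :
    ∃ s r : F, B (x - (s • u + r • v)) u = 0 ∧ B (x - (s • u + r • v)) v = 0 := by
  have hvu : B v u = -B u v := alt_neg hB v u
  refine ⟨B x v / B u v, -(B x u / B u v), ?_, ?_⟩
  · simp only [map_sub, map_add, map_smul, LinearMap.sub_apply, LinearMap.add_apply, LinearMap.smul_apply,
      alt_self hB, hvu, smul_eq_mul]
    field_simp
    ring
  · simp only [map_sub, map_add, map_smul, LinearMap.sub_apply, LinearMap.add_apply, LinearMap.smul_apply,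
      alt_self hB, smul_eq_mul]
    field_simp
    ring

theorem exists_orth_hyp (hB : B.IsAlt) (hN : B.Nondegenerate) (hd : 2 < finrank F V) (u v : V)
    (huv : B u v ≠ 0) : ∃ w₁ w₂, B w₁ u = 0 ∧ B w₁ v = 0 ∧ B w₂ u = 0 ∧ B w₂ v = 0 ∧ B w₁ w₂ ≠ 0 := by
  obtain ⟨x, hx⟩ : ∃ x, x ∉ Submodule.span F (Set.range ![u, v]) := by
    by_contra h
    push Not at h
    have h1 := finrank_range_le_card (R := F) ![u, v]
    rw [Set.finrank, Submodule.eq_top_iff'.mpr h, finrank_top, Fintype.card_fin] at h1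
    omega
  obtain ⟨s, r, h1, h2⟩ := exists_proj hB huv x
  have h3 : x - (s • u + r • v) ≠ 0 := fun e => hx (by
    rw [sub_eq_zero.mp e]
    exact Submodule.add_mem _ (Submodule.smul_mem _ _ (Submodule.subset_span ⟨0, rfl⟩))
      (Submodule.smul_mem _ _ (Submodule.subset_span ⟨1, rfl⟩)))
  obtain ⟨y, hy⟩ : ∃ y, B (x - (s • u + r • v)) y ≠ 0 := by
    by_contra h
    push Not at h
    exact h3 (hN.1 _ h)
  obtain ⟨s', r', h4, h5⟩ := exists_proj hB huv y
  refine ⟨_, _, h1, h2, h4, h5, ?_⟩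
  rwa [map_sub, map_add, map_smul, map_smul, h1, h2, smul_zero, smul_zero, add_zero, sub_zero]

/-- Conjugation by a similitude. -/
def twist (D : V ≃ₗ[F] V) {δ : F} (hδ : δ ≠ 0) (hD : ∀ x y, B (D x) (D y) = δ * B x y) : Isom B ≃* Isom B where
  toFun g := ⟨D * g * D⁻¹, fun x y => mul_left_cancel₀ (inv_ne_zero hδ) (by
    obtain ⟨x, rfl⟩ := D.surjective x
    obtain ⟨y, rfl⟩ := D.surjective y
    simp only [LinearEquiv.mul_apply, inv_apply_apply, hD, g.2 x y])⟩
  invFun g := ⟨D⁻¹ * g * D, fun x y => mul_left_cancel₀ hδ (by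
    simp only [LinearEquiv.mul_apply, ← hD, apply_inv_apply, g.2 (D x) (D y)])⟩
  left_inv g := Subtype.ext (by simp [mul_assoc])
  right_inv g := Subtype.ext (by simp [mul_assoc])
  map_mul' g h := Subtype.ext (by simp [mul_assoc])

theorem twist_tz (hB : B.IsAlt) (D : V ≃ₗ[F] V) {δ : F} (hδ : δ ≠ 0) (hD : ∀ x y, B (D x) (D y) = δ * B x y)
    (v : V) (c : F) : twist D hδ hD (tz hB v (δ * c)) = tz hB (D v) c := isom_ext fun x => by
  obtain ⟨x, rfl⟩ := D.surjective x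
  change D (tv hB v (δ * c) (D⁻¹ (D x))) = _
  rw [inv_apply_apply, tv_apply, tz_apply, hD, map_add, map_smul]
  congr 2
  ring

end Geo

variable {F : Type*} [Field F] {n : Type*} [Fintype n] [DecidableEq n]

/-- The standard Lagrangian subspace. -/
def inl0 (x : n → F) : n ⊕ n → F := Sum.elim x 0

theorem stdForm_inl0 (z : n ⊕ n → F) (x : n → F) : stdForm n F z (inl0 x) = (z ∘ Sum.inr) ⬝ᵥ x := by
  simp [stdForm_apply', inl0, dotProduct]

theorem stdForm_inl0_inl0 (x y : n → F) : stdForm n F (inl0 x) (inl0 y) = 0 := by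
  simp [stdForm_apply', inl0]

theorem exists_isom_inl0 [Nontrivial n] {u v : n ⊕ n → F} (h : stdForm n F u v = 0) :
    ∃ (g : Isom (stdForm n F)) (x₁ x₂ : n → F), (g : _ ≃ₗ[F] _) (inl0 x₁) = u ∧ (g : _ ≃ₗ[F] _) (inl0 x₂) = v := by
  obtain ⟨i, j, hij⟩ := exists_pair_ne n
  have hB := stdForm_isAlt n F
  have hN := stdForm_nondegenerate n F
  have h0 : inl0 (Pi.single i (1 : F)) ≠ 0 := fun e => by simpa [inl0] using congrFun e (Sum.inl i)
  have hz : inl0 (0 : n → F) = 0 := by ext k; cases k <;> rfl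
  have hs : ∀ (a : F) (x : n → F), inl0 (a • x) = a • inl0 x := fun a x => by ext k; cases k <;> simp [inl0]
  by_cases hu : u = 0
  · by_cases hv : v = 0
    · exact ⟨1, 0, 0, by simp [hz, hu], by simp [hz, hv]⟩
    · obtain ⟨g, hg, e⟩ := exists_isom_apply_eq hB hN h0 hv
      exact ⟨⟨g, hg⟩, 0, _, by simp [hz, hu], e⟩
  by_cases hl : LinearIndependent F ![u, v]
  · obtain ⟨g, hg, e⟩ := witt_family hB hN (v := ![inl0 (Pi.single i 1), inl0 (Pi.single j 1)]) (w := ![u, v])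
      (LinearIndependent.pair_iff.mpr fun s t e => ⟨by simpa [inl0, hij] using congrFun e (Sum.inl i),
        by simpa [inl0, hij.symm] using congrFun e (Sum.inl j)⟩) hl fun a b => by
        fin_cases a <;> fin_cases b <;>
          simp [alt_self hB, h, (alt_eq_zero_comm hB).mp h, stdForm_inl0_inl0]
    exact ⟨⟨g, hg⟩, _, _, e 0, e 1⟩
  · rw [LinearIndependent.pair_iff' hu] at hl
    push Not at hl
    obtain ⟨a, rfl⟩ := hl
    obtain ⟨g, hg, e⟩ := exists_isom_apply_eq hB hN h0 hu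
    exact ⟨⟨g, hg⟩, _, a • Pi.single i 1, e, by rw [hs, map_smul]; exact congrArg (a • ·) e⟩

theorem spEquiv_spU (x₁ x₂ : n → F) (c : F × F × F) :
    spEquiv n F (spU (c.1 • symSq x₁ + c.2.1 • symMul x₁ x₂ + c.2.2 • symSq x₂)) =
      fam (stdForm_isAlt n F) (inl0 x₁) (inl0 x₂) c := isom_ext fun z => by
  rw [fam_apply _ (stdForm_inl0_inl0 _ _), coe_spEquiv, spLin_apply, stdForm_inl0, stdForm_inl0]
  ext k
  cases k with
  | inl k =>
    simp [spU, fromBlocks_mulVec, inl0, symSq, symMul, add_mulVec, smul_mulVec, vecMulVec_mulVec,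
      dotProduct_comm]
    ring
  | inr k => simp [spU, fromBlocks_mulVec, inl0]

variable [Fintype F] {W : Type*} [AddCommGroup W] [Module ℂ W] {ψ : AddChar F ℂ}

theorem fam_conj {V : Type*} [AddCommGroup V] [Module F V] {B : LinearMap.BilinForm F V} (hB : B.IsAlt)
    (g : Isom B) {u v : V} (h : B u v = 0) (c : F × F × F) :
    fam hB u v c * g⁻¹ = g⁻¹ * fam hB ((g : V ≃ₗ[F] V) u) ((g : V ≃ₗ[F] V) v) c := by
  rw [eq_inv_mul_iff_mul_eq, ← mul_assoc, mul_inv_eq_iff_eq_mul]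
  refine isom_ext fun z => ?_
  rw [isom_mul_apply, isom_mul_apply, fam_apply hB h, fam_apply hB ((g.2 u v).trans h), g.2, g.2, map_add, map_add,
    map_smul, map_smul]

theorem r1_of_weights [Nontrivial n] (hψ : ψ ≠ 1) (ρ : Isom (stdForm n F) →* End ℂ W)
    (h : ∀ l, wsp ρ ψ (fun S => spEquiv n F (spU S)) l ≠ ⊥ →
      ∀ x y, polar (spQ l) x y ^ 2 = 4 * spQ l x * spQ l y) : R1 (stdForm_isAlt n F) ρ ψ := by
  intro u v huv l hl
  obtain ⟨g, x₁, x₂, rfl, rfl⟩ := exists_isom_inl0 huv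
  let σ : F × F × F →ₗ[F] symM n F := (LinearMap.toSpanSingleton F _ (symSq x₁)).coprod
    ((LinearMap.toSpanSingleton F _ (symMul x₁ x₂)).coprod (LinearMap.toSpanSingleton F _ (symSq x₂)))
  have hσ : ∀ c, fam (stdForm_isAlt n F) (inl0 x₁) (inl0 x₂) c = spEquiv n F (spU (σ c)) := fun c => by
    rw [← spEquiv_spU, add_assoc]
    rfl
  have hadd : ∀ S T : symM n F, spEquiv n F (spU (S + T)) = spEquiv n F (spU S) * spEquiv n F (spU T) :=
    fun S T => by rw [spU_add, map_mul]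
  have h1 : wsp ρ ψ (fam (stdForm_isAlt n F) (inl0 x₁) (inl0 x₂)) l ≠ ⊥ := by
    obtain ⟨y, hy, h0⟩ := (Submodule.ne_bot_iff _).mp hl
    refine (Submodule.ne_bot_iff _).mpr ⟨ρ g⁻¹ y, fun c => ?_, fun e => h0 (rho_injective _
      (e.trans (map_zero _).symm))⟩
    rw [← rho_mul, fam_conj _ g (stdForm_inl0_inl0 _ _), rho_mul, hy c, map_smul]
  by_contra hne
  refine h1 (eq_bot_iff.mpr (le_of_wsp (ρ := ρ) (a := fun S => spEquiv n F (spU S)) hψ hadd
    (fun S y hy c => ?_) fun l' y hy hl' => ?_))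
  · rw [← rho_mul, hσ, ← hadd, add_comm, hadd, rho_mul, ← hσ, hy c, map_smul]
  · by_contra h0
    have h3 : l = l' ∘ₗ σ := dual_eq_of_psi hψ fun c =>
      smul_left_injective ℂ h0 ((hy c).symm.trans (hσ c ▸ hl' _))
    have h4 := h l' ((Submodule.ne_bot_iff _).mpr ⟨y, hl', h0⟩) x₁ x₂
    rw [polar_spQ, spQ_apply, spQ_apply] at h4
    exact hne (by simpa [h3, σ] using h4)

/-- The data attached to a small irreducible character. -/
def HasType (ψ : AddChar F ℂ) (χ : symplecticGroup n F → ℂ) (κ : F) : Prop :=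
  ∃ (k : ℕ) (ρ : Isom (stdForm n F) →* End ℂ (Fin k → ℂ)), Good (stdForm_isAlt n F) ρ ψ ∧
    (∀ N : Submodule ℂ (Fin k → ℂ), (∀ g, ∀ y ∈ N, ρ g y ∈ N) → N = ⊥ ∨ N = ⊤) ∧
    Pure (stdForm_isAlt n F) ρ ψ κ ∧ 0 < k ∧ ∀ g, χ g = LinearMap.trace ℂ _ (ρ (spEquiv n F g))

theorem exists_weight_ne_zero {V : Type*} [AddCommGroup V] [Module F V] {B : LinearMap.BilinForm F V}
    {hB : B.IsAlt} {ρ : Isom B →* End ℂ W} [Nontrivial W] (hG : Good hB ρ ψ) :
    ∃ v α y, α ≠ 0 ∧ y ≠ 0 ∧ y ∈ Wt hB ρ ψ v α := by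
  by_contra h
  push Not at h
  obtain ⟨y, hy⟩ := exists_ne (0 : W)
  refine hy (hG.fix y fun v => ind1 (hB := hB) (ρ := ρ) hG.psi v (S := ⊤) (fun _ _ _ => trivial)
    (fun α y _ h0 hα => ?_) trivial)
  by_cases e : α = 0
  · exact e ▸ hα
  · exact absurd hα (h v α y e h0)

theorem exists_hasType [Nontrivial n] (hψ : ψ ≠ 1) (h2 : (2 : F) ≠ 0) {δ : F} (hδ : ¬ IsSquare δ)
    {χ : symplecticGroup n F → ℂ} (hχ : IsIrrCharacter _ χ) {d : ℕ} (hd : χ 1 = d) (h1 : 2 ≤ d)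
    (hlt : 2 * (Nat.card F + 1) * d <
      (Nat.card F ^ Fintype.card n - 1) * (Nat.card F ^ Fintype.card n - Nat.card F)) :
    HasType ψ χ 1 ∨ HasType ψ χ δ := by
  classical
  obtain ⟨k, ρ₀, hρ, rfl⟩ := hχ
  rw [Representation.char_one, finrank_fin_fun, Nat.cast_inj] at hd
  subst hd
  let ρ := MonoidHom.comp ρ₀ (spEquiv n F).symm.toMonoidHom
  have hirr : ∀ N : Submodule ℂ (Fin k → ℂ), (∀ g, ∀ y ∈ N, ρ g y ∈ N) → N = ⊥ ∨ N = ⊤ := fun N hN => by
    rcases hρ.eq_bot_or_eq_top ⟨N, fun g y hy => by simpa [ρ] using hN (spEquiv n F g) y hy⟩ with e | e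
    · exact Or.inl (congrArg Subrepresentation.toSubmodule e)
    · exact Or.inr (congrArg Subrepresentation.toSubmodule e)
  have hG : Good (stdForm_isAlt n F) ρ ψ := by
    refine ⟨hψ, h2, r1_of_weights hψ ρ fun l hl x y => ?_, fun y hy => ?_,
      exists_orth_hyp (stdForm_isAlt n F) (stdForm_nondegenerate n F) ?_⟩
    · by_cases h0 : spQ l = 0
      · simp [h0, polar]
      rcases rank_one_or_universal h2 h0 with ⟨a, f, -, -, h⟩ | ⟨⟨u, z, hu, hz, huz⟩, -⟩
      · simp only [polar, h, map_add]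
        ring
      · have h3 := le_ncard_qOrbit_rank_two h2 hu hz huz
        have h4 := ncard_qOrbit_le (ρ := ρ₀) (l := l) hψ (by simpa [wsp, ρ] using hl)
        rw [finrank_fintype_fun_eq_card] at h3
        rw [finrank_fin_fun] at h4
        exact absurd (h3.trans (Nat.mul_le_mul_left _ h4)) hlt.not_ge
    · have h3 : ∀ g, ρ g y = y := fun g => by
        induction g using tz_induction (stdForm_isAlt n F) (stdForm_nondegenerate n F) with
        | h1 => simp
        | hm v c g hg => rw [rho_mul, hg, hy v c]; simp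
      by_contra h0
      rcases hirr (ℂ ∙ y) (fun g z hz => by
        obtain ⟨a, rfl⟩ := Submodule.mem_span_singleton.mp hz
        rwa [map_smul, h3]) with e | e
      · exact h0 (Submodule.span_singleton_eq_bot.mp e)
      · have h4 := finrank_span_singleton (K := ℂ) h0
        rw [e, finrank_top, finrank_fin_fun] at h4
        omega
    · have := Fintype.one_lt_card (α := n)
      rw [finrank_fintype_fun_eq_card, Fintype.card_sum]
      omega
  have : Nontrivial (Fin k) := Fin.nontrivial_iff_two_le.mpr h1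
  obtain ⟨v, κ, y, hκ, hy0, hy⟩ := exists_weight_ne_zero hG
  have hP := pure_of_mem hG hirr hκ hy0 hy
  have key : ∀ κ' a : F, κ = κ' * a ^ 2 → HasType ψ ρ₀.character κ' := fun κ' a e =>
    ⟨k, ρ, hG, hirr, fun v α y h0 hy => by
      obtain ⟨x, hx⟩ := hP v α y h0 hy
      exact ⟨a * x, by rw [hx, e]; ring⟩, by omega, fun g => by simp [ρ, Representation.character]⟩
  by_cases hs : IsSquare κ
  · obtain ⟨a, ha⟩ := hs
    exact Or.inl (key 1 a (by rw [ha]; ring))
  · have hδ0 : δ ≠ 0 := fun e => hδ (e ▸ IsSquare.zero)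
    have h3 : quadraticChar F (κ * δ) = 1 := by
      rw [map_mul, (quadraticChar_neg_one_iff_not_isSquare).mpr hs,
        (quadraticChar_neg_one_iff_not_isSquare).mpr hδ]
      norm_num
    obtain ⟨a, ha⟩ := (quadraticChar_one_iff_isSquare (mul_ne_zero hκ hδ0)).mp h3
    exact Or.inr (key δ (a / δ) (by field_simp; linear_combination ha))

theorem card_std : Nat.card (n ⊕ n → F) = (Nat.card F ^ Fintype.card n) ^ 2 := by
  rw [Nat.card_fun, Nat.card_eq_fintype_card (α := n ⊕ n), Fintype.card_sum, pow_add, _root_.sq]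

theorem HasType.degree [Nonempty n] {χ : symplecticGroup n F → ℂ} {κ : F} (hκ : κ ≠ 0) (h : HasType ψ χ κ) :
    2 * χ 1 = (Nat.card F ^ Fintype.card n : ℕ) + 1 ∨ 2 * χ 1 + 1 = (Nat.card F ^ Fintype.card n : ℕ) := by
  obtain ⟨k, ρ, hG, hirr, hP, hk, hχ⟩ := h
  have : Nonempty (Fin k) := ⟨⟨0, hk⟩⟩
  obtain ⟨u, hu⟩ := exists_ne (0 : n ⊕ n → F)
  rw [hχ, map_one, map_one, LinearMap.trace_one]
  rcases degree_and_trace (stdForm_nondegenerate n F) hG hirr hκ hP
    (Nat.one_lt_pow Fintype.card_ne_zero Finite.one_lt_card) card_std hu with h | h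
  · exact Or.inl (by exact_mod_cast h.1)
  · exact Or.inr (by exact_mod_cast h.1)

theorem HasType.eq [Nonempty n] {χ χ' : symplecticGroup n F → ℂ} {κ : F} (hκ : κ ≠ 0) (h : HasType ψ χ κ)
    (h' : HasType ψ χ' κ) (e : χ 1 = χ' 1) : χ = χ' := by
  obtain ⟨k, ρ, hG, hirr, hP, hk, hχ⟩ := h
  obtain ⟨k', ρ', hG', hirr', hP', hk', hχ'⟩ := h'
  have : Nonempty (Fin k) := ⟨⟨0, hk⟩⟩
  have : Nonempty (Fin k') := ⟨⟨0, hk'⟩⟩
  rw [hχ, hχ', map_one (spEquiv n F), map_one ρ, map_one ρ', LinearMap.trace_one, LinearMap.trace_one,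
    Nat.cast_inj] at e
  funext g
  rw [hχ, hχ']
  refine trace_eq_of_trace_Tk (stdForm_nondegenerate n F) hG hG' hκ hP hP' (fun v => ?_) _
  by_cases hv : v = 0
  · simp only [hv, Tk_zero hG.psi hG.two hκ, map_smul, LinearMap.trace_one, e]
  have hQ : 1 < Nat.card F ^ Fintype.card n := Nat.one_lt_pow Fintype.card_ne_zero Finite.one_lt_card
  rcases degree_and_trace (stdForm_nondegenerate n F) hG hirr hκ hP hQ card_std hv with h | h <;>
    rcases degree_and_trace (stdForm_nondegenerate n F) hG' hirr' hκ hP' hQ card_std hv with h' | h'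
  · rw [h.2, h'.2]
  · omega
  · omega
  · rw [h.2, h'.2]

theorem exists_twist {δ : F} (hδ : ¬ IsSquare δ) : ∃ θ : symplecticGroup n F ≃* symplecticGroup n F,
    ∀ (χ : symplecticGroup n F → ℂ) (κ : F), HasType ψ χ κ → (fun g => χ (θ g)) ≠ χ := by
  have hδ0 : δ ≠ 0 := fun e => hδ (e ▸ IsSquare.zero)
  let D : (n ⊕ n → F) ≃ₗ[F] (n ⊕ n → F) := LinearEquiv.piCongrRight fun i =>
    i.rec (fun _ => LinearEquiv.smulOfNeZero F F δ hδ0) fun _ => LinearEquiv.refl F F
  have hD : ∀ x y, stdForm n F (D x) (D y) = δ * stdForm n F x y := fun x y => by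
    simp only [stdForm_apply', Finset.mul_sum]
    exact Finset.sum_congr rfl fun i _ => by simp [D]; ring
  refine ⟨(spEquiv n F).trans ((twist D hδ0 hD).trans (spEquiv n F).symm), ?_⟩
  rintro χ κ ⟨k, ρ, hG, -, hP, hk, hχ⟩ e
  have : Nonempty (Fin k) := ⟨⟨0, hk⟩⟩
  have h1 : ∀ g, LinearMap.trace ℂ _ (ρ (twist D hδ0 hD g)) = LinearMap.trace ℂ _ (ρ g) := fun g => by
    simpa [hχ] using congrFun e ((spEquiv n F).symm g)
  obtain ⟨v, α, y, hα, hy0, hy⟩ := exists_weight_ne_zero hG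
  have h2 : LinearMap.trace ℂ _ (Ep (stdForm_isAlt n F) ρ ψ (D v) (α * δ)) =
      LinearMap.trace ℂ _ (Ep (stdForm_isAlt n F) ρ ψ v α) := by
    simp only [Ep, wproj, map_smul, map_sum, ← twist_tz _ D hδ0 hD, h1]
    congr 1
    exact Fintype.sum_equiv (Equiv.mulLeft₀ δ hδ0) _ _ fun c => by simp [mul_assoc]
  rw [Ep, Ep, trace_wproj hG.psi (tz_add _ _), trace_wproj hG.psi (tz_add _ _), Nat.cast_inj] at h2
  have h3 : Wt (stdForm_isAlt n F) ρ ψ (D v) (α * δ) ≠ ⊥ := fun h => hy0 (by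
    have h4 : Wt (stdForm_isAlt n F) ρ ψ v α = ⊥ :=
      Submodule.finrank_eq_zero.mp (h2.symm.trans (Submodule.finrank_eq_zero.mpr h))
    rwa [h4] at hy)
  obtain ⟨z, hz, hz0⟩ := (Submodule.ne_bot_iff _).mp h3
  obtain ⟨a, ha⟩ := hP _ _ _ hy0 hy
  obtain ⟨b, hb⟩ := hP _ _ _ hz0 hz
  have hκ : κ ≠ 0 := fun e => hα (by rw [ha, e, zero_mul])
  have ha0 : a ≠ 0 := fun e => hα (by rw [ha, e]; ring)
  refine hδ ⟨b / a, ?_⟩
  field_simp
  exact mul_left_cancel₀ hκ (by linear_combination hb - δ * ha)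

theorem card_eq_two [Nontrivial n] (h2 : (2 : F) ≠ 0) {d : ℕ} (h1 : 2 ≤ d)
    (hlt : 2 * (Nat.card F + 1) * d <
      (Nat.card F ^ Fintype.card n - 1) * (Nat.card F ^ Fintype.card n - Nat.card F))
    (hex : ∃ χ : IrrCharacter (symplecticGroup n F), χ.1 1 = d) :
    Nat.card {χ : IrrCharacter (symplecticGroup n F) // χ.1 1 = d} = 2 := by
  obtain ⟨ψ, hψ⟩ := exists_psi_complex (F := F)
  obtain ⟨δ, hδ⟩ := FiniteField.exists_nonsquare (F := F)
    (fun h => h2 (by simpa [h] using (ringChar.spec F 2).mpr (h ▸ dvd_rfl)))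
  have hδ0 : δ ≠ 0 := fun e => hδ (e ▸ IsSquare.zero)
  obtain ⟨θ, hθ⟩ := exists_twist (n := n) (ψ := ψ) hδ
  obtain ⟨χ, hχ⟩ := hex
  have hT : ∀ x : {χ : IrrCharacter (symplecticGroup n F) // χ.1 1 = d}, HasType ψ x.1.1 1 ∨ HasType ψ x.1.1 δ :=
    fun x => exists_hasType hψ h2 hδ x.1.2 x.2 h1 hlt
  have hE : ∀ (x y : {χ : IrrCharacter (symplecticGroup n F) // χ.1 1 = d}) (κ : F), κ ≠ 0 → HasType ψ x.1.1 κ →
      HasType ψ y.1.1 κ → x = y := fun x y κ hκ hx hy =>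
    Subtype.ext (Subtype.ext (hx.eq hκ hy (x.2.trans y.2.symm)))
  let x₁ : {χ : IrrCharacter (symplecticGroup n F) // χ.1 1 = d} := ⟨χ, hχ⟩
  let x₂ : {χ : IrrCharacter (symplecticGroup n F) // χ.1 1 = d} :=
    ⟨⟨fun g => χ.1 (θ g), χ.2.comp_mulEquiv θ⟩, by simpa using hχ⟩
  have hne : x₁ ≠ x₂ := fun e => by
    rcases hT x₁ with h | h <;> exact hθ _ _ h (congrArg (fun x => x.1.1) e).symm
  refine Nat.card_eq_two_iff.mpr ⟨x₁, x₂, hne, Set.eq_univ_of_forall fun x => ?_⟩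
  rcases hT x₁ with ha | ha <;> rcases hT x₂ with hb | hb
  · exact absurd (hE _ _ _ one_ne_zero ha hb) hne
  · rcases hT x with h | h
    exacts [Or.inl (hE _ _ _ one_ne_zero h ha), Or.inr (hE _ _ _ hδ0 h hb)]
  · rcases hT x with h | h
    exacts [Or.inr (hE _ _ _ one_ne_zero h hb), Or.inl (hE _ _ _ hδ0 h ha)]
  · exact absurd (hE _ _ _ hδ0 ha hb) hne

theorem exists_irr_weil [Nonempty n] (h2 : (2 : F) ≠ 0) :
    ∃ d : ℕ, 2 * d + 1 = Nat.card F ^ Fintype.card n ∧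
      (∃ χ : IrrCharacter (symplecticGroup n F), χ.1 1 = d) ∧
      ∃ χ : IrrCharacter (symplecticGroup n F), χ.1 1 = (d + 1 : ℕ) := by
  classical
  obtain ⟨ψ, hψ⟩ := exists_psi_complex (F := F)
  obtain ⟨ω, h3, h4⟩ := Weil.exists_weil_sp (n := n) hψ h2
  have h5 := (Weil.heis n hψ h2).finrank_E_neg
  have h7 := (Weil.heis n hψ h2).finrank_E_one
  rw [finrank_fintype_fun_eq_card, Fintype.card_fun] at h5
  have h6 : 1 < Fintype.card F ^ Fintype.card n := Nat.one_lt_pow Fintype.card_ne_zero Fintype.one_lt_card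
  have i1 := Weil.Heis.irreducible h3 h4 Weil.sp_trans (ε := -1) fun e => by
    rw [e, finrank_bot] at h5
    omega
  have i2 := Weil.Heis.irreducible h3 h4 Weil.sp_trans (ε := 1) fun e => by
    rw [e, finrank_bot] at h7
    omega
  refine ⟨_, by rw [Nat.card_eq_fintype_card]; exact h5,
    ⟨⟨_, Char.isIrrCharacter_character (Weil.Heis.sub h4 (-1)).toRepresentation⟩, Representation.char_one _⟩,
    ⟨⟨_, Char.isIrrCharacter_character (Weil.Heis.sub h4 1).toRepresentation⟩, ?_⟩⟩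
  exact (Representation.char_one _).trans (congrArg Nat.cast h7)

end CL.Blk.Rk1
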