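/-
Sylow 2-subgroups `P` of `Ω_n(q)`, `q` odd, have `P/P'` elementary abelian (helper22).
-/
import Cfsg.Agent.Blk.SqSyl
import Cfsg.Agent.Cls.OrthNeg

set_option autoImplicit false

open Subgroup CL.Even CL.Grp CL.Wr CL.Cls Module QuadraticMap
open scoped commutatorElement Pointwise

namespace CL.Blk

variable {F : Type*} [Field F]

theorem eq_refl_mul_refl {V : Type*} [AddCommGroup V] [Module F V] {Q : QuadraticForm F V} (h2 : (2 : F) ≠ 0)
    {g : OG Q} {x y : V} (hx : Q x ≠ 0) (hy : Q y ≠ 0) (hxy : polar Q x y = 0) (h1 : g.1 x = -x) (h3 : g.1 y = -y)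
    (h4 : ∀ v, polar Q x v = 0 → polar Q y v = 0 → g.1 v = v) : g = refl Q x * refl Q y := by
  have hyx : polar Q y x = 0 := by rw [polar_comm, hxy]
  refine OG.ext' fun v => ?_
  set a := (2 * Q x)⁻¹ * polar Q x v
  set b := (2 * Q y)⁻¹ * polar Q y v
  have e1 : polar Q x (v - a • x - b • y) = 0 := by
    rw [polar_sub_right, polar_sub_right, polar_smul_right, polar_smul_right, hxy, polar_self']
    simp only [a, smul_eq_mul]
    field_simp
    ring
  have e2 : polar Q y (v - a • x - b • y) = 0 := by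
    rw [polar_sub_right, polar_sub_right, polar_smul_right, polar_smul_right, hyx, polar_self']
    simp only [b, smul_eq_mul]
    field_simp
    ring
  rw [show v = (v - a • x - b • y) + a • x + b • y by abel]
  generalize v - a • x - b • y = w at e1 e2
  simp only [map_add, map_smul, OG.mul_app, h1, h3, h4 w e1 e2, refl_app_of_polar e1, refl_app_of_polar e2,
    refl_app_of_polar hyx, refl_app_of_polar hxy, refl_app_self hx, refl_app_self hy, map_neg]

theorem refl_nrm_one (d : F) : refl (nrmForm 0 d) 1 = nrmConj 0 d * nrmRot 0 d (-1) := OG.ext' fun z => by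
  rw [refl_app, OG.mul_app, nrmConj_app, nrmRot_app, polar_nrmForm, nrmForm_apply']
  ext <;> simp [QuadraticAlgebra.re_one, QuadraticAlgebra.im_one, Unitary.coe_neg]
  ring

theorem gdih_nrm (h2 : (2 : F) ≠ 0) {d : F} (hd : d ≠ 0) : GDih (nrmRot 0 d) (refl (nrmForm 0 d) 1) := by
  have h4 : (0 : F) ^ 2 - 4 * d ≠ 0 := by
    rw [show (0 : F) ^ 2 - 4 * d = -(2 * 2 * d) by ring]
    exact neg_ne_zero.2 (mul_ne_zero (mul_ne_zero h2 h2) hd)
  refine ⟨refl_mul_self _, fun c => ?_, fun g => ?_⟩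
  · rw [refl_nrm_one, ← nrmConj_inverts, mul_inv_rev, mul_assoc, mul_assoc, ← mul_assoc (nrmRot 0 d c),
      ← mul_assoc (nrmRot 0 d (-1)), ← map_inv, ← map_mul, ← map_mul, mul_comm c, mul_inv_cancel_left, mul_assoc]
  · obtain ⟨u, rfl | rfl⟩ := OG_nrmForm_cases h4 g
    · exact ⟨u, Or.inl rfl⟩
    · exact ⟨(-1)⁻¹ * u, Or.inr (by rw [refl_nrm_one, mul_assoc, ← map_mul, mul_inv_cancel_left])⟩

theorem det_nrmRot (d : F) (u : unitary (QAlg F 0 d)) :
    LinearMap.det ((nrmRot 0 d u).1 : QAlg F 0 d →ₗ[F] QAlg F 0 d) = 1 := by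
  rw [← QuadraticAlgebra.norm_eq_one_iff_mem_unitary.2 u.2, ← norm_QAlg_eq, Algebra.norm_apply]
  rfl

theorem nondeg_nrm (h2 : (2 : F) ≠ 0) {d : F} (hd : d ≠ 0) : (polarBilin (nrmForm 0 d)).Nondegenerate :=
  nondeg_iff.2 (nondeg_nrmForm (by
    rw [show (0 : F) ^ 2 - 4 * d = -(2 * 2 * d) by ring]
    exact neg_ne_zero.2 (mul_ne_zero (mul_ne_zero h2 h2) hd)))

theorem det_gram_nrm (d : F) :
    (LinearMap.BilinForm.toMatrix (QuadraticAlgebra.basis _ _) (polarBilin (nrmForm 0 d))).det = 2 ^ 2 * d := by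
  rw [Matrix.det_fin_two]
  simp [LinearMap.BilinForm.toMatrix_apply, polar_nrmForm, QuadraticAlgebra.basis, nrmForm_apply']
  ring

/-- The sum of `ι` planes `x² + y²`. -/
noncomputable abbrev piNrm (F ι : Type*) [Field F] [Fintype ι] : QuadraticForm F (ι → QAlg F 0 1) :=
  QuadraticMap.pi fun _ => nrmForm 0 1

variable {ι : Type*} [Fintype ι]

theorem nondeg_piNrm (h2 : (2 : F) ≠ 0) : (polarBilin (piNrm F ι)).Nondegenerate := by
  classical
  refine nondeg_iff.2 fun x hx => funext fun i => nondeg_iff.1 (nondeg_nrm h2 one_ne_zero) _ fun y => ?_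
  have := hx (Pi.single i y)
  rwa [QuadraticMap.Ring.polar_pi, Finset.sum_eq_single i (fun j _ hj => by simp [hj]) (by simp), Pi.single_eq_same] at this

/-- The wreath product inside the orthogonal group. -/
noncomputable def wrO (F ι : Type*) [Field F] [Fintype ι] : W (OG (nrmForm (0 : F) 1)) ι →* OG (piNrm F ι) :=
  (wrRep (OG (nrmForm (0 : F) 1)).subtype ι).codRestrict _ fun w v => by
    simp only [pi_apply, wrRep_apply]
    rw [← Equiv.sum_comp w.right⁻¹ fun i => nrmForm (0 : F) 1 (v i)]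
    exact Finset.sum_congr rfl fun i _ => OG.map_app _ _

theorem wrO_app (w : W (OG (nrmForm (0 : F) 1)) ι) (v : ι → QAlg F 0 1) (i : ι) :
    (wrO F ι w).1 v i = (w.left i).1 (v (w.right⁻¹ i)) := rfl

theorem wrO_injective : Function.Injective (wrO F ι) := fun _ _ h =>
  wrRep_injective (OG _).subtype_injective (congrArg Subtype.val h)

theorem wrO_refl [DecidableEq ι] (i : ι) (z : QAlg F 0 1) :
    wrO F ι (SemidirectProduct.inl (Pi.mulSingle i (refl _ z))) = refl _ (Pi.single i z) := OG.ext' fun v => by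
  funext k
  rw [wrO_app, refl_app, pi_apply_single, QuadraticMap.Ring.polar_pi, Finset.sum_eq_single i (fun j _ hj => by simp [hj]) (by simp)]
  by_cases hk : k = i
  · subst hk; simp [refl_app]
  · simp [hk]

theorem det_wrO [DecidableEq ι] (i : ι) (g : OG (nrmForm (0 : F) 1)) :
    LinearMap.det ((wrO F ι (SemidirectProduct.inl (Pi.mulSingle i g))).1 : _ →ₗ[F] (ι → QAlg F 0 1)) =
      LinearMap.det (g.1 : _ →ₗ[F] QAlg F 0 1) := by
  have := LinearMap.det_pi fun k => (((Pi.mulSingle i g : ι → OG _) k).1 : _ →ₗ[F] QAlg F 0 1)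
  rw [Finset.prod_eq_single i (fun j _ hj => by rw [Pi.mulSingle_eq_of_ne hj, OG.det_one]) (by simp),
    Pi.mulSingle_eq_same] at this
  exact this

theorem wrO_swap (h2 : (2 : F) ≠ 0) [DecidableEq ι] {a b : ι} (hab : a ≠ b) :
    ∃ x y, piNrm F ι x = 2 ∧ piNrm F ι y = 2 ∧ wrO F ι (SemidirectProduct.inr (Equiv.swap a b)) = refl _ x * refl _ y := by
  have hp : ∀ (z : QAlg F 0 1) (v : ι → QAlg F 0 1), polar (piNrm F ι) (Pi.single a z - Pi.single b z) v =
      polar (nrmForm 0 1) z (v a - v b) := fun z v => by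
    rw [polar_sub_left, QuadraticMap.Ring.polar_pi, QuadraticMap.Ring.polar_pi, Finset.sum_eq_single a (fun j _ hj => by simp [hj]) (by simp),
      Finset.sum_eq_single b (fun j _ hj => by simp [hj]) (by simp), polar_sub_right]
    simp
  have hq : ∀ z : QAlg F 0 1, piNrm F ι (Pi.single a z - Pi.single b z) = 2 * nrmForm 0 1 z := fun z => by
    rw [CL.Cls.map_sub', pi_apply_single, pi_apply_single, QuadraticMap.Ring.polar_pi, Finset.sum_eq_zero fun j _ => by
      by_cases hj : j = a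
      · simp [hj, hab]
      · simp [hj]]
    ring
  have hs : ∀ z : QAlg F 0 1, (wrO F ι (SemidirectProduct.inr (Equiv.swap a b))).1 (Pi.single a z - Pi.single b z) =
      -(Pi.single a z - Pi.single b z) := fun z => by
    funext k
    rw [wrO_app]
    by_cases hk : k = a
    · simp [hk, hab, hab.symm]
    by_cases hk' : k = b
    · simp [hk', hab, hab.symm]
    · simp [Equiv.swap_apply_of_ne_of_ne hk hk', hk, hk']
  have e1 : piNrm F ι (Pi.single a 1 - Pi.single b 1) = 2 := by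
    rw [hq, nrmForm_apply']; simp [QuadraticAlgebra.re_one, QuadraticAlgebra.im_one]
  have e2 : piNrm F ι (Pi.single a ⟨0, 1⟩ - Pi.single b ⟨0, 1⟩) = 2 := by rw [hq, nrmForm_apply']; simp
  refine ⟨_, _, e1, e2, eq_refl_mul_refl h2 (e1 ▸ h2) (e2 ▸ h2) ?_ (hs _) (hs _) fun v h3 h4 => ?_⟩
  · rw [hp, polar_nrmForm]
    simp [hab, hab.symm, QuadraticAlgebra.re_one, QuadraticAlgebra.im_one]
  · rw [hp, polar_nrmForm] at h3 h4
    have h5 : v a = v b := by
      rw [← sub_eq_zero]
      ext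
      · simpa [h2, QuadraticAlgebra.re_one, QuadraticAlgebra.im_one] using h3
      · simpa [h2] using h4
    funext k
    rw [wrO_app]
    by_cases hk : k = a
    · simp [hk, h5]
    by_cases hk' : k = b
    · simp [hk', h5]
    · simp [Equiv.swap_apply_of_ne_of_ne hk hk']

theorem det_gram_piNrm [DecidableEq ι] {V₀ κ : Type*} [AddCommGroup V₀] [Module F V₀] [Fintype κ] [DecidableEq κ]
    (Q₀ : QuadraticForm F V₀) (b₀ : Basis κ F V₀) :
    (LinearMap.BilinForm.toMatrix ((Pi.basis fun _ : ι => QuadraticAlgebra.basis _ _).prod b₀)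
      (polarBilin ((piNrm F ι).prod Q₀))).det =
      (2 ^ Fintype.card ι) ^ 2 * (LinearMap.BilinForm.toMatrix b₀ (polarBilin Q₀)).det := by
  have : LinearMap.BilinForm.toMatrix ((Pi.basis fun _ : ι => QuadraticAlgebra.basis _ _).prod b₀)
      (polarBilin ((piNrm F ι).prod Q₀)) =
      Matrix.fromBlocks (Matrix.diagonal fun _ => 2) 0 0 (LinearMap.BilinForm.toMatrix b₀ (polarBilin Q₀)) := by
    ext (⟨i, k⟩ | i) (⟨j, l⟩ | j)
    · rw [LinearMap.BilinForm.toMatrix_apply, polarBilin_apply_apply, polar_prod', QuadraticMap.Ring.polar_pi]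
      by_cases h : i = j
      · subst h
        rw [Finset.sum_eq_single i (fun j _ hj => by simp [hj]) (by simp)]
        fin_cases k <;> fin_cases l <;> simp [polar_nrmForm, QuadraticAlgebra.basis, nrmForm_apply']
      · rw [Finset.sum_eq_zero fun x _ => by
          by_cases hx : x = i
          · simp [hx, h]
          · simp [hx]]
        simp [h]
    · simp [LinearMap.BilinForm.toMatrix_apply]
    · simp [LinearMap.BilinForm.toMatrix_apply]
    · simp [LinearMap.BilinForm.toMatrix_apply]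
  rw [this, Matrix.det_fromBlocks_zero₂₁, Matrix.det_diagonal, Finset.prod_const, Finset.card_univ, ← pow_mul]
  simp

variable [Fintype F]

/-- The main lemma. -/
theorem sqE_omega_model (h2 : (2 : F) ≠ 0) {V₀ C₀ : Type*} [AddCommGroup V₀] [Module F V₀] [FiniteDimensional F V₀]
    [CommGroup C₀] {Q₀ : QuadraticForm F V₀} (hQ₀ : (polarBilin Q₀).Nondegenerate) {α₀ : C₀ →* OG Q₀} {v₀ : V₀}
    (hD₀ : GDih α₀ (refl Q₀ v₀)) (hα : ∀ c, LinearMap.det ((α₀ c).1 : V₀ →ₗ[F] V₀) = 1) [Nonempty ι]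
    (h5 : Q₀ v₀ = 1 ∨ (Subsingleton V₀ ∧ Nontrivial ι))
    (hv : padicValNat 2 (Nat.card (OG ((piNrm F ι).prod Q₀))) ≤
      padicValNat 2 (Nat.card (W (OG (nrmForm (0 : F) 1)) ι × OG Q₀))) :
    SqE (commutator (OG ((piNrm F ι).prod Q₀))) := by
  classical
  have hQ := nondeg_prod (nondeg_piNrm (F := F) (ι := ι) h2) hQ₀
  have := finite_QAlg (0 : F) 1
  have : Finite V₀ := Module.finite_of_finite F
  have : Finite (OG (nrmForm (0 : F) 1)) := Finite.of_injective (fun g v => g.1 v) fun g h e => OG.ext' (congrFun e)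
  have : Finite (OG Q₀) := Finite.of_injective (fun g v => g.1 v) fun g h e => OG.ext' (congrFun e)
  have : Finite (OG ((piNrm F ι).prod Q₀)) :=
    Finite.of_injective (fun g v => g.1 v) fun g h e => OG.ext' (congrFun e)
  let Φ := (OG.prodMap (piNrm F ι) Q₀).comp ((wrO F ι).prodMap (MonoidHom.id _))
  refine SqE.of_comap Φ ((OG.prodMap_injective _ _).comp (wrO_injective.prodMap Function.injective_id)) hv ?_
  rw [← Abelianization.ker_of, MonoidHom.comap_ker]
  have hdet : ∀ g y, LinearMap.det ((OG.prodMap (piNrm F ι) Q₀ (g, y)).1 : _ →ₗ[F] ((ι → QAlg F 0 1) × V₀)) =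
      LinearMap.det (g.1 : _ →ₗ[F] (ι → QAlg F 0 1)) * LinearMap.det (y.1 : _ →ₗ[F] V₀) := fun g y =>
    LinearMap.det_prodMap _ _
  obtain ⟨i₀⟩ := ‹Nonempty ι›
  have e1 : nrmForm (0 : F) 1 1 = 1 := by
    rw [nrmForm_apply']; simp [QuadraticAlgebra.re_one, QuadraticAlgebra.im_one]
  have e3 : ((piNrm F ι).prod Q₀) (Pi.single i₀ 1, 0) = 1 := by rw [prod_apply, pi_apply_single, e1]; simp
  have e4 : wrO F ι (SemidirectProduct.inl 1) = 1 := by rw [map_one, map_one]
  refine sqE_ker_W _ (fun σ => ?_) (sqE_ker_dih (gdih_nrm h2 one_ne_zero) hD₀ _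
    (Abelianization.lift (dickson hQ)) i₀ (fun i g => ?_) (fun c => ?_) (fun c => ?_) ?_ ?_)
  · induction σ using Equiv.Perm.swap_induction_on with
    | one => exact map_one _
    | swap_mul σ a b hab ih =>
      rw [map_mul, ← mul_one (1 : OG Q₀), ← Prod.mk_mul_mk, map_mul, ih, mul_one, MonoidHom.comp_apply,
        ← MonoidHom.mem_ker, Abelianization.ker_of]
      obtain ⟨x, y, hx, hy, e⟩ := wrO_swap h2 hab
      change OG.prodMap _ _ (wrO F ι (SemidirectProduct.inr (Equiv.swap a b)), 1) ∈ _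
      rw [e, ← mul_one (1 : OG Q₀), ← Prod.mk_mul_mk, map_mul, prodMap_refl_left, prodMap_refl_left]
      refine refl_mul_refl_mem_commutator hQ ?_ ?_ ?_ <;> simp [hx, hy, h2]
  · let π := Abelianization.of.comp (Φ.comp (MonoidHom.inl _ _))
    change π (SemidirectProduct.inl (Pi.mulSingle i g)) = π (SemidirectProduct.inl (Pi.mulSingle i₀ g))
    have h3 := congrArg π (conj_inl (SemidirectProduct.inr (Equiv.swap i i₀)) (Pi.mulSingle i₀ g))
    rw [map_mul, map_mul, map_inv, mul_inv_cancel_comm] at h3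
    rw [h3]
    congr 2
    funext k
    simp [Pi.mulSingle_apply, Equiv.swap_apply_eq_iff]
  · change dickson hQ (OG.prodMap _ _ (wrO F ι (SemidirectProduct.inl (Pi.mulSingle i₀ (nrmRot 0 1 c))), 1)) = 1
    rw [dickson_eq_one_iff_det hQ h2, hdet, det_wrO, det_nrmRot, OG.det_one, mul_one]
  · change dickson hQ (OG.prodMap _ _ (wrO F ι (SemidirectProduct.inl 1), α₀ c)) = 1
    rw [dickson_eq_one_iff_det hQ h2, hdet, e4, hα, OG.det_one, mul_one]
  · change dickson hQ (OG.prodMap _ _ (wrO F ι (SemidirectProduct.inl (Pi.mulSingle i₀ (refl _ 1))), 1)) ≠ 1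
    rw [wrO_refl, prodMap_refl_left, dickson_refl hQ (by rw [e3]; exact one_ne_zero)]
    decide
  · refine h5.imp (fun h5 => ?_) fun h5 => ⟨⟨fun g h => OG.ext' fun v => h5.1.elim _ _⟩, h5.2⟩
    change Abelianization.of (OG.prodMap _ _ (wrO F ι (SemidirectProduct.inl 1), refl Q₀ v₀)) =
      Abelianization.of (OG.prodMap _ _ (wrO F ι (SemidirectProduct.inl (Pi.mulSingle i₀ (refl _ 1))), 1))
    have e2 : ((piNrm F ι).prod Q₀) (0, v₀) = 1 := by simp [h5]
    have e5 := isConj_iff_eq.1 (MonoidHom.map_isConj Abelianization.of (isConj_refl_of_isSquare_iff hQ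
      (by rw [e2]; exact one_ne_zero) (by rw [e3]; exact one_ne_zero) (by rw [e2, e3])))
    exact (congrArg (fun g => Abelianization.of (OG.prodMap _ _ (g, refl Q₀ v₀))) e4).trans
      ((congrArg Abelianization.of (prodMap_refl_right v₀)).trans (e5.trans ((congrArg Abelianization.of
        (prodMap_refl_left _)).symm.trans
          (congrArg (fun g => Abelianization.of (OG.prodMap _ Q₀ (g, 1))) (wrO_refl i₀ 1).symm))))

theorem card_OG_nrm (h2 : (2 : F) ≠ 0) {d : F} (hd : d ≠ 0) :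
    (IsSquare (-d) ∧ Nat.card (OG (nrmForm 0 d)) = 2 * (Fintype.card F - 1)) ∨
      (¬ IsSquare (-d) ∧ Nat.card (OG (nrmForm 0 d)) = 2 * (Fintype.card F + 1)) := by
  by_cases h : IsSquare (-d)
  · refine Or.inl ⟨h, ?_⟩
    obtain ⟨e, he⟩ := exists_equiv_of_isSquare_det h2 (nondeg_nrm h2 hd) (nondeg_qfPlus (m := 0 + 1))
      (by simp [QuadraticAlgebra.finrank_eq_two]) (QuadraticAlgebra.basis _ _) (Pi.basisFun F _) (by
        rw [det_gram_nrm, det_gram_qfPlus, mul_assoc, isSquare_sq_mul_iff h2]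
        simpa using h)
    rw [Nat.card_congr (OG.congr e he).toEquiv, card_OG_qfPlus]
    simp
  · refine Or.inr ⟨h, ?_⟩
    rw [card_OG_nrmForm, Nat.card_eq_fintype_card]
    intro x y hxy
    have hy : y = 0 := by
      by_contra hy
      exact h ⟨x / y, by field_simp; linear_combination -hxy⟩
    subst hy
    exact ⟨by simpa using hxy, rfl⟩

theorem val_OG_nrm_one (h2 : (2 : F) ≠ 0) :
    padicValNat 2 (Fintype.card F ^ 2 - 1) ≤ padicValNat 2 (Nat.card (OG (nrmForm (0 : F) 1))) := by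
  have h1 := Fintype.one_lt_card (α := F)
  have h3 := isSquare_neg_one_pow_iff h2 1
  have h4 := pow_card_mod_four h2 1
  simp only [pow_one] at h3 h4
  have key : ∀ n : ℕ, n % 4 = 2 → padicValNat 2 n ≤ 1 := fun n hn => by
    by_contra h
    have := (padicValNat_dvd_iff_le (p := 2) (n := 2) (show n ≠ 0 by omega)).2 (by omega)
    omega
  rw [show Fintype.card F ^ 2 - 1 = (Fintype.card F + 1) * (Fintype.card F - 1) from Nat.sq_sub_sq _ 1,
    padicValNat.mul (by omega) (by omega)]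
  rcases card_OG_nrm h2 (one_ne_zero (α := F)) with ⟨h, e⟩ | ⟨h, e⟩ <;>
    rw [e, padicValNat.mul (by omega) (by omega), padicValNat.self one_lt_two]
  · have := key (Fintype.card F + 1) (by have := h3.1 h; omega)
    omega
  · have := key (Fintype.card F - 1) (by have := mt h3.2 h; omega)
    omega

theorem val_OG_nrm (h2 : (2 : F) ≠ 0) {d : F} (hd : d ≠ 0) : 2 ≤ padicValNat 2 (Nat.card (OG (nrmForm 0 d))) := by
  have h1 := Fintype.one_lt_card (α := F)
  have h3 := odd_card_of_two_ne_zero h2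
  rcases card_OG_nrm h2 hd with ⟨-, e⟩ | ⟨-, e⟩ <;> rw [e] <;>
    exact (padicValNat_dvd_iff_le (by omega)).1 (by omega)

theorem val_prod_le (h2 : (2 : F) ≠ 0) (m : ℕ) :
    padicValNat 2 (∏ i ∈ Finset.range m, (Fintype.card F ^ (2 * (i + 1)) - 1)) ≤
      padicValNat 2 (Nat.card (W (OG (nrmForm (0 : F) 1)) (Fin m))) := by
  have h1 := Fintype.one_lt_card (α := F)
  have := finite_QAlg (0 : F) 1
  have : Finite (OG (nrmForm (0 : F) 1)) := Finite.of_injective (fun g v => g.1 v) fun g h e => OG.ext' (congrFun e)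
  have hp : ∀ i, Fintype.card F ^ (2 * (i + 1)) - 1 ≠ 0 := fun i => pow_sub_one_ne_zero (i := 2 * i + 1) h1
  rw [val_card_W, val_prod m _ hp,
    Finset.sum_congr rfl fun i _ => val_even_pow h1 (Nat.odd_iff.2 (odd_card_of_two_ne_zero h2)) (Nat.succ_ne_zero i),
    Finset.sum_add_distrib, Finset.sum_const, Finset.card_range, smul_eq_mul]
  exact Nat.add_le_add_right (Nat.mul_le_mul_left m (val_OG_nrm_one h2)) _

omit [Fintype F] in
theorem sqE_congr {V V' : Type*} [AddCommGroup V] [Module F V] [AddCommGroup V'] [Module F V'] [Finite V]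
    {Q : QuadraticForm F V} {Q' : QuadraticForm F V'} (e : OG Q ≃* OG Q') (h : SqE (commutator (OG Q))) :
    SqE (⊤ : Subgroup (commutator (OG Q'))) :=
  haveI : Finite (OG Q) := Finite.of_injective (fun g v => g.1 v) fun _ _ e => OG.ext' (congrFun e)
  h.top.congr (commutatorCongr e)

theorem sqE_omega_odd (h2 : (2 : F) ≠ 0) (m : ℕ) (hm : 1 ≤ m) :
    SqE (⊤ : Subgroup (Cfsg.Omega F (Cfsg.quadFormOdd m F))) := by
  have : Nonempty (Fin m) := ⟨⟨0, hm⟩⟩
  have := finite_QAlg (0 : F) 1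
  have : Finite (OG (nrmForm (0 : F) 1)) := Finite.of_injective (fun g v => g.1 v) fun g h e => OG.ext' (congrFun e)
  have hQ₀ : (polarBilin (QuadraticMap.sq : QuadraticForm F F)).Nondegenerate := nondeg_iff.2 fun x hx => by
    have := hx 1
    rw [polar, sq_apply, sq_apply, sq_apply] at this
    exact (mul_eq_zero.1 (show 2 * x = 0 by linear_combination this)).resolve_left h2
  obtain ⟨c, e, hc, he⟩ := exists_equiv_qfOdd (nondeg_prod (nondeg_piNrm (F := F) (ι := Fin m) h2) hQ₀) (m := m)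
    (by simp [Module.finrank_pi_fintype, QuadraticAlgebra.finrank_eq_two, mul_comm])
  have hc2 := card_OG_sq h2
  have hr : refl (QuadraticMap.sq : QuadraticForm F F) 1 ≠ 1 := refl_ne_one hQ₀ (by simp)
  refine (sqE_congr (OG.congrSim e c hc he) (sqE_omega_model h2 hQ₀ (α₀ := (1 : Unit →* _)) (v₀ := 1)
    ⟨refl_mul_self _, fun _ => by simp, fun g => ⟨(), ?_⟩⟩ (fun _ => OG.det_one) (Or.inl (by simp)) ?_)).congr
      (omegaEquiv (qfOdd m F)).symm
  · obtain ⟨y, -, hy⟩ := (Nat.card_eq_two_iff' 1).1 hc2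
    by_cases hg : g = 1
    · exact Or.inl hg
    · exact Or.inr (by rw [hy g hg, ← hy _ hr]; simp)
  · have h1 := Fintype.one_lt_card (α := F)
    have h3 := val_prod_le h2 m
    have hp : ∀ i, Fintype.card F ^ (2 * (i + 1)) - 1 ≠ 0 := fun i => pow_sub_one_ne_zero (i := 2 * i + 1) h1
    rw [Nat.card_congr (OG.congrSim e c hc he).toEquiv, card_OG_qfOdd h2, Nat.card_prod, hc2,
      padicValNat.mul (by positivity) (Finset.prod_ne_zero_iff.2 fun i _ => hp i),
      padicValNat.mul (by positivity) (by positivity), padicValNat.mul Nat.card_pos.ne' (by positivity),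
      val_pow_odd (Nat.odd_iff.2 (odd_card_of_two_ne_zero h2))]
    omega

theorem sqE_omega_even (h2 : (2 : F) ≠ 0) {κ : Type} [Fintype κ] [DecidableEq κ] {Q : QuadraticForm F (κ → F)}
    (hQ : (polarBilin Q).Nondegenerate) {m : ℕ} (hm : 1 ≤ m) (hκ : Fintype.card κ = 2 * (m + 1)) {N : ℕ}
    (hc : Nat.card (OG Q) = 2 * Fintype.card F ^ ((m + 1) * m) * N *
      ∏ i ∈ Finset.range m, (Fintype.card F ^ (2 * (i + 1)) - 1))
    (hN : 2 * N ∣ Fintype.card F ^ (2 * (m + 1)) - 1)
    (hN' : ¬ IsSquare (LinearMap.BilinForm.toMatrix (Pi.basisFun F κ) (polarBilin Q)).det → ¬ 4 ∣ N) :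
    SqE (⊤ : Subgroup (Cfsg.Omega F Q)) := by
  have := finite_QAlg (0 : F) 1
  have : Finite (OG (nrmForm (0 : F) 1)) := Finite.of_injective (fun g v => g.1 v) fun g h e => OG.ext' (congrFun e)
  have h1 := Fintype.one_lt_card (α := F)
  have hp : ∀ i, Fintype.card F ^ (2 * (i + 1)) - 1 ≠ 0 := fun i => pow_sub_one_ne_zero (i := 2 * i + 1) h1
  have hN0 : N ≠ 0 := by rintro rfl; exact hp m (by simpa using hN)
  have hp' : ∏ i ∈ Finset.range m, (Fintype.card F ^ (2 * (i + 1)) - 1) ≠ 0 := Finset.prod_ne_zero_iff.2 fun i _ => hp i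
  have hv : padicValNat 2 (Nat.card (OG Q)) = 1 + padicValNat 2 N +
      padicValNat 2 (∏ i ∈ Finset.range m, (Fintype.card F ^ (2 * (i + 1)) - 1)) := by
    rw [hc, padicValNat.mul (by positivity) hp', padicValNat.mul (by positivity) hN0,
      padicValNat.mul (by positivity) (by positivity), val_pow_odd (Nat.odd_iff.2 (odd_card_of_two_ne_zero h2)),
      padicValNat.self one_lt_two]
  by_cases hs : IsSquare (LinearMap.BilinForm.toMatrix (Pi.basisFun F κ) (polarBilin Q)).det
  · have : Nontrivial (Fin (m + 1)) := Fin.nontrivial_iff_two_le.2 (by omega)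
    have hQ₀ : (polarBilin (0 : QuadraticForm F (Fin 0 → F))).Nondegenerate :=
      nondeg_iff.2 fun x _ => Subsingleton.elim _ _
    have hu : Unique (OG (0 : QuadraticForm F (Fin 0 → F))) := ⟨⟨1⟩, fun g => OG.ext' fun v => Subsingleton.elim _ _⟩
    obtain ⟨e, he⟩ := exists_equiv_of_isSquare_det h2
      (nondeg_prod (nondeg_piNrm (F := F) (ι := Fin (m + 1)) h2) hQ₀) hQ
      (by simp [Module.finrank_pi_fintype, QuadraticAlgebra.finrank_eq_two, mul_comm, hκ])
      ((Pi.basis fun _ => QuadraticAlgebra.basis _ _).prod (Pi.basisFun F _)) (Pi.basisFun F κ) (by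
        rw [det_gram_piNrm, Matrix.det_isEmpty, mul_one, isSquare_sq_mul_iff (pow_ne_zero _ h2)]
        exact hs)
    refine (sqE_congr (OG.congr e he) (sqE_omega_model h2 hQ₀ (α₀ := (1 : Unit →* _)) (v₀ := 0)
      ⟨refl_mul_self _, fun _ => by simp, fun g => ⟨(), Or.inl (Subsingleton.elim _ _)⟩⟩ (fun _ => OG.det_one)
      (Or.inr ⟨inferInstance, inferInstance⟩) ?_)).congr (omegaEquiv Q).symm
    have h3 := val_prod_le h2 (m + 1)
    have h4 := (padicValNat_dvd_iff_le (hp m)).1 ((pow_padicValNat_dvd (p := 2) (n := 2 * N)).trans hN)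
    rw [Finset.prod_range_succ, padicValNat.mul hp' (hp m)] at h3
    rw [padicValNat.mul two_ne_zero hN0, padicValNat.self one_lt_two] at h4
    rw [Nat.card_congr (OG.congr e he).toEquiv, hv, Nat.card_prod, Nat.card_unique (α := OG _), mul_one]
    omega
  · have : Nonempty (Fin m) := ⟨⟨0, hm⟩⟩
    set d := (LinearMap.BilinForm.toMatrix (Pi.basisFun F κ) (polarBilin Q)).det
    have hd : d ≠ 0 := fun e => hs (e ▸ IsSquare.zero)
    have := finite_QAlg (0 : F) d
    have : Finite (OG (nrmForm (0 : F) d)) := Finite.of_injective (fun g v => g.1 v) fun g h e => OG.ext' (congrFun e)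
    obtain ⟨e, he⟩ := exists_equiv_of_isSquare_det h2
      (nondeg_prod (nondeg_piNrm (F := F) (ι := Fin m) h2) (nondeg_nrm h2 hd)) hQ
      (by simp [Module.finrank_pi_fintype, QuadraticAlgebra.finrank_eq_two, hκ]; ring)
      ((Pi.basis fun _ => QuadraticAlgebra.basis _ _).prod (QuadraticAlgebra.basis _ _)) (Pi.basisFun F κ) (by
        rw [det_gram_piNrm, det_gram_nrm, mul_assoc, isSquare_sq_mul_iff (pow_ne_zero _ h2), mul_assoc,
          isSquare_sq_mul_iff h2]
        exact IsSquare.mul_self d)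
    refine (sqE_congr (OG.congr e he) (sqE_omega_model h2 (nondeg_nrm h2 hd) (gdih_nrm h2 hd) (det_nrmRot d)
      (Or.inl (by rw [nrmForm_apply']; simp [QuadraticAlgebra.re_one, QuadraticAlgebra.im_one])) ?_)).congr
        (omegaEquiv Q).symm
    have h3 := val_prod_le h2 m
    have h4 := val_OG_nrm h2 hd
    have h5 := mt (padicValNat_dvd_iff_le (p := 2) (n := 2) hN0).2 (hN' hs)
    rw [Nat.card_congr (OG.congr e he).toEquiv, hv, Nat.card_prod, padicValNat.mul Nat.card_pos.ne' Nat.card_pos.ne']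
    omega

theorem two_mul_dvd_of_odd {x : ℕ} (hx : x % 2 = 1) : 2 * (x - 1) ∣ x ^ 2 - 1 ∧ 2 * (x + 1) ∣ x ^ 2 - 1 := by
  rw [show x ^ 2 - 1 = (x + 1) * (x - 1) from Nat.sq_sub_sq _ 1]
  exact ⟨Nat.mul_dvd_mul_right (by omega) _, by rw [mul_comm 2]; exact Nat.mul_dvd_mul_left _ (by omega)⟩

theorem sqE_omega_plus (h2 : (2 : F) ≠ 0) (m : ℕ) (hm : 1 ≤ m) :
    SqE (⊤ : Subgroup (Cfsg.Omega F (Cfsg.quadFormPlus (m + 1) F))) := by
  have h3 := pow_card_mod_four h2 (m + 1)
  refine sqE_omega_even h2 (Q := qfPlus (m + 1) F) nondeg_qfPlus hm (by simp; ring) (card_OG_qfPlus m) ?_ fun h => ?_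
  · rw [mul_comm 2 (m + 1), pow_mul]
    exact (two_mul_dvd_of_odd (by omega)).1
  · rw [det_gram_qfPlus, isSquare_neg_one_pow_iff h2] at h
    omega

theorem sqE_omega_minus (h2 : (2 : F) ≠ 0) (m : ℕ) (hm : 1 ≤ m) (a b : F)
    (hab : ∀ z₁ z₂ : F, z₁ ^ 2 + a * z₁ * z₂ + b * z₂ ^ 2 = 0 → z₁ = 0 ∧ z₂ = 0) :
    SqE (⊤ : Subgroup (Cfsg.Omega F (Cfsg.quadFormMinus m F a b))) := by
  have h3 := pow_card_mod_four h2 (m + 1)
  refine sqE_omega_even h2 (Q := qfMinus m F a b) (nondeg_qfMinus a b hab) hm (by simp; ring)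
    (card_OG_qfMinus m a b hab) ?_ fun h => ?_
  · rw [mul_comm 2 (m + 1), pow_mul]
    exact (two_mul_dvd_of_odd (by omega)).2
  · rw [det_gram_qfMinus] at h
    have h4 := (isSquare_neg_one_pow_iff h2 (m + 1)).1 (by
      by_contra h5
      exact h (isSquare_mul_of_not_isSquare h5 (not_isSquare_disc_of_anisotropic h2 hab)))
    omega

end CL.Blk
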